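import Cfsg.Agent.Lib.Core.Basic
import Cfsg.Agent.Lib.Glaub.Burnside

/-! Regular colourings of coset spaces of finite solvable groups. -/

set_option autoImplicit false

namespace Cfsg.Agent.Lib.Base

open Subgroup Cfsg.Agent.Lib.Core

universe u

theorem eq_top_of_index_le_four {Γ : Type*} [Group Γ] [Finite Γ] [Group.IsPerfect Γ] {S : Subgroup Γ}
    (h : S.index ≤ 4) : S = ⊤ := by
  have hs : Group.IsSolvable (Equiv.Perm (Γ ⧸ S)) := by
    refine Cfsg.Agent.Lib.Glaub.isSolvable_of_two_primes Nat.prime_two Nat.prime_three _ fun r hr hd => ?_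
    rw [Nat.card_perm, hr.dvd_factorial] at hd
    have : r ≤ 4 := hd.trans h
    interval_cases r <;> simp_all (config := {decide := true})
  haveI := Group.IsPerfect.range (MulAction.toPermHom Γ (Γ ⧸ S))
  have : Subsingleton (MulAction.toPermHom Γ (Γ ⧸ S)).range := by
    by_contra hn
    haveI := not_subsingleton_iff_nontrivial.mp hn
    exact Group.IsPerfect.not_isSolvable (MulAction.toPermHom Γ (Γ ⧸ S)).range inferInstance
  rw [eq_top_iff]
  intro g _
  have h1 : MulAction.toPermHom Γ (Γ ⧸ S) g = 1 :=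
    congrArg Subtype.val (Subsingleton.elim (⟨_, g, rfl⟩ : (MulAction.toPermHom Γ (Γ ⧸ S)).range) 1)
  have h2 : ((g * 1 : Γ) : Γ ⧸ S) = ((1 : Γ) : Γ ⧸ S) := DFunLike.congr_fun h1 ((1 : Γ) : Γ ⧸ S)
  simpa using QuotientGroup.eq.mp h2.symm

/-- A perfect group commuting with a solvable group produces five inequivalent points. -/
theorem exists_five {G Γ X : Type*} [Group G] [Group.IsSolvable G] [Group Γ] [Finite Γ]
    [Group.IsPerfect Γ] (α : G →* Equiv.Perm X) (β : Γ →* Equiv.Perm X)
    (hc : ∀ g γ, Commute (β γ) (α g)) (t : X) (ht : ∃ γ, β γ t ≠ t) :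
    ∃ γ : Fin 5 → Γ, ∀ i j g, α g (β (γ i) t) = β (γ j) t → i = j := by
  let S : Subgroup (Γ × G) := (MulAction.stabilizer (Equiv.Perm X) t).comap (β.noncommCoprod α fun γ g => hc g γ)
  have hS : ∀ x : Γ × G, x ∈ S ↔ β x.1 (α x.2 t) = t := fun x => Iff.rfl
  have h5 : 5 ≤ (S.map (MonoidHom.fst Γ G)).index := by
    by_contra h
    have h1 := eq_top_of_index_le_four (S := S.map (MonoidHom.fst Γ G)) (by omega)
    obtain ⟨γ, hγ⟩ := ht
    obtain ⟨n, hn⟩ := (inferInstance : Group.IsSolvable G).solvable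
    have hf : Function.Surjective ((MonoidHom.fst Γ G).comp S.subtype) := fun x => by
      obtain ⟨y, hy, rfl⟩ := h1.ge (mem_top x); exact ⟨⟨y, hy⟩, rfl⟩
    obtain ⟨y, hy, rfl⟩ := derivedSeries_le_map_derivedSeries hf n
      ((Group.IsPerfect.derivedSeries_eq_top Γ n).ge (mem_top γ))
    have h2 : y.1.2 = 1 := hn.le (map_derivedSeries_le_derivedSeries
      ((MonoidHom.snd Γ G).comp S.subtype) n (mem_map_of_mem _ hy))
    have h3 := (hS _).mp y.2
    rw [h2, map_one] at h3
    exact hγ h3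
  obtain ⟨f⟩ : Nonempty (Fin 5 ↪ Γ ⧸ S.map (MonoidHom.fst Γ G)) := by
    haveI := Fintype.ofFinite (Γ ⧸ S.map (MonoidHom.fst Γ G))
    refine Function.Embedding.nonempty_of_card_le ?_
    rwa [Fintype.card_fin, ← Nat.card_eq_fintype_card]
  refine ⟨fun i => (f i).out, fun i j g h => f.injective ?_⟩
  rw [← (f i).out_eq', ← (f j).out_eq', eq_comm, QuotientGroup.eq]
  refine ⟨(_, g), (hS _).mpr ?_, rfl⟩
  change β (((f j).out)⁻¹ * (f i).out) (α g t) = t
  rw [map_mul, map_inv, Equiv.Perm.mul_apply, Equiv.Perm.inv_eq_iff_eq, ← h, ← Equiv.Perm.mul_apply,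
    (hc g _).eq, Equiv.Perm.mul_apply]

/-- An operator of prime order `p` commuting with a `p'`-group produces `p` inequivalent points. -/
theorem eq_of_prime_order {G X : Type*} [Group G] [Finite G] {p : ℕ} (hp : p.Prime)
    (hG : (Nat.card G).Coprime p) (α : G →* Equiv.Perm X) (T : Equiv.Perm X) (hT : T ^ p = 1)
    (hc : ∀ g, Commute T (α g)) (t : X) (ht : T t ≠ t) (i j : Fin p) (g : G)
    (h : α g ((T ^ (i : ℕ)) t) = (T ^ (j : ℕ)) t) : i = j := by
  wlog hij : i ≤ j generalizing i j g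
  · exact (this j i g⁻¹ (by rw [← h, map_inv]; simp) (le_of_not_ge hij)).symm
  obtain ⟨k, hk⟩ := Nat.exists_eq_add_of_le (show (i : ℕ) ≤ j from hij)
  by_contra hne
  have hk0 : k ≠ 0 := fun h0 => hne (Fin.ext (by omega))
  have h1 : α g t = (T ^ k) t := by
    rw [hk, pow_add, Equiv.Perm.mul_apply, ← Equiv.Perm.mul_apply, ← ((hc g).pow_left _).eq,
      Equiv.Perm.mul_apply] at h
    exact (T ^ (i : ℕ)).injective h
  have h2 : ∀ n, α (g ^ n) t = (T ^ (k * n)) t := fun n => by
    induction n with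
    | zero => simp
    | succ n ih =>
      rw [pow_succ, map_mul, Equiv.Perm.mul_apply, h1, ← Equiv.Perm.mul_apply, ← ((hc _).pow_left _).eq,
        Equiv.Perm.mul_apply, ih, ← Equiv.Perm.mul_apply, ← pow_add]
      congr 2; ring
  have h3 := h2 (Nat.card G)
  rw [pow_card_eq_one', map_one] at h3
  have hcop : (k * Nat.card G).Coprime p := Nat.Coprime.mul_left
    (Nat.coprime_of_lt_prime hk0 (by have := j.2; omega) hp).symm hG
  have h4 : T ^ (k * Nat.card G) ∈ MulAction.stabilizer (Equiv.Perm X) t := h3.symm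
  obtain ⟨m, -, hm⟩ := Nat.exists_mul_mod_eq_one_of_coprime hcop hp.one_lt
  have h5 := pow_mem h4 m
  rw [← pow_mul, ← Nat.div_add_mod (k * Nat.card G * m) p, hm, pow_add, pow_mul, hT, one_pow, one_mul,
    pow_one] at h5
  exact ht h5

/-- triangular generating families -/
def Tri {Ω : Type*} [Group Ω] (n : ℕ) (e : ℕ → Ω) : Prop :=
  (∀ i < n, e i ∉ closure (e '' Set.Iio i)) ∧ closure (e '' Set.Iio n) = ⊤

theorem exists_tri (Ω : Type*) [Group Ω] [Finite Ω] : ∃ n, ∃ e : ℕ → Ω, Tri n e := by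
  suffices h : ∀ H : Subgroup Ω, (∃ n, ∃ e : ℕ → Ω, (∀ i < n, e i ∉ closure (e '' Set.Iio i)) ∧
      closure (e '' Set.Iio n) = H) → ∃ n, ∃ e : ℕ → Ω, Tri n e from
    h ⊥ ⟨0, fun _ => 1, by simp, by simp⟩
  refine subgroup_induction_gt fun H IH ⟨n, e, h1, h2⟩ => ?_
  by_cases hH : H = ⊤
  · exact ⟨n, e, h1, h2.trans hH⟩
  obtain ⟨x, hx⟩ : ∃ x, x ∉ H := by by_contra! h; exact hH (eq_top_iff.mpr fun x _ => h x)
  have e1 : ∀ i ≤ n, Function.update e n x '' Set.Iio i = e '' Set.Iio i := fun i hi =>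
    Set.image_congr fun j hj => Function.update_of_ne (by have : j < i := hj; omega) _ _
  refine IH _ (lt_of_le_of_ne ?_ fun h => hx ?_) ⟨n + 1, Function.update e n x, fun i hi => ?_, rfl⟩
  · rw [← h2, ← e1 n le_rfl]; exact closure_mono (Set.image_mono (Set.Iio_subset_Iio n.le_succ))
  · rw [h]; exact subset_closure ⟨n, n.lt_succ_self, by simp⟩
  · rw [e1 i (by omega)]
    rcases Nat.lt_succ_iff_lt_or_eq.mp hi with hi | rfl
    · rw [Function.update_of_ne hi.ne]; exact h1 i hi
    · simpa [h2] using hx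

namespace Tri
variable {Ω : Type*} [Group Ω] {n : ℕ} {e : ℕ → Ω}

theorem mem {i j : ℕ} (h : i < j) : e i ∈ closure (e '' Set.Iio j) := subset_closure ⟨i, h, rfl⟩

theorem inj (h : Tri n e) {i j : ℕ} (hi : i < n) (hj : j < n) (hij : e i = e j) : i = j := by
  rcases lt_trichotomy i j with h1 | h1 | h1
  · exact absurd (hij ▸ mem h1) (h.1 j hj)
  · exact h1
  · exact absurd (hij ▸ mem h1) (h.1 i hi)

theorem ne_one (h : Tri n e) {i : ℕ} (hi : i < n) : e i ≠ 1 := fun h1 => h.1 i hi (h1 ▸ one_mem _)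

theorem mul_eq (h : Tri n e) {i j k l : ℕ} (hij : i < j) (hkl : k < l) (hj : j < n) (hl : l < n)
    (he : e i * e j = e k * e l) : i = k ∧ j = l := by
  have : j = l := by
    rcases lt_trichotomy j l with h1 | h1 | h1
    · refine absurd ?_ (h.1 l hl)
      rw [← mul_mem_cancel_left (mem hkl), ← he]; exact mul_mem (mem (hij.trans h1)) (mem h1)
    · exact h1
    · refine absurd ?_ (h.1 j hj)
      rw [← mul_mem_cancel_left (mem hij), he]; exact mul_mem (mem (hkl.trans h1)) (mem h1)
  subst this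
  exact ⟨h.inj (hij.trans hj) (hkl.trans hl) (mul_right_cancel he), rfl⟩

theorem mul_ne (h : Tri n e) {i j k : ℕ} (hij : i < j) (hj : j < n) (hk : k < n) : e i * e j ≠ e k := by
  intro he
  rcases lt_trichotomy j k with h1 | rfl | h1
  · exact h.1 k hk (he ▸ mul_mem (mem (hij.trans h1)) (mem h1))
  · exact h.ne_one (hij.trans hj) (mul_eq_right.mp he)
  · refine h.1 j hj ?_
    rw [← mul_mem_cancel_left (mem hij), he]; exact mem h1

theorem mul_ne_one (h : Tri n e) {i j : ℕ} (hij : i < j) (hj : j < n) : e i * e j ≠ 1 := fun he =>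
  h.1 j hj (by rw [← mul_mem_cancel_left (mem hij), he]; exact one_mem _)

theorem ext (h : Tri n e) {φ : Ω →* Ω} (he : ∀ i < n, φ (e i) = e i) (x : Ω) : φ x = x :=
  (show closure (e '' Set.Iio n) ≤ φ.eqLocus (MonoidHom.id _) from
    (closure_le _).mpr (by rintro _ ⟨i, hi, rfl⟩; exact he i hi)) (h.2.ge (mem_top x))

theorem rigid (h : Tri n e) {φ : Ω →* Ω} (hφ : Function.Injective φ) (h0 : 0 < n → φ (e 0) = e 0)
    (h1 : ∀ i < n, ∃ j < n, φ (e i) = e j)
    (h2 : ∀ i, i + 1 < n → ∃ j, j + 1 < n ∧ φ (e i * e (i + 1)) = e j * e (j + 1)) (x : Ω) : φ x = x := by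
  refine h.ext (fun i => ?_) x
  induction i using Nat.strong_induction_on with
  | _ i IH =>
    intro hi
    rcases i with _ | i
    · exact h0 hi
    obtain ⟨j, hj, e1⟩ := h1 _ hi
    obtain ⟨k, hk, e2⟩ := h2 i hi
    have hij : i < j := by
      by_contra hle
      have := h.inj hi hj (hφ (e1.trans (IH j (by omega) hj).symm))
      omega
    rw [map_mul, IH i i.lt_succ_self (by omega), e1] at e2
    obtain ⟨rfl, rfl⟩ := h.mul_eq hij k.lt_succ_self hj hk e2
    exact e1
end Tri

/-- Four colours suffice to destroy all automorphisms of a finite group. -/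
theorem exists_col4 (Ω : Type*) [Group Ω] [Finite Ω] : ∃ c : Ω → Fin 4,
    ∀ φ : Ω →* Ω, Function.Injective φ → (∀ x, x ≠ 1 → c (φ x) = c x) → ∀ x, φ x = x := by
  classical
  obtain ⟨n, e, h⟩ := exists_tri Ω
  refine ⟨fun x => if x = e 0 then 0 else if ∃ i < n, x = e i then 1 else
    if ∃ i, i + 1 < n ∧ x = e i * e (i + 1) then 2 else 3, fun φ hφ hc => h.rigid hφ (fun h0 => ?_)
      (fun i hi => ?_) fun i hi => ?_⟩
  · have := hc _ (h.ne_one h0)
    simp only [if_true] at this
    split_ifs at this with h1 <;> simp_all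
  · have := hc _ (h.ne_one hi)
    have h2 : ∃ j < n, e i = e j := ⟨i, hi, rfl⟩
    by_contra hn
    have h3 : φ (e i) ≠ e 0 := fun h3 => hn ⟨0, by omega, h3⟩
    simp only [h3, hn, h2, if_true, if_false] at this
    split_ifs at this <;> simp_all
  · have := hc _ (h.mul_ne_one i.lt_succ_self hi)
    have h1 : ¬ ∃ j < n, e i * e (i + 1) = e j := fun ⟨j, hj, e1⟩ => h.mul_ne i.lt_succ_self hi hj e1
    have h2 : e i * e (i + 1) ≠ e 0 := fun h2 => h1 ⟨0, by omega, h2⟩
    have h3 : ∃ j, j + 1 < n ∧ e i * e (i + 1) = e j * e (j + 1) := ⟨i, hi, rfl⟩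
    simp only [h1, h2, h3, if_true, if_false] at this
    by_contra hn
    simp only [hn, if_false] at this
    split_ifs at this <;> simp_all

/-- `c` is a colouring of the cosets of `H` whose stabilizer is the core of `H`. -/
def Reg {G ι : Type*} [Group G] (H : Subgroup G) (c : G → ι) : Prop :=
  (∀ x, ∀ h ∈ H, c (x * h) = c x) ∧ ∀ g, (∀ x, c (g * x) = c x) → ∀ x, x⁻¹ * g * x ∈ H

/-- The additive version of a multiplicative action. -/
@[reducible] def addAction {H N : Type*} [Group H] [CommGroup N] (φ : H →* MulAut N) :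
    DistribMulAction H (Additive N) where
  smul h n := Additive.ofMul (φ h n.toMul)
  one_smul n := by change Additive.ofMul (φ 1 n.toMul) = n; simp
  mul_smul a b n := by change Additive.ofMul (φ (a * b) n.toMul) = Additive.ofMul (φ a (φ b n.toMul)); simp
  smul_zero a := by change Additive.ofMul (φ a 1) = 0; simp
  smul_add a x y := by
    change Additive.ofMul (φ a (x.toMul * y.toMul)) = Additive.ofMul (φ a x.toMul * φ a y.toMul); simp

theorem exists_reg {ι : Type*} [Nonempty ι] (π : ℕ)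
    (hmul : ∀ (G : Type u) [Group G] [Finite G] [Group.IsSolvable G], (Nat.card G).Coprime π →
      ∀ c : G → ι, ∃ σ : ι → Equiv.Perm ι, ∀ i j g, (∀ x, σ i (c (g * x)) = σ j (c x)) → i = j)
    (hprim : ∀ (H N : Type u) [Group H] [Finite H] [Group.IsSolvable H] [AddCommGroup N] [Finite N]
      [DistribMulAction H N], (Nat.card H).Coprime π → (Nat.card N).Coprime π →
      (∀ U : AddSubgroup N, (∀ h : H, ∀ u ∈ U, h • u ∈ U) → U = ⊥ ∨ U = ⊤) →
      ∃ c : N → ι, ∀ (n₀ : N) (h : H), (∀ n, c (n₀ + h • n) = c n) → n₀ = 0 ∧ ∀ n : N, h • n = n)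
    (G : Type u) [Group G] [Finite G] [Group.IsSolvable G] (hG : (Nat.card G).Coprime π)
    (H : Subgroup G) : ∃ c : G → ι, Reg H c := by
  induction hn : H.index using Nat.strong_induction_on generalizing G with
  | _ n IH =>
  subst hn
  by_cases htop : H = ⊤
  · exact ⟨fun _ => Classical.arbitrary ι, fun _ _ _ => rfl, fun _ _ _ => htop ▸ mem_top _⟩
  by_cases hco : IsCoatom H
  · clear IH
    -- reduce to the core-free case
    suffices h : ∀ (G : Type u) [Group G] [Finite G] [Group.IsSolvable G], (Nat.card G).Coprime π →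
        ∀ H : Subgroup G, IsCoatom H → H.normalCore = ⊥ → ∃ c : G → ι, Reg H c by
      have hk : (QuotientGroup.mk' H.normalCore).ker ≤ H := by
        rw [QuotientGroup.ker_mk']; exact H.normalCore_le
      have hs := QuotientGroup.mk'_surjective H.normalCore
      obtain ⟨c, h1, h2⟩ := h (G ⧸ H.normalCore) (hG.coprime_dvd_left (card_quotient_dvd_card _))
        (H.map (QuotientGroup.mk' _)) ⟨fun h => htop (by rw [← comap_map_eq_self hk, h, comap_top]),
          fun K hK => by
            rw [← Subgroup.map_comap_eq_self_of_surjective hs K, hco.2 (K.comap _) (lt_of_le_of_ne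
              (Subgroup.map_le_iff_le_comap.mp hK.le) fun h => hK.ne
                ((congrArg (Subgroup.map (QuotientGroup.mk' H.normalCore)) h).trans
                  (Subgroup.map_comap_eq_self_of_surjective hs K))), Subgroup.map_top_of_surjective _ hs]⟩ (by
          rw [eq_bot_iff, ← Subgroup.map_comap_eq_self_of_surjective hs (normalCore _), Subgroup.map_le_iff_le_comap,
            MonoidHom.comap_bot, QuotientGroup.ker_mk', normal_le_normalCore]
          exact (comap_mono (normalCore_le _)).trans (comap_map_eq_self hk).le)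
      refine ⟨fun x => c x, fun x h hh => h1 x _ (mem_map_of_mem _ hh), fun g hg x => ?_⟩
      rw [← comap_map_eq_self hk]
      exact h2 g (fun y => by obtain ⟨y, rfl⟩ := hs y; exact hg y) x
    intro G _ _ _ hG H hco hcore
    haveI : Nontrivial G := by
      by_contra h; rw [not_nontrivial_iff_subsingleton] at h; exact hco.1 (Subsingleton.elim _ _)
    obtain ⟨N, hN, hN1, hNc⟩ : ∃ N : Subgroup G, N.Normal ∧ N ≠ ⊥ ∧ IsMulCommutative N := by
      obtain ⟨k, hk⟩ := (inferInstance : Group.IsSolvable G).solvable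
      induction k with
      | zero => exact absurd hk top_ne_bot
      | succ k ih =>
        by_cases h : derivedSeries G k = ⊥
        · exact ih h
        · exact ⟨_, derivedSeries_normal G k, h, le_centralizer_iff_isMulCommutative.mp
            (commutator_eq_bot_iff_le_centralizer.mp hk)⟩
    have nbot : ∀ K : Subgroup G, K ≤ H → N ≤ normalizer (K : Set G) → H ≤ normalizer (K : Set G) →
        N ⊔ H = ⊤ → K = ⊥ := fun K h1 h2 h3 h4 => by
      haveI := normal_of_le_normalizer_top (h4.ge.trans (sup_le h2 h3))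
      rw [eq_bot_iff, ← hcore, normal_le_normalCore]; exact h1
    have hsup : N ⊔ H = ⊤ := hco.2 _ (lt_of_le_of_ne le_sup_right fun h => hN1 (by
      rw [eq_bot_iff, ← hcore, normal_le_normalCore]; exact le_sup_left.trans h.ge))
    have hNN : ∀ K ≤ N, N ≤ normalizer (K : Set G) := fun K hK =>
      le_normalizer_of_le_centralizer (N.le_centralizer.trans (centralizer_le_centralizer hK))
    have hinf : N ⊓ H = ⊥ := nbot _ inf_le_right (hNN _ inf_le_left)
      (le_normalizer_inf (le_normalizer_of_normal) le_normalizer) hsup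
    letI : CommGroup N := IsMulCommutative.instCommGroup
    letI := addAction (MulAut.conjNormal.comp H.subtype : H →* MulAut N)
    have hsm : ∀ (h : H) (n : Additive N), ((h • n).toMul : G) = h * n.toMul * h⁻¹ := fun _ _ => rfl
    obtain ⟨c, hc⟩ := hprim H (Additive N) (hG.coprime_dvd_left H.card_subgroup_dvd_card)
      (hG.coprime_dvd_left N.card_subgroup_dvd_card) (fun U hU => by
        by_cases hU0 : U = ⊥
        · exact Or.inl hU0
        refine Or.inr (eq_top_iff.mpr fun n _ => ?_)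
        have hle : U.toSubgroup'.map N.subtype ≤ N := map_subtype_le _
        have hnorm : H ≤ normalizer ((U.toSubgroup'.map N.subtype : Subgroup G) : Set G) := fun h hh =>
          mem_normalizer_of_conj_mem (by
            rintro _ ⟨x, hx, rfl⟩; exact ⟨_, hU ⟨h, hh⟩ (Additive.ofMul x) hx, rfl⟩)
        have h1 : U.toSubgroup'.map N.subtype ⊔ H = ⊤ := hco.2 _ (lt_of_le_of_ne le_sup_right fun h =>
          hU0 (eq_bot_iff.mpr fun x hx => by
            have : (x.toMul : G) = 1 := hinf.le ⟨x.toMul.2, h.ge (mem_sup_left ⟨_, hx, rfl⟩)⟩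
            exact Subtype.ext this))
        obtain ⟨_, ⟨y, hy, rfl⟩, z, hz, e⟩ := (mem_sup_of_le_normalizer_left hnorm).mp
          (h1.ge (mem_top (n.toMul : G)))
        have : z = 1 := hinf.le ⟨by rw [eq_inv_mul_of_mul_eq e]; exact N.mul_mem (N.inv_mem y.2) n.toMul.2, hz⟩
        rw [this, mul_one] at e
        have : y = n.toMul := Subtype.ext e
        subst this
        exact hy)
    have hd : ∀ x : G, ∃ n : N, (n : G)⁻¹ * x ∈ H := fun x => by
      obtain ⟨y, hy, z, hz, rfl⟩ := mem_sup_of_normal_left.mp (hsup.ge (mem_top x))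
      exact ⟨⟨y, hy⟩, by simpa⟩
    choose ν hν using hd
    have hu : ∀ x (n : N), (n : G)⁻¹ * x ∈ H → ν x = n := fun x n hn => Subtype.ext (by
      rw [← inv_mul_eq_one]
      refine hinf.le (mem_inf.mpr ⟨mul_mem (inv_mem (ν x).2) n.2, ?_⟩)
      convert mul_mem (hν x) (inv_mem hn) using 1; group)
    refine ⟨fun x => c (Additive.ofMul (ν x)), fun x h hh => ?_, fun g hg x => ?_⟩
    · simp only [hu (x * h) (ν x) (by rw [← mul_assoc]; exact mul_mem (hν x) hh)]
    obtain ⟨h1, h2⟩ := hc (Additive.ofMul (ν g)) ⟨_, hν g⟩ fun n => by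
      have := hg (n.toMul : N)
      beta_reduce at this
      rw [hu (n.toMul : N) n.toMul (by simpa using one_mem H), hu (g * _) (ν g * ((⟨_, hν g⟩ : H) • n).toMul) (by
        rw [coe_mul, hsm]; convert hν g using 1; simp only [coe_inv]; group)] at this
      exact this
    have h3 : ν g = 1 := h1
    have h4 : g ∈ H := by simpa [h3] using hν g
    have h5 : g = 1 := (nbot (H ⊓ centralizer N) inf_le_left
      (le_normalizer_of_le_centralizer (le_centralizer_iff.mp inf_le_right))
      (le_normalizer_inf le_normalizer le_normalizer_of_normal) hsup).le ⟨h4, fun y hy => by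
        have := congrArg (fun n : Additive N => (n.toMul : G)) (h2 (Additive.ofMul ⟨y, hy⟩))
        simp only [hsm, h3] at this
        rw [eq_comm, ← mul_inv_eq_iff_eq_mul]
        simpa using this⟩
    simp [h5]
  obtain ⟨M, hHM, hM⟩ : ∃ M, H < M ∧ M ≠ ⊤ := by
    by_contra! h; exact hco ⟨htop, h⟩
  have hidx := relIndex_mul_index hHM.le
  have i1 : 1 < M.index := one_lt_index_of_ne_top hM
  have i2 : 1 < H.relIndex M := one_lt_index_of_ne_top (by rw [ne_eq, subgroupOf_eq_top]; exact hHM.not_ge)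
  obtain ⟨c₁, h11, h12⟩ := IH M.index (by nlinarith) G hG M rfl
  have hGM := hG.coprime_dvd_left M.card_subgroup_dvd_card
  obtain ⟨c₂, h21, h22⟩ := IH (H.relIndex M) (by nlinarith) M hGM (H.subgroupOf M) rfl
  obtain ⟨σ, hσ⟩ := hmul M hGM c₂
  let ρ : G → G := fun x => (x : G ⧸ M).out
  have hρ : ∀ x, (ρ x)⁻¹ * x ∈ M := fun x => QuotientGroup.eq.mp (QuotientGroup.out_eq' _)
  have hρ' : ∀ x, ∀ m ∈ M, ρ (x * m) = ρ x := fun x m hm => by
    simp only [ρ, QuotientGroup.mk_mul_of_mem x hm]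
  refine ⟨fun x => σ (c₁ x) (c₂ ⟨_, hρ x⟩), fun x h hh => ?_, fun g hg => ?_⟩
  · have := h21 ⟨_, hρ x⟩ ⟨h, hHM.le hh⟩ hh
    simp only [h11 x h (hHM.le hh), ← this]
    congr 2; ext; simp [hρ' x h (hHM.le hh), mul_assoc]
  have key : ∀ x (m : M), σ (c₁ (g * x)) (c₂ (⟨_, hρ (g * x)⟩ * m)) = σ (c₁ x) (c₂ (⟨_, hρ x⟩ * m)) := by
    intro x m
    have := hg (x * m)
    simp only [← mul_assoc, h11 _ _ m.2] at this
    convert this using 3 <;> ext <;> simp only [coe_mul, hρ' _ _ m.2, ← mul_assoc]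
  have k1 : ∀ x, c₁ (g * x) = c₁ x := fun x => hσ _ _ (⟨_, hρ (g * x)⟩ * ⟨_, hρ x⟩⁻¹) fun m => by
    simpa [mul_assoc] using key x (⟨_, hρ x⟩⁻¹ * m)
  intro x
  have k2 := h12 g k1 x
  have k3 : ρ (g * x) = ρ x := by rw [← hρ' x _ k2]; congr 1; group
  have := h22 (⟨_, hρ (g * x)⟩ * ⟨_, hρ x⟩⁻¹) (fun m => by
    have := key x (⟨_, hρ x⟩⁻¹ * m)
    rw [k1, mul_inv_cancel_left, ← mul_assoc] at this
    exact (σ _).injective this) ⟨_, hρ x⟩
  rw [mem_subgroupOf] at this
  convert this using 1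
  simp only [coe_mul, coe_inv, k3]; group

theorem exists_reg_five (G : Type u) [Group G] [Finite G] [Group.IsSolvable G] (H : Subgroup G) :
    ∃ c : G → Fin 5, Reg H c := by
  refine exists_reg 1 (fun G _ _ _ _ c => ?_) (fun H N _ _ _ _ _ _ _ _ _ => ?_) G (by simp) H
  · haveI : Group.IsPerfect (alternatingGroup (Fin 5)) := by
      rw [Group.isPerfect_def]
      rcases (inferInstance : (commutator (alternatingGroup (Fin 5))).Normal).eq_bot_or_eq_top with h | h
      · have : ∀ x y : alternatingGroup (Fin 5), x * y = y * x := fun x y =>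
          commutatorElement_eq_one_iff_mul_comm.mp (h.le (commutator_mem_commutator (mem_top _) (mem_top _)))
        exact absurd (congrArg Subtype.val (this
          ⟨Equiv.swap 0 1 * Equiv.swap 1 2, Equiv.Perm.mem_alternatingGroup.mpr (by decide)⟩
          ⟨Equiv.swap 1 2 * Equiv.swap 2 3, Equiv.Perm.mem_alternatingGroup.mpr (by decide)⟩)) (by decide)
      · exact h
    letI := (arrowAction : MulAction G (G → Fin 5))
    obtain ⟨γ, hγ⟩ := exists_five (MulAction.toPermHom G (G → Fin 5))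
      (MulAction.toPermHom (alternatingGroup (Fin 5)) (G → Fin 5)) (fun g γ => by ext; rfl) c (by
        obtain ⟨γ, hγ⟩ := (by decide : ∀ i : Fin 5, ∃ γ : alternatingGroup (Fin 5), γ.1 i ≠ i) (c 1)
        exact ⟨γ, fun h => hγ (congrFun h 1)⟩)
    exact ⟨fun i => (γ i).1, fun i j g h => hγ i j g⁻¹ (funext fun x => by
      change (γ i).1 (c (g⁻¹⁻¹ * x)) = (γ j).1 (c x)
      rw [inv_inv]; exact h x)⟩
  · classical
    obtain ⟨c, hc⟩ := exists_col4 (Multiplicative N)
    refine ⟨fun n => if n = 0 then 0 else (c (Multiplicative.ofAdd n)).succ, fun n₀ h hh => ?_⟩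
    have h0 : n₀ = 0 := by
      have := hh 0
      by_contra h0
      simp [h0] at this
    subst h0
    refine ⟨rfl, hc (AddMonoidHom.toMultiplicative (DistribSMul.toAddMonoidHom N h))
      (MulAction.injective (β := N) h) fun x hx => ?_⟩
    have := hh x.toAdd
    have h1 : x.toAdd ≠ 0 := hx
    have h2 : h • x.toAdd ≠ 0 := by rwa [ne_eq, smul_eq_zero_iff_eq]
    simpa [h1, h2] using this

end Cfsg.Agent.Lib.Base
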