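import Cfsg.Agent.Lib.Base.Two4

/-! Good Lagrangians for small symplectic modules of solvable `5'`-groups. -/

set_option autoImplicit false
set_option linter.style.haveILetI false

namespace Cfsg.Agent.Lib.Base

open Subgroup Cfsg.Agent.Lib.Core

section
variable {H A : Type*} [Group H] [AddCommGroup A] [DistribMulAction H A]

/-- the stabilizer of a subgroup -/
def stabL (H : Type*) [Group H] [Finite H] [DistribMulAction H A] (L : AddSubgroup A) : Subgroup H :=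
  subgroupOfIdempotent {h | ∀ x ∈ L, h • x ∈ L} ⟨1, by simp⟩ (by
    refine Set.Subset.antisymm ?_ fun h hh => ⟨h, hh, 1, by simp, mul_one h⟩
    rintro _ ⟨a, ha, b, hb, rfl⟩ x hx
    rw [mul_smul]; exact ha _ (hb x hx))

theorem mem_stabL [Finite H] {L : AddSubgroup A} {h : H} : h ∈ stabL H L ↔ ∀ x ∈ L, h • x ∈ L := Iff.rfl

/-- the action of the stabilizer on a section -/
@[reducible] def secAction [Finite H] (S L : AddSubgroup A) (hS : ∀ h : H, ∀ v ∈ S, h • v ∈ S) :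
    DistribMulAction (stabL H L) (S ⧸ L.addSubgroupOf S) :=
  letI := resAction (stabL H L) S fun g _ => hS g
  quotAction _ fun g w hw => g.2 w hw

theorem comm_of_irr {S : AddSubgroup A} {a : H} (hS : ∀ h : H, ∀ v ∈ S, h • v ∈ S)
    (top : ∀ F ≤ S, (∀ v ∈ F, a • v ∈ F) → ∀ w ∈ F, w ≠ 0 → S ≤ F) {c c' : H}
    (hc : ∀ v ∈ S, c • a • v = a • c • v) (hc' : ∀ v ∈ S, c' • a • v = a • c' • v) :
    ∀ v ∈ S, c • c' • v = c' • c • v := by
  intro w hw
  by_cases w0 : w = 0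
  · simp [w0]
  let R := AddSubgroup.closure (Set.range fun n : ℕ => DistribSMul.toAddMonoidHom A (a ^ n))
  have r1 : ∀ φ ∈ R, (DistribSMul.toAddMonoidHom A a).comp φ ∈ R := fun φ hφ => by
    induction hφ using AddSubgroup.closure_induction with
    | mem _ h => obtain ⟨n, rfl⟩ := h; exact AddSubgroup.subset_closure ⟨n + 1, by ext; simp [pow_succ', mul_smul]⟩
    | zero => simp
    | add _ _ _ _ h1 h2 => rw [AddMonoidHom.comp_add]; exact add_mem h1 h2
    | neg _ _ h => rw [AddMonoidHom.comp_neg]; exact neg_mem h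
  have r2 : ∀ c : H, (∀ v ∈ S, c • a • v = a • c • v) → ∀ φ ∈ R, ∀ v ∈ S, φ v ∈ S ∧ c • φ v = φ (c • v) :=
    fun c hc φ hφ v hv => by
    induction hφ using AddSubgroup.closure_induction with
    | mem _ h =>
      obtain ⟨n, rfl⟩ := h
      refine ⟨hS _ v hv, ?_⟩
      change c • a ^ n • v = a ^ n • c • v
      induction n with
      | zero => simp
      | succ n ih => rw [pow_succ', mul_smul, mul_smul, hc _ (hS _ v hv), ih]
    | zero => simp
    | add _ _ _ _ h1 h2 => exact ⟨add_mem h1.1 h2.1, by simp [h1.2, h2.2]⟩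
    | neg _ _ h => exact ⟨neg_mem h.1, by simp [h.2]⟩
  obtain ⟨φ, hφ, e⟩ := top (R.map (AddMonoidHom.eval w)) (by
      rintro _ ⟨φ, hφ, rfl⟩; exact (r2 a (fun _ _ => rfl) φ hφ w hw).1) (by
      rintro _ ⟨φ, hφ, rfl⟩; exact ⟨_, r1 φ hφ, rfl⟩) w
    ⟨_, AddSubgroup.subset_closure ⟨0, rfl⟩, by simp⟩ w0 (hS c w hw)
  have e1 := top (S ⊓ φ.eqLocus (DistribSMul.toAddMonoidHom A c)) inf_le_left (fun v hv => ⟨hS a v hv.1, by
    change φ (a • v) = c • a • v
    rw [← (r2 a (fun _ _ => rfl) φ hφ v hv.1).2, hc v hv.1, show φ v = c • v from hv.2]⟩) w ⟨hw, e⟩ w0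
  rw [← show φ (c' • w) = c • c' • w from (e1 (hS c' w hw)).2, ← (r2 c' hc' φ hφ w hw).2,
    show φ w = c • w from e]
end

namespace Symp
variable {H A : Type*} [Group H] [AddCommGroup A] [DistribMulAction H A] [Module (ZMod 2) A] (P : Symp H A)
variable [Finite A] [Finite H]

theorem good_of_rig {S L : AddSubgroup A} (hS : ∀ h : H, ∀ v ∈ S, h • v ∈ S) (lag : S ⊓ perp P.f L = L)
    {r : ℕ} (hr : r.Prime) (r2 : r ≠ 2) (r3 : r ≠ 3) {Z : Subgroup H} [Z.Normal] (hz : MinZ r Z S)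
    (h : Nat.card (S ⧸ L.addSubgroupOf S) = Nat.card L → ∃ Γ : Finset (S ⧸ L.addSubgroupOf S),
      @Rig (stabL H L) _ _ _ (secAction S L hS) Γ ∧ 0 ∉ Γ ∧ 8 * Γ.card < 3 * Nat.card L) :
    ∃ Γ, P.Good S L Γ := by
  classical
  have hL : L ≤ S := lag.ge.trans inf_le_left
  letI := secAction S L hS
  obtain ⟨Γ, h1, h2, h3⟩ := h (by
    have e1 := card_perp two_eq P.alt (P.nd hS) hL
    rw [lag, AddSubgroup.card_eq_card_quotient_mul_card_addSubgroup (L.addSubgroupOf S),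
      Nat.card_congr (AddSubgroup.addSubgroupOfEquivOfLe hL).toEquiv] at e1
    exact Nat.eq_of_mul_eq_mul_right Nat.card_pos e1)
  refine ⟨Γ.image fun q => (q.out : A), lag, fun x hx => ?_, lt_of_le_of_lt
    (Nat.mul_le_mul_left _ Finset.card_image_le) h3, fun h hh hΓ x hx => ?_, fun h a ha b hb =>
      P.a2_triv hS hr r2 r3 hz (hL ha) (hL hb)⟩
  · obtain ⟨q, hq, rfl⟩ := Finset.mem_image.mp hx
    exact ⟨q.out.2, fun h => h2 (by
      rwa [← (QuotientAddGroup.eq_zero_iff q.out).mpr h, QuotientAddGroup.out_eq'])⟩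
  · have k : ∀ x y : S, (⟨h, hh⟩ : stabL H L) • (x : S ⧸ L.addSubgroupOf S) = y ↔ h • x.1 - y.1 ∈ L :=
      fun x y => QuotientAddGroup.eq_iff_sub_mem
    refine (k ⟨x, hx⟩ ⟨x, hx⟩).mp (h1 _ (fun q hq => ?_) _)
    obtain ⟨_, hy, e⟩ := hΓ _ (Finset.mem_image_of_mem _ hq)
    obtain ⟨q', hq', rfl⟩ := Finset.mem_image.mp hy
    have := (k _ _).mpr e
    rw [QuotientAddGroup.out_eq', QuotientAddGroup.out_eq'] at this
    rwa [this]

theorem good_seven {Z : Subgroup H} [hZ : Z.Normal] {S : AddSubgroup A} (hS : ∀ h : H, ∀ v ∈ S, h • v ∈ S)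
    (h0 : S ≠ ⊥) (hz : MinZ 7 Z S) (hc : Nat.card S ≤ 256) : ∃ L Γ, P.Good S L Γ := by
  classical
  have p7 : Nat.Prime 7 := by norm_num
  have md : ∀ F ≤ S, (∀ z ∈ Z, ∀ v ∈ F, z • v ∈ F) → Nat.card F % 7 = 1 := fun F hF h =>
    card_modEq_one p7 h (fun z hz' v hv => hz.1 z hz' v (hF hv)) fun v hv => hz.2.2 v (hF hv)
  obtain ⟨w, hw, w0, a, ha, hg⟩ := exists_gen (A := Z) h0 (fun z _ => hS z) fun a ha b hb => hz.2.1 a ha b hb
  have c1 : ∀ g ∈ Z, ∀ n : ℤ, ∀ u ∈ S, g • u = a ^ n • u → g • a • u = a ^ n • a • u := fun g hg n u hu h => by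
    rw [hz.2.1 g hg a ha u hu, h, ← mul_smul, ← mul_smul, (Commute.self_zpow a n).eq]
  obtain ⟨u, hu, u0, u1, u2⟩ : ∃ u ∈ S, u ≠ 0 ∧ (∀ g ∈ Z, ∃ n : ℤ, g • u = a ^ n • u) ∧
      (a • a • a • u = u + a • u ∨ a • a • a • u = u + a • a • u) := by
    by_cases h : a • a • a • w + (w + a • w) = 0
    · exact ⟨w, hw, w0, hg, Or.inl (by rw [← add_left_inj (w + a • w), h, two_eq])⟩
    have k : ∀ u ∈ S, (∀ g ∈ Z, ∃ n : ℤ, g • u = a ^ n • u) → ∀ g ∈ Z, ∃ n : ℤ,
        (g • u = a ^ n • u ∧ g • a • u = a ^ n • a • u) ∧ g • a • a • u = a ^ n • a • a • u ∧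
          g • a • a • a • u = a ^ n • a • a • a • u := fun u hu h g hg => (h g hg).imp fun n hn =>
      have e1 := c1 g hg n u hu hn
      have e2 := c1 g hg n _ (hS a u hu) e1
      ⟨⟨hn, e1⟩, e2, c1 g hg n _ (hS a _ (hS a u hu)) e2⟩
    have hu : a • a • a • w + (w + a • w) ∈ S := add_mem (hS a _ (hS a _ (hS a w hw))) (add_mem hw (hS a w hw))
    have u1 : ∀ g ∈ Z, ∃ n : ℤ, g • (a • a • a • w + (w + a • w)) = a ^ n • (a • a • a • w + (w + a • w)) :=
      fun g hg' => (k w hw hg g hg').imp fun n hn => by simp only [smul_add, hn.1.1, hn.1.2, hn.2.2]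
    refine ⟨_, hu, h, u1, Or.inr ?_⟩
    have e7 : a • a • a • a • a • a • a • w = w := by simpa [pow_succ, mul_smul] using hz.1 a ha w hw
    generalize hu' : a • a • a • w + (w + a • w) = u at hu u1
    rw [← add_left_inj (u + a • a • u), two_eq]
    refine hz.2.2 _ (add_mem (hS a _ (hS a _ (hS a u hu))) (add_mem hu (hS a _ (hS a u hu)))) fun g hg' => ?_
    obtain ⟨n, hn⟩ := k u hu u1 g hg'
    rw [smul_add, smul_add, hn.1.1, hn.2.1, hn.2.2, ← smul_add, ← smul_add]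
    refine zpow_mem (show a ∈ MulAction.stabilizer H _ from ?_) n
    rw [MulAction.mem_stabilizer_iff, ← hu', ← sub_eq_zero]
    simp only [smul_add, e7]
    generalize a • w = w1; generalize a • w1 = w2; generalize a • w2 = w3; generalize a • w3 = w4
    generalize a • w4 = w5; generalize a • w5 = w6
    rw [show ∀ x : A, x = 0 ↔ x = (0 : ZMod 2) • w by simp]
    match_scalars <;> decide
  let W := AddSubgroup.closure (({u, a • u, a • a • u} : Finset A) : Set A)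
  have w1 : u ∈ W := AddSubgroup.subset_closure (by simp)
  have w2 : a • u ∈ W := AddSubgroup.subset_closure (by simp)
  have w3 : a • a • u ∈ W := AddSubgroup.subset_closure (by simp)
  have st : ∀ g : H, g • u ∈ W → g • a • u ∈ W → g • a • a • u ∈ W → g ∈ stabL H W := fun g h1 h2 h3 =>
    (show W ≤ W.comap (DistribSMul.toAddMonoidHom A g) from (AddSubgroup.closure_le _).mpr fun x hx => by
      simp only [Finset.coe_insert, Finset.coe_singleton, Set.mem_insert_iff, Set.mem_singleton_iff] at hx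
      rcases hx with rfl | rfl | rfl <;> assumption)
  have aW : a ∈ stabL H W := st a w2 w3 (by
    rcases u2 with h | h <;> rw [h]; exacts [add_mem w1 w2, add_mem w1 w3])
  have ZW : Z ≤ stabL H W := fun g hg => by
    obtain ⟨n, hn⟩ := u1 g hg
    have e1 := c1 g hg n u hu hn
    exact st g (hn ▸ zpow_mem aW n _ w1) (e1 ▸ zpow_mem aW n _ w2)
      (c1 g hg n _ (hS a u hu) e1 ▸ zpow_mem aW n _ w3)
  have WS : W ≤ S := (AddSubgroup.closure_le _).mpr fun x hx => by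
    simp only [Finset.coe_insert, Finset.coe_singleton, Set.mem_insert_iff, Set.mem_singleton_iff] at hx
    rcases hx with rfl | rfl | rfl
    exacts [hu, hS a u hu, hS a _ (hS a u hu)]
  have cW : Nat.card W = 8 := by
    have e1 := (card_closure_le two_eq {u, a • u, a • a • u}).trans
      (Nat.pow_le_pow_right two_pos Finset.card_le_three)
    have e2 := md W WS ZW
    have e3 := (AddSubgroup.one_lt_card_iff_ne_bot W).mpr fun e => u0 (e.le w1)
    change Nat.card W ≤ 8 at e1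
    omega
  have iso : W ≤ perp P.f W := by
    have e1 := md (W ⊓ perp P.f W) (inf_le_left.trans WS) fun z hz' v hv =>
      ⟨ZW hz' v hv.1, P.perp_inv (fun z hz' => ZW hz') z hz' v hv.2⟩
    by_contra hn
    have e2 : Nat.card (W ⊓ perp P.f W : AddSubgroup A) < Nat.card W := by
      by_contra! h; exact hn (inf_eq_left.mp (AddSubgroup.eq_of_le_of_card_ge inf_le_left h))
    obtain ⟨L, -, -, e3⟩ := exists_lagr two_eq P.alt (B := W) fun x hx h =>
      (AddSubgroup.card_eq_one.mp (by omega : Nat.card (W ⊓ perp P.f W : AddSubgroup A) = 1)).le ⟨hx, h⟩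
    rw [cW] at e3
    have : Nat.card L ≤ 2 := by nlinarith
    interval_cases Nat.card L <;> omega
  have lag : S ⊓ perp P.f W = W := by
    have e1 := md (S ⊓ perp P.f W) inf_le_left fun z hz' v hv =>
      ⟨hS z v hv.1, P.perp_inv (fun z hz' => ZW hz') z hz' v hv.2⟩
    have e2 := card_perp two_eq P.alt (P.nd hS) WS
    have e3 := AddSubgroup.card_dvd_of_le (le_inf WS iso)
    rw [cW] at e2 e3
    exact (AddSubgroup.eq_of_le_of_card_ge (le_inf WS iso) (by omega)).symm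
  refine ⟨W, P.good_of_rig hS lag p7 (by norm_num) (by norm_num) hz fun hq => ?_⟩
  letI := secAction S W hS
  rw [cW] at hq ⊢
  obtain ⟨b, d, hb, hd, hbd⟩ : ∃ b d : S ⧸ W.addSubgroupOf S, b ≠ 0 ∧ d ≠ 0 ∧ b ≠ d := by
    obtain ⟨a, -, b, -, c, -, hab, hac, hbc⟩ := (Set.two_lt_ncard (s := (Set.univ : Set (S ⧸ W.addSubgroupOf S)))
      (Set.toFinite _)).mp (by rw [Set.ncard_univ, hq]; norm_num)
    by_cases a0 : a = 0
    · exact ⟨b, c, a0 ▸ hab.symm, a0 ▸ hac.symm, hbc⟩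
    by_cases b0 : b = 0
    · exact ⟨a, c, a0, b0 ▸ hbc.symm, hac⟩
    · exact ⟨a, b, a0, b0, hab⟩
  refine ⟨{b, d}, fun h hh => rig8 (Z := Z.subgroupOf (stabL H W)) hq (fun x => ?_) (fun z hz' v => ?_)
    (fun z hz' y hy v => ?_) (fun v hv => ?_) hb hd hbd h (by simpa using hh b (by simp))
    (by simpa using hh d (by simp)), by simp [hb.symm, hd.symm], by simp [Finset.card_pair hbd]⟩
  · obtain ⟨x, rfl⟩ := QuotientAddGroup.mk_surjective x
    rw [← QuotientAddGroup.mk_add, two_eq, QuotientAddGroup.mk_zero]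
  · obtain ⟨x, rfl⟩ := QuotientAddGroup.mk_surjective v
    exact congrArg QuotientAddGroup.mk (Subtype.ext (hz.1 _ hz' _ x.2))
  · obtain ⟨x, rfl⟩ := QuotientAddGroup.mk_surjective v
    exact congrArg QuotientAddGroup.mk (Subtype.ext (hz.2.1 _ hz' _ hy _ x.2))
  · obtain ⟨x, rfl⟩ := QuotientAddGroup.mk_surjective v
    rw [QuotientAddGroup.eq_zero_iff, AddSubgroup.mem_addSubgroupOf]
    by_contra hn
    have e1 := md (W ⊔ AddSubgroup.zmultiples x.1) (sup_le WS (AddSubgroup.zmultiples_le.mpr x.2)) fun z hz' =>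
      show _ ≤ AddSubgroup.comap (DistribSMul.toAddMonoidHom A z) _ from sup_le
        (fun y hy => AddSubgroup.mem_sup_left (ZW hz' y hy)) (AddSubgroup.zmultiples_le.mpr (by
          have : z • x.1 - x.1 ∈ W := (QuotientAddGroup.eq_iff_sub_mem (N := W.addSubgroupOf S)
            (x := ⟨z • x.1, hS z _ x.2⟩) (y := x)).mp (hv ⟨z, ZW hz'⟩ hz')
          simpa using AddSubgroup.add_mem_sup this (AddSubgroup.mem_zmultiples x.1)))
    rw [card_sup_zmul two_eq hn, cW] at e1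
    omega

theorem good_seventeen [Group.IsSolvable H] {Z : Subgroup H} [hZ : Z.Normal] {S : AddSubgroup A}
    (hS : ∀ h : H, ∀ v ∈ S, h • v ∈ S) (hi : ∀ W ≤ S, (∀ h : H, ∀ v ∈ W, h • v ∈ W) → W = ⊥ ∨ W = S)
    (h0 : S ≠ ⊥) (hz : MinZ 17 Z S) (hc : Nat.card S = 256) : ∃ L Γ, P.Good S L Γ := by
  have p17 : Nat.Prime 17 := by norm_num
  obtain ⟨w, hw, w0, a, ha, hg⟩ := exists_gen (A := Z) h0 (fun z _ => hS z) fun a ha b hb => hz.2.1 a ha b hb
  have tp : ∀ F ≤ S, Nat.card F ≡ 1 [MOD 17] → ∀ w ∈ F, w ≠ 0 → S ≤ F := fun F hF h w hw w0 => by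
    have e1 := (AddSubgroup.one_lt_card_iff_ne_bot F).mpr fun e => w0 (e.le hw)
    obtain ⟨k, hk, e2⟩ := (Nat.dvd_prime_pow Nat.prime_two (i := Nat.card F) (m := 8)).mp
      ((AddSubgroup.card_dvd_of_le hF).trans (dvd_of_eq hc))
    refine (AddSubgroup.eq_of_le_of_card_ge hF ?_).ge
    rw [e2] at h e1 ⊢
    interval_cases k <;> simp_all [Nat.ModEq]
  have t1 : ∀ z ∈ Z, ∀ v ∈ S, v ≠ 0 → z • v = v → ∀ u ∈ S, z • u = u := fun z hz' v hv v0 e u hu =>
    (tp (S ⊓ fixE A z) inf_le_left (card_modEq_one p17 (fun y hy v hv => AddSubgroup.mem_inf.mpr ⟨hS y v hv.1, by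
      rw [mem_fixE, hz.2.1 _ hz' _ hy _ hv.1, mem_fixE.mp hv.2]⟩)
      (fun y hy v hv => hz.1 y hy v hv.1) fun v hv => hz.2.2 v hv.1) v ⟨hv, e⟩ v0 hu).2
  have t2 : a • w ≠ w := fun e => w0 (hz.2.2 w hw fun g hg' => by
    obtain ⟨n, hn⟩ := hg g hg'
    rw [hn]; exact zpow_mem (show a ∈ MulAction.stabilizer H w from e) n)
  have t3 : ∀ g ∈ Z, ∃ n : ℤ, ∀ v ∈ S, g • v = a ^ n • v := fun g hg' => (hg g hg').imp fun n hn v hv => by
    have := t1 ((a ^ n)⁻¹ * g) (mul_mem (inv_mem (zpow_mem ha n)) hg') w hw w0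
      (by rw [mul_smul, hn, inv_smul_smul]) v hv
    rwa [mul_smul, inv_smul_eq_iff] at this
  have top : ∀ F ≤ S, (∀ v ∈ F, a • v ∈ F) → ∀ w ∈ F, w ≠ 0 → S ≤ F := fun F hF h =>
    tp F hF (card_modEq_one' p17 h (fun v hv => hz.1 a ha v (hF hv)) fun v hv e => by
      by_contra v0; exact t2 (t1 a ha v (hF hv) v0 e w hw))
  have cm := fun {c c'} => comm_of_irr (c := c) (c' := c') hS top
  let Y : Subgroup H :=
    { carrier := {c | (∀ z ∈ Z, ∀ v ∈ S, c • z • v = z • c • v) ∧ ∀ v ∈ S, c • c • c • v = v}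
      one_mem' := by simp
      mul_mem' := fun {c d} hc hd => ⟨fun z hz' v hv => by
        rw [mul_smul, mul_smul, hd.1 z hz' v hv, hc.1 z hz' _ (hS d v hv)], fun v hv => by
        have k := cm (hd.1 a ha) (hc.1 a ha)
        simp only [mul_smul]
        rw [k _ (hS _ _ (hS _ _ (hS _ _ hv))), k _ (hS _ _ hv), k _ (hS _ _ (hS _ _ hv)), hd.2 v hv, hc.2 v hv]⟩
      inv_mem' := fun {c} hc => ⟨fun z hz' v hv => by
        rw [inv_smul_eq_iff, hc.1 z hz' _ (hS _ v hv), smul_inv_smul], fun v hv => by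
        rw [inv_smul_eq_iff, inv_smul_eq_iff, inv_smul_eq_iff, hc.2 v hv]⟩ }
  haveI : Y.Normal := ⟨fun c hc g => ⟨fun z hz' v hv => by
    simpa [mul_smul, smul_eq_iff_eq_inv_smul] using hc.1 _ (hZ.conj_mem z hz' g⁻¹) _ (hS g⁻¹ v hv),
    fun v hv => by simp [mul_smul, hc.2 _ (hS g⁻¹ v hv)]⟩⟩
  by_cases hY : ∃ z ∈ Y, ∃ v ∈ S, z • v ≠ v
  · exact P.good_three (Z := Y) hS ⟨fun z hz v hv => by simpa [pow_succ, mul_smul] using hz.2 v hv,
      fun z hz y hy => cm (hz.1 a ha) (hy.1 a ha), fpf hS hi hY⟩ hc.le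
  push Not at hY
  have t4 : ∀ h : H, (∀ v ∈ S, h • h • h • v = v) → ∀ v ∈ S, h • v = v := fun h hh => hY h ⟨fun z hz' v hv => by
    obtain ⟨i, hi⟩ := t3 _ (hZ.conj_mem a ha h)
    have e1 : ∀ n : ℤ, ∀ v ∈ S, h • a ^ n • v = a ^ (i * n) • h • v := fun n v hv => by
      have : ∀ n : ℕ, ∀ v ∈ S, h • a ^ n • v = a ^ (i * n) • h • v := fun n => by
        induction n with
        | zero => simp
        | succ n ih =>
          intro v hv
          rw [pow_succ, mul_smul, ih _ (hS a v hv), Nat.cast_succ, mul_add, mul_one, zpow_add, mul_smul,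
            ← hi _ (hS h v hv)]
          simp [mul_smul]
      obtain ⟨m, rfl | rfl⟩ := n.eq_nat_or_neg
      · exact_mod_cast this m v hv
      · rw [mul_neg, zpow_neg, zpow_neg, eq_inv_smul_iff, ← this m _ (hS _ v hv), zpow_natCast, smul_inv_smul]
    have e2 : a ^ (i * (i * (i * 1)) - 1) ∈ MulAction.stabilizer H w := by
      rw [zpow_sub, MulAction.mem_stabilizer_iff, mul_smul, ← hh _ (hS _ w hw), ← e1 _ _ (hS _ _ (hS _ _ (hS _ w hw))),
        ← e1 _ _ (hS _ _ (hS _ w hw)), ← e1 _ _ (hS _ w hw), smul_inv_smul, hh w hw]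
    have e3 : ∀ n : ℤ, a ^ n ∈ MulAction.stabilizer H w → 17 ∣ n := fun n hn => by
      by_contra h17
      refine t2 (mem_of_pow_coprime (K := MulAction.stabilizer H w) (m := 17) (n := n.natAbs)
        ((Nat.Prime.coprime_iff_not_dvd p17).mpr fun h => h17 (Int.natCast_dvd.mpr h)) (hz.1 a ha w hw) ?_)
      rcases Int.natAbs_eq n with e | e <;> rw [e] at hn
      · exact_mod_cast hn
      · rw [zpow_neg, inv_mem_iff] at hn; exact_mod_cast hn
    obtain ⟨j, rfl⟩ : ∃ j, i = 1 + 17 * j := by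
      have := (ZMod.intCast_zmod_eq_zero_iff_dvd _ 17).mpr (e3 _ e2)
      push_cast at this
      obtain ⟨j, hj⟩ := (ZMod.intCast_zmod_eq_zero_iff_dvd (i - 1) 17).mp (by
        push_cast; revert this; generalize (i : ZMod 17) = x; revert x; decide)
      exact ⟨j, by push_cast at hj; omega⟩
    obtain ⟨n, hn⟩ := t3 z hz'
    rw [hn v hv, hn _ (hS h v hv), e1 n v hv, add_mul, one_mul, zpow_add, mul_smul, mul_assoc, zpow_mul]
    congr 1
    exact zpow_mem (show a ^ (17 : ℤ) ∈ MulAction.stabilizer H _ by exact_mod_cast hz.1 a ha _ (hS h v hv)) _, hh⟩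
  obtain ⟨L, -, lag, -⟩ := exists_lagr two_eq P.alt (P.nd hS)
  refine ⟨L, P.good_of_rig hS lag p17 (by norm_num) (by norm_num) hz fun hq => ?_⟩
  letI := secAction S L hS
  rw [← hq]
  refine exists_rig (fun x => ?_) fun h => ?_
  · obtain ⟨x, rfl⟩ := QuotientAddGroup.mk_surjective x
    rw [← QuotientAddGroup.mk_add, two_eq, QuotientAddGroup.mk_zero]
  letI := subAction S hS
  have k : ∀ (g : H) (n : ℕ), MulAction.toPermHom H S g ^ n = 1 ↔ ∀ v ∈ S, g ^ n • v = v := fun g n => by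
    rw [← map_pow]
    exact ⟨fun h v hv => congrArg (fun x : Equiv.Perm S => (x ⟨v, hv⟩ : A)) h,
      fun h => Equiv.ext fun v => Subtype.ext (h v v.2)⟩
  refine ⟨orderOf (MulAction.toPermHom H S h), ((Nat.Prime.coprime_iff_not_dvd Nat.prime_three).mpr ?_).symm,
    fun v => ?_⟩
  · rintro ⟨j, hj⟩
    have e1 := (k h (j * 3)).mp (by rw [mul_comm, ← hj, pow_orderOf_eq_one])
    have e2 := orderOf_dvd_of_pow_eq_one ((k h j).mpr (t4 _ fun v hv => by
      simpa [pow_mul, pow_succ, mul_smul] using e1 v hv))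
    have e3 := orderOf_pos (MulAction.toPermHom H S h)
    have := Nat.le_of_dvd (by omega) e2
    omega
  · obtain ⟨x, rfl⟩ := QuotientAddGroup.mk_surjective v
    exact congrArg QuotientAddGroup.mk (Subtype.ext ((k h _).mp (pow_orderOf_eq_one _) _ x.2))

omit [Finite H] in
theorem Good.comb {S B B' L L' : AddSubgroup A} {Γ Γ' : Finset A} (hS : ∀ h : H, ∀ v ∈ S, h • v ∈ S)
    (hB : ∀ h : H, ∀ v ∈ B', h • v ∈ B') (s0 : S ≠ ⊥) (b0 : B' ≠ ⊥) (s1 : S ≤ B) (b1 : B' ≤ B)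
    (hp : B' ≤ perp P.f S) (hd : ∀ x ∈ B, ∃ s ∈ S, ∃ y ∈ B', x = s + y) (g : P.Good S L Γ)
    (g' : P.Good B' L' Γ') : ∃ Γ, P.Good B (L ⊔ L') Γ := by
  classical
  have hp' : S ≤ perp P.f B' := fun s hs y hy => (P.symm _ _).trans (hp hy s hs)
  have key : ∀ {S B' L L' : AddSubgroup A} {Γ Γ' : Finset A}, (∀ h : H, ∀ v ∈ S, h • v ∈ S) → S ≠ ⊥ →
      B' ≤ perp P.f S → P.Good S L Γ → P.Good B' L' Γ' → L ≤ S ∧ 2 ≤ Nat.card L ∧
      (∀ x ∈ S, ∀ y ∈ B', x + y ∈ L ⊔ L' → x ∈ L) ∧ ∀ h : H, (∀ x ∈ L ⊔ L', h • x ∈ L ⊔ L') →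
        (∀ x ∈ Γ, ∃ y, (y ∈ Γ ∨ y ∈ Γ') ∧ h • x - y ∈ L ⊔ L') → ∀ x ∈ S, h • x - x ∈ L := by
    intro S B' L L' Γ Γ' hS s0 hp g g'
    have l1 : L ≤ S := g.lag.ge.trans inf_le_left
    have k : ∀ x ∈ S, ∀ y ∈ B', x + y ∈ L ⊔ L' → x ∈ L := fun x hx y hy h => by
      obtain ⟨a, ha, b, hb, e⟩ := AddSubgroup.mem_sup.mp h
      rwa [← sub_eq_zero.mp (P.nd hS (a - x) (sub_mem (l1 ha) hx) (by
        rw [show a - x = y - b by rw [sub_eq_sub_iff_add_eq_add, e, add_comm]]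
        exact hp (sub_mem hy (g'.lag.ge hb).1)))]
    refine ⟨l1, (AddSubgroup.one_lt_card_iff_ne_bot L).mpr fun e => s0 (eq_bot_iff.mpr fun x hx => e.le
      (g.lag.le ⟨hx, fun y hy => by simp [show y = 0 from e.le hy]⟩)), k, fun h h1 h2 => ?_⟩
    have h3 : ∀ x ∈ L, h • x ∈ L := fun x hx => k _ (hS h x (l1 hx)) 0 (zero_mem _)
      (by simpa using h1 x (AddSubgroup.mem_sup_left hx))
    refine g.rig h h3 fun x hx => ?_
    obtain ⟨y, hy | hy, e⟩ := h2 x hx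
    · exact ⟨y, hy, k _ (sub_mem (hS h x (g.sub x hx).1) (g.sub y hy).1) 0 (zero_mem _) (by simpa using e)⟩
    · obtain ⟨u, hu, e'⟩ := ((Set.Finite.injOn_iff_bijOn_of_mapsTo (s := (L : Set A)) (Set.toFinite _) h3).mp
        (MulAction.injective h).injOn).surjOn (k _ (hS h x (g.sub x hx).1) _ (neg_mem (g'.sub y hy).1)
          (by rwa [← sub_eq_add_neg]))
      exact absurd (MulAction.injective h e' ▸ hu) (g.sub x hx).2
  obtain ⟨l1, c1, k1, r1⟩ := key hS s0 hp g g'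
  obtain ⟨l2, c2, k2, r2⟩ := key hB b0 hp' g' g
  rw [sup_comm] at k2 r2
  refine ⟨Γ ∪ Γ', le_antisymm (fun v hv => ?_) (le_inf (sup_le (l1.trans s1) (l2.trans b1)) fun v hv w hw => ?_),
    fun x hx => ?_, ?_, fun h h1 h2 v hv => ?_, fun h a ha₀ b hb₀ hh v hv => ?_⟩
  · obtain ⟨x, hx, y, hy, rfl⟩ := hd v hv.1
    refine AddSubgroup.add_mem_sup (g.lag.le ⟨hx, fun u hu => ?_⟩) (g'.lag.le ⟨hy, fun u hu => ?_⟩)
    · simpa [hp hy u (l1 hu)] using hv.2 u (AddSubgroup.mem_sup_left hu)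
    · simpa [hp' hx u (l2 hu)] using hv.2 u (AddSubgroup.mem_sup_right hu)
  · obtain ⟨a, ha, b, hb, rfl⟩ := AddSubgroup.mem_sup.mp hv
    obtain ⟨c, hc, d, hd, rfl⟩ := AddSubgroup.mem_sup.mp hw
    simp [(g.lag.ge ha).2 c hc, (g'.lag.ge hb).2 d hd, hp (l2 hb) c (l1 hc), hp' (l1 ha) d (l2 hd)]
  · rcases Finset.mem_union.mp hx with hx | hx
    · exact ⟨s1 (g.sub x hx).1, fun h => (g.sub x hx).2 (k1 x (g.sub x hx).1 0 (zero_mem _) (by simpa))⟩
    · exact ⟨b1 (g'.sub x hx).1, fun h => (g'.sub x hx).2 (k2 x (g'.sub x hx).1 0 (zero_mem _) (by simpa))⟩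
  · have e1 := Nat.card_le_card_of_injective (fun x : L × L' =>
      (⟨x.1 + x.2, AddSubgroup.add_mem_sup x.1.2 x.2.2⟩ : (L ⊔ L' : AddSubgroup A))) fun x y h => by
        have e : (x.1 : A) + x.2 = y.1 + y.2 := congrArg Subtype.val h
        have : (x.1 : A) = y.1 := sub_eq_zero.mp (P.nd hS _ (l1 (sub_mem x.1.2 y.1.2)) (by
          rw [show (x.1 : A) - y.1 = y.2 - x.2 by rw [sub_eq_sub_iff_add_eq_add, e, add_comm]]
          exact hp (l2 (sub_mem y.2.2 x.2.2))))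
        exact Prod.ext (Subtype.ext this) (Subtype.ext (by simpa [this] using e))
    rw [Nat.card_prod] at e1
    have := Finset.card_union_le Γ Γ'
    have := g.card
    have := g'.card
    nlinarith
  · obtain ⟨x, hx, y, hy, rfl⟩ := hd v hv
    simp only [Finset.mem_union] at h2
    rw [smul_add, add_sub_add_comm]
    exact AddSubgroup.add_mem_sup (r1 h h1 (fun x hx => h2 x (Or.inl hx)) x hx)
      (r2 h h1 (fun x hx => (h2 x (Or.inr hx)).imp fun _ => And.imp_left Or.symm) y hy)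
  · obtain ⟨x, hx, y, hy, rfl⟩ := hd v hv
    obtain ⟨a, ha, a', ha', rfl⟩ := AddSubgroup.mem_sup.mp ha₀
    obtain ⟨b, hb, b', hb', rfl⟩ := AddSubgroup.mem_sup.mp hb₀
    rw [smul_add, g.a2 h a ha b hb (fun y hy => P.a2_split hS hp (l1 ha) (l1 hb) (l2 ha') (l2 hb') hy
      (hh y (s1 hy))) x hx, g'.a2 h a' ha' b' hb' (fun y hy => P.a2_split hB hp' (l2 ha') (l2 hb') (l1 ha) (l1 hb)
        hy (by rw [add_comm a', add_comm b']; exact hh y (b1 hy))) y hy]

theorem exists_good [Group.IsSolvable H] (h5 : ¬ 5 ∣ Nat.card H) (hc : Nat.card A ≤ 256) (B : AddSubgroup A)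
    (hB : ∀ h : H, ∀ v ∈ B, h • v ∈ B) : ∃ L Γ, P.Good B L Γ := by
  induction B using (wellFounded_lt (α := AddSubgroup A)).induction with
  | _ B IH =>
  by_cases h0 : B = ⊥
  · subst h0
    exact ⟨⊥, ∅, by simp, by simp, by simp, by simp +contextual, by simp +contextual⟩
  obtain ⟨S, s1, s2, s3, s4, s5, s6⟩ := P.exists_piece hB h0
  obtain ⟨L, Γ, g⟩ : ∃ L Γ, P.Good S L Γ := by
    obtain ⟨r, hr, hd, r2, Z, hZ, hz⟩ := P.exists_MinZ s2 s3 s4
    have c1 := S.card_le_card_addGroup.trans hc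
    by_cases r3 : r = 3
    · exact P.good_three s3 (r3 ▸ hz) c1
    by_cases r7 : r = 7
    · exact P.good_seven s3 s2 (r7 ▸ hz) c1
    obtain ⟨L, -, -, e⟩ := exists_lagr two_eq P.alt (P.nd s3)
    obtain ⟨n, hn⟩ : ∃ n, Nat.card L = 2 ^ n := (IsPGroup.iff_card (p := 2) (G := Multiplicative L)).mp
      fun x => ⟨1, by rw [pow_one, sq]; exact two_eq x.toAdd⟩
    have e1 := (Nat.modEq_iff_dvd' Nat.card_pos).mp (card_modEq_one hr (fun z _ => s3 z) hz.1 hz.2.2).symm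
    have e2 := (AddSubgroup.one_lt_card_iff_ne_bot S).mpr s2
    have n4 : n ≤ 4 := by
      by_contra h
      have := Nat.pow_le_pow_right two_pos (show 5 ≤ n by omega)
      nlinarith
    have r5 : r ≠ 5 := fun e => h5 (e ▸ hd)
    have : r = 17 ∧ Nat.card S = 256 := by
      rw [e, hn] at e1 e2 ⊢
      have k : ∀ q, q.Prime → (r ∣ q ↔ r = q) := fun q hq => Nat.prime_dvd_prime_iff_eq hr hq
      interval_cases n
      · simp at e2
      · exact absurd ((k 3 (by norm_num)).mp e1) r3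
      · change r ∣ 3 * 5 at e1
        simp only [hr.dvd_mul, k 3 (by norm_num), k 5 (by norm_num), r3, r5, or_self] at e1
      · change r ∣ 3 * 3 * 7 at e1
        simp only [hr.dvd_mul, k 3 (by norm_num), k 7 (by norm_num), r3, r7, or_self] at e1
      · change r ∣ 3 * 5 * 17 at e1
        simp only [hr.dvd_mul, k 3 (by norm_num), k 5 (by norm_num), k 17 (by norm_num), r3, r5,
          false_or] at e1
        exact ⟨e1, rfl⟩
    exact P.good_seventeen s3 s4 s2 (this.1 ▸ hz) this.2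
  have hB' : ∀ h : H, ∀ v ∈ B ⊓ perp P.f S, h • v ∈ B ⊓ perp P.f S := fun h v hv =>
    ⟨hB h v hv.1, P.perp_inv (Z := ⊤) (fun h _ => s3 h) h trivial v hv.2⟩
  by_cases b0 : B ⊓ perp P.f S = ⊥
  · obtain rfl : B = S := le_antisymm (fun x hx => by
      obtain ⟨s, hs, y, hy, rfl⟩ := s6 x hx
      simpa [show y = 0 from b0.le hy] using hs) s1
    exact ⟨L, Γ, g⟩
  obtain ⟨L', Γ', g'⟩ := IH _ s5 hB'
  exact ⟨_, Good.comb P s3 hB' s2 b0 s1 inf_le_left inf_le_right s6 g g'⟩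
end Symp

end Cfsg.Agent.Lib.Base
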