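import Cfsg.Agent.Lib.Base.Odd
import Cfsg.Agent.Lib.Base.Two5

/-! Coprime linear groups, the primitive step: colourings of the weight spaces. -/

set_option autoImplicit false

namespace Cfsg.Agent.Lib.Base

open Subgroup Cfsg.Agent.Lib.Core
open scoped commutatorElement

universe u v

/-- the centralizer of `E` is a maximal abelian normal subgroup -/
def MaxC {G : Type*} [Group G] (E : Subgroup G) : Prop :=
  ∀ B : Subgroup G, B.Normal → IsMulCommutative B → centralizer (E : Set G) ≤ B → B = centralizer (E : Set G)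

theorem MaxC.mem {G : Type*} [Group G] {E K : Subgroup G} (h : MaxC E) [K.Normal]
    (h1 : centralizer (E : Set G) ≤ K) (h2 : K ≤ E) {x : G} (hx : x ∈ K) (hc : ∀ y ∈ K, y * x = x * y) :
    x ∈ centralizer (E : Set G) :=
  (h (K ⊓ centralizer (K : Set G)) inferInstance (le_centralizer_iff_isMulCommutative.mp
    (inf_le_right.trans (centralizer_le_centralizer inf_le_left)))
    (le_inf h1 (centralizer_le_centralizer h2))).le ⟨hx, hc⟩

theorem ncard_preimage {E B : Type*} [Group E] [Group B] (f : E →* B) (hf : Function.Surjective f)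
    (X : Set B) : (f ⁻¹' X).ncard = Nat.card f.ker * X.ncard := by
  have e : f ⁻¹' X = QuotientGroup.mk ⁻¹' ((QuotientGroup.quotientKerEquivOfSurjective f hf) ⁻¹' X) := rfl
  rw [← Nat.card_coe_set_eq, e, QuotientGroup.card_preimage_mk, Nat.card_coe_set_eq,
    Set.ncard_preimage_of_injective_subset_range (MulEquiv.injective _) (by
      rw [(MulEquiv.surjective _).range_eq]; exact Set.subset_univ _)]

namespace PD
variable {G : Type u} {V : Type*} [Group G] [AddCommGroup V] [DistribMulAction G V] (P : PD G V)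

/-- change of the base vector -/
@[reducible] def re (v : V) (hv : v ≠ 0) (hmax : ∀ u ∈ fixA V (P.E ⊓ MulAction.stabilizer G v), u ≠ 0 →
    ∀ b ∈ P.E, b • u = u → b ∈ P.E ⊓ MulAction.stabilizer G v) : PD G V :=
  ⟨P.E, v, P.normal, P.hUE, P.hEE, P.hsr, hv, hmax⟩

/-- `v₁` and `y` form a base of the fixed space of `D` -/
def HasY (y : V) : Prop :=
  y ∈ fixA V P.D ∧ ∀ g : G, g • P.v₁ = P.v₁ → g • y = y → ∀ w ∈ fixA V P.D, g • w = w

theorem exists_re (h : ∃ t : Fin 2 → V, (∀ k, t k ∈ fixA V P.D) ∧ (∃ k, t k ≠ 0) ∧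
    ∀ g ∈ normalizer (P.D : Set G), (∀ k, g • t k = t k) → ∀ w ∈ fixA V P.D, g • w = w) [Finite G] :
    ∃ v hv hmax y, (P.re v hv hmax).D = P.D ∧ (P.re v hv hmax).HasY y := by
  obtain ⟨t, h1, ⟨k, hk⟩, h2⟩ := h
  obtain ⟨v, y, hv, hy, hv0, h3⟩ : ∃ v y, v ∈ fixA V P.D ∧ y ∈ fixA V P.D ∧ v ≠ 0 ∧
      ∀ g ∈ normalizer (P.D : Set G), g • v = v → g • y = y → ∀ w ∈ fixA V P.D, g • w = w := by
    fin_cases k
    · exact ⟨t 0, t 1, h1 0, h1 1, hk, fun g hg a b => h2 g hg fun k => by fin_cases k; exacts [a, b]⟩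
    · exact ⟨t 1, t 0, h1 1, h1 0, hk, fun g hg a b => h2 g hg fun k => by fin_cases k; exacts [b, a]⟩
  have e : P.E ⊓ MulAction.stabilizer G v = P.D :=
    le_antisymm (fun b hb => P.hmax v hv hv0 b hb.1 hb.2) fun d hd => ⟨hd.1, hv d hd⟩
  refine ⟨v, hv0, by rw [e]; exact P.hmax, y, e, by rw [re, D, e]; exact hy, fun g hg hgy => ?_⟩
  have := fun d hd => (P.re v hv0 (by rw [e]; exact P.hmax)).conj_mem_D hg (d := d) hd
  rw [re, D, e] at this ⊢
  exact h3 g (mem_normalizer_of_conj_mem this) hg hgy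

theorem cent_of_T {g : G} (hg : g • P.v₁ = P.v₁) (h1 : P.E ⊓ centralizer (P.D : Set G) ≤ P.T hg) {u : G}
    (hu : u ∈ P.U) : g * u = u * g := by
  have h2 := (P.fix_iff hg (P.hUE hu)).mp (h1 ⟨P.hUE hu, P.U_le_cent hu⟩).2
  have := P.eq_one h2 (mul_mem (inv_mem hu) (Normal.conj_mem inferInstance u hu g))
  rw [inv_mul_eq_one, eq_mul_inv_iff_mul_eq] at this
  exact this.symm

theorem mk_mul_U (x : P.E) {u : G} (hu : u ∈ P.U) : ((x * ⟨u, P.hUE hu⟩ : P.E) : P.Ω) = x :=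
  QuotientGroup.mk_mul_of_mem x (P.U_le_cent hu)

theorem eq_neg {u : G} (hu : u ∈ P.U) (h1 : u ≠ 1) (h2 : u * u = 1) (v : V) : u • v = -v := by
  by_contra h
  exact h1 (P.hsr u hu (u • v + v) (by rwa [ne_eq, add_eq_zero_iff_eq_neg])
    (by rw [smul_add, ← mul_smul, h2, one_smul, add_comm]))

theorem eq_of_smul {u u' : G} (hu : u ∈ P.U) (hu' : u' ∈ P.U) {v : V} (hv : v ≠ 0) (h : u • v = u' • v) :
    u = u' := by
  have := P.hsr _ (mul_mem (inv_mem hu') hu) v hv (by rw [mul_smul, h, inv_smul_smul])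
  exact (inv_mul_eq_one.mp this).symm

theorem pow_mem_U {x : G} (hx : x ∈ P.E) {n : ℕ} : x ^ n ∈ P.U ↔ ∀ y : P.E, P.cm hx y ^ n = 1 := by
  have key : ∀ y : P.E, P.cm y.2 (⟨x, hx⟩ ^ n) = (P.cm hx y ^ n)⁻¹ := fun y => by
    rw [map_pow, ← inv_pow]; congr 1; simp only [cm_apply]; group
  refine ⟨fun h y => ?_, fun h y hy => ?_⟩
  · rw [← inv_eq_one, ← key, cm_eq_one]; exact h y y.2
  · exact (P.cm_eq_one hy (y := ⟨x, hx⟩ ^ n)).mp (by rw [key ⟨y, hy⟩, h, inv_one])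

variable [Finite G]

theorem D_pow {d : G} (hd : d ∈ P.D) : d ^ Nat.card P.Ω = 1 := by
  refine P.eq_one (pow_mem hd _) ((P.pow_mem_U hd.1).mpr fun y => ?_)
  rw [← map_pow, cm_eq_one]
  have : ((y ^ Nat.card P.Ω : P.E) : P.Ω) = 1 := by rw [QuotientGroup.mk_pow, pow_card_eq_one']
  exact mem_subgroupOf.mp ((QuotientGroup.eq_one_iff _).mp this) d hd

theorem colour {y : V} (hy : P.HasY y) (E₀ : Subgroup G) [hE₀ : E₀.Normal] (hD : P.D ≤ E₀)
    (hcov : ∀ q : P.Ω, ∃ x : P.E, (x : G) ∈ E₀ ∧ (x : P.Ω) = q) {ι : Type*} (l : ι → G) (hl : ∀ i, l i ∈ P.U)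
    (sep : ∀ i j, (l i)⁻¹ * l j ∈ E₀ → i = j) (c : P.Ω → Option ι) :
    ∃ t : Fin 2 → V, ∀ g : G, (∀ k, g • t k = t k) → ∃ hg : g • P.v₁ = P.v₁,
      P.E ⊓ centralizer (P.D : Set G) ≤ P.T hg ∧ (∀ q, q ≠ 1 → c (P.φ hg q) = c q) ∧
      ((∀ q, P.φ hg q = q) → ∀ x : P.E, ((x : P.Ω) = 1 ∨ c x ≠ none) →
        ∃ y : P.E, (y : P.Ω) = x ∧ g • (y : G) • P.v₁ = (y : G) • P.v₁) := by
  classical
  haveI := Fintype.ofFinite P.Ω
  choose ρ hρ0 hρ using hcov
  let w : P.Ω → ι → P.E := fun q i => ρ q * ⟨l i, P.hUE (hl i)⟩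
  have hw : ∀ q i, (w q i : P.Ω) = q := fun q i => (P.mk_mul_U _ (hl i)).trans (hρ q)
  have hw0 : ∀ x : G, x • P.v₁ ≠ 0 := fun q h => P.hv₁ ((smul_eq_zero_iff_eq _).mp h)
  let p : P.Ω → V := fun q => if q = 1 then y else (c q).elim 0 fun i => (w q i : G) • P.v₁
  have hp : ∀ q, p q ∈ P.W q := fun q => by
    simp only [p]
    split_ifs with h
    · exact h ▸ P.mem_W_one hy.1
    · rcases c q with _ | i
      · exact zero_mem _
      · simpa [hw] using P.smul_mem_W (w q i) P.v₁_mem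
  refine ⟨![P.v₁, ∑ q, p q], fun g h => ?_⟩
  have hg : g • P.v₁ = P.v₁ := h 0
  have h1 := P.comp hg hp hp (h 1)
  have h2 : P.E ⊓ centralizer (P.D : Set G) ≤ P.T hg := fun x hx =>
    ⟨hx, hy.2 g hg (by simpa [p] using h1 1) _ (P.smul_mem hx.2 P.v₁_mem)⟩
  refine ⟨hg, h2, fun q hq => ?_, fun hφ x hx => ?_⟩
  · have hq' : P.φ hg q ≠ 1 := fun h => hq (P.φ_injective hg (h.trans (map_one _).symm))
    have h3 := h1 q
    simp only [p, hq, hq', if_false] at h3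
    generalize c q = i at h3
    generalize c (P.φ hg q) = j at h3
    rcases i with _ | i <;> rcases j with _ | j
    · rfl
    · exact absurd (h3.symm.trans (smul_zero g)) (hw0 _)
    · exact absurd ((mul_smul _ _ _).trans h3) (hw0 _)
    have h4 : ((w (P.φ hg q) j : G))⁻¹ * (g * w q i * g⁻¹) ∈ P.D :=
      mem_inf.mpr ⟨mul_mem (inv_mem (w _ j).2) (P.normal.conj_mem _ (w q i).2 g), by
        rw [MulAction.mem_stabilizer_iff, mul_smul, mul_smul, mul_smul, inv_smul_eq_iff.mpr hg.symm,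
          inv_smul_eq_iff]; exact h3⟩
    have h5 := hE₀.conj_mem' _ (mul_mem (inv_mem (hρ0 (P.φ hg q))) (hE₀.conj_mem _ (hρ0 q) g)) (l j)
    rw [sep j i (by
      convert mul_mem (inv_mem h5) (hD h4) using 1
      simp only [w, coe_mul]
      calc _ = (l j)⁻¹ * (g * l i) * g⁻¹ := by rw [P.cent_of_T hg h2 (hl i)]; group
        _ = _ := by group)]
  · by_cases hx1 : (x : P.Ω) = 1
    · exact ⟨1, hx1.symm, by simpa using hg⟩
    obtain ⟨i, hi⟩ := Option.ne_none_iff_exists'.mp (hx.resolve_left hx1)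
    exact ⟨w x i, hw _ _, by simpa only [p, hφ, hx1, if_false, hi, Option.elim] using h1 x⟩

/-- only the zero pattern is used -/
theorem colour0 {y : V} (hy : P.HasY y) (Γ : Set P.Ω) :
    ∃ t : Fin 2 → V, ∀ g : G, (∀ k, g • t k = t k) → ∃ hg : g • P.v₁ = P.v₁,
      P.E ⊓ centralizer (P.D : Set G) ≤ P.T hg ∧ Pres (P.φ hg) Γ ∧
      ((∀ q, P.φ hg q = q) → ∀ x : P.E, (x : P.Ω) ∉ Γ →
        ∃ y : P.E, (y : P.Ω) = x ∧ g • (y : G) • P.v₁ = (y : G) • P.v₁) := by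
  classical
  obtain ⟨t, ht⟩ := P.colour hy ⊤ le_top (fun q => ⟨q.out, trivial, q.out_eq'⟩) (fun _ : Unit => 1)
    (fun _ => one_mem _) (fun _ _ _ => rfl) fun q => if q ∈ Γ then none else some ()
  refine ⟨t, fun g hg => (ht g hg).imp fun hg h => ⟨h.1, fun q hq => ?_, fun hφ x hx => h.2.2 hφ x
    (Or.inr (by simp [hx]))⟩⟩
  have := h.2.1 q hq
  by_cases h1 : q ∈ Γ <;> by_cases h2 : P.φ hg q ∈ Γ <;> simp_all

theorem base_mixed {y : V} (hy : P.HasY y) (h2 : 2 ∣ Nat.card P.Ω) (h : ¬ IsPGroup 2 P.Ω) :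
    ∃ t : Fin 2 → V, ∀ g : G, (∀ k, g • t k = t k) → g = 1 := by
  letI := P.commΩ
  obtain ⟨Γ, hΓ, hc⟩ := exists_rigid_mixed.{u} (Ω := P.Ω) h2 h
  obtain ⟨t, ht⟩ := P.colour0 hy Γ
  refine ⟨t, fun g hg => ?_⟩
  obtain ⟨hg, h1, h2, h3⟩ := ht g hg
  have := hc _ (P.φ_injective hg) h2
  exact P.eq_one_of_det hg h1 this hΓ (h3 this)

omit [Finite G] in
theorem mul_pow_eq_one {m : ℕ} {x y : G} (hx : x ∈ P.E) (hy : y ∈ P.E) (h1 : x ^ m = 1) (h2 : y ^ m = 1)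
    (h : P.cm hy ⟨x, hx⟩ ^ m.choose 2 = 1) : (x * y) ^ m = 1 := by
  have hw := P.cm_mem hy ⟨x, hx⟩
  rw [PGroup.mul_pow_of_class_two (c := P.cm hy ⟨x, hx⟩) (by
      rw [P.ucomm hw (mul_mem hx hy)]; simp [cm_apply, mul_assoc])
    (P.ucomm hw hx).symm (P.ucomm hw hy).symm, h1, h2, h, mul_one, mul_one]

/-- the elements of `E` of order dividing `m` -/
def powE (m : ℕ) (h : ∀ x (hx : x ∈ P.E) (y : P.E), (y : G) ^ m = 1 → P.cm hx y ^ m.choose 2 = 1) :
    Subgroup G where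
  carrier := {x | x ∈ P.E ∧ x ^ m = 1}
  one_mem' := ⟨one_mem _, one_pow _⟩
  mul_mem' := fun hx hy => ⟨mul_mem hx.1 hy.1, P.mul_pow_eq_one hx.1 hy.1 hx.2 hy.2 (h _ _ _ hx.2)⟩
  inv_mem' := fun hx => ⟨inv_mem hx.1, by rw [inv_pow, hx.2, inv_one]⟩

instance instNormalPowE (m : ℕ) (h) : (P.powE m h).Normal :=
  ⟨fun x hx g => ⟨P.normal.conj_mem x hx.1 g, by rw [conj_pow, hx.2, mul_one, mul_inv_cancel]⟩⟩

theorem base_odd {y : V} (hy : P.HasY y) (h : Odd (Nat.card P.Ω)) {z : G} (hz : z ∈ P.U) (hz1 : z ≠ 1)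
    (hz2 : z * z = 1) : ∃ t : Fin 2 → V, ∀ g : G, (∀ k, g • t k = t k) → g = 1 := by
  classical
  letI := P.commΩ
  obtain ⟨Z, B, hZ, hd, hc⟩ := exists_rigid_odd.{u} (Ω := P.Ω) h
  obtain ⟨k, m, hm, e⟩ := Nat.exists_eq_two_pow_mul_odd (Nat.card_pos (α := G)).ne'
  have ho : Odd (m * Nat.card P.Ω) := hm.mul h
  have hz3 : z ^ (m * Nat.card P.Ω) ≠ 1 := by
    obtain ⟨j, hj⟩ := ho
    rwa [hj, pow_succ, pow_mul, sq, hz2, one_pow, one_mul]
  obtain ⟨t, ht⟩ := P.colour hy (P.powE (m * Nat.card P.Ω) fun x hx y hy => by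
      obtain ⟨j, hj⟩ := PGroup.odd_dvd_choose_two ho
      rw [hj, pow_mul, ← map_pow, show y ^ _ = 1 from Subtype.ext hy, map_one, one_pow])
    (fun d hd => ⟨hd.1, by rw [mul_comm, pow_mul, P.D_pow hd, one_pow]⟩) (fun q => by
      obtain ⟨q, rfl⟩ := (powCoprime (Nat.Coprime.pow_right k (Nat.coprime_two_right.mpr h))).surjective q
      obtain ⟨x, rfl⟩ := QuotientGroup.mk_surjective q
      exact ⟨x ^ 2 ^ k, ⟨Subtype.prop _, by
        rw [coe_pow, ← pow_mul, ← mul_assoc, ← e, pow_mul, pow_card_eq_one', one_pow]⟩, rfl⟩)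
    (fun b : Bool => if b then z else 1) (fun b => by cases b; exacts [one_mem _, hz]) (fun i j h => by
      cases i <;> cases j
      exacts [rfl, absurd (by simpa using h.2) hz3, absurd (by simpa using h.2) hz3, rfl])
    fun q => if q ∈ Z then none else some (decide (q ∈ B))
  refine ⟨t, fun g hg => ?_⟩
  obtain ⟨hg, h1, h2, h3⟩ := ht g hg
  have h4 : Pres (P.φ hg) Z := fun q hq => by
    have := h2 q hq
    by_cases h1 : q ∈ Z <;> by_cases h2 : P.φ hg q ∈ Z <;> simp_all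
  have := hc _ (P.φ_injective hg) h4 fun q hq => by
    have := h2 q hq
    by_cases h1 : q ∈ Z
    · exact iff_of_false (Set.disjoint_left.mp hd ((h4 q hq).mpr h1)) (Set.disjoint_left.mp hd h1)
    · simpa [h1, (h4 q hq).not.mpr h1] using this
  exact P.eq_one_of_det hg h1 this hZ fun x hx => h3 this x (Or.inr (by simp [hx]))

variable [Finite V]

/-- the quotient by the centre is an elementary abelian two-group -/
theorem sq_mem (hM : MaxC P.E) (hΩ : IsPGroup 2 P.Ω) {x : G} (hx : x ∈ P.E) : x ^ 2 ∈ P.U := by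
  let K : ℕ → Subgroup G := fun m =>
    { carrier := {x | x ∈ P.E ∧ x ^ m ∈ P.U}
      one_mem' := ⟨one_mem _, by simpa using one_mem _⟩
      mul_mem' := fun {x y} hx hy => ⟨mul_mem hx.1 hy.1, fun w hw => by
        have h1 := (P.cm_eq_one hw (y := (⟨x, hx.1⟩ : P.E) ^ m)).mpr (hx.2 w hw)
        have h2 := (P.cm_eq_one hw (y := (⟨y, hy.1⟩ : P.E) ^ m)).mpr (hy.2 w hw)
        refine (P.cm_eq_one hw (y := ((⟨x, hx.1⟩ : P.E) * (⟨y, hy.1⟩ : P.E)) ^ m)).mp ?_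
        rw [map_pow] at h1 h2
        rw [map_pow, map_mul, Commute.mul_pow (P.ucomm (P.cm_mem _ _) (P.hUE (P.cm_mem _ _))), h1, h2, mul_one]⟩
      inv_mem' := fun hx => ⟨inv_mem hx.1, by rw [inv_pow]; exact inv_mem hx.2⟩ }
  haveI hK : ∀ m, (K m).Normal := fun m => ⟨fun x hx g => ⟨P.normal.conj_mem x hx.1 g, by
    rw [conj_pow]; exact Normal.conj_mem inferInstance _ hx.2 g⟩⟩
  have hUK : ∀ m, P.U ≤ K m := fun m u hu => ⟨P.hUE hu, pow_mem hu m⟩
  have h1 : ∀ r, r.Prime → Odd r → ∀ x ∈ P.E, x ^ r ∈ P.U → x ∈ P.U := fun r hr ho x hx h => by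
    obtain ⟨a, ha, hs⟩ := P.exists_selfcent
    have h2 : ∀ y ∈ K r, ∃ k : ℤ, (a ^ k)⁻¹ * y ∈ P.D := fun y hy => by
      have hy' : y ∈ P.E ⊓ centralizer (P.D : Set G) := ⟨hy.1, by
        obtain ⟨k, hk⟩ := hΩ ((⟨y, hy.1⟩ : P.E) : P.Ω)
        refine mem_subgroupOf.mp ((QuotientGroup.eq_one_iff (⟨y, hy.1⟩ : P.E)).mp (orderOf_eq_one_iff.mp
          (Nat.eq_one_of_dvd_coprimes (Nat.Coprime.pow_left k (Nat.coprime_two_left.mpr ho))
            (orderOf_dvd_of_pow_eq_one hk) (orderOf_dvd_of_pow_eq_one ?_))))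
        exact (QuotientGroup.eq_one_iff (N := P.N) ((⟨y, hy.1⟩ : P.E) ^ r)).mpr (P.U_le_cent hy.2)⟩
      refine hs y hy' (P.commute_of_odd ha hs hy' hr ho ?_)
      rw [← map_pow, cm_eq_one]
      exact hy.2 a ha.1
    refine hM.mem (hUK r) (fun _ h => h.1) ⟨hx, h⟩ fun y hy => ?_
    obtain ⟨k, hk⟩ := h2 x ⟨hx, h⟩
    obtain ⟨l, hl⟩ := h2 y hy
    have c1 : ∀ d ∈ P.D, Commute d a := fun d hd => ha.2 d hd
    simpa using (((Commute.zpow_zpow_self a l k).mul_right ((c1 _ hk).zpow_right l).symm).mul_left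
      (((c1 _ hl).zpow_right k).mul_right (P.D_le_cent hk _ hl))).eq
  have h2 : ∀ x ∈ P.E, x ^ 4 ∈ P.U → x ^ 2 ∈ P.U := fun x hx h =>
    hM.mem (hUK 2) (fun _ h => h.1) ⟨pow_mem hx 2, by rwa [← pow_mul]⟩ fun y hy =>
      ((P.cm_eq_one hy.1 (y := (⟨x, hx⟩ : P.E) ^ 2)).mp
        (by rw [map_pow]; exact (P.pow_mem_U hy.1).mp hy.2 _)).eq
  have : ∀ n, n ≠ 0 → x ^ n ∈ P.U → x ^ 2 ∈ P.U := fun n => by
    induction n using Nat.strong_induction_on with
    | _ n IH =>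
    intro hn h
    obtain ⟨k, m, hm, rfl⟩ := Nat.exists_eq_two_pow_mul_odd hn
    by_cases hm1 : m = 1
    · subst hm1
      rcases k with _ | _ | k
      · exact pow_mem (by simpa using h) 2
      · simpa using h
      · refine IH (2 ^ k * 2) (by rw [pow_succ, pow_succ]; omega) (by positivity) ?_
        rw [pow_mul]
        exact h2 _ (pow_mem hx _) (by rw [← pow_mul]; convert h using 2; ring)
    obtain ⟨r, hr, j, rfl⟩ := Nat.exists_prime_and_dvd hm1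
    have hj : 0 < 2 ^ k * j := Nat.pos_of_ne_zero fun e => hn (by rw [mul_left_comm, e, mul_zero])
    refine IH (2 ^ k * j) (by have := hr.two_le; nlinarith) hj.ne'
      (h1 r hr (Nat.Odd.of_mul_left hm) _ (pow_mem hx _) ?_)
    rw [← pow_mul]; convert h using 2; ring
  exact this _ (Nat.card_pos (α := G)).ne' (by rw [pow_card_eq_one']; exact one_mem _)

end PD

end Cfsg.Agent.Lib.Base
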