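import Cfsg.Agent.Lib.Base.Cop1

/-! Coprime linear groups, the primitive step: the symplectic quotient. -/

set_option autoImplicit false

namespace Cfsg.Agent.Lib.Base

open Subgroup Cfsg.Agent.Lib.Core
open scoped commutatorElement

universe u v

/-- the quotient of `E` by its centre as a symplectic space -/
structure SP {G : Type*} [Group G] (E : Subgroup G) (A : Type*) [AddCommGroup A] [DistribMulAction G A] where
  π : G → A
  f : A →+ A →+ ZMod 2
  normal : E.Normal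
  le : centralizer (E : Set G) ≤ E
  max : MaxC E
  π_mul : ∀ x ∈ E, ∀ y ∈ E, π (x * y) = π x + π y
  π_surj : ∀ a, ∃ x ∈ E, π x = a
  π_eq_zero : ∀ x ∈ E, π x = 0 ↔ x ∈ centralizer (E : Set G)
  π_conj : ∀ g, ∀ x ∈ E, π (g * x * g⁻¹) = g • π x
  f_π : ∀ x ∈ E, ∀ y ∈ E, f (π x) (π y) = 0 ↔ Commute x y

theorem zmod2_eq {a b : ZMod 2} (h : a = 0 ↔ b = 0) : a = b := by revert a b; decide

theorem eq_top_of_half {A : Type*} [AddCommGroup A] [Finite A] {K : AddSubgroup A} {X : Set A}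
    (h : ∀ x ∉ X, x ∈ K) (hc : 2 * X.ncard < Nat.card A) : K = ⊤ := by
  by_contra hK
  have h1 := AddSubgroup.one_lt_index_of_ne_top hK
  have h2 := K.card_mul_index
  have h3 : Nat.card A ≤ Nat.card K + X.ncard := by
    rw [← Set.ncard_univ, ← SetLike.coe_sort_coe, Nat.card_coe_set_eq]
    exact (Set.ncard_le_ncard fun x _ => (em (x ∈ X)).symm.imp (h x) id).trans (Set.ncard_union_le _ _)
  nlinarith

namespace SP
variable {G : Type*} [Group G] {E : Subgroup G} {A : Type*} [AddCommGroup A] [DistribMulAction G A] (S : SP E A)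

/-- the projection as a homomorphism -/
def πh : E →* Multiplicative A :=
  MonoidHom.mk' (fun x => Multiplicative.ofAdd (S.π x)) fun x y => S.π_mul x x.2 y y.2

theorem πh_surj : Function.Surjective S.πh := fun a => by
  obtain ⟨x, hx, e⟩ := S.π_surj a.toAdd
  exact ⟨⟨x, hx⟩, congrArg Multiplicative.ofAdd e⟩

theorem πh_ker : Nat.card S.πh.ker = Nat.card (centralizer (E : Set G)) := by
  rw [← Nat.card_congr (subgroupOfEquivOfLe S.le).toEquiv,
    show S.πh.ker = (centralizer (E : Set G)).subgroupOf E from Subgroup.ext fun x => S.π_eq_zero x x.2]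

include S in
theorem card_E : Nat.card E = Nat.card (centralizer (E : Set G)) * Nat.card A := by
  rw [← S.πh_ker, ← Set.ncard_univ, ← Set.ncard_univ A, ← Set.preimage_univ (f := S.πh)]
  exact ncard_preimage _ S.πh_surj _

theorem π_one : S.π 1 = 0 := (S.π_eq_zero 1 (one_mem _)).mpr (one_mem _)

theorem π_inv {x : G} (hx : x ∈ E) : S.π x⁻¹ = -S.π x := map_inv S.πh ⟨x, hx⟩

theorem π_eq_iff {x y : G} (hx : x ∈ E) (hy : y ∈ E) : S.π x = S.π y ↔ x⁻¹ * y ∈ centralizer (E : Set G) := by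
  rw [← S.π_eq_zero _ (mul_mem (inv_mem hx) hy), S.π_mul _ (inv_mem hx) _ hy, S.π_inv hx, neg_add_eq_zero]

/-- preimages of subspaces -/
def pre (B : AddSubgroup A) : Subgroup G where
  carrier := {x | x ∈ E ∧ S.π x ∈ B}
  one_mem' := ⟨one_mem _, S.π_one ▸ zero_mem _⟩
  mul_mem' := fun hx hy => ⟨mul_mem hx.1 hy.1, S.π_mul _ hx.1 _ hy.1 ▸ add_mem hx.2 hy.2⟩
  inv_mem' := fun hx => ⟨inv_mem hx.1, S.π_inv hx.1 ▸ neg_mem hx.2⟩

theorem le_pre (B : AddSubgroup A) : centralizer (E : Set G) ≤ S.pre B := fun u hu =>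
  ⟨S.le hu, ((S.π_eq_zero u (S.le hu)).mpr hu) ▸ zero_mem _⟩

theorem ncard_pre (X : Set A) :
    {x : E | S.π x ∈ X}.ncard = Nat.card (centralizer (E : Set G)) * X.ncard := by
  rw [← S.πh_ker]; exact ncard_preimage _ S.πh_surj X

/-- images of subgroups -/
def im (D : Subgroup G) : AddSubgroup A where
  carrier := {a | ∃ d ∈ E ⊓ D, S.π d = a}
  zero_mem' := ⟨1, one_mem _, S.π_one⟩
  add_mem' := by
    rintro _ _ ⟨x, hx, rfl⟩ ⟨y, hy, rfl⟩; exact ⟨_, mul_mem hx hy, S.π_mul _ hx.1 _ hy.1⟩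
  neg_mem' := by rintro _ ⟨x, hx, rfl⟩; exact ⟨_, inv_mem hx, S.π_inv hx.1⟩

/-- the symplectic structure -/
def symp : Symp G A where
  f := S.f
  alt a := by obtain ⟨x, hx, rfl⟩ := S.π_surj a; exact (S.f_π x hx x hx).mpr (Commute.refl x)
  inv g a b := by
    obtain ⟨x, hx, rfl⟩ := S.π_surj a
    obtain ⟨y, hy, rfl⟩ := S.π_surj b
    refine zmod2_eq ?_
    rw [← S.π_conj g x hx, ← S.π_conj g y hy, S.f_π _ (S.normal.conj_mem x hx g) _ (S.normal.conj_mem y hy g),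
      S.f_π x hx y hy]
    exact ⟨fun h => (MulAut.conj g).injective (by rw [map_mul, map_mul]; exact h), fun h => h.conj g⟩
  ni B hB h := eq_bot_iff.mpr fun a ha => by
    obtain ⟨x, hx, rfl⟩ := S.π_surj a
    haveI : (S.pre B).Normal := ⟨fun y hy g => ⟨S.normal.conj_mem y hy.1 g, S.π_conj g y hy.1 ▸ hB g _ hy.2⟩⟩
    exact (S.π_eq_zero x hx).mpr (S.max.mem (S.le_pre B) (fun _ h => h.1) ⟨hx, ha⟩
      fun y hy => (S.f_π y hy.1 x hx).mp (h hy.2 _ ha))

theorem nd : Nd S.f ⊤ := fun a _ h => by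
  obtain ⟨x, hx, rfl⟩ := S.π_surj a
  exact (S.π_eq_zero x hx).mpr fun y hy => ((S.f_π x hx y hy).mp (h _ trivial)).symm

end SP

namespace PD
variable {G : Type u} {V : Type*} [Group G] [AddCommGroup V] [DistribMulAction G V] (P : PD G V)

theorem inv_eq {u u' : G} (hu : u ∈ P.U) (hu' : u' ∈ P.U) (h1 : u ≠ 1) (h1' : u' ≠ 1) (h2 : u * u = 1)
    (h2' : u' * u' = 1) : u = u' :=
  P.eq_of_smul hu hu' P.hv₁ (by rw [P.eq_neg hu h1 h2, P.eq_neg hu' h1' h2'])

open Classical in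
theorem chi_mul {u u' : G} (hu : u ∈ P.U) (hu' : u' ∈ P.U) (h2 : u * u = 1) (h2' : u' * u' = 1) :
    (if u * u' = 1 then 0 else 1 : ZMod 2) = (if u = 1 then 0 else 1) + if u' = 1 then 0 else 1 := by
  by_cases h1 : u = 1
  · simp [h1]
  by_cases h1' : u' = 1
  · simp [h1']
  rw [if_neg h1, if_neg h1', if_pos (by rw [P.inv_eq hu hu' h1 h1' h2 h2', h2'])]; rfl

variable (hsq : ∀ x ∈ P.E, x ^ 2 ∈ P.U)
include hsq

theorem cm_sq {x : G} (hx : x ∈ P.E) (y : P.E) : P.cm hx y * P.cm hx y = 1 := by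
  rw [← sq]; exact (P.pow_mem_U hx).mp (hsq x hx) y

theorem D_sq {d : G} (hd : d ∈ P.D) : d * d = 1 := P.eq_one (mul_mem hd hd) (sq d ▸ hsq d hd.1)

theorem exists_SP [Finite G] (hM : MaxC P.E) : ∃ (A : Type u) (_ : AddCommGroup A) (_ : Module (ZMod 2) A)
    (_ : Finite A) (_ : DistribMulAction G A), Nonempty (SP P.E A) := by
  classical
  let Q := P.E ⧸ P.U.subgroupOf P.E
  letI : CommGroup Q := { (inferInstance : Group Q) with
    mul_comm := fun a b => by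
      obtain ⟨a, rfl⟩ := QuotientGroup.mk_surjective a
      obtain ⟨b, rfl⟩ := QuotientGroup.mk_surjective b
      rw [← QuotientGroup.mk_mul, ← QuotientGroup.mk_mul, QuotientGroup.eq, mem_subgroupOf]
      simpa [mul_assoc] using P.comm_mem (inv_mem b.2) (inv_mem a.2) }
  let ψ : G → Q →* Q := fun g => QuotientGroup.map _ _ (MulAut.conjNormal g : MulAut P.E).toMonoidHom
    fun x hx => Normal.conj_mem (inferInstance : P.U.Normal) (x : G) hx g
  have ψmk : ∀ g (x : P.E), ψ g (x : Q) = (MulAut.conjNormal g x : P.E) := fun _ _ => rfl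
  letI : DistribMulAction G (Additive Q) :=
    { smul := fun g a => Additive.ofMul (ψ g a.toMul)
      one_smul := fun a => by
        obtain ⟨x, rfl⟩ := QuotientGroup.mk_surjective (s := P.U.subgroupOf P.E) a
        change ψ 1 (x : Q) = x
        rw [ψmk, map_one, MulAut.one_apply]
      mul_smul := fun g h a => by
        obtain ⟨x, rfl⟩ := QuotientGroup.mk_surjective (s := P.U.subgroupOf P.E) a
        change ψ (g * h) (x : Q) = ψ g (ψ h (x : Q))
        rw [ψmk, ψmk, ψmk, map_mul, MulAut.mul_apply]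
      smul_zero := fun g => map_one (ψ g)
      smul_add := fun g a b => map_mul (ψ g) _ _ }
  let F : P.E → P.E → ZMod 2 := fun x y => if Commute (x : G) y then 0 else 1
  have Fs : ∀ x y, F x y = F y x := fun x y => by simp only [F, Commute.symm_iff]
  have Fa : ∀ x y z, F x (y * z) = F x y + F x z := fun x y z => by
    simp only [F, ← P.cm_eq_one x.2, map_mul]
    exact P.chi_mul (P.cm_mem _ _) (P.cm_mem _ _) (P.cm_sq hsq _ _) (P.cm_sq hsq _ _)
  have Fo : ∀ x y : P.E, F x (y : Q).out = F x y := fun x y => by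
    have h := QuotientGroup.eq.mp (y : Q).out_eq'
    conv_rhs => rw [← mul_inv_cancel_left (y : Q).out y, Fa]
    rw [show F x (_ * y) = 0 from if_pos (h x x.2), add_zero]
  let f : Additive Q →+ Additive Q →+ ZMod 2 := AddMonoidHom.mk' (fun a => AddMonoidHom.mk'
    (fun b => F a.toMul.out b.toMul.out) fun b c => by
      obtain ⟨y, rfl⟩ := QuotientGroup.mk_surjective (s := P.U.subgroupOf P.E) b
      obtain ⟨z, rfl⟩ := QuotientGroup.mk_surjective (s := P.U.subgroupOf P.E) c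
      exact (Fo _ (y * z)).trans ((Fa _ _ _).trans (congrArg₂ _ (Fo _ _).symm (Fo _ _).symm))) fun a b => by
      ext c
      obtain ⟨y, rfl⟩ := QuotientGroup.mk_surjective (s := P.U.subgroupOf P.E) a
      obtain ⟨z, rfl⟩ := QuotientGroup.mk_surjective (s := P.U.subgroupOf P.E) b
      exact (Fs _ _).trans ((Fo _ (y * z)).trans ((Fa _ _ _).trans
        (congrArg₂ _ ((Fo _ _).symm.trans (Fs _ _)) ((Fo _ _).symm.trans (Fs _ _)))))
  let π : G → Additive Q := fun x => if h : x ∈ P.E then Additive.ofMul ((⟨x, h⟩ : P.E) : Q) else 0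
  have hπ : ∀ x (h : x ∈ P.E), π x = Additive.ofMul ((⟨x, h⟩ : P.E) : Q) := fun x h => dif_pos h
  refine ⟨Additive Q, inferInstance, AddCommGroup.zmodModule fun a => ?_, inferInstance, inferInstance,
    ⟨π, f, P.normal, P.hUE, hM, fun x hx y hy => ?_, fun a => ?_, fun x hx => ?_, fun g x hx => ?_,
      fun x hx y hy => ?_⟩⟩
  · obtain ⟨x, rfl⟩ := QuotientGroup.mk_surjective (s := P.U.subgroupOf P.E) a
    exact (QuotientGroup.eq_one_iff (x ^ 2)).mpr (hsq x x.2)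
  · rw [hπ x hx, hπ y hy, hπ _ (mul_mem hx hy)]; rfl
  · obtain ⟨x, rfl⟩ := QuotientGroup.mk_surjective (s := P.U.subgroupOf P.E) a
    exact ⟨x, x.2, hπ _ _⟩
  · rw [hπ x hx]; exact QuotientGroup.eq_one_iff (⟨x, hx⟩ : P.E)
  · rw [hπ x hx, hπ _ (P.normal.conj_mem x hx g)]; rfl
  · rw [hπ x hx, hπ y hy]
    change F _ _ = 0 ↔ _
    erw [Fo, Fs, Fo, Fs]
    simp only [F, ite_eq_left_iff, one_ne_zero, imp_false, not_not]

variable {A : Type*} [AddCommGroup A] [DistribMulAction G A] [Module (ZMod 2) A] [Finite A] [Finite G]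
  (S : SP P.E A)

theorem eq_one_of_gauss {g : G} (hg : g • P.v₁ = P.v₁) (h1 : P.E ⊓ centralizer (P.D : Set G) ≤ P.T hg)
    {Γ : Set P.Ω} (hc : 8 * Γ.ncard < 3 * Nat.card P.Ω)
    (h2 : ∀ x : P.E, (x : P.Ω) ∉ Γ → ∃ y : P.E, (y : P.Ω) = x ∧ g • (y : G) • P.v₁ = (y : G) • P.v₁)
    (ha2 : ∀ a ∈ S.im P.D, ∀ b ∈ S.im P.D, (∀ x, g • x = x + (S.f x a • b + S.f x b • a)) → ∀ x : A, g • x = x) :
    g = 1 := by
  classical
  let δ : G → G := fun x => x⁻¹ * (g * x * g⁻¹)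
  have δE : ∀ x ∈ P.E, δ x ∈ P.E := fun x hx => mul_mem (inv_mem hx) (P.normal.conj_mem _ hx g)
  have h3 : ∀ x : P.E, (x : P.Ω) ∉ Γ → δ x ∈ P.D := fun x hx => by
    obtain ⟨y, e, hy⟩ := h2 x hx
    have h3 := mem_subgroupOf.mp (QuotientGroup.eq.mp e)
    rw [← P.fix_iff hg x.2]
    simpa using P.fix_mul hg y.2 (Subtype.prop _) h3 hy (h1 ⟨Subtype.prop _, h3⟩).2
  have δπ : ∀ x ∈ P.E, ∀ y ∈ P.E, S.π x = S.π y → δ x = δ y := fun x hx y hy h => by
    have hu := (S.π_eq_iff hx hy).mp h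
    calc δ x = (x⁻¹ * y)⁻¹ * ((x⁻¹ * y) * δ x) := by group
      _ = (x⁻¹ * y)⁻¹ * (x⁻¹ * g * x * (g⁻¹ * (x⁻¹ * y))) := by rw [← P.ucomm hu (δE x hx)]; simp only [δ]; group
      _ = _ := by rw [(Commute.inv_left (P.cent_of_T hg h1 hu)).eq]; simp only [δ]; group
  let X : Set A := {a | ∃ x ∈ P.E, S.π x = a ∧ δ x ∉ P.D}
  have hX : ∀ x ∈ P.E, S.π x ∈ X ↔ δ x ∉ P.D := fun x hx =>
    ⟨fun ⟨y, hy, e, h⟩ => δπ y hy x hx e ▸ h, fun h => ⟨x, hx, rfl, h⟩⟩
  have hXc : 8 * X.ncard < 3 * Nat.card A := by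
    have e1 := S.ncard_pre X
    have e2 := ncard_preimage (QuotientGroup.mk' P.N) (QuotientGroup.mk'_surjective _) Γ
    have e3 : {x : P.E | S.π x ∈ X}.ncard ≤ (QuotientGroup.mk' P.N ⁻¹' Γ).ncard :=
      Set.ncard_le_ncard fun x hx => by_contra fun h => (hX x x.2).mp hx (h3 x h)
    have e4 := S.card_E
    rw [QuotientGroup.ker_mk'] at e2
    rw [card_eq_card_quotient_mul_card_subgroup P.N] at e4
    have := Nat.card_pos (α := P.N)
    have := Nat.card_pos (α := P.U)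
    by_contra! h
    nlinarith
  let d : A →+ A := DistribSMul.toAddMonoidHom A g - AddMonoidHom.id A
  have hd : ∀ a, g • a = a + d a := fun a => by simp [d]
  have dπ : ∀ x ∈ P.E, d (S.π x) = S.π (δ x) := fun x hx => by
    rw [S.π_mul _ (inv_mem hx) _ (P.normal.conj_mem _ hx g), S.π_inv hx, S.π_conj g x hx, hd, neg_add_cancel_left]
  have h4 : ∀ a, d a ∈ S.im P.D := fun a => (eq_top_of_half (K := (S.im P.D).comap d) (X := X) (fun a ha => by
    obtain ⟨x, hx, rfl⟩ := S.π_surj a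
    exact ⟨δ x, ⟨δE x hx, not_not.mp ((hX x hx).not.mp ha)⟩, (dπ x hx).symm⟩) (by omega)).ge trivial
  have h5 : ∀ a b, S.f (d a) (d b) = 0 := fun a b => by
    obtain ⟨x, hx, e⟩ := h4 a
    obtain ⟨y, hy, e'⟩ := h4 b
    rw [← e, ← e', S.f_π x hx.1 y hy.1]
    exact P.D_le_cent hy.2 x hx.2
  have key : ∀ x ∈ P.E, δ x * x * δ x = x := fun x hx => by
    calc _ = x⁻¹ * (g * x ^ 2) * g⁻¹ := by simp only [δ, sq]; group
      _ = x := by rw [P.cent_of_T hg h1 (hsq x hx)]; group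
  have h6 := eq_zero_of_supp (s := AddMonoidHom.mk' (fun a => S.f (d a) a) fun a b => by
      have := S.symp.inv g a b
      have e := S.symp.symm (d b) a
      simp only [SP.symp, hd, map_add, AddMonoidHom.add_apply, h5, add_zero] at this e ⊢
      linear_combination this + e)
    (lt_of_le_of_lt (Nat.mul_le_mul_left 2 (Set.ncard_le_ncard (t := X) fun a ha => by_contra fun h => ha (by
      obtain ⟨x, hx, rfl⟩ := S.π_surj a
      have h := P.D_sq hsq (not_not.mp ((hX x hx).not.mp h))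
      change S.f (d _) _ = 0
      rw [dπ x hx, S.f_π _ (δE x hx) x hx]
      calc δ x * x = δ x * (δ x * x * δ x) := by rw [key x hx]
        _ = _ := by rw [← mul_assoc (δ x), ← mul_assoc (δ x), h, one_mul]))) (by omega))
  have h7 : ∀ x ∈ P.E, ∃ c ∈ P.D, ∃ u ∈ P.U, u * u = 1 ∧ δ x = c * u := fun x hx => by
    obtain ⟨c, hc, e⟩ := h4 (S.π x)
    rw [dπ x hx, S.π_eq_iff hc.1 (δE x hx)] at e
    have c1 : Commute (δ x) x := by rw [← S.f_π _ (δE x hx) x hx, ← dπ x hx]; exact h6 _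
    have c2 : δ x * δ x = 1 := by
      have := key x hx
      rwa [c1.eq, mul_assoc, mul_eq_left] at this
    refine ⟨c, hc.2, _, e, ?_, by group⟩
    calc _ = c⁻¹ * (δ x * (c⁻¹ * δ x)) := by group
      _ = (c * c)⁻¹ * (δ x * δ x) := by rw [P.ucomm e (δE x hx)]; group
      _ = 1 := by rw [c2, P.D_sq hsq hc.2, inv_one, one_mul]
  let s : A → ZMod 2 := fun a => if a ∈ X then 1 else 0
  have hs : ∀ x ∈ P.E, ∀ c ∈ P.D, ∀ u ∈ P.U, δ x = c * u → s (S.π x) = if u = 1 then 0 else 1 :=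
    fun x hx c hc u hu e => by
      simp only [s, hX x hx, e, mul_mem_cancel_left hc, ite_not]
      exact if_congr ⟨fun h => P.eq_one h hu, fun h => h ▸ one_mem _⟩ rfl rfl
  have hadd : ∀ a b, s (a + b) = s a + s b + S.f (d a) b := fun a b => by
    obtain ⟨x, hx, rfl⟩ := S.π_surj a
    obtain ⟨y, hy, rfl⟩ := S.π_surj b
    obtain ⟨c, hc, u, hu, hu2, e⟩ := h7 x hx
    obtain ⟨c', hc', u', hu', hu2', e'⟩ := h7 y hy
    have hw := P.cm_mem (inv_mem (δE x hx)) ⟨y⁻¹, inv_mem hy⟩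
    have hw2 := P.cm_sq hsq (inv_mem (δE x hx)) ⟨y⁻¹, inv_mem hy⟩
    have hw3 : P.cm (inv_mem (δE x hx)) ⟨y⁻¹, inv_mem hy⟩ = 1 ↔ S.f (d (S.π x)) (S.π y) = 0 := by
      rw [cm_eq_one, dπ x hx, S.f_π _ (δE x hx) y hy, Commute.inv_inv_iff]
    have e2 : δ (x * y) = δ x * P.cm (inv_mem (δE x hx)) ⟨y⁻¹, inv_mem hy⟩ * δ y := by
      simp only [δ, cm_apply]; group
    generalize P.cm (inv_mem (δE x hx)) ⟨y⁻¹, inv_mem hy⟩ = w at hw hw2 hw3 e2
    have uu : u * u' * (u * u') = 1 := by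
      rw [mul_assoc, ← mul_assoc u', P.ucomm hu (P.hUE hu'), mul_assoc, hu2', mul_one, hu2]
    rw [← S.π_mul x hx y hy, hs _ (mul_mem hx hy) _ (mul_mem hc hc') _ (mul_mem (mul_mem hu hu') hw) (by
      rw [e2, e, e', mul_assoc, ← P.ucomm hw (mul_mem hc'.1 (P.hUE hu')), mul_assoc c, ← mul_assoc u,
        ← mul_assoc u, ← P.ucomm hu hc'.1]; group), hs x hx c hc u hu e, hs y hy c' hc' u' hu' e',
      P.chi_mul (mul_mem hu hu') hw uu hw2, P.chi_mul hu hu' hu2 hu2']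
    congr 1
    exact zmod2_eq (by simp [hw3])
  have hsX : {a | s a ≠ 0} = X := by ext a; simp [s]
  obtain ⟨a, b, ⟨a, rfl⟩, ⟨b, rfl⟩, hab⟩ := gauss S.symp.alt S.nd d s hadd (hsX ▸ hXc)
  have h8 := ha2 _ (h4 a) _ (h4 b) fun x => by rw [hd, hab x]; rfl
  have h9 := eq_zero_of_supp (s := AddMonoidHom.mk' s fun a b => by
    rw [hadd, show d a = 0 from left_eq_add.mp ((h8 a).symm.trans (hd a)), map_zero, AddMonoidHom.zero_apply,
      add_zero]) (by erw [hsX]; omega)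
  refine P.eq_one_of_fix hg fun x hx => (P.fix_iff hg hx).mpr (not_not.mp ((hX x hx).not.mp ?_))
  rw [← hsX]
  exact fun h => h (h9 _)

include S in
theorem exists_sq_eq_one [Finite V] {z : G} (hz : z ∈ P.U) (hz2 : z ^ 2 ≠ 1) (hz4 : z ^ 4 = 1)
    {x : G} (hx : x ∈ P.E) : ∃ u ∈ P.U, (x * u) ^ 2 = 1 := by
  classical
  obtain ⟨ζ, hζ, hU⟩ := P.exists_gen_U le_rfl
  let Q : Subgroup G := zpowers (ζ ^ 2)
  have hQ : ∀ u ∈ P.U, u ^ 2 ∈ Q := fun u hu => by
    obtain ⟨k, rfl⟩ := hU.le hu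
    exact ⟨k, by simp only [← zpow_natCast, ← zpow_mul, mul_comm]⟩
  have hQ' : ∀ u ∈ P.U, ∀ u' ∈ P.U, u ∉ Q → u' ∉ Q → u * u' ∈ Q := fun u hu u' hu' h h' => by
    have : ∀ u ∈ P.U, u ∉ Q → ∃ k : ℤ, u = (ζ ^ 2) ^ k * ζ := fun u hu h => by
      obtain ⟨k, rfl⟩ := hU.le hu
      obtain ⟨j, rfl | rfl⟩ := Int.even_or_odd' k
      · exact absurd ⟨j, by simp only [← zpow_natCast, ← zpow_mul]; rfl⟩ h
      · exact ⟨j, by simp only [← zpow_natCast, ← zpow_mul, zpow_add_one]; rfl⟩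
    obtain ⟨k, rfl⟩ := this u hu h
    obtain ⟨l, rfl⟩ := this u' hu' h'
    exact ⟨k + l + 1, by simp only [← zpow_natCast, ← zpow_mul]; group⟩
  have hmul : ∀ x ∈ P.E, ∀ y ∈ P.E, (x * y) ^ 2 ∈ Q ↔ (x ^ 2 ∈ Q ↔ y ^ 2 ∈ Q) := fun x hx y hy => by
    have hw := P.cm_mem hy ⟨x, hx⟩
    rw [PGroup.mul_pow_of_class_two (c := P.cm hy ⟨x, hx⟩) (by
      rw [P.ucomm hw (mul_mem hx hy)]; simp [cm_apply, mul_assoc]) (P.ucomm hw hx).symm (P.ucomm hw hy).symm,
      mul_mem_cancel_right (by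
        by_cases h : P.cm hy ⟨x, hx⟩ = 1
        · rw [h, one_pow]; exact one_mem _
        · rw [P.inv_eq hw (pow_mem hz 2) h hz2 (P.cm_sq hsq _ _) (by rw [← pow_add, hz4])]
          exact pow_mem (hQ z hz) _)]
    by_cases h1 : x ^ 2 ∈ Q
    · rw [mul_mem_cancel_left h1, iff_true_intro h1, true_iff]
    by_cases h2 : y ^ 2 ∈ Q
    · rw [mul_mem_cancel_right h2, iff_true_intro h2, iff_true]
    exact iff_of_true (hQ' _ (hsq x hx) _ (hsq y hy) h1 h2) (iff_of_false h1 h2)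
  choose o ho ho' using S.π_surj
  have hout : ∀ x ∈ P.E, o (S.π x) ^ 2 ∈ Q ↔ x ^ 2 ∈ Q := fun x hx => by
    have h := (S.π_eq_iff hx (ho _)).mp (ho' (S.π x)).symm
    rw [← mul_inv_cancel_left x (o _), hmul x hx _ (P.hUE h), iff_true_intro (hQ _ h), iff_true]
  let χ : A →+ ZMod 2 := AddMonoidHom.mk' (fun a => if o a ^ 2 ∈ Q then 0 else 1) fun a b => by
    have := hout _ (mul_mem (ho a) (ho b))
    rw [S.π_mul _ (ho a) _ (ho b), ho', ho', hmul _ (ho a) _ (ho b)] at this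
    by_cases h1 : o a ^ 2 ∈ Q <;> by_cases h2 : o b ^ 2 ∈ Q <;> simp_all
    rfl
  have hχ : ∀ x ∈ P.E, χ (S.π x) = 0 ↔ x ^ 2 ∈ Q := fun x hx => by simp [χ, hout x hx]
  obtain ⟨s, -, hs⟩ := exists_dual two_eq S.nd χ
  haveI : Q.Normal := ⟨fun q hq g => by
    obtain ⟨k, rfl⟩ := hq
    have := zpow_mem (hQ _ (Normal.conj_mem inferInstance ζ hζ g)) k
    rwa [conj_pow, conj_zpow] at this⟩
  have h0 : ∀ g : G, g • s = s := fun g => sub_eq_zero.mp (S.nd _ trivial fun a _ => by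
    obtain ⟨y, hy, rfl⟩ := S.π_surj a
    have := S.symp.inv' g s (S.π y)
    simp only [SP.symp] at this
    rw [map_sub, AddMonoidHom.sub_apply, this, hs _ trivial, hs _ trivial, sub_eq_zero, ← S.π_conj _ y hy]
    refine zmod2_eq ?_
    rw [hχ _ (P.normal.conj_mem y hy _), hχ y hy, conj_pow]
    exact (Normal.mem_comm_iff inferInstance).trans (by simp))
  have h1 := S.symp.ni (AddSubgroup.zmultiples s) (by
    rintro g _ ⟨k, rfl⟩; exact ⟨k, by simp [smul_comm g, h0]⟩) (by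
    rintro _ ⟨k, rfl⟩ _ ⟨l, rfl⟩; simp [S.symp.alt s])
  obtain ⟨k, hk⟩ := (hχ x hx).mp (by rw [← hs _ trivial, h1.le (AddSubgroup.mem_zmultiples s)]; simp)
  refine ⟨(ζ ^ k)⁻¹, inv_mem (zpow_mem hζ k), ?_⟩
  rw [Commute.mul_pow (P.ucomm (inv_mem (zpow_mem hζ k)) hx), ← hk]
  simp only [← zpow_natCast, ← zpow_mul]; group

include S in
theorem exists_four_eq_one [Finite V] {x : G} (hx : x ∈ P.E) : ∃ u ∈ P.U, (x * u) ^ 4 = 1 := by
  by_cases h : ∃ z ∈ P.U, z ^ 2 ≠ 1 ∧ z ^ 4 = 1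
  · obtain ⟨z, hz, h2, h4⟩ := h
    obtain ⟨u, hu, e⟩ := P.exists_sq_eq_one hsq S hz h2 h4 hx
    exact ⟨u, hu, by rw [show 4 = 2 * 2 from rfl, pow_mul, e, one_pow]⟩
  push Not at h
  obtain ⟨k, hk | hk⟩ := (orderOf (x ^ 4)).even_or_odd'
  · have h1 : (x ^ 4) ^ (2 * k) = 1 := hk ▸ pow_orderOf_eq_one _
    have h2 : (x ^ 4) ^ k = 1 := by_contra fun h2 => h _ (pow_mem (hsq x hx) k)
      (by convert h2 using 1; simp only [← pow_mul]; ring_nf) (by rw [← h1]; simp only [← pow_mul]; ring_nf)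
    have := Nat.le_of_dvd (by have := orderOf_pos (x ^ 4); omega) (orderOf_dvd_of_pow_eq_one h2)
    have := orderOf_pos (x ^ 4)
    omega
  · refine ⟨(x ^ 2) ^ k, pow_mem (hsq x hx) k, ?_⟩
    rw [← pow_orderOf_eq_one (x ^ 4), hk, ← pow_mul, ← pow_succ', ← pow_mul, ← pow_mul]; ring_nf

end PD

end Cfsg.Agent.Lib.Base
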