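import Cfsg.Agent.Lib.Base.Cop2

/-! Coprime linear groups, the primitive step: the cases with a symplectic quotient. -/

set_option autoImplicit false

namespace Cfsg.Agent.Lib.Base

open Subgroup Cfsg.Agent.Lib.Core
open scoped commutatorElement

universe u v

theorem exists_small_fiber {Ω : Type*} [Finite Ω] (x₀ : Ω) (c : Ω → Fin 4) :
    ∃ i, 4 * {x | x ≠ x₀ ∧ c x = i}.ncard < Nat.card Ω := by
  classical
  haveI := Fintype.ofFinite Ω
  by_contra! h
  have h1 := Finset.card_eq_sum_card_fiberwise (s := Finset.univ.erase x₀) (t := Finset.univ) (f := c)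
    fun _ _ => Finset.mem_univ _
  have h2 : ∀ i, {x | x ≠ x₀ ∧ c x = i}.ncard = ((Finset.univ.erase x₀).filter (c · = i)).card := fun i => by
    rw [← Set.ncard_coe_finset]; congr 1; ext; simp
  simp only [h2, Nat.card_eq_fintype_card] at h
  rw [Finset.card_erase_of_mem (Finset.mem_univ _), Finset.card_univ, Fin.sum_univ_four] at h1
  have := h 0; have := h 1; have := h 2; have := h 3
  have : 0 < Fintype.card Ω := Fintype.card_pos_iff.mpr ⟨x₀⟩
  omega

/-- the span of `U` consists of `U` and zero -/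
def Fld {G : Type*} [Group G] (U : Subgroup G) (V : Type*) [AddCommGroup V] [DistribMulAction G V] : Prop :=
  ∃ R : Subring (AddMonoid.End V), (∀ u ∈ U, DistribMulAction.toAddMonoidEnd G V u ∈ R) ∧
    ∀ r ∈ R, r = 0 ∨ ∃ u ∈ U, DistribMulAction.toAddMonoidEnd G V u = r

theorem SP.card_pre {G : Type*} [Group G] {E : Subgroup G} {A : Type*} [AddCommGroup A] [DistribMulAction G A]
    (S : SP E A) (B : AddSubgroup A) : Nat.card (S.pre B) = Nat.card (centralizer (E : Set G)) * Nat.card B := by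
  rw [← SetLike.coe_sort_coe B, Nat.card_coe_set_eq, ← S.ncard_pre,
    ← Set.ncard_image_of_injective _ Subtype.val_injective, ← Nat.card_coe_set_eq]
  congr 2
  ext x
  exact ⟨fun h => ⟨⟨x, h.1⟩, h.2, rfl⟩, by rintro ⟨y, hy, rfl⟩; exact ⟨y.2, hy⟩⟩

namespace PD
variable {G : Type u} {V : Type*} [Group G] [AddCommGroup V] [DistribMulAction G V] (P : PD G V) [Finite G]
  (hsq : ∀ x ∈ P.E, x ^ 2 ∈ P.U)
include hsq

theorem exists_rigΩ [Group.IsSolvable G] (h3 : ¬ 3 ∣ Nat.card G) : ∃ Γ : Set P.Ω,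
    8 * Γ.ncard < 3 * Nat.card P.Ω ∧ ∀ g (hg : g • P.v₁ = P.v₁), Pres (P.φ hg) Γ → ∀ q, P.φ hg q = q := by
  letI := P.commΩ
  have h1 : ∀ (h : (1 : G) • P.v₁ = P.v₁) q, P.φ h q = q := fun h q => by
    obtain ⟨x, rfl⟩ := QuotientGroup.mk_surjective q
    rw [φ_mk, map_one, MulAut.one_apply]
  letI : DistribMulAction (MulAction.stabilizer G P.v₁) (Additive P.Ω) :=
    { smul := fun g a => Additive.ofMul (P.φ g.2 a.toMul)
      one_smul := fun a => h1 (one_smul _ _) _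
      mul_smul := fun g h a => P.φ_mul g.2 h.2 (g * h).2 _
      smul_zero := fun g => map_one (P.φ g.2)
      smul_add := fun g a b => map_mul (P.φ g.2) _ _ }
  obtain ⟨Γ, r1, r2, r3⟩ := exists_rig (H := MulAction.stabilizer G P.v₁) (A := Additive P.Ω) (fun q => by
    obtain ⟨x, rfl⟩ := QuotientGroup.mk_surjective (s := P.N) q
    exact (QuotientGroup.eq_one_iff (N := P.N) (x * x)).mpr (P.U_le_cent (x := x * x) (sq (x : G) ▸ hsq x x.2)))
    fun h =>
    ⟨Nat.card G, ((Nat.Prime.coprime_iff_not_dvd Nat.prime_three).mpr h3).symm, fun v => by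
      rw [show h ^ Nat.card G = 1 from Subtype.ext pow_card_eq_one', one_smul]⟩
  refine ⟨(Γ : Set (Additive P.Ω)), by erw [Set.ncard_coe_finset]; exact r3, fun g hg h q =>
    r1 ⟨g, hg⟩ (fun x hx => (h x fun e => r2 (e ▸ hx :)).mpr hx) q⟩

variable {A : Type*} [AddCommGroup A] [DistribMulAction G A] [Module (ZMod 2) A] [Finite A] (S : SP P.E A)
include S

theorem base_three [Group.IsSolvable G] {y : V} (hy : P.HasY y) (h3 : ¬ 3 ∣ Nat.card G) :
    ∃ t : Fin 2 → V, ∀ g : G, (∀ k, g • t k = t k) → g = 1 := by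
  obtain ⟨Γ, hΓ, hc⟩ := P.exists_rigΩ hsq h3
  obtain ⟨t, ht⟩ := P.colour0 hy Γ
  refine ⟨t, fun g hg => ?_⟩
  obtain ⟨hg, h1, h2, h4⟩ := ht g hg
  exact P.eq_one_of_gauss hsq S hg h1 hΓ (h4 (hc g hg h2)) fun a _ b _ h x =>
    S.symp.no_a2 h3 ⊤ (fun _ _ _ => trivial) a trivial b trivial (fun x _ => h x) x trivial

theorem base_col4 [Finite V] {y : V} (hy : P.HasY y) (hΩ : IsPGroup 2 P.Ω) {z : G} (hz : z ∈ P.U)
    (hz8 : z ^ 8 ≠ 1) : ∃ t : Fin 2 → V, ∀ g : G, (∀ k, g • t k = t k) → g = 1 := by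
  letI := P.commΩ
  obtain ⟨c, hc⟩ := exists_col4 P.Ω
  obtain ⟨i, hi⟩ := exists_small_fiber 1 c
  obtain ⟨t, ht⟩ := P.colour hy (P.powE 4 fun x hx y _ => by
      rw [show Nat.choose 4 2 = 2 * 3 from rfl, pow_mul, sq, P.cm_sq hsq, one_pow])
    (fun d hd => ⟨hd.1, by rw [show 4 = 2 * 2 from rfl, pow_mul, sq d, P.D_sq hsq hd, one_pow]⟩) (fun q => by
      obtain ⟨x, rfl⟩ := QuotientGroup.mk_surjective q
      obtain ⟨u, hu, e⟩ := P.exists_four_eq_one hsq S x.2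
      exact ⟨x * ⟨u, P.hUE hu⟩, ⟨Subtype.prop _, e⟩, P.mk_mul_U x hu⟩)
    (fun i : Fin 3 => z ^ (i : ℕ)) (fun i => pow_mem hz _) (fun i j h => by
      have h1 : 3 ≤ orderOf (z ^ 4) := by
        by_contra! h1
        have := orderOf_pos (z ^ 4)
        exact hz8 (by
          rw [show 8 = 4 * 2 from rfl, pow_mul, ← orderOf_dvd_iff_pow_eq_one]
          interval_cases orderOf (z ^ 4) <;> norm_num)
      refine Fin.ext (pow_injOn_Iio_orderOf (i.2.trans_le h1) (j.2.trans_le h1) ?_)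
      have := h.2
      rw [Commute.mul_pow ((Commute.pow_pow_self z i j).inv_left), inv_pow, inv_mul_eq_one] at this
      simpa only [← pow_mul, mul_comm] using this)
    fun q => finSuccEquiv' i (c q)
  refine ⟨t, fun g hg => ?_⟩
  obtain ⟨hg, h1, h2, h3⟩ := ht g hg
  have := hc _ (P.φ_injective hg) fun q hq => (finSuccEquiv' i).injective (h2 q hq)
  refine P.eq_one_of_det hg h1 this (det_of_card (r := 2) (fun d _ h => h) (Γ := {x | x ≠ 1 ∧ c x = i})
    (by omega)) fun x hx => h3 this x (or_iff_not_imp_left.mpr fun h e => hx ⟨h, ?_⟩)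
  exact (finSuccEquiv' i).injective (e.trans (finSuccEquiv'_at i).symm)

omit hsq [Finite G] [Module (ZMod 2) A] [Finite A] in
theorem mem_N_iff (x : P.E) : x ∈ P.N ↔ S.π x ∈ perp S.f (S.im P.D) :=
  ⟨by rintro h _ ⟨d, hd, rfl⟩; exact (S.f_π x x.2 d hd.1).mpr (h d hd.2).symm,
    fun h d hd => ((S.f_π x x.2 d hd.1).mp (h _ ⟨d, ⟨hd.1, hd⟩, rfl⟩)).symm⟩

omit hsq in
theorem card_Ω : Nat.card P.Ω = Nat.card (S.im P.D) := by
  have e1 := card_perp two_eq S.symp.alt S.nd (L := S.im P.D) le_top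
  have e2 := S.ncard_pre (perp S.f (S.im P.D))
  have e3 := S.card_E
  rw [show {x : P.E | S.π x ∈ (perp S.f (S.im P.D) : Set A)} = P.N from Set.ext fun x => (P.mem_N_iff S x).symm,
    ← Nat.card_coe_set_eq, ← Nat.card_coe_set_eq, SetLike.coe_sort_coe, SetLike.coe_sort_coe] at e2
  rw [top_inf_eq, AddSubgroup.card_top] at e1
  rw [card_eq_card_quotient_mul_card_subgroup P.N, e1, mul_left_comm] at e3
  exact Nat.eq_of_mul_eq_mul_right Nat.card_pos (e3.trans (congrArg _ e2.symm))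

theorem base_good {y : V} (hy : P.HasY y) {Γ : Finset A} (h : S.symp.Good ⊤ (S.im P.D) Γ) :
    ∃ t : Fin 2 → V, ∀ g : G, (∀ k, g • t k = t k) → g = 1 := by
  have hN : ∀ x : P.E, x ∈ P.N ↔ S.π x ∈ S.im P.D := fun x => by
    rw [P.mem_N_iff S, ← top_inf_eq (perp _ _)]; exact SetLike.ext_iff.mp h.lag _
  obtain ⟨t, ht⟩ := P.colour0 hy {q | ∃ x : P.E, (x : P.Ω) = q ∧ S.π x ∈ Γ}
  refine ⟨t, fun g hg => ?_⟩
  obtain ⟨hg, h1, h2, h4⟩ := ht g hg
  have h5 := h.rig g (by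
    rintro _ ⟨d, hd, rfl⟩
    exact ⟨_, ⟨P.normal.conj_mem d hd.1 g, P.conj_mem_D hg hd.2⟩, S.π_conj g d hd.1⟩) fun a ha => by
      obtain ⟨x, hx, rfl⟩ := S.π_surj a
      obtain ⟨w, e, hw⟩ := (h2 (⟨x, hx⟩ : P.E) fun e => (h.sub _ ha).2
        ((hN _).mp ((QuotientGroup.eq_one_iff _).mp e))).mpr ⟨_, rfl, ha⟩
      refine ⟨_, hw, ?_⟩
      have := (hN _).mp (QuotientGroup.eq.mp (e.trans (P.φ_mk hg _)))
      rw [coe_mul, S.π_mul _ (Subtype.prop _) _ (Subtype.prop _), coe_inv, S.π_inv w.2, neg_add_eq_sub] at this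
      rwa [← S.π_conj g x hx]
  refine P.eq_one_of_gauss hsq S hg h1 ?_ (h4 fun q => ?_) fun a ha b hb e x =>
    h.a2 g a ha b hb (fun x _ => e x) x trivial
  · choose o ho ho' using S.π_surj
    rw [P.card_Ω S]
    refine lt_of_le_of_lt (Nat.mul_le_mul_left 8 ?_) h.card
    rw [← Set.ncard_coe_finset]
    refine (Set.ncard_le_ncard ?_).trans (Set.ncard_image_le (f := fun a => ((⟨o a, ho a⟩ : P.E) : P.Ω)))
    rintro _ ⟨x, rfl, hx⟩
    exact ⟨_, hx, QuotientGroup.eq.mpr (P.U_le_cent ((S.π_eq_iff (ho _) x.2).mp (ho' _)))⟩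
  · obtain ⟨x, rfl⟩ := QuotientGroup.mk_surjective q
    rw [φ_mk, eq_comm, QuotientGroup.eq, hN, coe_mul, S.π_mul _ (Subtype.prop _) _ (Subtype.prop _), coe_inv,
      S.π_inv x.2, neg_add_eq_sub]
    exact S.π_conj g x x.2 ▸ h5 _ trivial

theorem exists_re_lagr [Finite V] {z : G} (hz : z ∈ P.U) (hz2 : z ^ 2 ≠ 1) (hz4 : z ^ 4 = 1)
    {L : AddSubgroup A} (hL : ⊤ ⊓ perp S.f L = L) : ∃ v hv hmax, S.im (P.re v hv hmax).D = L := by
  rw [top_inf_eq] at hL
  obtain ⟨w, hw, -, h1⟩ := exists_max_stab (S.pre L) P.hv₁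
  obtain ⟨v, hv, h2, hmax⟩ := exists_max_stab P.E hw
  have h3 : L ≤ S.im (P.re v hv hmax).D := fun a ha => by
    obtain ⟨x, hx, rfl⟩ := S.π_surj a
    obtain ⟨u, hu, e⟩ := P.exists_sq_eq_one hsq S hz hz2 hz4 hx
    have hy : x * u ∈ S.pre L := mul_mem ⟨hx, ha⟩ (S.le_pre L hu)
    have π0 : ∀ u ∈ P.U, S.π (x * u) = S.π x := fun u hu => by
      rw [S.π_mul x hx u (P.hUE hu), (S.π_eq_zero u (P.hUE hu)).mpr hu, add_zero]
    by_cases h : (x * u) • w + w = 0
    · have hu' := mul_mem hu (pow_mem hz 2)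
      have hy' := mul_mem hx (P.hUE hu')
      refine ⟨x * (u * z ^ 2), ⟨hy', h2 (mem_inf.mpr ⟨hy', ?_⟩)⟩, π0 _ hu'⟩
      rw [MulAction.mem_stabilizer_iff, ← mul_assoc, mul_smul,
        P.eq_neg (pow_mem hz 2) hz2 (by rw [← pow_add, hz4]), smul_neg, eq_neg_of_add_eq_zero_left h, neg_neg]
    · exact ⟨x * u, ⟨hy.1, h2 ⟨hy.1, (h1 _ (fun d hd => by
        rw [smul_add, ← mul_smul, (S.f_π d hd.1.1 _ hy.1).mp (hL.ge hd.1.2 _ hy.2), mul_smul,
          show d • w = w from hd.2]) h _ hy (by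
        rw [smul_add, ← mul_smul, ← sq, e, one_smul, add_comm])).2⟩⟩, π0 u hu⟩
  refine ⟨v, hv, hmax, le_antisymm ?_ h3⟩
  rintro _ ⟨d, hd, rfl⟩
  refine hL.le fun a ha => ?_
  obtain ⟨c, hc, rfl⟩ := h3 ha
  exact (S.f_π d hd.1 c hc.1).mpr ((P.re v hv hmax).D_le_cent hc.2 d hd.2)

omit hsq S in
theorem exists_neg (hF : Fld P.U V) : ∃ z ∈ P.U, ∀ v : V, z • v = -v := by
  obtain ⟨R, -, h⟩ := hF
  rcases h (-1) (neg_mem (one_mem _)) with h | ⟨z, hz, h⟩
  · exact absurd (neg_eq_zero.mp (DFunLike.congr_fun h P.v₁)) P.hv₁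
  · exact ⟨z, hz, DFunLike.congr_fun h⟩

theorem base_bot [Finite V] (hD : P.D = ⊥) (hF : Fld P.U V) {p : ℕ} (hp : p.Prime) (hp2 : p ≠ 2)
    (hV : ∀ v : V, p • v = 0) (hG : ¬ p ∣ Nat.card G) :
    ∃ t : Fin 2 → V, ∀ g : G, (∀ k, g • t k = t k) → g = 1 := by
  have sr : ∀ x ∈ P.E, ∀ v : V, v ≠ 0 → x • v = v → x = 1 := fun x hx v hv h =>
    hD.le (P.hmax v (fun d hd => by rw [hD.le hd, one_smul]) hv x hx h)
  have sr' : ∀ x ∈ P.E, ∀ y ∈ P.E, ∀ v : V, v ≠ 0 → x • v = y • v → x = y := fun x hx y hy v hv h =>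
    (inv_mul_eq_one.mp (sr _ (mul_mem (inv_mem hy) hx) v hv (by rw [mul_smul, h, inv_smul_smul]))).symm
  have cg : ∀ (g : G) (v : V), v ≠ 0 → g • v = v → ∀ x ∈ P.E, g • x • v = x • v →
      x ∈ centralizer ({g} : Set G) := fun g v hv hg x hx h => mem_centralizer_singleton_iff.mpr (by
    rw [← mul_inv_eq_iff_eq_mul.mp (sr' _ (P.normal.conj_mem x hx g) x hx v hv (by
      rw [mul_smul, mul_smul, inv_smul_eq_iff.mpr hg.symm, h]))])
  have fin : ∀ (g : G) (v : V), v ≠ 0 → g • v = v → P.E ≤ centralizer ({g} : Set G) → g = 1 :=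
    fun g v hv hg h => P.hsr g (fun x hx => mem_centralizer_singleton_iff.mp (h hx)) v hv hg
  obtain ⟨ζ, hζ, hU⟩ := P.exists_gen_U le_rfl
  by_cases hE : P.E ≤ P.U
  · exact ⟨![P.v₁, ζ • P.v₁], fun g h => fin g _ P.hv₁ (h 0) (hE.trans (hU.le.trans
      (zpowers_le.mpr (cg g _ P.hv₁ (h 0) ζ (P.hUE hζ) (h 1)))))⟩
  have cop : ∀ {n : ℕ}, ¬ p ∣ n → ∀ v : V, n • v = 0 → v = 0 := fun {n} hn v h =>
    AddMonoid.addOrderOf_eq_one_iff.mp (Nat.eq_one_of_dvd_coprimes ((Nat.Prime.coprime_iff_not_dvd hp).mpr hn)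
      (addOrderOf_dvd_of_nsmul_eq_zero (hV v)) (addOrderOf_dvd_of_nsmul_eq_zero h))
  have two : ∀ v : V, -v = v → v = 0 := fun v h => cop (n := 2)
    (fun h => hp2 ((Nat.prime_dvd_prime_iff_eq hp Nat.prime_two).mp h)) v
    (by rw [two_nsmul, add_eq_zero_iff_eq_neg, h])
  obtain ⟨z, hz, hzv⟩ := P.exists_neg hF
  have inv : ∀ x ∈ P.E, x * x = 1 → x = 1 ∨ x = z := fun x hx h => or_iff_not_imp_left.mpr fun h1 =>
    sr' x hx z (P.hUE hz) _ P.hv₁ (by
      rw [hzv]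
      by_contra h2
      exact h1 (sr x hx (x • P.v₁ + P.v₁) (by rwa [ne_eq, add_eq_zero_iff_eq_neg])
        (by rw [smul_add, ← mul_smul, h, one_smul, add_comm])))
  have invU : ∀ x ∈ P.E, x * x = 1 → x ∈ P.U := fun x hx h => by
    rcases inv x hx h with rfl | rfl
    exacts [one_mem _, hz]
  have zz : z * z = 1 := P.hsr _ (mul_mem hz hz) _ P.hv₁ (by rw [mul_smul, hzv, hzv, neg_neg])
  have four : ∀ x ∈ P.E, x ∉ P.U → ∃ u ∈ P.U, x * u * (x * u) = z := fun x hx h => by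
    obtain ⟨u, hu, e⟩ := P.exists_four_eq_one hsq S hx
    have hy := mul_mem hx (P.hUE hu)
    exact ⟨u, hu, (inv _ (mul_mem hy hy) (by rw [← e]; simp only [pow_succ, pow_zero, one_mul, mul_assoc])).resolve_left fun e =>
      h ((mul_mem_cancel_right hu).mp (invU _ hy e))⟩
  have anti : ∀ x ∈ P.E, ∀ y ∈ P.E, ¬ Commute x y → ∀ v : V, x • y • v = -(y • x • v) := fun x hx y hy h v => by
    have := (inv _ (P.hUE (P.cm_mem hx ⟨y, hy⟩)) (P.cm_sq hsq _ _)).resolve_left fun e => h ((P.cm_eq_one _).mp e)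
    rw [← hzv, ← this, cm_apply]; simp only [← mul_smul]; congr 1; group
  have pm : ∀ a ∈ P.E, ∀ y ∈ P.E, a * a = z → y * y = z → Commute y a →
      (∀ v : V, y • v = a • v) ∨ ∀ v : V, y • v = -(a • v) := fun a ha y hy h1 h2 h => by
    have h3 : ∀ v : V, y • v = -((y * a) • a • v) := fun v => by
      rw [mul_smul, ← mul_smul a, h1, hzv, smul_neg, neg_neg]
    rcases inv _ (mul_mem hy ha) (by rw [h.symm.mul_mul_mul_comm, h1, h2, zz]) with e | e
    · exact Or.inr fun v => by rw [h3, e, one_smul]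
    · exact Or.inl fun v => by rw [h3, e, hzv, neg_neg]
  have cm2 : ∀ x ∈ P.E, ∀ y ∈ P.E, ∀ w ∈ P.E, ¬ Commute x w → ¬ Commute y w → Commute (x * y) w :=
    fun x hx y hy w hw h1 h2 => by
      rw [← S.f_π _ (by assumption) _ hw] at h1 h2
      rw [← S.f_π _ (mul_mem hx hy) _ hw, S.π_mul x hx y hy, map_add, AddMonoidHom.add_apply,
        (zmod2_cases _).resolve_left h1, (zmod2_cases _).resolve_left h2]; rfl
  obtain ⟨i, hi, j, hj, hii, hjj, hij⟩ : ∃ i ∈ P.E, ∃ j ∈ P.E, i * i = z ∧ j * j = z ∧ ¬ Commute i j := by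
    obtain ⟨x, hx, hxU⟩ := SetLike.not_le_iff_exists.mp hE
    obtain ⟨y, hy, h⟩ : ∃ y ∈ P.E, ¬ Commute x y := by
      by_contra! h; exact hxU fun y hy => (h y hy).symm
    obtain ⟨u, hu, e⟩ := four x hx hxU
    obtain ⟨w, hw, e'⟩ := four y hy fun hyU => h (hyU x hx)
    have hy' := mul_mem hy (P.hUE hw)
    refine ⟨_, mul_mem hx (P.hUE hu), _, hy', e, e', fun c => h ?_⟩
    have c1 : Commute x (y * w) := by simpa using c.mul_left (Commute.inv_left (hu _ hy').symm)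
    simpa using c1.mul_right (Commute.inv_right (hw x hx))
  have ii : ∀ v : V, i • i • v = -v := fun v => by rw [← mul_smul, hii, hzv]
  have jj : ∀ v : V, j • j • v = -v := fun v => by rw [← mul_smul, hjj, hzv]
  have ji := anti j hj i hi fun h => hij h.symm
  have core : ∀ x ∈ P.E, Commute x i → Commute x j → x ∈ P.U := fun x hx c1 c2 => by_contra fun h => by
    obtain ⟨u, hu, e⟩ := four x hx h
    have c3 : ∀ v : V, (x * u) • j • v = j • (x * u) • v := fun v => by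
      rw [← mul_smul, ← mul_smul, (c2.mul_left (hu j hj).symm).eq]
    refine P.hv₁ ((smul_eq_zero_iff_eq j).mp ((smul_eq_zero_iff_eq i).mp (two _ ?_)))
    rcases pm i hi _ (mul_mem hx (P.hUE hu)) hii e (c1.mul_left (hu i hi).symm) with h | h
    · rw [← ji, ← h, ← c3, h]
    · rw [← h, c3, h, smul_neg, ji, neg_neg]
  have gen : ∀ T : Subgroup G, P.U ≤ T → i ∈ T → j ∈ T → P.E ≤ T := fun T h0 h1 h2 x hx => by
    by_cases c1 : Commute x i <;> by_cases c2 : Commute x j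
    · exact h0 (core x hx c1 c2)
    · exact (mul_mem_cancel_right h1).mp (h0 (core _ (mul_mem hx hi) (c1.mul_left (Commute.refl i))
        (cm2 x hx i hi j hj c2 hij)))
    · exact (mul_mem_cancel_right h2).mp (h0 (core _ (mul_mem hx hj)
        (cm2 x hx j hj i hi c1 fun h => hij h.symm) (c2.mul_left (Commute.refl j))))
    · exact (mul_mem_cancel_right h1).mp ((mul_mem_cancel_right h2).mp (h0 (core _ (mul_mem (mul_mem hx hi) hj)
        (cm2 _ (mul_mem hx hi) j hj i hi (fun h => c1 (by simpa using h.mul_left (Commute.refl i).inv_left))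
          fun h => hij h.symm) ((cm2 x hx i hi j hj c2 hij).mul_left (Commute.refl j)))))
  obtain ⟨a, b, hab⟩ : ∃ a b : ℤ, ∀ v : V, (a ^ 2 + b ^ 2 + 1) • v = 0 := by
    haveI := Fact.mk hp
    obtain ⟨a, b, h⟩ := ZMod.sq_add_sq p (-1)
    obtain ⟨a, rfl⟩ := ZMod.intCast_surjective a
    obtain ⟨b, rfl⟩ := ZMod.intCast_surjective b
    obtain ⟨k, hk⟩ := (ZMod.intCast_zmod_eq_zero_iff_dvd (a ^ 2 + b ^ 2 + 1) p).mp (by push_cast; rw [h]; ring)
    exact ⟨a, b, fun v => by rw [hk, mul_smul, natCast_zsmul, hV]⟩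
  obtain ⟨v, hv, h1⟩ : ∃ v : V, v ≠ 0 ∧ i • v + a • j • v + b • i • j • v = 0 := by
    by_cases h : i • P.v₁ + a • j • P.v₁ + b • i • j • P.v₁ = 0
    · exact ⟨_, P.hv₁, h⟩
    refine ⟨_, h, ?_⟩
    simp only [smul_add, smul_comm i a, smul_comm i b, smul_comm j a, smul_comm j b, ii, jj, ji, smul_neg, neg_neg]
    generalize i • j • P.v₁ = x3
    generalize j • P.v₁ = x2
    generalize i • P.v₁ = x1
    linear_combination (norm := module) -hab P.v₁
  have h2 : j • v = b • v + a • i • v := by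
    have h2 := congrArg (i • ·) h1
    simp only [smul_add, smul_comm i a, smul_comm i b, ii, smul_zero] at h2
    revert h1 h2
    generalize i • j • v = x3
    generalize j • v = x2
    generalize i • v = x1
    intro h1 h2
    linear_combination (norm := module) hab x2 - a • h1 + b • h2
  have cls : ∀ y ∈ P.E, y * y = z → ∃ α β : ℤ, y • v = α • v + β • i • v := fun y hy h => by
    by_cases c1 : Commute y i
    · rcases pm i hi y hy hii h c1 with e | e
      exacts [⟨0, 1, by simp [e]⟩, ⟨0, -1, by simp [e]⟩]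
    by_cases c2 : Commute y j
    · rcases pm j hj y hy hjj h c2 with e | e
      exacts [⟨b, a, by rw [e, h2]⟩, ⟨-b, -a, by rw [e, h2, neg_add, neg_smul, neg_smul]⟩]
    have h3 : (i * j) • v = (-a) • v + b • i • v := by
      rw [mul_smul, h2, smul_add, smul_comm i a, smul_comm i b, ii, add_comm, neg_smul, smul_neg]
    rcases pm _ (mul_mem hi hj) y hy (sr' _ (mul_mem (mul_mem hi hj) (mul_mem hi hj)) z (P.hUE hz) v hv (by
      simp only [mul_smul, ji, smul_neg, ii, jj, hzv, neg_neg])) h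
      (cm2 i hi j hj y hy (fun h => c1 h.symm) fun h => c2 h.symm).symm with e | e
    exacts [⟨-a, b, by rw [e, h3]⟩, ⟨a, -b, by rw [e, h3, neg_add, neg_smul, neg_smul, neg_neg]⟩]
  refine ⟨![v, ζ • v + i • v], fun g h => ?_⟩
  have hg : g • v = v := h 0
  have hg' : ∀ x : G, (g * x * g⁻¹) • v = g • x • v := fun x => by
    rw [mul_smul, mul_smul, inv_smul_eq_iff.mpr hg.symm]
  have hζ' := Normal.conj_mem inferInstance ζ hζ g
  obtain ⟨α, β, h3⟩ := cls _ (P.normal.conj_mem i hi g) (by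
    rw [conj_mul, hii]
    exact P.eq_of_smul (Normal.conj_mem inferInstance z hz g) hz hv (by rw [hg', hzv, smul_neg, hg]))
  have h4 : (g * ζ * g⁻¹) • v + (g * i * g⁻¹) • v = ζ • v + i • v := by rw [hg', hg', ← smul_add]; exact h 1
  obtain ⟨R, hR, hR'⟩ := hF
  have h5 := hR' _ (add_mem (sub_mem (hR _ hζ') (hR _ hζ)) (intCast_mem R α))
  have h6 := hR' _ (sub_mem (one_mem _) (intCast_mem R β))
  have h7 : ∀ {r s : AddMonoid.End V}, r = s → ∀ w, r w = s w := fun h => DFunLike.congr_fun h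
  have h8 : (g * ζ * g⁻¹) • v - ζ • v + α • v = i • v - β • i • v := by
    linear_combination (norm := abel) h4 - h3
  have h9 : i • v - β • i • v = 0 := by
    rcases h6 with h6 | ⟨u, hu, h6⟩
    · exact h7 h6 _
    have e1 : u • i • v = _ := (h7 h6 _).trans h8.symm
    rcases h5 with h5 | ⟨w, hw, h5⟩
    · exact absurd ((smul_eq_zero_iff_eq i).mp ((smul_eq_zero_iff_eq u).mp (e1.trans (h7 h5 v)))) hv
    have := sr' _ (mul_mem (P.hUE hu) hi) w (P.hUE hw) v hv (by rw [mul_smul]; exact e1.trans (h7 h5 v).symm)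
    exact absurd (((mul_mem_cancel_left hu).mp (this ▸ hw)) j hj).symm hij
  have h10 : ∀ w : V, (g * ζ * g⁻¹) • w = ζ • w - α • w := fun w => by
    rcases h5 with h5 | ⟨u, hu, h5⟩
    · have : (g * ζ * g⁻¹) • w - ζ • w + α • w = 0 := h7 h5 w
      linear_combination (norm := abel) this
    · exact absurd ((smul_eq_zero_iff_eq u).mp ((h7 h5 v).trans (h8.trans h9))) hv
  have h11 : ∀ (k : ℕ) (w : V), (g ^ k * ζ * (g ^ k)⁻¹) • w = ζ • w - k • α • w := fun k => by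
    induction k with
    | zero => simp
    | succ k ih =>
      intro w
      have := h10 w
      rw [show g ^ (k + 1) * ζ * (g ^ (k + 1))⁻¹ = g * (g ^ k * ζ * (g ^ k)⁻¹) * g⁻¹ by group, mul_smul, mul_smul,
        ih, smul_sub, smul_comm g k, smul_comm g α, smul_inv_smul, ← mul_smul, ← mul_smul, this, succ_nsmul]
      abel
  have h12 : α • v = 0 := cop hG _ (by simpa [eq_sub_iff_add_eq] using h11 (Nat.card G) v)
  have h13 : g • i • v = i • v := by rw [← hg', h3, h12, zero_add, eq_comm, ← sub_eq_zero, h9]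
  refine fin g v hv hg (gen _ (hU.le.trans (zpowers_le.mpr (cg g v hv hg ζ (P.hUE hζ) ?_)))
    (cg g v hv hg i hi h13) (cg g v hv hg j hj ?_))
  · rw [← hg', h10, h12, sub_zero]
  · rw [h2, smul_add, smul_comm g a, smul_comm g b, hg, h13]

end PD

end Cfsg.Agent.Lib.Base
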