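import Cfsg.Agent.Lib.Base.Cop3

/-! Coprime linear groups, the primitive step: the counting argument. -/

set_option autoImplicit false

namespace Cfsg.Agent.Lib.Base

open Subgroup Cfsg.Agent.Lib.Core
open scoped commutatorElement

universe u v

theorem ncard_le_of_fiber {X Y : Type*} [Finite X] [Finite Y] (s : Set X) (f : X → Y) (n : ℕ)
    (h : ∀ x ∈ s, {y ∈ s | f y = f x}.ncard ≤ n) : s.ncard ≤ n * Nat.card Y := by
  classical
  haveI := Fintype.ofFinite X
  haveI := Fintype.ofFinite Y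
  rw [Set.ncard_eq_toFinset_card', Nat.card_eq_fintype_card]
  refine (Finset.card_le_mul_card_image (f := f) _ n fun b hb => ?_).trans
    (Nat.mul_le_mul_left n (Finset.card_le_univ _))
  obtain ⟨x, hx, rfl⟩ := Finset.mem_image.mp hb
  convert h x (Set.mem_toFinset.mp hx) using 1
  rw [← Set.ncard_coe_finset]; congr 1; ext; simp

theorem card_mul_le {V : Type*} [AddCommGroup V] [Finite V] (X Y : AddSubgroup V) :
    Nat.card X * Nat.card Y ≤ Nat.card (X ⊓ Y : AddSubgroup V) * Nat.card V := by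
  rw [← Nat.card_prod, ← Set.ncard_univ]
  refine ncard_le_of_fiber _ (fun x : X × Y => (x.1 : V) - x.2) _ fun x _ => ?_
  rw [← SetLike.coe_sort_coe (X ⊓ Y), Nat.card_coe_set_eq]
  refine Set.ncard_le_ncard_of_injOn (fun y => (y.1 : V) - x.1) (fun y hy => ⟨X.sub_mem y.1.2 x.1.2, ?_⟩)
    fun y hy z hz e => ?_
  · rw [sub_eq_sub_iff_sub_eq_sub.mp hy.2]; exact Y.sub_mem y.2.2 x.2.2
  · have e1 := sub_left_injective e
    exact Prod.ext (Subtype.ext e1) (Subtype.ext (sub_right_injective (e1 ▸ hy.2.trans hz.2.symm :)))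

theorem card_fix_sq {G V : Type*} [Group G] [AddCommGroup V] [Finite V] [DistribMulAction G V] (g x : G) :
    Nat.card (fixE V g) ^ 2 ≤ Nat.card (fixE V (x⁻¹ * (g * x * g⁻¹))) * Nat.card V := by
  have h1 : Nat.card (fixE V g) ≤ Nat.card (fixE V (x⁻¹ * g * x)) := Nat.card_le_card_of_injective
    (fun v => ⟨x⁻¹ • v.1, by rw [mem_fixE, mul_smul, mul_smul, smul_inv_smul, mem_fixE.mp v.2]⟩)
    fun v w h => Subtype.ext (MulAction.injective x⁻¹ (congrArg Subtype.val h))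
  refine (sq (M := ℕ) _).le.trans ((Nat.mul_le_mul_left _ h1).trans ((card_mul_le _ _).trans
    (Nat.mul_le_mul_right _ (AddSubgroup.card_le_of_le fun v hv => ?_))))
  rw [mem_fixE, ← mul_assoc, ← mul_assoc, mul_smul, inv_smul_eq_iff.mpr (mem_fixE.mp hv.1).symm]
  exact hv.2

theorem exists_of_sum_lt {G V : Type*} [Group G] [Fintype G] [DecidableEq G] [AddCommGroup V] [Finite V]
    [DistribMulAction G V] (h : ∑ g ∈ Finset.univ.erase (1 : G), Nat.card (fixE V g) ^ 2 < Nat.card V ^ 2) :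
    ∃ t : Fin 2 → V, ∀ g : G, (∀ k, g • t k = t k) → g = 1 := by
  classical
  haveI := Fintype.ofFinite V
  by_contra! hn
  refine h.not_ge ?_
  calc Nat.card V ^ 2 = (Finset.univ : Finset (V × V)).card := by simp [sq]
    _ ≤ ((Finset.univ.erase (1 : G)).biUnion fun g => (Finset.univ.filter fun v : V => g • v = v) ×ˢ
        (Finset.univ.filter fun v : V => g • v = v)).card := Finset.card_le_card fun x _ => by
        obtain ⟨g, h1, h2⟩ := hn ![x.1, x.2]
        simpa [h2] using ⟨g, h2, h1 0, h1 1⟩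
    _ ≤ _ := Finset.card_biUnion_le.trans (Finset.sum_le_sum fun g _ => by
        rw [Finset.card_product, ← sq, ← Nat.subtype_card (p := (· ∈ fixE V g)) _ fun x => by simp [mem_fixE]])

theorem num_bound {k : ℕ} (hk : 16 ≤ k) : 44 * (2 * k) ^ 7 ≤ 10 * 5 ^ k ∧ 20 * k < 5 ^ k := by
  induction k, hk using Nat.le_induction with
  | base => norm_num
  | succ k hk ih =>
    refine ⟨?_, by rw [pow_succ]; omega⟩
    have h1 : (16 * (k + 1)) ^ 7 ≤ (17 * k) ^ 7 := Nat.pow_le_pow_left (by omega) 7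
    have := ih.1
    rw [mul_pow] at this ⊢
    rw [mul_pow, mul_pow] at h1
    rw [pow_succ 5]
    omega

namespace PD
variable {G : Type u} {V : Type*} [Group G] [AddCommGroup V] [DistribMulAction G V] (P : PD G V) [Finite G]

theorem pow_le_card_V [Finite V] {p : ℕ} (hp : p.Prime) (hV : ∀ v : V, p • v = 0) :
    p ^ Nat.card P.Ω ≤ Nat.card V := by
  haveI := Fintype.ofFinite P.Ω
  haveI := Fact.mk hp
  letI : Module (ZMod p) V := AddCommGroup.zmodModule hV
  let w : P.Ω → V := fun q => ((q.out : P.E) : G) • P.v₁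
  rw [← Nat.card_zmod p, ← Nat.card_fun]
  refine Nat.card_le_card_of_injective (fun c => ∑ q, c q • w q) fun c d h => funext fun q => ?_
  have := P.indep (fun q => (c q - d q) • w q)
    (fun q => ZMod.smul_mem (P.out_smul_mem_W q P.v₁_mem) _) (by
      simp only [sub_smul, Finset.sum_sub_distrib, sub_eq_zero]; exact h) q
  by_contra hn
  refine P.hv₁ ((smul_eq_zero_iff_eq ((q.out : P.E) : G)).mp ?_)
  simpa [smul_smul, inv_mul_cancel₀ (sub_ne_zero.mpr hn)] using congrArg ((c q - d q)⁻¹ • ·) this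

variable (hsq : ∀ x ∈ P.E, x ^ 2 ∈ P.U) {A : Type*} [AddCommGroup A] [DistribMulAction G A] [Module (ZMod 2) A]
  [Finite A] (S : SP P.E A)
include hsq S

theorem mem_of_triv (hc : ∀ g : G, ∀ u ∈ P.U, g * u = u * g) {g : G} (hg : ∀ a : A, g • a = a) : g ∈ P.E := by
  classical
  let δ : G → G := fun x => x⁻¹ * (g * x * g⁻¹)
  have δU : ∀ x ∈ P.E, δ x ∈ P.U := fun x hx =>
    (S.π_eq_iff hx (P.normal.conj_mem x hx g)).mp (by rw [S.π_conj g x hx, hg])
  have δm : ∀ x ∈ P.E, ∀ y ∈ P.E, δ (x * y) = δ x * δ y := fun x hx y hy => by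
    calc _ = y⁻¹ * δ x * y * δ y := by simp only [δ]; group
      _ = _ := by rw [P.ucomm (δU x hx) (inv_mem hy)]; group
  have δ1 : ∀ u ∈ P.U, δ u = 1 := fun u hu => by simp only [δ, hc g u hu]; group
  have δ2 : ∀ x ∈ P.E, δ x * δ x = 1 := fun x hx => by rw [← δm x hx x hx, ← sq, δ1 _ (hsq x hx)]
  choose o ho ho' using S.π_surj
  have δo : ∀ x ∈ P.E, δ (o (S.π x)) = δ x := fun x hx => by
    have h := (S.π_eq_iff hx (ho _)).mp (ho' (S.π x)).symm
    rw [← mul_inv_cancel_left x (o _), δm x hx _ (P.hUE h), δ1 _ h, mul_one]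
  obtain ⟨s, -, hs⟩ := exists_dual two_eq S.nd (AddMonoidHom.mk' (fun a => if δ (o a) = 1 then 0 else 1)
    fun a b => by
      rw [← P.chi_mul (δU _ (ho a)) (δU _ (ho b)) (δ2 _ (ho a)) (δ2 _ (ho b)), ← δm _ (ho a) _ (ho b),
        ← δo _ (mul_mem (ho a) (ho b)), S.π_mul _ (ho a) _ (ho b), ho', ho'])
  refine (mul_mem_cancel_left (inv_mem (ho s))).mp (P.hUE fun y hy => ?_)
  have h1 : Commute (o s) y ↔ δ y = 1 := by
    rw [← S.f_π _ (ho s) y hy, ho', hs _ trivial, ← δo y hy]; simp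
  have h2 : P.cm (ho s) ⟨y, hy⟩ = δ y := by
    by_cases h : δ y = 1
    · rw [h, cm_eq_one]; exact h1.mpr h
    · exact P.inv_eq (P.cm_mem _ _) (δU y hy) (fun e => h (h1.mp ((P.cm_eq_one _).mp e))) h (P.cm_sq hsq _ _)
        (δ2 y hy)
  calc y * ((o s)⁻¹ * g) = (o s)⁻¹ * (P.cm (ho s) ⟨y, hy⟩ * y) * g := by simp only [cm_apply]; group
    _ = _ := by rw [h2, ← P.ucomm (δU y hy) hy]; simp only [δ]; group

theorem base_count [Finite V] [Group.IsSolvable G] (hc : ∀ g : G, ∀ u ∈ P.U, g * u = u * g)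
    (h4 : Nat.card P.U = 4) {k : ℕ} (hk : 16 ≤ k) (hA : Nat.card A = (2 * k) * (2 * k))
    (hV : 5 ^ (2 * k) ≤ Nat.card V) : ∃ t : Fin 2 → V, ∀ g : G, (∀ k, g • t k = t k) → g = 1 := by
  classical
  haveI := Fintype.ofFinite G
  obtain ⟨t, ht⟩ := base_of_cr (G := G) (V := A) (κ := Fin 3) (fun B hB => ⟨perp S.f B,
    fun g v hv => S.symp.perp_inv (Z := ⊤) (fun g _ => hB g) g trivial v hv,
    eq_bot_iff.mpr fun x hx => S.symp.nd hB x hx.1 hx.2, eq_top_iff.mpr fun x _ => by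
      obtain ⟨s, hs, e⟩ := exists_dual two_eq (S.symp.nd hB) (S.f x)
      exact AddSubgroup.mem_sup.mpr ⟨s, hs, x - s, fun y hy => by simp [← e y hy, SP.symp], by simp⟩⟩)
    fun U _ h => exists_base3_irr _ _ h
  have fib : ∀ {g g' : G}, (fun k => g' • t k) = (fun k => g • t k) → g⁻¹ * g' ∈ P.E := fun {g g'} h =>
    P.mem_of_triv hsq S hc (ht _ fun k => by rw [mul_smul, congrFun h k, inv_smul_smul])
  have cA : Nat.card (Fin 3 → A) = (2 * k) ^ 6 := by rw [Nat.card_fun, hA, Nat.card_eq_fintype_card]; simp; ring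
  have cnt : ∀ (s : Set G) (n : ℕ), (∀ g ∈ s, ∃ B : AddSubgroup A, Nat.card B ≤ n ∧
      ∀ g' ∈ s, g⁻¹ * g' ∈ P.E → S.π (g⁻¹ * g') ∈ B) → s.ncard ≤ 4 * n * (2 * k) ^ 6 := fun s n h => by
    rw [← cA]
    refine ncard_le_of_fiber s (fun g k => g • t k) _ fun g hg => ?_
    obtain ⟨B, h1, h2⟩ := h g hg
    refine le_trans ?_ (Nat.mul_le_mul_left 4 h1)
    rw [← h4, ← S.card_pre, ← SetLike.coe_sort_coe (S.pre B), Nat.card_coe_set_eq]
    exact Set.ncard_le_ncard_of_injOn (g⁻¹ * ·) (fun g' hg' => ⟨fib hg'.2, h2 g' hg'.1 (fib hg'.2)⟩)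
      fun _ _ _ _ e => mul_left_cancel e
  have c1 := cnt Set.univ _ fun g _ => ⟨⊤, (AddSubgroup.card_top.trans hA).le, fun _ _ _ => trivial⟩
  let δ : G → G → G := fun g x => x⁻¹ * (g * x * g⁻¹)
  have δE : ∀ g, ∀ x ∈ P.E, δ g x ∈ P.E := fun g x hx => mul_mem (inv_mem hx) (P.normal.conj_mem _ hx g)
  have hV0 : 0 < Nat.card V := Nat.card_pos
  have fU : ∀ u ∈ P.U, u ≠ 1 → Nat.card (fixE V u) = 1 := fun u hu h =>
    AddSubgroup.card_eq_one.mpr (eq_bot_iff.mpr fun v hv => by_contra fun h0 => h (P.hsr u hu v h0 hv))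
  have nc : ∀ g ∉ P.U, ∃ x ∈ P.E, δ g x ≠ 1 := fun g hg => by
    by_contra! h
    exact hg fun x hx => by simpa [δ, inv_mul_eq_one, eq_mul_inv_iff_mul_eq] using h x hx
  let X : Set G := {g | g ≠ 1 ∧ Nat.card V < Nat.card (fixE V g) ^ 2}
  have x1 : ∀ g ∈ X, ∀ x ∈ P.E, Nat.card (fixE V (δ g x)) ≠ 1 := fun g hg x _ h =>
    hg.2.not_ge (by simpa [h, δ] using card_fix_sq (V := V) g x)
  have x2 : ∀ g ∈ X, ∀ x ∈ P.E, δ g x ∈ P.U → δ g x = 1 := fun g hg x hx h =>
    by_contra fun h1 => x1 g hg x hx (fU _ h h1)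
  have x3 : ∀ g ∈ X, ∀ x ∈ P.E, δ g x * δ g x = 1 := fun g hg x hx => by_contra fun h1 => x1 g hg x hx
    (le_antisymm ((AddSubgroup.card_le_of_le fun v hv => by
      rw [mem_fixE, mul_smul, mem_fixE.mp hv, mem_fixE.mp hv]).trans (fU _ (sq (δ g x) ▸ hsq _ (δE g x hx)) h1).le)
      Nat.card_pos)
  have x4 : ∀ g ∈ P.E, g ∉ X := fun g hg h => by
    by_cases hu : g ∈ P.U
    · have := h.2; rw [fU g hu h.1] at this; omega
    obtain ⟨x, hx, h1⟩ := nc g hu
    exact h1 (x2 g h x hx (by simpa [δ, mul_assoc] using P.comm_mem (inv_mem hx) hg))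
  have c2 := cnt X (2 * k) fun g hg => by
    let d : A →+ A := DistribSMul.toAddMonoidHom A g - AddMonoidHom.id A
    have dπ : ∀ x ∈ P.E, d (S.π x) = S.π (δ g x) := fun x hx => by
      rw [S.π_mul _ (inv_mem hx) _ (P.normal.conj_mem _ hx g), S.π_inv hx, S.π_conj g x hx, neg_add_eq_sub]; rfl
    have e1 := card_perp two_eq S.symp.alt S.nd (L := d.range) le_top
    have e2 := card_perp two_eq S.symp.alt S.nd (L := fixE A g) le_top
    rw [top_inf_eq, AddSubgroup.card_top, hA] at e1 e2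
    have e3 : d.range ≤ perp S.symp.f d.range := by
      rintro _ ⟨a, rfl⟩ _ ⟨b, rfl⟩
      obtain ⟨x, hx, rfl⟩ := S.π_surj a
      obtain ⟨y, hy, rfl⟩ := S.π_surj b
      have hy' := inv_mem hy
      have h1 := P.normal.conj_mem _ (δE g x hx) y⁻¹
      rw [dπ x hx, dπ y hy, show S.π (δ g x) = S.π (y⁻¹ * δ g x * y⁻¹⁻¹) by
        rw [S.π_mul _ (mul_mem hy' (δE g x hx)) _ (inv_mem hy'), S.π_mul _ hy' _ (δE g x hx), S.π_inv hy']; abel]
      refine (S.f_π _ h1 _ (δE g y hy)).mpr ?_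
      have h2 := x3 g hg _ (mul_mem hx hy)
      rw [show δ g (x * y) = y⁻¹ * δ g x * y⁻¹⁻¹ * δ g y by simp only [δ]; group] at h2
      have h3 : y⁻¹ * δ g x * y⁻¹⁻¹ * (y⁻¹ * δ g x * y⁻¹⁻¹) = 1 := by rw [conj_mul, x3 g hg x hx]; group
      rw [Commute, SemiconjBy, eq_inv_of_mul_eq_one_left h2, mul_inv_rev, inv_eq_of_mul_eq_one_left h3,
        inv_eq_of_mul_eq_one_left (x3 g hg y hy)]
    have e4 : perp S.symp.f d.range ≤ fixE A g := fun a ha => by
      rw [mem_fixE, smul_eq_iff_eq_inv_smul, eq_comm, ← sub_eq_zero]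
      refine S.nd _ trivial fun b _ => ?_
      have h1 := ha _ ⟨b, rfl⟩
      have h2 := S.symp.inv' g⁻¹ a b
      simp only [SP.symp, d, inv_inv] at h1 h2
      simpa [h2] using h1
    refine ⟨perp S.symp.f (fixE A g), ?_, fun g' hg' he a ha => ?_⟩
    · have := AddSubgroup.card_le_of_le e3
      have := AddSubgroup.card_le_of_le e4
      have : 2 * k ≤ Nat.card (fixE A g) := by by_contra; nlinarith
      by_contra; nlinarith
    obtain ⟨x, hx, rfl⟩ := S.π_surj a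
    have h1 : ∀ g ∈ X, g • S.π x = S.π x → Commute g x := fun g hg h => by
      have := x2 g hg x hx ((S.π_eq_iff hx (P.normal.conj_mem x hx g)).mp (by rw [S.π_conj g x hx, h]))
      exact (eq_mul_inv_iff_mul_eq.mp (inv_mul_eq_one.mp this)).symm
    refine (S.f_π _ he x hx).mpr ((h1 g hg ha).inv_left.mul_left (h1 g' hg' ?_))
    rw [← mul_inv_cancel_left g g', mul_smul, ← S.π_conj _ x hx, S.π_mul _ (mul_mem he hx) _ (inv_mem he),
      S.π_mul _ he _ hx, S.π_inv he, add_neg_cancel_comm]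
    exact ha
  refine exists_of_sum_lt (Nat.lt_of_mul_lt_mul_left (a := 5 ^ k * 5 ^ k) ?_)
  rw [← pow_add, ← two_mul] at *
  have b1 : ∀ g ∈ Finset.univ.erase (1 : G), 5 ^ (2 * k) * Nat.card (fixE V g) ^ 2 ≤
      (1 + if g ∈ X then 5 ^ k else 0) * Nat.card V ^ 2 := fun g hg => by
    have hg1 := Finset.ne_of_mem_erase hg
    split_ifs with h
    · obtain ⟨x, hx, h1⟩ := nc g fun hu => x4 g (P.hUE hu) h
      have h2 := card_fix_sq (V := V) g x
      have h3 : Nat.card (fixE V (δ g x)) ^ 2 ≤ Nat.card V := not_lt.mp fun e => x4 _ (δE g x hx) ⟨h1, e⟩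
      have h5 : 5 ^ k * Nat.card (fixE V (δ g x)) ≤ Nat.card V := by
        rw [← Nat.pow_le_pow_iff_left two_ne_zero, mul_pow, ← pow_mul, mul_comm k, sq (Nat.card V)]
        exact Nat.mul_le_mul hV h3
      rw [two_mul, pow_add]
      calc _ ≤ 5 ^ k * (5 ^ k * Nat.card (fixE V (δ g x))) * Nat.card V := by
            rw [← mul_assoc, mul_assoc (_ * _)]; exact Nat.mul_le_mul_left _ h2
        _ ≤ 5 ^ k * Nat.card V * Nat.card V := by gcongr
        _ ≤ _ := by nlinarith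
    · rw [add_zero, one_mul, sq (Nat.card V)]
      exact Nat.mul_le_mul hV (not_lt.mp fun e => h ⟨hg1, e⟩)
  rw [Finset.mul_sum]
  refine (Finset.sum_le_sum b1).trans_lt ?_
  rw [← Finset.sum_mul]
  refine Nat.mul_lt_mul_of_pos_right ?_ (by positivity)
  refine (Finset.sum_le_sum_of_subset (Finset.subset_univ _)).trans_lt ?_
  rw [Finset.sum_add_distrib, ← Finset.sum_filter, Finset.sum_const, Finset.sum_const, smul_eq_mul, smul_eq_mul,
    mul_one, Finset.card_univ, ← Nat.card_eq_fintype_card, ← Set.ncard_univ,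
    show (Finset.univ.filter (· ∈ X)).card = X.ncard by rw [← Set.ncard_coe_finset]; congr 1; ext; simp]
  obtain ⟨n1, n2⟩ := num_bound hk
  rw [show 5 ^ (2 * k) = 5 ^ k * 5 ^ k by ring]
  generalize 5 ^ k = m at *
  have : 11 * X.ncard ≤ 10 * m := le_trans (by nlinarith) n1
  have : 11 * (Set.univ : Set G).ncard ≤ 10 * m * (2 * k) :=
    le_trans (by nlinarith) (Nat.mul_le_mul_right (2 * k) n1)
  nlinarith

end PD

end Cfsg.Agent.Lib.Base
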