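import Cfsg.Agent.Lib.Base.Cop4
import Cfsg.Agent.Lib.Misc.Maschke

/-! Coprime solvable linear groups have a base of size two. -/

set_option autoImplicit false

namespace Cfsg.Agent.Lib.Base

open Subgroup Cfsg.Agent.Lib.Core
open scoped commutatorElement

universe u v

theorem eq_zero_of_nsmul {V : Type*} [AddCommGroup V] {p n : ℕ} (hp : p.Prime) (hV : ∀ v : V, p • v = 0)
    (hn : ¬ p ∣ n) {v : V} (h : n • v = 0) : v = 0 :=
  AddMonoid.addOrderOf_eq_one_iff.mp (Nat.eq_one_of_dvd_coprimes ((Nat.Prime.coprime_iff_not_dvd hp).mpr hn)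
    (addOrderOf_dvd_of_nsmul_eq_zero (hV v)) (addOrderOf_dvd_of_nsmul_eq_zero h))

namespace PD
variable {G : Type u} {V : Type*} [Group G] [AddCommGroup V] [DistribMulAction G V] (P : PD G V) [Finite G]
  [Finite V] {p : ℕ} (hp : p.Prime) (hV : ∀ v : V, p • v = 0)
include hp hV

theorem dvd_card_U (hF : Fld P.U V) : p ∣ Nat.card P.U + 1 := by
  obtain ⟨R, h1, h2⟩ := hF
  haveI := Fact.mk hp
  let X : AddSubgroup V := R.toAddSubgroup.map (AddMonoidHom.eval P.v₁)
  have e : (X : Set V) = insert 0 (Set.range fun u : P.U => (u : G) • P.v₁) := Set.Subset.antisymm (by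
    rintro _ ⟨r, hr, rfl⟩
    rcases h2 r hr with rfl | ⟨u, hu, rfl⟩
    exacts [Or.inl rfl, Or.inr ⟨⟨u, hu⟩, rfl⟩]) (by
    rintro _ (rfl | ⟨u, rfl⟩)
    exacts [zero_mem X, ⟨_, h1 u u.2, rfl⟩])
  have := X.addOrderOf_dvd_natCard (x := P.v₁) ⟨(1 : AddMonoid.End V), one_mem R, rfl⟩
  rwa [addOrderOf_eq_prime (hV _) P.hv₁, ← SetLike.coe_sort_coe X, Nat.card_coe_set_eq, e,
    Set.ncard_insert_of_notMem (by rintro ⟨u, h⟩; exact P.hv₁ ((smul_eq_zero_iff_eq _).mp h)),
    Set.ncard_range_of_injective fun u w h => Subtype.ext (P.eq_of_smul u.2 w.2 P.hv₁ h)] at this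

variable (hp2 : p ≠ 2) (hG : ¬ p ∣ Nat.card G) (hM : MaxC P.E)
include hp2 hG hM

theorem base_prim [Group.IsSolvable G] (hF : Fld P.U V)
    (IH : ∀ D : Subgroup G, D ≠ ⊥ → fixA V D ≠ ⊥ → ∃ t : Fin 2 → V, (∀ k, t k ∈ fixA V D) ∧ (∃ k, t k ≠ 0) ∧
      ∀ g ∈ normalizer (D : Set G), (∀ k, g • t k = t k) → ∀ w ∈ fixA V D, g • w = w) :
    ∃ t : Fin 2 → V, ∀ g : G, (∀ k, g • t k = t k) → g = 1 := by
  have red : ∀ Q : PD G V, MaxC Q.E → Fld Q.U V → (∃ t : Fin 2 → V, ∀ g : G, (∀ k, g • t k = t k) → g = 1) ∨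
      ∃ v hv hmax y, (Q.re v hv hmax).D = Q.D ∧ (Q.re v hv hmax).HasY y := fun Q hM hF => by
    by_cases hD : Q.D = ⊥
    · have hsq := fun x hx => Q.sq_mem hM (fun q => ⟨0, by
        obtain ⟨x, rfl⟩ := QuotientGroup.mk_surjective q
        rw [pow_zero, pow_one, QuotientGroup.eq_one_iff, mem_subgroupOf]
        exact fun d hd => by rw [hD.le hd, one_mul, mul_one]⟩) (x := x) hx
      obtain ⟨A, _, _, _, _, ⟨S⟩⟩ := Q.exists_SP hsq hM
      exact Or.inl (Q.base_bot hsq S hD hF hp hp2 hV hG)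
    · exact Or.inr (Q.exists_re (IH _ hD fun h => Q.hv₁ (h.le Q.v₁_mem)))
  suffices h : ∀ (P : PD G V) (y : V), MaxC P.E → Fld P.U V → P.HasY y →
      ∃ t : Fin 2 → V, ∀ g : G, (∀ k, g • t k = t k) → g = 1 by
    rcases red P hM hF with h' | ⟨v, hv, hmax, y, -, hy⟩
    exacts [h', h (P.re v hv hmax) y hM hF hy]
  intro P y hM hF hy
  have two : ∀ v : V, 2 • v = 0 → v = 0 := fun v => eq_zero_of_nsmul hp hV
    fun h => hp2 ((Nat.prime_dvd_prime_iff_eq hp Nat.prime_two).mp h)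
  rcases (Nat.card P.Ω).even_or_odd.symm with h2 | h2
  · obtain ⟨z, hz, h⟩ := P.exists_neg hF
    exact P.base_odd hy h2 hz (fun e => P.hv₁ (two _ (by rw [two_nsmul, add_eq_zero_iff_eq_neg, ← h, e, one_smul])))
      (P.hsr _ (mul_mem hz hz) _ P.hv₁ (by rw [mul_smul, h, h, neg_neg]))
  by_cases hΩ : IsPGroup 2 P.Ω
  swap
  · exact P.base_mixed hy h2.two_dvd hΩ
  have hsq := fun x hx => P.sq_mem hM hΩ (x := x) hx
  obtain ⟨A, _, _, _, _, ⟨S⟩⟩ := P.exists_SP hsq hM
  obtain ⟨z, hz, hU⟩ := P.exists_gen_U le_rfl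
  by_cases h8 : z ^ 8 = 1
  swap
  · exact P.base_col4 hsq S hy hΩ hz h8
  by_cases h3 : 3 ∣ Nat.card G
  swap
  · exact P.base_three hsq S hy h3
  have hc : Nat.card P.U = orderOf z := by rw [hU, Nat.card_zpowers]
  obtain ⟨rfl, h4⟩ : p = 5 ∧ orderOf z = 4 := by
    have h1 := P.dvd_card_U hp hV hF
    have h5 : p ≠ 3 := fun e => hG (e ▸ h3)
    obtain ⟨k, hk, e⟩ := (Nat.dvd_prime_pow Nat.prime_two (m := 3)).mp (orderOf_dvd_of_pow_eq_one h8)
    rw [hc, e] at h1
    interval_cases k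
    · exact absurd ((Nat.prime_dvd_prime_iff_eq hp Nat.prime_two).mp h1) hp2
    · exact absurd ((Nat.prime_dvd_prime_iff_eq hp Nat.prime_three).mp h1) h5
    · exact ⟨(Nat.prime_dvd_prime_iff_eq hp Nat.prime_five).mp h1, e⟩
    · exact absurd ((Nat.prime_dvd_prime_iff_eq hp Nat.prime_three).mp (hp.dvd_of_dvd_pow (n := 2) h1)) h5
  have z2 : z ^ 2 ≠ 1 := pow_ne_one_of_lt_orderOf two_ne_zero (by omega)
  have z4 : z ^ 4 = 1 := h4 ▸ pow_orderOf_eq_one z
  by_cases hA : Nat.card A ≤ 256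
  · obtain ⟨L, Γ, h⟩ := S.symp.exists_good hG hA ⊤ fun _ _ _ => trivial
    obtain ⟨v, hv, hmax, e⟩ := P.exists_re_lagr hsq S hz z2 z4 h.lag
    rcases red (P.re v hv hmax) hM hF with h | ⟨w, hw, hmax', y, e', hy⟩
    · exact h
    exact base_good ((P.re v hv hmax).re w hw hmax') hsq S hy (by rw [e', e]; exact h)
  obtain ⟨L, -, h1, h5⟩ := exists_lagr two_eq S.symp.alt S.nd
  obtain ⟨v, hv, hmax, e⟩ := P.exists_re_lagr hsq S hz z2 z4 h1
  have h6 := (P.re v hv hmax).pow_le_card_V hp hV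
  rw [AddSubgroup.card_top] at h5
  rw [card_Ω (P.re v hv hmax) S, e] at h6
  obtain ⟨j, hj⟩ : ∃ j, Nat.card L = 2 ^ j := by
    obtain ⟨j, hj⟩ := (IsPGroup.iff_card (p := 2) (G := Multiplicative A)).mp fun a => ⟨1, sq a ▸ two_eq a.toAdd⟩
    obtain ⟨i, -, hi⟩ := (Nat.dvd_prime_pow Nat.prime_two).mp (hj ▸ L.card_addSubgroup_dvd_card)
    exact ⟨i, hi⟩
  obtain ⟨j, rfl⟩ : ∃ i, j = i + 5 := Nat.exists_eq_add_of_le' (by
    by_contra! h
    rw [h5, hj] at hA
    interval_cases j <;> simp at hA)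
  rw [hj, pow_succ'] at h5 h6
  refine P.base_count hsq S (fun g => ?_) (hc.trans h4) (by rw [pow_add]; nlinarith [Nat.one_le_two_pow (n := j)])
    h5 h6
  obtain ⟨R, -, hR⟩ := hF
  obtain h | ⟨u, hu, h⟩ := hR 2 (natCast_mem R 2)
  · exact absurd (two _ (DFunLike.congr_fun h P.v₁)) P.hv₁
  replace h : ∀ v : V, u • v = 2 • v := DFunLike.congr_fun h
  have e1 : g * u * g⁻¹ = u := P.eq_of_smul (Normal.conj_mem inferInstance u hu g) hu P.hv₁ (by
    rw [mul_smul, mul_smul, h, h, smul_comm g 2, smul_inv_smul])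
  have e2 : orderOf u = 4 := orderOf_eq_prime_pow (p := 2) (n := 1) (fun e => P.hv₁
    (eq_zero_of_nsmul hp hV (n := 3) (by norm_num) (by
      have := congrArg (· • P.v₁) e
      simp only [pow_one, sq, mul_smul, h, one_smul] at this
      linear_combination (norm := abel) this))) (by
    obtain ⟨k, rfl⟩ := hU.le hu
    rw [← zpow_natCast, ← zpow_mul, mul_comm, zpow_mul, zpow_natCast, show z ^ 2 ^ (1 + 1) = 1 from z4, one_zpow])
  rw [← eq_of_le_of_card_ge (zpowers_le.mpr hu) (by rw [hc, h4, Nat.card_zpowers, e2])]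
  rintro _ ⟨k, rfl⟩
  exact Commute.zpow_right (mul_inv_eq_iff_eq_mul.mp e1) k

open scoped IsMulCommutative in
theorem fld (hmax : ∀ X : Subgroup (AddMonoid.End V)ˣ, IsMulCommutative X → ¬ p ∣ Nat.card X →
    (DistribMulAction.toAddMonoidEnd G V).toHomUnits.range ≤ normalizer (X : Set (AddMonoid.End V)ˣ) →
    X ≤ (DistribMulAction.toAddMonoidEnd G V).toHomUnits.range) : Fld P.U V := by
  set ρ := DistribMulAction.toAddMonoidEnd G V
  haveI : Finite (AddMonoid.End V) := DFunLike.finite _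
  haveI := Fact.mk hp
  let R := Subring.closure (ρ '' P.U)
  have hR : ∀ u ∈ P.U, ρ u ∈ R := fun u hu => Subring.subset_closure ⟨u, hu, rfl⟩
  haveI : IsMulCommutative R := Subring.isMulCommutative_closure (by
    rintro _ ⟨x, hx, rfl⟩ _ ⟨y, hy, rfl⟩; rw [← map_mul, ← map_mul, P.ucomm hy (P.hUE hx)])
  haveI : Nontrivial R := ⟨⟨1, 0, fun h => P.hv₁ (DFunLike.congr_fun (congrArg Subtype.val h) P.v₁)⟩⟩
  haveI : CharP R p := (CharP.charP_iff_prime_eq_zero hp).mpr (Subtype.ext (DFunLike.ext _ _ hV))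
  have hinj : Function.Injective (frobenius R p) := Finite.injective_iff_surjective.mpr fun r => by
    obtain ⟨_, ⟨s, rfl⟩, e⟩ := (Subring.closure_le (t := (frobenius R p).range.map R.subtype)).mpr (by
      rintro _ ⟨u, hu, rfl⟩
      obtain ⟨w, rfl⟩ := (powCoprime (G := P.U) (((Nat.Prime.coprime_iff_not_dvd hp).mpr hG).symm.coprime_dvd_left
        P.U.card_subgroup_dvd_card)).surjective ⟨u, hu⟩ |>.imp fun w h => congrArg Subtype.val h
      exact ⟨_, ⟨⟨_, hR w w.2⟩, rfl⟩, (map_pow ρ _ _).symm⟩) r.2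
    exact ⟨s, Subtype.ext e⟩
  have hN : ρ.toHomUnits.range ≤ normalizer (R.toSubmonoid.units : Set (AddMonoid.End V)ˣ) := (by
      rintro _ ⟨g, rfl⟩
      have := (Subring.closure_le (s := ρ '' P.U) (t := R.comap (MulSemiringAction.toRingHom _ _
          (ConjAct.toConjAct (ρ.toHomUnits g))))).mpr (by
        rintro _ ⟨u, hu, rfl⟩
        have := hR _ (Normal.conj_mem inferInstance u hu g)
        rw [map_mul, map_mul] at this
        exact this)
      exact mem_normalizer_of_conj_mem fun x hx => ⟨this hx.1, by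
        simpa [ConjAct.units_smul_def, mul_assoc] using this hx.2⟩)
  have hX := hmax R.toSubmonoid.units (.of_setLike_mul_comm fun x hx y hy => Units.ext
    (setLike_mul_comm (s := R) hx.1 hy.1)) (fun h => by
      obtain ⟨x, hx⟩ := exists_prime_orderOf_dvd_card' p h
      have := hinj (a₁ := ⟨x.1, x.2.1⟩) (a₂ := 1) (by
        rw [map_one]; exact Subtype.ext (congrArg (fun y : R.toSubmonoid.units => (y.1 : AddMonoid.End V))
          (hx ▸ pow_orderOf_eq_one x)))
      exact hp.ne_one (hx ▸ orderOf_eq_one_iff.mpr (Subtype.ext (Units.ext (congrArg Subtype.val this))))) hN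
  have hρ : Function.Injective ρ.toHomUnits := (injective_iff_map_eq_one _).mpr fun g h =>
    have : ∀ v : V, g • v = v := DFunLike.congr_fun (congrArg Units.val h)
    P.eq_one_of_fix (this _) fun _ _ => this _
  have hB := hM (R.toSubmonoid.units.comap ρ.toHomUnits) ⟨fun x hx g => by
      rw [mem_comap, map_mul, map_mul, map_inv]; exact conj_mem_of_mem_normalizer (hN ⟨g, rfl⟩) hx⟩
    (.of_setLike_mul_comm fun x hx y hy => hρ (by
      rw [map_mul, map_mul]; exact Units.ext (setLike_mul_comm (s := R) hx.1 hy.1)))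
    fun u hu => ⟨hR u hu, hR _ (inv_mem hu)⟩
  have unit : ∀ r ∈ R, ∀ s ∈ R, r * s = 1 → ∃ u ∈ P.U, ρ u = r := fun r hr s hs h => by
    obtain ⟨g, hg⟩ := hX (x := ⟨r, s, h, (setLike_mul_comm hs hr).trans h⟩) ⟨hr, hs⟩
    exact ⟨g, hB.le (by rw [mem_comap, hg]; exact ⟨hr, hs⟩), congrArg Units.val hg⟩
  refine ⟨R, hR, fun r hr => or_iff_not_imp_left.mpr fun h0 => ?_⟩
  obtain ⟨n, hn, e⟩ := hinj.mem_periodicPts ⟨r, hr⟩
  replace e : r ^ p ^ n = r := congrArg Subtype.val ((iterate_frobenius p n _).symm.trans e)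
  obtain ⟨m, hm⟩ := Nat.exists_eq_add_of_le' (Nat.one_lt_pow hn.ne' hp.one_lt)
  rw [hm] at e
  have e1 : r ^ (m + 1) * r ^ (m + 1) = r ^ (m + 1) := by
    rw [← pow_add, show m + 1 + (m + 1) = m + 2 + m by ring, pow_add, e, pow_succ']
  have e2 := sub_mem (one_mem R) (add_mem (pow_mem hr (m + 1)) (pow_mem hr (m + 1)))
  obtain ⟨u, hu, h⟩ := unit _ e2 _ e2 (by simp only [mul_sub, sub_mul, mul_add, add_mul, e1, mul_one, one_mul]; abel)
  refine unit r hr _ (pow_mem hr m) ?_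
  rw [← pow_succ']
  generalize hf : r ^ (m + 1) = f at *
  refine DFunLike.ext _ _ fun v => by_contra fun hv => h0 ?_
  have e3 : ∀ v, f (f v) = f v := DFunLike.congr_fun e1
  have e4 : ∀ v, u • v = v - (f v + f v) := DFunLike.congr_fun h
  have := P.hsr u hu (f v - v) (sub_ne_zero.mpr hv) (by rw [e4, map_sub, e3]; simp)
  rw [← e, pow_succ, hf, show f = 0 from DFunLike.ext _ _ fun w => eq_zero_of_nsmul hp hV
    (fun h => hp2 ((Nat.prime_dvd_prime_iff_eq hp Nat.prime_two).mp h)) (by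
      simpa [this, two_nsmul, eq_sub_iff_add_eq] using e4 w), zero_mul]

end PD

section
variable {G V : Type*} [Group G] [AddCommGroup V] [DistribMulAction G V]

theorem Irr.nsmul_eq_zero [Finite V] (h : Irr G V) {p : ℕ} (hp : p.Prime) (hd : p ∣ Nat.card V) (v : V) :
    p • v = 0 := by
  haveI := Fact.mk hp
  obtain ⟨x, hx⟩ := exists_prime_addOrderOf_dvd_card' p hd
  refine ((h (nsmulAddMonoidHom p).ker fun g u hu => ?_).resolve_left fun e => hp.ne_one ?_).ge
    (AddSubgroup.mem_top v)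
  · exact (smul_comm g p u).symm.trans (by rw [show p • u = 0 from hu, smul_zero])
  · rw [← hx, AddMonoid.addOrderOf_eq_one_iff]
    exact e.le (hx ▸ addOrderOf_nsmul_eq_zero x :)

theorem p_bases [Finite G] [Nontrivial V] {p : ℕ} (hp : p.Prime) (hV : ∀ v : V, p • v = 0)
    (hG : ¬ p ∣ Nat.card G) {t : Fin 2 → V} (h : IsBase G t) :
    ∃ t : Fin p → Fin 2 → V, (∀ i, IsBase G (t i)) ∧ ∀ i j (g : G), (∀ k, g • t i k = t j k) → i = j := by
  obtain ⟨t, h, j, hj⟩ := h.exists_ne_zero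
  obtain ⟨i, hi⟩ := exists_ne j
  have e : ∀ (n : ℕ) t, (tv V hi ^ n) t = Function.update t i (t i + n • t j) := fun n => by
    induction n with
    | zero => simp
    | succ n ih =>
      intro t
      rw [pow_succ', Equiv.Perm.mul_apply, ih]
      simp [tv, Function.update_of_ne hi.symm, succ_nsmul, add_assoc]
  exact ⟨fun k => (tv V hi ^ (k : ℕ)) t, fun k => h.perm fun g => (tv_comm hi g).pow_left _,
    fun k l g hg => eq_of_prime_order hp ((Nat.Prime.coprime_iff_not_dvd hp).mpr hG).symm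
      (MulAction.toPermHom G (Fin 2 → V)) _ (by ext1 t; simp [e, hV]) (tv_comm hi) t
      (fun e => hj (by simpa [tv] using congrFun e i)) k l g (funext hg)⟩

theorem hcr_of_coprime [Finite G] {p : ℕ} (hp : p.Prime) (hV : ∀ v : V, p • v = 0) (hG : ¬ p ∣ Nat.card G)
    (U : AddSubgroup V) (hU : ∀ a : G, ∀ v ∈ U, a • v ∈ U) :
    ∃ W : AddSubgroup V, (∀ a : G, ∀ w ∈ W, a • w ∈ W) ∧ U ⊓ W = ⊥ ∧ U ⊔ W = ⊤ := by
  haveI := Fact.mk hp
  obtain ⟨W, h1, h2, h3⟩ := Maschke.exists_compl_end (M := Multiplicative V) hV hG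
    { toFun := fun a => AddMonoidHom.toMultiplicative (DistribSMul.toAddMonoidHom V a)
      map_one' := by ext u; exact one_smul G u.toAdd
      map_mul' := fun a b => by ext u; exact mul_smul a b u.toAdd } U.toSubgroup hU
  exact ⟨W.toAddSubgroup', h1, AddSubgroup.toSubgroup.injective (by rw [OrderIso.map_inf, OrderIso.map_bot]; exact h2),
    AddSubgroup.toSubgroup.injective (by rw [OrderIso.map_sup, OrderIso.map_top]; exact h3)⟩
end

theorem exists_reg_three (G : Type u) [Group G] [Finite G] [Group.IsSolvable G] (hG : ¬ 3 ∣ Nat.card G)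
    (H : Subgroup G) : ∃ c : G → Fin 3, Reg H c := by
  refine exists_reg 3 (fun G _ _ _ hG c => ?_) (fun H N _ _ _ _ _ _ hH hN hirr => ?_) G
    ((Nat.Prime.coprime_iff_not_dvd Nat.prime_three).mpr hG).symm H
  · letI := (arrowAction : MulAction G (G → Fin 3))
    have e : ∀ n, Equiv.addLeft (1 : G → Fin 3) ^ n = Equiv.addLeft (n • 1) := fun n => by
      ext1; simp [Equiv.Perm.coe_pow]
    refine ⟨fun i => Equiv.addLeft ((i : ℕ) • 1), fun i j g h => eq_of_prime_order Nat.prime_three hG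
      (MulAction.toPermHom G (G → Fin 3)) (Equiv.addLeft 1) (by rw [e]; ext; simp)
      (fun g => by ext; rfl) c (fun e => by simpa using congrFun e 1) i j g⁻¹ (funext fun x => ?_)⟩
    rw [e, e]
    change (i : ℕ) • (1 : Fin 3) + c (g⁻¹⁻¹ * x) = (j : ℕ) • 1 + c x
    rw [inv_inv]; exact h x
  · classical
    obtain ⟨Γ, hΓ⟩ : ∃ Γ : Set N, ∀ h : H, (∀ x, x ≠ 0 → (h • x ∈ Γ ↔ x ∈ Γ)) → ∀ x : N, h • x = x := by
      rcases (Nat.card N).even_or_odd with h2 | h2
      · obtain ⟨Γ, r1, r2, -⟩ := exists_rig (H := H) (A := N)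
          (fun x => two_nsmul x ▸ Irr.nsmul_eq_zero hirr Nat.prime_two h2.two_dvd x)
          fun h => ⟨Nat.card H, hH, fun v => by rw [pow_card_eq_one', one_smul]⟩
        exact ⟨Γ, fun h hh => r1 h fun x hx => (hh x fun e => r2 (e ▸ hx)).mpr hx⟩
      · obtain ⟨Γ, hΓ⟩ := exists_rigid_coprime_six (Ω := Multiplicative N)
          (Nat.Coprime.mul_right (Nat.coprime_two_right.mpr h2) hN)
        exact ⟨Γ, fun h hh => hΓ (AddMonoidHom.toMultiplicative (DistribSMul.toAddMonoidHom N h))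
          (MulAction.injective (β := N) h) hh⟩
    refine ⟨fun n => if n = 0 then 0 else if n ∈ Γ then 1 else 2, fun n₀ h hh => ?_⟩
    have h0 : n₀ = 0 := by
      have := hh 0
      by_contra h0
      simp only [smul_zero, add_zero, h0, if_false, if_true] at this
      split_ifs at this <;> simp at this
    subst h0
    refine ⟨rfl, hΓ h fun x hx => ?_⟩
    have := hh x
    have h2 : h • x ≠ 0 := by rwa [ne_eq, smul_eq_zero_iff_eq]
    simp only [zero_add, hx, h2, if_false] at this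
    by_cases e1 : x ∈ Γ <;> by_cases e2 : h • x ∈ Γ <;> simp_all

theorem base_of_units {G V : Type*} [Group G] [Finite G] [Group.IsSolvable G] [AddCommGroup V]
    [DistribMulAction G V] {p : ℕ} (hG : ¬ p ∣ Nat.card G) (hirr : Irr G V)
    (h : ∀ M : Subgroup (AddMonoid.End V)ˣ, Group.IsSolvable M → ¬ p ∣ Nat.card M → Irr M V →
      ∃ t : Fin 2 → V, IsBase M t) : ∃ t : Fin 2 → V, IsBase G t := by
  have hs := (DistribMulAction.toAddMonoidEnd G V).toHomUnits.rangeRestrict_surjective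
  obtain ⟨t, ht⟩ := h _ (Group.isSolvable_of_surjective hs) (fun h => hG (h.trans (card_dvd_of_surjective _ hs)))
    fun U hU => hirr U fun g => hU ⟨_, g, rfl⟩
  exact ⟨t, fun g => ht ⟨_, g, rfl⟩⟩

/-- Solvable linear groups of order prime to the characteristic have a base of size two. -/
theorem exists_base2_cop (G : Type u) (V : Type v) [Group G] [Finite G] [Group.IsSolvable G] [AddCommGroup V]
    [Finite V] [DistribMulAction G V] {p : ℕ} (hp : p.Prime) (hV : ∀ v : V, p • v = 0) (hG : ¬ p ∣ Nat.card G) :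
    ∃ t : Fin 2 → V, IsBase G t := by
  by_cases hp2 : p = 2
  · subst hp2
    exact base_of_cr (hcr_of_coprime hp hV hG) fun U _ h => exists_base2_irr_odd _ _
      (by rwa [card_top, ← Nat.not_even_iff_odd, even_iff_two_dvd]) h
  haveI := Fact.mk hp
  suffices h : ∀ n (V : Type v) [AddCommGroup V] [Finite V], Nat.card V = n → (∀ v : V, p • v = 0) →
      ∀ M : Subgroup (AddMonoid.End V)ˣ, Group.IsSolvable M → ¬ p ∣ Nat.card M → Irr M V →
      ∃ t : Fin 2 → V, IsBase M t from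
    base_of_cr (hcr_of_coprime hp hV hG) fun U _ hi => base_of_units (p := p) (by rwa [card_top]) hi
      (h _ U rfl fun v => Subtype.ext (hV v))
  intro n
  induction n using Nat.strong_induction_on with
  | _ n IH =>
  intro V _ _ hn hV M₀ h1 h2 hirr
  subst hn
  haveI : Finite (AddMonoid.End V) := DFunLike.finite _
  obtain ⟨M, hle, ⟨hs, hG⟩, hmax⟩ := exists_maximal_subgroup
    (P := fun M : Subgroup (AddMonoid.End V)ˣ => Group.IsSolvable M ∧ ¬ p ∣ Nat.card M) ⟨h1, h2⟩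
  suffices h : ∃ t : Fin 2 → V, IsBase M t from h.imp fun t ht g => ht ⟨g, hle g.2⟩
  replace hirr : Irr M V := fun U hU => hirr U fun g => hU ⟨g, hle g.2⟩
  have faith : ∀ g : M, (∀ v : V, g • v = v) → g = 1 := fun g h => Subtype.ext (Units.ext (DFunLike.ext _ _ h))
  rcases subsingleton_or_nontrivial V with h | h
  · exact ⟨0, fun _ _ _ => Subsingleton.elim _ _⟩
  by_cases hpr : ∀ B : Subgroup M, B.Normal → IsMulCommutative B → ∀ b ∈ B, ∀ v : V, v ≠ 0 → b • v = v → b = 1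
  · obtain ⟨P, hM⟩ := exists_PD hpr
    have e : (DistribMulAction.toAddMonoidEnd M V).toHomUnits.range = M := by
      ext x
      exact ⟨by rintro ⟨g, rfl⟩; convert g.2 using 1; exact Units.ext rfl, fun hx => ⟨⟨x, hx⟩, Units.ext rfl⟩⟩
    obtain ⟨t, ht⟩ := P.base_prim hp hV hp2 hG hM (P.fld hp hV hp2 hG hM fun X x1 x2 x3 => by
      rw [e] at x3 ⊢
      exact le_sup_right.trans (hmax _ ⟨isSolvable_sup hs (Group.isSolvable_of_comm fun a b => x1.is_comm.comm a b)
        x3, not_dvd_card_sup hG x2 x3⟩ le_sup_left).le) fun D hD hW => by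
      letI := resAction (normalizer (D : Set M)) (fixA V D) fun g hg w hw => smul_mem_fixA hg hw
      haveI := (AddSubgroup.nontrivial_iff_ne_bot _).mpr hW
      have hlt : Nat.card (fixA V D) < Nat.card V := by
        obtain ⟨v, hv⟩ : ∃ v, v ∉ fixA V D := by
          by_contra! h; exact hD (eq_bot_iff.mpr fun d hd => faith d fun v => h v d hd)
        exact Finite.card_subtype_lt (x := v) hv
      have hN : ¬ p ∣ Nat.card (normalizer (D : Set M)) := fun h => hG (h.trans (card_subgroup_dvd_card _))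
      obtain ⟨t, ht⟩ := base_of_cr (G := normalizer (D : Set M)) (V := fixA V D) (κ := Fin 2)
        (hcr_of_coprime hp (fun v => Subtype.ext (hV v)) hN) fun U _ hi => base_of_units (p := p)
          (by rwa [card_top]) hi (IH _ ((Finite.card_subtype_le _).trans_lt hlt) U rfl
            fun v => Subtype.ext (Subtype.ext (hV v)))
      obtain ⟨t, ht, k, hk⟩ := ht.exists_ne_zero
      exact ⟨fun k => t k, fun k => (t k).2, ⟨k, fun e => hk (Subtype.ext e)⟩, fun g hg h w hw =>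
        congrArg Subtype.val (ht ⟨g, hg⟩ (fun k => Subtype.ext (h k)) ⟨w, hw⟩)⟩
    exact ⟨t, fun g hg v => by rw [ht g hg, one_smul]⟩
  push Not at hpr
  obtain ⟨B, b1, b2, b, hb, v, hv, hbv, hb1⟩ := hpr
  have key : ∀ (N : Subgroup M) (W : Type v) [AddCommGroup W] [Finite W] [DistribMulAction N W],
      Nat.card W < Nat.card V → Nat.card W ∣ Nat.card V → Nontrivial W → Irr N W →
      ∃ t : Fin p → Fin 2 → W, (∀ i, IsBase N (t i)) ∧ ∀ i j (g : N), (∀ k, g • t i k = t j k) → i = j :=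
    fun N W _ _ _ hW hd _ hirr => by
      obtain ⟨k, hk⟩ := (IsPGroup.iff_card (p := p) (G := Multiplicative V)).mp
        fun a => ⟨1, by rw [pow_one]; exact hV a.toAdd⟩
      obtain ⟨i, -, hi⟩ := (Nat.dvd_prime_pow hp).mp (hk ▸ hd :)
      have hW' := hirr.nsmul_eq_zero hp (hi ▸ dvd_pow_self p (by
        rintro rfl; exact Finite.one_lt_card.ne' hi))
      have hN : ¬ p ∣ Nat.card N := fun h => hG (h.trans (card_subgroup_dvd_card _))
      obtain ⟨t, ht⟩ := base_of_units hN hirr (IH _ hW W rfl hW')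
      exact p_bases hp hW' hN ht
  have hb2 : ∃ v : V, b • v ≠ v := by by_contra! h; exact hb1 (faith b h)
  by_cases hp3 : p = 3
  · subst hp3
    exact exists_base_imprim hirr hb hv hbv hb2 (exists_reg_three M hG) key
  refine exists_base_imprim hirr hb hv hbv hb2 (exists_reg_five M) fun N W _ _ _ a1 a2 a3 a4 => ?_
  obtain ⟨t, t1, t2⟩ := key N W a1 a2 a3 a4
  have h5 := hp.five_le_of_ne_two_of_ne_three hp2 hp3
  exact ⟨fun i => t (i.castLE h5), fun i => t1 _, fun i j g h => Fin.castLE_injective h5 (t2 _ _ g h)⟩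

end Cfsg.Agent.Lib.Base
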