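import Cfsg.Agent.Lib.Base.Cop5
import Cfsg.Agent.Lib.Core.Hol
import Cfsg.Agent.Lib.PGroup.Basic
import Cfsg.Agent.Lib.Core.Fitting
import Cfsg.Agent.Lib.Hall.Basic

/-! Coprime action of a solvable group: two points with trivial common stabilizer. -/

set_option autoImplicit false

namespace Cfsg.Agent.Lib.Base

open Subgroup Cfsg.Agent.Lib.Core
open scoped commutatorElement

universe u v

open scoped IsMulCommutative in
theorem exists_two_pgroup {A K : Type*} [Group A] [Finite A] [Group.IsSolvable A] [Group K] [Finite K] {p : ℕ}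
    [hp : Fact p.Prime] (hK : IsPGroup p K) (hA : ¬ p ∣ Nat.card A) (ψ : A →* MulAut K) :
    ∃ x y : K, ∀ a, ψ a x = x → ψ a y = y → ψ a = 1 := by
  haveI : IsMulCommutative (K ⧸ frattini K) :=
    Normal.quotient_commutative_iff_commutator_le.mpr (PGroup.commutator_le_frattini hK)
  let θ : A → K ⧸ frattini K →* K ⧸ frattini K := fun a => QuotientGroup.map _ _ (ψ a).toMonoidHom
    (characteristic_iff_le_comap.mp inferInstance (ψ a))
  letI : DistribMulAction A (Additive (K ⧸ frattini K)) :=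
    { smul := fun a v => Additive.ofMul (θ a v.toMul)
      one_smul := fun v => by
        obtain ⟨x, rfl⟩ := QuotientGroup.mk_surjective (s := frattini K) v
        exact congrArg (fun f : MulAut K => (f x : K ⧸ frattini K)) (map_one ψ)
      mul_smul := fun a b v => by
        obtain ⟨x, rfl⟩ := QuotientGroup.mk_surjective (s := frattini K) v
        exact congrArg (fun f : MulAut K => (f x : K ⧸ frattini K)) (map_mul ψ a b)
      smul_zero := fun a => map_one (θ a)
      smul_add := fun a => map_mul (θ a) }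
  obtain ⟨t, ht⟩ := exists_base2_cop A (Additive (K ⧸ frattini K)) hp.out (fun v => by
    obtain ⟨x, rfl⟩ := QuotientGroup.mk_surjective (s := frattini K) v
    exact (QuotientGroup.eq_one_iff (x ^ p)).mpr (PGroup.pow_mem_frattini hK x)) hA
  choose s hs using fun k => QuotientGroup.mk_surjective (s := frattini K) (t k)
  refine ⟨s 0, s 1, fun a h0 h1 => PGroup.mulAut_eq_one_of_frattini hK ((coprime_iff_not_dvd.mpr hA).coprime_dvd_left
    ((orderOf_map_dvd ψ a).trans (orderOf_dvd_natCard a))) fun x => QuotientGroup.eq.mp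
      (ht a (fun k => ?_) (Additive.ofMul (x : K ⧸ frattini K))).symm⟩
  rw [← hs]
  fin_cases k
  exacts [congrArg QuotientGroup.mk h0, congrArg QuotientGroup.mk h1]

theorem ncard_le_eq {ι X : Type*} [Fintype ι] [PartialOrder ι] [DecidableLT ι] [Finite X] (f : X → ι) (b : ι) :
    {x | b ≤ f x}.ncard = {x | f x = b}.ncard + ∑ c with b < c, {x | f x = c}.ncard := by
  classical
  haveI := Fintype.ofFinite X
  rw [show {x | b ≤ f x} = {x | f x = b} ∪ {x | b < f x} from Set.ext fun x => le_iff_eq_or_lt.trans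
    (or_congr_left eq_comm), Set.ncard_union_eq (Set.disjoint_left.mpr fun x h1 h2 => h2.ne' h1),
    Set.ncard_eq_toFinset_card' {x | b < f x}, Finset.card_eq_sum_card_fiberwise (f := f)
      (t := Finset.univ.filter (b < ·)) fun x hx => by simpa using hx]
  refine congrArg _ (Finset.sum_congr rfl fun c hc => ?_)
  rw [← Set.ncard_coe_finset]
  congr 1; ext x
  simpa using fun h : f x = c => h ▸ (Finset.mem_filter.mp hc).2

/-- equal marks give equal numbers of points with a given stabilizer -/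
theorem marks {ι X Y : Type*} [Finite ι] [PartialOrder ι] [Finite X] [Finite Y] (f : X → ι) (g : Y → ι)
    (h : ∀ b, {x | b ≤ f x}.ncard = {y | b ≤ g y}.ncard) (b : ι) : {x | f x = b}.ncard = {y | g y = b}.ncard := by
  classical
  haveI := Fintype.ofFinite ι
  induction b using (wellFounded_gt (α := ι)).induction with
  | _ b IH =>
  have := h b
  rw [ncard_le_eq, ncard_le_eq, Finset.sum_congr rfl fun c hc => IH c (Finset.mem_filter.mp hc).2] at this
  exact Nat.add_right_cancel this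

variable {G : Type*} [Group G] [Finite G]

theorem exists_two_cent {A K : Subgroup G} (h : CoprimeAct A K) (hA : Group.IsSolvable A) :
    ∃ x ∈ K, ∃ y ∈ K, ∀ a ∈ A, Commute a x → Commute a y → a ∈ centralizer (K : Set G) := by
  classical
  have : ∀ p : (Nat.card K).primeFactors, ∃ P : Subgroup G, IsSyl p P K ∧ A ≤ normalizer (P : Set G) ∧
      ∃ x y : P, ∀ a ∈ A, Commute a x → Commute a y → a ∈ centralizer (P : Set G) := fun p => by
    haveI := Fact.mk (Nat.prime_of_mem_primeFactors p.2)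
    obtain ⟨P, h1, h2⟩ := h.exists_isSyl p
    obtain ⟨x, y, h3⟩ := exists_two_pgroup h1.isPGroup (A := A) (coprime_iff_not_dvd.mp
      (h.coprime.coprime_dvd_right (Nat.dvd_of_mem_primeFactors p.2))) (P.normalizerMonoidHom.comp (inclusion h2))
    exact ⟨P, h1, h2, x, y, fun a ha c1 c2 z hz => (mul_inv_eq_iff_eq_mul.mp (congrArg Subtype.val
      (DFunLike.congr_fun (h3 ⟨a, ha⟩ (Subtype.ext (mul_inv_eq_iff_eq_mul.mpr c1))
        (Subtype.ext (mul_inv_eq_iff_eq_mul.mpr c2))) (⟨z, hz⟩ : P)))).symm⟩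
  choose P h1 h2 x y h3 using this
  let C : Subgroup A → Subgroup G := fun B => centralizer (B.map A.subtype : Set G)
  have e0 : ∀ (Q : Subgroup G) B, Nat.card {z : Q // (z : G) ∈ C B} = Nat.card (Q ⊓ C B : Subgroup G) :=
    fun Q B => by rw [← card_subgroupOf (inf_le_left (a := Q)), inf_subgroupOf_left]; rfl
  have e1 : ∀ B, {z : K | (z : G) ∈ C B}.ncard = {z : ∀ p, P p | ∀ p, (z p : G) ∈ C B}.ncard := fun B => by
    rw [← Nat.card_coe_set_eq, ← Nat.card_coe_set_eq]
    refine (e0 K B).trans (Eq.trans ?_ (Nat.card_congr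
      (Equiv.subtypePiEquivPi (β := fun p => P p) (p := fun _ z => (z : G) ∈ C B))).symm)
    rw [Nat.card_pi, Finset.prod_congr rfl fun p _ => (e0 (P p) B).trans (by
      haveI := Fact.mk (Nat.prime_of_mem_primeFactors p.2)
      exact ((h.mono_left (map_subtype_le B)).isSyl_inf_centralizer (h1 p) ((map_subtype_le B).trans (h2 p))).card_eq),
      Finset.prod_coe_sort (f := fun p => p ^ (Nat.card (K ⊓ C B : Subgroup G)).factorization p),
      ← Finsupp.prod_of_support_subset _ (Nat.primeFactors_mono (card_dvd_of_le inf_le_left) Nat.card_pos.ne')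
        (· ^ ·) fun _ _ => pow_zero _, Nat.prod_factorization_pow_eq_self Nat.card_pos.ne']
  let s : G → Subgroup A := fun z => (centralizer {z}).subgroupOf A
  have hs : ∀ B z, B ≤ s z ↔ z ∈ C B := fun B z =>
    ⟨by rintro h _ ⟨b, hb, rfl⟩; exact mem_centralizer_singleton_iff.mp (h hb),
      fun h b hb => mem_centralizer_singleton_iff.mpr (h _ ⟨b, hb, rfl⟩)⟩
  let f : K × K → Subgroup A := fun z => s z.1 ⊓ s z.2
  let g : (∀ p, P p) × (∀ p, P p) → Subgroup A := fun z => (⨅ p, s (z.1 p)) ⊓ ⨅ p, s (z.2 p)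
  have e2 : ∀ B, {z | B ≤ f z}.ncard = {z | B ≤ g z}.ncard := fun B => by
    simp only [f, g, le_inf_iff, le_iInf_iff, hs]
    erw [Set.ncard_prod (s := {z : K | (z : G) ∈ C B}) (t := {z : K | (z : G) ∈ C B}),
      Set.ncard_prod (s := {z : ∀ p, P p | ∀ p, (z p : G) ∈ C B}) (t := {z : ∀ p, P p | ∀ p, (z p : G) ∈ C B}), e1]
  obtain ⟨z, hz⟩ := Set.nonempty_of_ncard_ne_zero ((marks f g e2 (g (x, y))).trans_ne
    (Set.ncard_ne_zero_of_mem (a := (x, y)) rfl))
  refine ⟨z.1, z.1.2, z.2, z.2.2, fun a ha c1 c2 w hw => ?_⟩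
  have h4 : (⟨a, ha⟩ : A) ∈ g (x, y) := hz.le ⟨mem_centralizer_singleton_iff.mpr c1, mem_centralizer_singleton_iff.mpr c2⟩
  have h5 : {z : K | (z : G) ∈ C (g (x, y))} = {z : K | (z : G) ∈ C ⊥} :=
    Set.eq_of_subset_of_ncard_le (fun z _ => (hs _ _).mp bot_le) (by
      rw [e1, e1]
      refine Set.ncard_le_ncard fun z _ p => ?_
      rintro _ ⟨b, hb, rfl⟩
      exact (h3 p b b.2 (mem_centralizer_singleton_iff.mp (mem_iInf.mp hb.1 p))
        (mem_centralizer_singleton_iff.mp (mem_iInf.mp hb.2 p)) _ (z p).2).symm)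
  exact ((Set.ext_iff.mp h5 ⟨w, hw⟩).mpr ((hs _ _).mp bot_le) a ⟨_, h4, rfl⟩).symm

/-- induction along a chain with prime power or `π'`-factors -/
def PiInd (π : Set ℕ) (G : Type*) [Group G] : Prop := ∀ Q : Subgroup G → Prop, Q ⊥ →
  (∀ (N M : Subgroup G) (m : ℕ), N.Normal → M.Normal → (∀ x ∈ M, x ^ m ∈ N) →
    ((∃ p ∈ π, p.Prime ∧ ∃ k : ℕ, m = p ^ k) ∨ ∀ q : ℕ, q.Prime → q ∣ m → q ∉ π) → Q N → Q M) → Q ⊤

variable {π : Set ℕ}

theorem PiInd.isSolvable (h : PiInd π G) {H : Subgroup G} (hH : IsPi π H) : Group.IsSolvable H := by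
  have := h (fun M => Group.IsSolvable (H ⊓ M : Subgroup G)) (by rw [inf_bot_eq]; infer_instance)
    fun N M m _ _ h1 h2 ih => by
      rcases h2 with ⟨p, -, hp, k, rfl⟩ | h2
      · haveI := Fact.mk hp
        refine isSolvable_of_map (QuotientGroup.mk' N) (isSolvable_of_isPGroup (p := p) ?_)
          (isSolvable_of_le ih fun x hx => ⟨hx.2.1, (QuotientGroup.eq_one_iff x).mp hx.1⟩)
        rintro ⟨_, x, hx, rfl⟩
        exact ⟨k, Subtype.ext ((QuotientGroup.eq_one_iff (x ^ p ^ k)).mpr (h1 x hx.2))⟩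
      · refine isSolvable_of_le ih fun x hx => ⟨hx.1, mem_of_pow_coprime
          (Nat.coprime_of_dvd fun q hq hd hd' => h2 q hq hd (hH q hq hd')) (h1 x hx.2) ?_⟩
        rw [show x ^ Nat.card H = 1 from congrArg Subtype.val (pow_card_eq_one' (x := (⟨x, hx.1⟩ : H)))]
        exact one_mem _
  rwa [inf_top_eq] at this

omit [Finite G] in
theorem PiInd.map {G' : Type*} [Group G'] (h : PiInd π G) (f : G →* G') (hf : Function.Surjective f) :
    PiInd π G' := fun Q h0 h1 => by
  have := h (fun M => Q (M.map f)) (by rwa [Subgroup.map_bot]) fun N M m n1 n2 h2 h3 =>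
    h1 _ _ m (n1.map f hf) (n2.map f hf) (by rintro _ ⟨x, hx, rfl⟩; exact ⟨_, h2 x hx, map_pow f x m⟩) h3
  rwa [map_top_of_surjective f hf] at this

/-- the lemma of Hall and Higman -/
theorem PiInd.centralizer_le (h : PiInd π G) (h0 : piCore π G = ⊥) :
    centralizer (piCore πᶜ G : Set G) ≤ piCore πᶜ G := by
  set K := piCore πᶜ G
  have := h (fun M => centralizer (K : Set G) ⊓ M ≤ K) (by simp) fun N M m _ _ h1 h2 ih => by
    set L := centralizer (K : Set G) ⊓ M
    have h3 : ∀ x ∈ L, x ^ m ∈ K := fun x hx => ih ⟨pow_mem hx.1 m, h1 x hx.2⟩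
    rcases h2 with ⟨p, -, hp, k, rfl⟩ | h2
    · haveI := Fact.mk hp
      haveI : Group.IsNilpotent (L ⧸ center L) := IsPGroup.isNilpotent (p := p) fun q => by
        obtain ⟨x, rfl⟩ := QuotientGroup.mk_surjective q
        exact ⟨k, (QuotientGroup.eq_one_iff (x ^ p ^ k)).mpr (mem_center_iff.mpr fun y =>
          Subtype.ext (y.2.1 _ (h3 x x.2)).symm)⟩
      have n : ∀ σ : Set ℕ, piCoreOf σ L ≤ piCore σ G := fun σ =>
        le_piCore (hN := normal_of_le_normalizer_top (le_normalizer_piCoreOf le_normalizer_of_normal))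
          (piCoreOf_isPi L)
      exact (piCoreOf_sup_piCoreOf_compl (π := π) (H := L) (Group.of_quotient_center_nilpotent ‹_›)).ge.trans
        (sup_le ((n π).trans (h0.le.trans bot_le)) (n _))
    · refine le_piCore (isPi_of_forall_orderOf fun x hx hq hπ => ?_)
      exact piCore_isPi.orderOf_dvd (mem_of_pow_coprime ((Nat.Prime.coprime_iff_not_dvd hq).mpr
        fun hd => h2 _ hq hd hπ) (by rw [pow_orderOf_eq_one]; exact one_mem _) (h3 x hx)) hq dvd_rfl hπ
  rwa [inf_top_eq] at this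

open scoped Pointwise in
theorem PiInd.exists_two (h : PiInd π G) (h0 : piCore π G = ⊥) {H : Subgroup G} (hH : IsPi π H) :
    ∃ x y : G, ∀ a ∈ H, x⁻¹ * a * x ∈ H → y⁻¹ * a * y ∈ H → a = 1 := by
  have hs := h.isSolvable hH
  obtain ⟨x, hx, y, hy, h1⟩ := exists_two_cent (K := piCore πᶜ G)
    ⟨le_normalizer_of_normal, hH.coprime piCore_isPi, Or.inr hs⟩ hs
  have h2 := hH.inf_eq_bot (piCore_isPi (π := πᶜ))
  have key : ∀ a ∈ H, ∀ x ∈ piCore πᶜ G, x⁻¹ * a * x ∈ H → Commute a x := fun a ha x hx h3 => by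
    have : a⁻¹ * (x⁻¹ * a * x) = 1 := h2.le (mem_inf.mpr ⟨mul_mem (inv_mem ha) h3, by
      convert mul_mem (Normal.conj_mem' inferInstance _ (inv_mem hx) a) hx using 1; group⟩)
    rw [inv_mul_eq_one, mul_assoc, eq_inv_mul_iff_mul_eq] at this
    exact this.symm
  exact ⟨x, y, fun a ha c1 c2 => h2.le ⟨ha, h.centralizer_le h0 (h1 a ha (key a ha x hx c1) (key a ha y hy c2))⟩⟩

end Cfsg.Agent.Lib.Base
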