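import Cfsg.Agent.Lib.Base.Rigid

/-! Explicit rigid subsets of finite abelian groups. -/

set_option autoImplicit false

namespace Cfsg.Agent.Lib.Base

open Subgroup Cfsg.Agent.Lib.Core Tri

universe u

/-- `φ` preserves `S` away from the identity -/
def Pres {Ω : Type*} [Group Ω] (φ : Ω → Ω) (S : Set Ω) : Prop := ∀ x, x ≠ 1 → (φ x ∈ S ↔ x ∈ S)

variable {Ω : Type*} [CommGroup Ω] [Finite Ω]

theorem exists_hom_tri [Nontrivial Ω] : ∃ (l : Ω →* ℂˣ) (t : ℂˣ) (n : ℕ) (e : ℕ → Ω), t ≠ 1 ∧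
    t ^ Nat.card Ω = 1 ∧ Tri n e ∧ ∀ i < n, l (e i) = t := by
  obtain ⟨a, ha⟩ := exists_ne (1 : Ω)
  haveI : NeZero (Monoid.exponent Ω) := ⟨Monoid.exponent_ne_zero_of_finite⟩
  obtain ⟨l, hl⟩ := CommGroup.exists_apply_ne_one_of_hasEnoughRootsOfUnity Ω ℂ ha
  haveI : Finite l.range := Finite.of_surjective _ l.rangeRestrict_surjective
  obtain ⟨⟨_, s, rfl⟩, hs⟩ := IsCyclic.exists_generator (α := l.range)
  have h1 : ∀ x, ∃ k : ℤ, l s ^ k = l x := fun x => (hs ⟨_, x, rfl⟩).imp fun k hk => congrArg Subtype.val hk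
  obtain ⟨n, e, h, he⟩ := exists_tri_mem (S := {x | l x = l s}) (eq_top_iff.mpr fun x _ => by
    obtain ⟨k, hk⟩ := h1 x
    have h2 : s ∈ closure {x | l x = l s} := subset_closure rfl
    rw [← mul_mem_cancel_right (zpow_mem h2 (1 - k))]
    exact subset_closure (by simp [← hk, ← zpow_add]))
  refine ⟨l, l s, n, e, fun h => ?_, by rw [← map_pow, pow_card_eq_one', map_one], h, he⟩
  obtain ⟨k, hk⟩ := h1 a
  exact hl (by rw [← hk, h, one_zpow])

theorem pres_split {φ : Ω →* Ω} (hφ : Function.Injective φ) {B C : Set Ω} (h : Pres φ (B ∪ C))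
    (h1 : 1 ∉ B ∪ C) (hB : ∀ x ∈ B ∪ C, ∀ y ∈ B ∪ C, x * y ∉ B)
    (hC : ∀ z ∈ C, ∃ x ∈ B ∪ C, ∃ y ∈ B ∪ C, z = x * y) : (∀ x ∈ B, φ x ∈ B) ∧ ∀ x ∈ C, φ x ∈ C := by
  have k : ∀ x ∈ B ∪ C, φ x ∈ B ∪ C := fun x hx => (h x fun e => h1 (e ▸ hx)).mpr hx
  have k' : ∀ x ∈ B ∪ C, ∃ y ∈ B ∪ C, φ y = x := fun x hx => by
    obtain ⟨y, rfl⟩ := Finite.injective_iff_surjective.mp hφ x
    exact ⟨y, (h y fun e => h1 (by simpa [e] using hx)).mp hx, rfl⟩
  refine ⟨fun x hx => (k x (Or.inl hx)).resolve_right fun h2 => ?_,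
    fun z hz => (k z (Or.inr hz)).resolve_left ?_⟩
  · obtain ⟨a, ha, b, hb, e⟩ := hC _ h2
    obtain ⟨a', ha', rfl⟩ := k' a ha
    obtain ⟨b', hb', rfl⟩ := k' b hb
    exact hB a' ha' b' hb' (hφ (e.trans (map_mul _ _ _).symm) ▸ hx)
  · obtain ⟨a, ha, b, hb, rfl⟩ := hC _ hz
    rw [map_mul]; exact hB _ (k a ha) _ (k b hb)

theorem exists_rigid_coprime_six (h6 : (Nat.card Ω).Coprime 6) : ∃ Γ : Set Ω,
    ∀ φ : Ω →* Ω, Function.Injective φ → Pres φ Γ → ∀ x, φ x = x := by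
  rcases subsingleton_or_nontrivial Ω with h | h
  · exact ⟨∅, fun _ _ _ _ => Subsingleton.elim _ _⟩
  obtain ⟨l, t, n, e, t1, t2, h, he⟩ := exists_hom_tri (Ω := Ω)
  have hodd : Odd (Nat.card Ω) := Nat.coprime_two_right.mp (h6.coprime_dvd_right (by norm_num))
  have t3 : ∀ k, 0 < k → k < 4 → t ^ k ≠ 1 := fun k k1 k2 hk => t1 ((pow_eq_one_iff_of_coprime h6).mp
    ⟨t2, by interval_cases k <;> [simp_all; rw [show 6 = 2 * 3 from rfl, pow_mul, hk, one_pow];
      rw [show 6 = 3 * 2 from rfl, pow_mul, hk, one_pow]]⟩)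
  refine ⟨B n e ∪ (C n e ∪ {e 0 * e 0}), fun φ hφ hp => ?_⟩
  have hl : ∀ x ∈ B n e ∪ (C n e ∪ {e 0 * e 0}), ∃ k, 1 ≤ k ∧ k ≤ 2 ∧ l x = t ^ k := by
    rintro _ (⟨i, hi, rfl⟩ | ⟨i, hi, rfl⟩ | rfl)
    · exact ⟨1, le_rfl, by omega, by simp [he i hi]⟩
    · exact ⟨2, by omega, le_rfl, by rw [map_mul, he i (by omega), he _ hi, sq]⟩
    · exact ⟨2, by omega, le_rfl, by rw [map_mul, he 0 h.pos, sq]⟩
  obtain ⟨h1, h2⟩ := pres_split hφ hp (fun h1 => by
      obtain ⟨k, k1, k2, hk⟩ := hl _ h1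
      exact t3 k k1 (by omega) (by rw [← hk, map_one]))
    (fun x hx y hy ⟨i, hi, hxy⟩ => by
      obtain ⟨k, k1, k2, hk⟩ := hl _ hx
      obtain ⟨m, m1, m2, hm⟩ := hl _ hy
      have := congrArg l hxy
      rw [map_mul, hk, hm, he i hi, ← pow_add, show k + m = (k + m - 1) + 1 by omega, pow_succ,
        mul_eq_right] at this
      exact t3 _ (by omega) (by omega) this) (by
      rintro _ (⟨i, hi, rfl⟩ | rfl)
      · exact ⟨_, Or.inl ⟨i, by omega, rfl⟩, _, Or.inl ⟨_, hi, rfl⟩, rfl⟩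
      · exact ⟨_, Or.inl ⟨0, h.pos, rfl⟩, _, Or.inl ⟨0, h.pos, rfl⟩, rfl⟩)
  exact h.rigid3 hodd hφ (fun i hi => h1 _ ⟨i, hi, rfl⟩) (fun _ => (h2 _ (Or.inr rfl)).symm)
    fun i hi => (h2 _ (Or.inl ⟨i, hi, rfl⟩)).symm

theorem three_mul_lt {n : ℕ} (h : 2 ≤ n) : 3 * n < 3 ^ n := by
  induction n, h using Nat.le_induction with
  | base => norm_num
  | succ n hn ih => rw [pow_succ]; omega

theorem six_mul_lt {n : ℕ} (h : 3 ≤ n) : 6 * n < 3 ^ n := by
  induction n, h using Nat.le_induction with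
  | base => norm_num
  | succ n hn ih => rw [pow_succ]; omega

theorem exists_rigid_odd (hodd : Odd (Nat.card Ω)) : ∃ Z B : Set Ω, Det.{u} Z ∧ Disjoint Z B ∧
    ∀ φ : Ω →* Ω, Function.Injective φ → Pres φ Z → Pres φ B → ∀ x, φ x = x := by
  obtain ⟨n, e, h⟩ := exists_tri Ω
  refine ⟨C n e ∪ {x | 1 < n ∧ x = e 0 * e 0}, B n e, ?_, ?_, fun φ hφ h1 h2 => h.rigid3 hodd hφ
    (fun i hi => (h2 _ (h.ne_one hi)).mpr ⟨i, hi, rfl⟩) (fun hn => ?_) fun i hi => ?_⟩
  · by_cases hn : 1 < n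
    · refine det_of_card (three_le_of_odd hodd) ?_
      have h1 := (three_mul_lt hn).trans_le (h.pow_le_card (three_le_of_odd hodd))
      have h2 := Set.ncard_union_le (C n e) {x | 1 < n ∧ x = e 0 * e 0}
      have h3 := ncard_C n e
      simp only [hn, true_and, Set.setOf_eq_eq_singleton, Set.ncard_singleton] at h2 ⊢
      omega
    · convert det_empty
      ext x; simp only [C, hn, Set.mem_union, Set.mem_setOf_eq, false_and, or_false, Set.mem_empty_iff_false,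
        iff_false, not_exists, not_and]
      exact fun i hi => by omega
  · rw [Set.disjoint_right]
    rintro _ ⟨i, hi, rfl⟩ (h1 | ⟨-, h1⟩)
    exacts [h.not_mem_C hi h1, h.sq_ne hi h1.symm]
  · exact ((h1 _ (h.sq_ne_one hodd (by omega))).mpr (Or.inr ⟨hn, rfl⟩)).symm.imp_left And.right
  · exact ((h1 _ (h.mul_ne_one i.lt_succ_self hi)).mpr (Or.inl ⟨i, hi, rfl⟩)).symm.imp_left And.right

omit [Finite Ω] in
theorem Tri.adj {n : ℕ} {e : ℕ → Ω} (h : Tri n e) {a b : ℕ} (ha : a < n) (hb : b < n) (hab : a ≠ b)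
    (hC : e a * e b ∈ C n e) : a + 1 = b ∨ b + 1 = a := by
  obtain ⟨i, hi, he⟩ := hC
  rcases lt_or_gt_of_ne hab with h1 | h1
  · have := h.mul_eq h1 i.lt_succ_self hb hi he; omega
  · have := h.mul_eq h1 i.lt_succ_self ha hi ((mul_comm _ _).trans he); omega

omit [Finite Ω] in
theorem Tri.interior {n : ℕ} {e : ℕ → Ω} (h : Tri n e) {φ : Ω →* Ω} (hφ : Function.Injective φ)
    (h1 : ∀ x ∈ B n e, φ x ∈ B n e) (h2 : ∀ x ∈ C n e, φ x ∈ C n e) {i j : ℕ} (hi : i < n) (hj : j + 2 < n)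
    (he : φ (e (j + 1)) = e i) : i ≠ 0 ∧ i + 1 ≠ n := by
  obtain ⟨a, ha, e1⟩ := h1 _ ⟨j, by omega, rfl⟩
  obtain ⟨b, hb, e2⟩ := h1 _ ⟨j + 2, hj, rfl⟩
  have k : ∀ {x y x' y'}, x < n → y < n → φ (e x) = e x' → φ (e y) = e y' → x ≠ y → x' ≠ y' :=
    fun hx hy f1 f2 hne h3 => hne (h.inj hx hy (hφ (by rw [f1, f2, h3])))
  have a1 := h.adj ha hi (k (by omega) (by omega) e1 he (by omega))
    (by rw [← e1, ← he, ← map_mul]; exact h2 _ ⟨j, by omega, rfl⟩)
  have a2 := h.adj hi hb (k (by omega) (by omega) he e2 (by omega))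
    (by rw [← e2, ← he, ← map_mul]; exact h2 _ ⟨j + 1, by omega, rfl⟩)
  have a3 := k (by omega) hj e1 e2 (by omega)
  omega

theorem surj_of_maps {φ : Ω →* Ω} (hφ : Function.Injective φ) {S : Set Ω} (h : ∀ x ∈ S, φ x ∈ S) :
    ∀ x ∈ S, ∃ y ∈ S, φ y = x :=
  ((Set.Finite.injOn_iff_bijOn_of_mapsTo S.toFinite h).mp hφ.injOn).surjOn

theorem Tri.ends {n : ℕ} {e : ℕ → Ω} (h : Tri n e) {φ : Ω →* Ω} (hφ : Function.Injective φ)
    (h1 : ∀ x ∈ B n e, φ x ∈ B n e) (h2 : ∀ x ∈ C n e, φ x ∈ C n e) {i : ℕ} (hi : i < n)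
    (h0 : i = 0 ∨ i + 1 = n) : φ (e i) = e 0 ∨ φ (e i) = e (n - 1) := by
  let f := MulEquiv.ofBijective φ (Finite.injective_iff_bijective.mp hφ)
  have k : ∀ S : Set Ω, (∀ x ∈ S, φ x ∈ S) → ∀ x ∈ S, f.symm.toMonoidHom x ∈ S := fun S hS x hx => by
    obtain ⟨y, hy, rfl⟩ := surj_of_maps hφ hS x hx
    exact (f.symm_apply_apply y).symm ▸ hy
  obtain ⟨j, hj, e1⟩ := h1 _ ⟨i, hi, rfl⟩
  rw [e1]
  rcases j with _ | j
  · exact Or.inl rfl
  by_cases hj' : j + 2 < n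
  · have := h.interior f.symm.injective (k _ h1) (k _ h2) hi hj' (e1 ▸ f.symm_apply_apply _)
    omega
  · exact Or.inr (by congr 1; omega)

theorem exists_rigid_odd' (hodd : Odd (Nat.card Ω)) : ∃ Γ : Set Ω, Det.{u} Γ ∧
    ∀ φ : Ω →* Ω, Function.Injective φ → Pres φ Γ → ∀ x, φ (φ x) = x := by
  by_cases h3 : Nat.card Ω ≤ 3
  · refine ⟨∅, det_empty, fun φ hφ _ x => ?_⟩
    by_contra hx
    have h1 : x ≠ 1 := by rintro rfl; simp at hx
    have h2 : φ x ≠ 1 := fun h => h1 (hφ (h.trans (map_one φ).symm))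
    have h4 : φ (φ x) ≠ 1 := fun h => h2 (hφ (h.trans (map_one φ).symm))
    have h5 : φ x ≠ x := fun h => hx (by rw [h, h])
    have h6 : φ (φ x) ≠ φ x := fun h => h5 (hφ h)
    have := Nat.card_le_card_of_injective ![1, x, φ x, φ (φ x)] (by
      intro i j hij
      fin_cases i <;> fin_cases j <;> simp_all [eq_comm])
    simp at this; omega
  haveI : Nontrivial Ω := Finite.one_lt_card_iff_nontrivial.mp (by omega)
  obtain ⟨l, t, n, e, t1, t2, h, he⟩ := exists_hom_tri (Ω := Ω)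
  have hc := h.pow_le_card (three_le_of_odd hodd)
  by_cases hn : n ≤ 2
  · refine ⟨B n e, det_of_card (three_le_of_odd hodd) ?_, fun φ hφ hp => h.ext (φ := φ.comp φ) fun i hi => ?_⟩
    · have := ncard_B n e
      interval_cases n <;> omega
    obtain ⟨j, hj, e1⟩ := (hp _ (h.ne_one hi)).mpr ⟨i, hi, rfl⟩
    obtain ⟨k, hk, e2⟩ := (hp _ (h.ne_one hj)).mpr ⟨j, hj, rfl⟩
    change φ (φ (e i)) = e i
    by_cases hij : j = i
    · rw [e1, hij, e1, hij]
    have : j ≠ k := fun hjk => hij (h.inj hj hi (hφ (by rw [e1, e2, hjk])))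
    rw [e1, e2, show k = i by omega]
  refine ⟨B n e ∪ C n e, det_of_card (three_le_of_odd hodd) ?_, fun φ hφ hp => ?_⟩
  · have h1 := six_mul_lt (n := n) (by omega)
    have h2 := Set.ncard_union_le (B n e) (C n e)
    have h3 := ncard_C n e
    have h4 := ncard_B n e
    omega
  have t3 : t * t ≠ 1 := fun h => t1 ((pow_eq_one_iff_of_coprime (Nat.coprime_two_right.mpr hodd)).mp
    ⟨t2, by rwa [sq]⟩)
  obtain ⟨h1, h2⟩ := pres_split hφ hp (by
      rintro (⟨i, hi, h1⟩ | ⟨i, hi, h1⟩)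
      exacts [h.ne_one hi h1.symm, h.mul_ne_one i.lt_succ_self hi h1.symm]) (by
      have k : ∀ i j k, i ≤ j → j + 1 < n → k < n → e i * e (i + 1) * (e j * e (j + 1)) ≠ e k := by
        intro i j k hij hj hk hxy
        have m : ∀ {a b}, a < b → e a ∈ closure (e '' Set.Iio b) := Tri.mem
        rcases hij.lt_or_eq with hij | rfl
        · rcases lt_trichotomy (j + 1) k with h1 | rfl | h1
          · exact h.1 k hk (hxy ▸ mul_mem (mul_mem (m (by omega)) (m (by omega))) (mul_mem (m (by omega)) (m h1)))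
          · rw [← mul_assoc, mul_eq_right] at hxy
            rcases (Nat.succ_le_of_lt hij).lt_or_eq with h2 | rfl
            · refine h.1 j (by omega) ?_
              rw [← mul_mem_cancel_left (mul_mem (m hij) (m h2)), hxy]; exact one_mem _
            · refine h.1 (i + 1) (by omega) (mem_of_sq_mem hodd ?_)
              rw [← mul_mem_cancel_left (m hij), ← mul_assoc, hxy]; exact one_mem _
          · refine h.1 _ hj ?_
            rw [← mul_mem_cancel_left (m j.lt_succ_self), ← mul_mem_cancel_left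
              (mul_mem (m (by omega : i < j + 1)) (m (by omega : i + 1 < j + 1))), hxy]
            exact m h1
        · rw [mul_mul_mul_comm] at hxy
          have m1 := mul_mem (m i.lt_succ_self) (m i.lt_succ_self)
          rcases lt_trichotomy (i + 1) k with h1 | rfl | h1
          · exact h.1 k hk (hxy ▸ mul_mem (mul_mem (m (by omega)) (m (by omega))) (mul_mem (m h1) (m h1)))
          · rw [← mul_assoc, mul_eq_right] at hxy
            refine h.1 _ hj ?_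
            rw [← mul_mem_cancel_left m1, hxy]; exact one_mem _
          · refine h.1 _ hj (mem_of_sq_mem hodd ?_)
            rw [← mul_mem_cancel_left m1, hxy]; exact m h1
      rintro _ (⟨i, hi, rfl⟩ | ⟨i, hi, rfl⟩) _ (⟨j, hj, rfl⟩ | ⟨j, hj, rfl⟩) ⟨m, hm, hxy⟩
      · have := congrArg l hxy
        rw [map_mul, he i hi, he j hj, he m hm, mul_eq_left] at this
        exact t1 this
      · have := congrArg l hxy
        rw [map_mul, map_mul, he i hi, he j (by omega), he _ hj, he m hm, mul_eq_left] at this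
        exact t3 this
      · have := congrArg l hxy
        rw [map_mul, map_mul, he i (by omega), he j hj, he _ hi, he m hm, mul_eq_right] at this
        exact t3 this
      · rcases le_total i j with h1 | h1
        exacts [k i j m h1 hj hm hxy, k j i m h1 hi hm ((mul_comm _ _).trans hxy)]) (by
      rintro _ ⟨i, hi, rfl⟩
      exact ⟨_, Or.inl ⟨i, by omega, rfl⟩, _, Or.inl ⟨_, hi, rfl⟩, rfl⟩)
  refine h.rigid (φ := φ.comp φ) (hφ.comp hφ) (fun _ => ?_) (fun i hi => h1 _ (h1 _ ⟨i, hi, rfl⟩))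
    fun i hi => h2 _ (h2 _ ⟨i, hi, rfl⟩)
  change φ (φ (e 0)) = e 0
  rcases h.ends hφ h1 h2 (i := 0) (by omega) (Or.inl rfl) with h4 | h4
  · rw [h4, h4]
  rw [h4]
  refine (h.ends hφ h1 h2 (i := n - 1) (by omega) (Or.inr (by omega))).resolve_right fun h5 => ?_
  have := h.inj (by omega) (by omega) (hφ (h4.trans h5.symm))
  omega

theorem exists_rigid_prod {A B : Type*} [CommGroup A] [CommGroup B] [Finite A] [Finite B] [Nontrivial A]
    [Nontrivial B] (hc : (Nat.card A).Coprime (Nat.card B)) (hodd : Odd (Nat.card B)) :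
    ∃ Γ : Set (A × B), Det.{u} Γ ∧
      ∀ φ : A × B →* A × B, Function.Injective φ → Pres φ Γ → ∀ x, φ x = x := by
  obtain ⟨n, a, ha⟩ := exists_tri A
  obtain ⟨m, b, hb⟩ := exists_tri B
  have hn := ha.pos
  have hm := hb.pos
  have a1 := ha.ne_one hn
  have b1 := hb.ne_one hm
  have a2 := ha.not_mem_C hn
  have b2 : ∀ i < m, b i ∉ C m b ∪ {b 0 * b 0} := fun i hi h =>
    h.elim (hb.not_mem_C hi) fun h => hb.sq_ne hi h.symm
  have a3 : 1 ∉ Tri.B n a := fun ⟨i, hi, h⟩ => ha.ne_one hi h.symm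
  have b3 : 1 ∉ Tri.B m b := fun ⟨i, hi, h⟩ => hb.ne_one hi h.symm
  have a4 : 1 ∉ C n a := fun ⟨i, hi, h⟩ => ha.mul_ne_one i.lt_succ_self hi h.symm
  have b4 : 1 ∉ C m b ∪ {b 0 * b 0} := fun h => h.elim
    (fun ⟨i, hi, h⟩ => hb.mul_ne_one i.lt_succ_self hi h.symm) fun h => hb.sq_ne_one hodd hm h.symm
  refine ⟨{x | (x.1 ∈ Tri.B n a ∧ x.2 = 1) ∨ (x.1 = 1 ∧ x.2 ∈ Tri.B m b) ∨
    (x.1 = a 0 ∧ x.2 ∈ C m b ∪ {b 0 * b 0}) ∨ (x.1 ∈ C n a ∧ x.2 = b 0)}, det_prod hc (fun x => ?_)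
      (fun y => ?_), fun φ hφ hp => ?_⟩
  · by_cases h : x ∈ Tri.B n a
    · obtain ⟨i, hi, rfl⟩ := h
      exact ⟨b 0, by simp only [Set.mem_setOf_eq, b1, ha.ne_one hi, b2 0 hm, ha.not_mem_C hi]; simp⟩
    · exact ⟨1, by simp only [Set.mem_setOf_eq, h, b3, b4, b1.symm]; simp⟩
  · by_cases h : y ∈ Tri.B m b
    · obtain ⟨i, hi, rfl⟩ := h
      exact ⟨a 0, by simp only [Set.mem_setOf_eq, a1, hb.ne_one hi, b2 i hi, a2]; simp⟩
    · exact ⟨1, by simp only [Set.mem_setOf_eq, h, a3, a4, a1.symm]; simp⟩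
  let f : A →* A := (MonoidHom.fst A B).comp (φ.comp (MonoidHom.inl A B))
  let g : B →* B := (MonoidHom.snd A B).comp (φ.comp (MonoidHom.inr A B))
  have e1 : ∀ x y, φ (x, y) = (f x, g y) := fun x y => by
    have h1 : (φ (x, 1)).2 = 1 := (pow_eq_one_iff_of_coprime hc).mp ⟨by
      rw [← Prod.pow_snd, ← map_pow, Prod.pow_mk, pow_card_eq_one', one_pow, ← Prod.one_eq_mk, map_one]; rfl,
      pow_card_eq_one'⟩
    have h2 : (φ (1, y)).1 = 1 := (pow_eq_one_iff_of_coprime hc).mp ⟨pow_card_eq_one', by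
      rw [← Prod.pow_fst, ← map_pow, Prod.pow_mk, pow_card_eq_one', one_pow, ← Prod.one_eq_mk, map_one]; rfl⟩
    rw [show (x, y) = (x, 1) * (1, y) by simp, map_mul]
    ext <;> simp [h1, h2, f, g]
  have hf : Function.Injective f := fun x y h => by
    simpa using hφ (show φ (x, 1) = φ (y, 1) by rw [e1, e1, h])
  have hg : Function.Injective g := fun x y h => by
    simpa using hφ (show φ (1, x) = φ (1, y) by rw [e1, e1, h])
  have f1 : ∀ x ∈ Tri.B n a, f x ∈ Tri.B n a := fun x hx => by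
    have := (hp (x, 1) (by rintro ⟨⟩; exact a3 hx)).mpr (Or.inl ⟨hx, rfl⟩)
    simpa only [e1, map_one, Set.mem_setOf_eq, b3, b4, b1.symm, and_false, or_false, and_true] using this
  have g1 : ∀ x ∈ Tri.B m b, g x ∈ Tri.B m b := fun x hx => by
    have := (hp (1, x) (by rintro ⟨⟩; exact b3 hx)).mpr (Or.inr (Or.inl ⟨rfl, hx⟩))
    simpa only [e1, map_one, Set.mem_setOf_eq, a3, a4, a1.symm, false_and, or_false, false_or, true_and]
      using this
  have k : ∀ y ∈ C m b ∪ {b 0 * b 0}, f (a 0) = a 0 ∧ g y ∈ C m b ∪ {b 0 * b 0} := fun y hy => by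
    have := (hp (a 0, y) (by simp [a1])).mpr (Or.inr (Or.inr (Or.inl ⟨rfl, hy⟩)))
    obtain ⟨i, hi, h⟩ := f1 _ ⟨0, hn, rfl⟩
    have h2 : g y ≠ 1 := fun h => b4 (hg (h.trans (map_one g).symm) ▸ hy)
    rw [e1] at this
    simpa only [h, Set.mem_setOf_eq, h2, ha.ne_one hi, ha.not_mem_C hi, false_and, and_false, or_false,
      false_or] using this
  have g2 := hb.rigid3 hodd hg (fun i hi => g1 _ ⟨i, hi, rfl⟩) (fun _ => (k _ (Or.inr rfl)).2.symm)
    fun i hi => (k _ (Or.inl ⟨i, hi, rfl⟩)).2.symm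
  have f2 := ha.rigid hf (fun _ => (k _ (Or.inr rfl)).1) (fun i hi => f1 _ ⟨i, hi, rfl⟩) fun i hi => by
    have := (hp (a i * a (i + 1), b 0) (by simp [b1])).mpr (Or.inr (Or.inr (Or.inr ⟨⟨i, hi, rfl⟩, rfl⟩)))
    have h2 : f (a i * a (i + 1)) ≠ 1 := fun h =>
      ha.mul_ne_one i.lt_succ_self hi (hf (h.trans (map_one f).symm))
    rw [e1, g2] at this
    have h3 : f (a i * a (i + 1)) ∈ C n a := by
      simpa only [Set.mem_setOf_eq, h2, b1, b2 0 hm, false_and, and_false, or_false,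
        false_or, and_true] using this
    exact h3
  rintro ⟨x, y⟩
  rw [e1, f2, g2]

theorem exists_rigid_mixed (h2 : 2 ∣ Nat.card Ω) (h : ¬ IsPGroup 2 Ω) : ∃ Γ : Set Ω, Det.{u} Γ ∧
    ∀ φ : Ω →* Ω, Function.Injective φ → Pres φ Γ → ∀ x, φ x = x := by
  obtain ⟨S⟩ := (inferInstance : Nonempty (Sylow 2 Ω))
  obtain ⟨T, hT⟩ := exists_right_complement'_of_coprime S.card_coprime_index
  haveI : Nontrivial (S : Subgroup Ω) := (Subgroup.nontrivial_iff_ne_bot _).mpr (S.ne_bot_of_dvd_card h2)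
  haveI : Nontrivial T := (Subgroup.nontrivial_iff_ne_bot _).mpr fun h0 => h (by
    rw [h0, isComplement'_bot_right] at hT
    exact S.isPGroup'.of_surjective (S : Subgroup Ω).subtype fun x => ⟨⟨x, hT.ge (mem_top x)⟩, rfl⟩)
  obtain ⟨Γ, h1, h3⟩ := exists_rigid_prod (A := (S : Subgroup Ω)) (B := T)
    (hT.symm.index_eq_card ▸ S.card_coprime_index)
    (hT.symm.index_eq_card ▸ Nat.odd_iff.mpr (Nat.two_dvd_ne_zero.mp S.not_dvd_index))
  let f := MulEquiv.ofBijective ((S : Subgroup Ω).subtype.coprod T.subtype) hT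
  refine ⟨f.symm ⁻¹' Γ, h1.equiv f.symm, fun φ hφ hp x => ?_⟩
  have := h3 (f.symm.toMonoidHom.comp (φ.comp f.toMonoidHom)) (f.symm.injective.comp (hφ.comp f.injective))
    (fun y hy => by simpa using hp (f y) (by simpa using hy)) (f.symm x)
  simpa using this

theorem exists_rigid_four {n : ℕ} {e : ℕ → Ω} (h : Tri n e) (hn : 4 ≤ n) : ∃ Z : Set Ω, Det.{u} Z ∧
    Disjoint Z (B n e) ∧ ∀ φ : Ω →* Ω, Function.Injective φ → Pres φ Z → Pres φ (B n e) → ∀ x, φ x = x := by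
  have m : ∀ {a b}, a < b → e a ∈ closure (e '' Set.Iio b) := Tri.mem
  have lev : ∀ {x y j l}, j < n → l < n → x ∈ closure (e '' Set.Iio j) → y ∈ closure (e '' Set.Iio l) →
      x * e j = y * e l → j = l ∧ x = y := fun {x y j l} hj hl hx hy he => by
    have mono : ∀ {a b}, a < b → closure (e '' Set.Iio a) ≤ closure (e '' Set.Iio b) := fun h =>
      closure_mono (Set.image_mono (Set.Iio_subset_Iio h.le))
    rcases lt_trichotomy j l with h1 | rfl | h1
    · refine absurd ?_ (h.1 l hl)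
      rw [← mul_mem_cancel_left hy, ← he]; exact mul_mem (mono h1 hx) (m h1)
    · exact ⟨rfl, mul_right_cancel he⟩
    · refine absurd ?_ (h.1 j hj)
      rw [← mul_mem_cancel_left hx, he]; exact mul_mem (mono h1 hy) (m h1)
  have n32 : ∀ {a b c i j}, a < b → b < c → c < n → i < j → j < n → e a * e b * e c ≠ e i * e j :=
    fun h1 h2 h3 h4 h5 he => h.mul_ne h1 (h2.trans h3) (h4.trans h5)
      (lev h3 h5 (mul_mem (m (h1.trans h2)) (m h2)) (m h4) he).2
  have z1 : ∀ i < n, e i ∉ C n e ∪ {e 0 * e 1 * e 2} := fun i hi hz => hz.elim (h.not_mem_C hi) fun he =>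
    h.mul_ne_one one_pos (by omega) (lev hi (by omega) (one_mem _) (mul_mem (m two_pos) (m one_lt_two))
      ((one_mul _).trans he)).2.symm
  have z2 : ∀ {a b}, a + 1 < b → b < n → e a * e b ∉ C n e ∪ {e 0 * e 1 * e 2} := fun h1 h2 hz =>
    hz.elim (fun hz => by have := h.adj (by omega) h2 (by omega) hz; omega)
      fun he => n32 one_pos one_lt_two (by omega) (by omega) h2 he.symm
  have z3 : ∀ {a b c}, a < b → b < c → c < n → 2 < c → e a * e b * e c ∉ C n e ∪ {e 0 * e 1 * e 2} :=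
    fun h1 h2 h3 h4 hz => hz.elim (fun ⟨i, hi, he⟩ => n32 h1 h2 h3 i.lt_succ_self hi he) fun he =>
      h4.ne' (lev h3 (by omega) (mul_mem (m (h1.trans h2)) (m h2)) (mul_mem (m two_pos) (m one_lt_two)) he).1
  refine ⟨C n e ∪ {e 0 * e 1 * e 2}, fun D _ c hq hc => ?_, ?_, fun φ hφ p1 p2 => ?_⟩
  · have k : ∀ {i j l}, i < j → j < l → l < n → 2 < l → c (e i * e j) * c (e i * e l) * c (e j * e l) = 1 :=
      fun h1 h2 h3 h4 => by
        rw [← hq.2, hc _ (z3 h1 h2 h3 h4), hc _ (z1 _ h3), hc _ (z1 _ (by omega)), hc _ (z1 _ (by omega))]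
        simp
    have k0 : c (e 0 * e 1) = 1 := by
      simpa [hc _ (z2 (a := 0) (b := 3) (by omega) (by omega)), hc _ (z2 (a := 1) (b := 3) (by omega) (by omega))]
        using k one_pos (by omega : 1 < 3) (by omega) (by omega)
    have k1 : ∀ i, 2 ≤ i → i + 1 < n → c (e i * e (i + 1)) = 1 := fun i h1 h2 => by
      simpa [hc _ (z2 (a := 0) (b := i) (by omega) (by omega)), hc _ (z2 (a := 0) (b := i + 1) (by omega) h2)]
        using k (by omega : 0 < i) i.lt_succ_self h2 (by omega)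
    have k2 : c (e 1 * e 2) = 1 := by
      simpa [hc _ (z2 (a := 1) (b := 3) (by omega) (by omega)), k1 2 le_rfl (by omega)]
        using k one_lt_two (by omega : 2 < 3) (by omega) (by omega)
    intro x
    by_cases hx : x ∈ C n e ∪ {e 0 * e 1 * e 2}
    · rcases hx with ⟨i, hi, rfl⟩ | rfl
      · rcases i with _ | _ | i
        exacts [k0, k2, k1 _ (by omega) hi]
      · simpa [hc _ (z1 0 (by omega)), hc _ (z1 1 (by omega)), hc _ (z1 2 (by omega)), k0, k2,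
          hc _ (z2 (a := 0) (b := 2) (by omega) (by omega))] using hq.2 (e 0) (e 1) (e 2)
    · exact hc x hx
  · rw [Set.disjoint_right]
    rintro _ ⟨i, hi, rfl⟩; exact z1 i hi
  have h1 : ∀ x ∈ B n e, φ x ∈ B n e := by
    rintro _ ⟨i, hi, rfl⟩; exact (p2 _ (h.ne_one hi)).mpr ⟨i, hi, rfl⟩
  have k : ∀ {x y x' y'}, x < n → y < n → φ (e x) = e x' → φ (e y) = e y' → x ≠ y → x' ≠ y' :=
    fun hx hy f1 f2 hne h3 => hne (h.inj hx hy (hφ (by rw [f1, f2, h3])))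
  have h2 : ∀ x ∈ C n e, φ x ∈ C n e := by
    rintro _ ⟨i, hi, rfl⟩
    refine ((p1 _ (h.mul_ne_one i.lt_succ_self hi)).mpr (Or.inl ⟨i, hi, rfl⟩)).resolve_right fun he => ?_
    obtain ⟨a, ha, e1⟩ := h1 _ ⟨i, by omega, rfl⟩
    obtain ⟨b, hb, e2⟩ := h1 _ ⟨i + 1, hi, rfl⟩
    rw [Set.mem_singleton_iff, map_mul, e1, e2] at he
    rcases lt_or_gt_of_ne (k (by omega) hi e1 e2 (by omega)) with h3 | h3
    exacts [n32 one_pos one_lt_two (by omega) h3 hb he.symm,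
      n32 one_pos one_lt_two (by omega) h3 ha (he.symm.trans (mul_comm _ _))]
  refine h.rigid hφ (fun _ => (h.ends hφ h1 h2 (i := 0) (by omega) (Or.inl rfl)).resolve_right fun h4 => ?_)
    (fun i hi => h1 _ ⟨i, hi, rfl⟩) fun i hi => h2 _ ⟨i, hi, rfl⟩
  have h5 : φ (e 0 * e 1 * e 2) = e 0 * e 1 * e 2 := by
    have n1 : e 0 * e 1 * e 2 ≠ 1 := fun he => h.1 2 (by omega) (by
      rw [← mul_mem_cancel_left (mul_mem (m two_pos) (m one_lt_two)), he]; exact one_mem _)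
    refine ((p1 _ n1).mpr (Or.inr rfl)).resolve_left fun h5 => ?_
    obtain ⟨_, ⟨i, hi, rfl⟩, h6⟩ := surj_of_maps hφ h2 _ h5
    exact n32 one_pos one_lt_two (by omega) i.lt_succ_self hi (hφ h6).symm
  obtain ⟨a, ha, e1⟩ := h1 _ ⟨1, by omega, rfl⟩
  obtain ⟨b, hb, e2⟩ := h1 _ ⟨2, by omega, rfl⟩
  have a1 := k (by omega) (by omega) h4 e1 (by omega)
  have a2 := k (by omega) (by omega) h4 e2 (by omega)
  rw [map_mul, map_mul, h4, e1, e2, mul_assoc, mul_comm] at h5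
  have := (lev (by omega) (by omega) (mul_mem (m (by omega)) (m (by omega)))
    (mul_mem (m two_pos) (m one_lt_two)) h5).1
  omega

end Cfsg.Agent.Lib.Base
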