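import Cfsg.Agent.Lib.Base.Three
import Cfsg.Agent.Lib.Base.Rigid2

/-! Gluck's theorem: solvable permutation groups of odd order have a regular orbit on the power set. -/

set_option autoImplicit false

namespace Cfsg.Agent.Lib.Base

open Subgroup Cfsg.Agent.Lib.Core

universe u v

theorem smul_eq_of_sq {G X : Type*} [Group G] [MulAction G X] (hodd : Odd (Nat.card G)) {g : G} {x : X}
    (h : g • g • x = x) : g • x = x :=
  mem_of_sq_mem hodd (H := MulAction.stabilizer G x) (by simpa [mul_smul] using h)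

theorem add_mem_of_two {N : Type*} [AddCommGroup N] (hodd : Odd (Nat.card N)) {K : AddSubgroup N} {x : N}
    (h : x + x ∈ K) : x ∈ K :=
  mem_of_sq_mem (Ω := Multiplicative N) hodd (H := K.toSubgroup) (x := Multiplicative.ofAdd x) h

section
variable {H N : Type*} [Group H] [AddCommGroup N] [DistribMulAction H N]

theorem bary [Finite N] (hN : Odd (Nat.card N)) (S : Finset N) (hs : ∑ x ∈ S, x = 0) {k : ℕ}
    (hk : S.card = 2 ^ k) {n₀ : N} {h : H} (hh : ∀ n, n₀ + h • n ∈ S ↔ n ∈ S) : n₀ = 0 := by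
  have h1 : ∑ x ∈ S, (n₀ + h • x) = ∑ x ∈ S, x :=
    Finset.sum_equiv ((MulAction.toPerm h).trans (Equiv.addLeft n₀)) (fun n => (hh n).symm) fun _ _ => rfl
  rw [Finset.sum_add_distrib, ← Finset.smul_sum, hs, smul_zero, add_zero, Finset.sum_const, hk] at h1
  exact (nsmul_eq_zero_iff_of_coprime (m := 2 ^ k) (n := Nat.card N)
    (Nat.coprime_two_left.mpr hN |>.pow_left k)).mp ⟨h1, card_nsmul_eq_zero'⟩

theorem fix_pm (hH : Odd (Nat.card H)) {h : H} {a : N} (ha : h • a = a ∨ h • a = -a) : h • a = a :=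
  ha.elim id fun ha => smul_eq_of_sq hH (by rw [ha, smul_neg, ha, neg_neg])

theorem fix_pm2 (hH : Odd (Nat.card H)) {h : H} {a b : N} (hab : a ≠ b) (hab' : a ≠ -b)
    (ha : h • a = a ∨ h • a = -a ∨ h • a = b ∨ h • a = -b)
    (hb : h • b = a ∨ h • b = -a ∨ h • b = b ∨ h • b = -b) : h • a = a ∧ h • b = b := by
  have inj := MulAction.injective (β := N) h
  have k : ∀ {a b : N}, a ≠ b → a ≠ -b → h • a = a → (h • b = a ∨ h • b = -a ∨ h • b = b ∨ h • b = -b) →
      h • b = b := fun {a b} hab hab' ha hb => by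
    rcases hb with hb | hb | hb | hb
    · exact absurd (inj (ha.trans hb.symm)) hab
    · exact absurd (inj (show h • a = h • -b by rw [ha, smul_neg, hb, neg_neg])) hab'
    · exact hb
    · exact fix_pm hH (Or.inr hb)
  by_cases h1 : h • a = a ∨ h • a = -a
  · exact ⟨fix_pm hH h1, k hab hab' (fix_pm hH h1) hb⟩
  by_cases h2 : h • b = b ∨ h • b = -b
  · exact ⟨k hab.symm (fun e => hab' (by rw [e, neg_neg])) (fix_pm hH h2) (by tauto), fix_pm hH h2⟩
  have h3 : (h * h) • a = a ∨ (h * h) • a = -a := by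
    rw [mul_smul]
    rcases ha with ha | ha | ha | ha <;> rcases hb with hb | hb | hb | hb <;> simp_all
  exact absurd (Or.inl (smul_eq_of_sq hH (by simpa [mul_smul] using fix_pm hH h3))) h1

theorem exists_set_of_base [Finite N] (hH : Odd (Nat.card H)) (hN : Odd (Nat.card N)) (a b c : N) :
    ∃ S : Finset N, ∀ (n₀ : N) (h : H), (∀ n, n₀ + h • n ∈ S ↔ n ∈ S) →
      n₀ = 0 ∧ h • a = a ∧ h • b = b ∧ h • c = c := by
  classical
  have two : ∀ {x : N}, x = -x → x = 0 := fun {x} hx =>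
    add_mem_of_two hN (K := ⊥) (by rw [AddSubgroup.mem_bot]; exact add_eq_zero_iff_eq_neg.mpr hx)
  have fixK : ∀ h : H, ∃ K : AddSubgroup N, ∀ x, x ∈ K ↔ h • x = x := fun h =>
    ⟨(DistribSMul.toAddMonoidHom N h).eqLocus (AddMonoidHom.id N), fun _ => Iff.rfl⟩
  have one : ∀ a : N, ∃ S : Finset N, ∀ (n₀ : N) (h : H), (∀ n, n₀ + h • n ∈ S ↔ n ∈ S) →
      n₀ = 0 ∧ h • a = a := fun a => by
    by_cases ha : a = 0
    · exact ⟨{0}, fun n₀ h hh => ⟨by simpa using (hh 0).mpr (by simp), by simp [ha]⟩⟩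
    refine ⟨{a, -a}, fun n₀ h hh => ?_⟩
    have h0 := bary hN {a, -a} (by rw [Finset.sum_pair fun e => ha (two e)]; simp) (k := 1)
      (Finset.card_pair fun e => ha (two e)) hh
    subst h0
    exact ⟨rfl, fix_pm hH (by simpa using (hh a).mpr (by simp))⟩
  have two' : ∀ a b : N, ∃ S : Finset N, ∀ (n₀ : N) (h : H), (∀ n, n₀ + h • n ∈ S ↔ n ∈ S) →
      n₀ = 0 ∧ h • a = a ∧ h • b = b := fun a b => by
    by_cases hb : b ∈ AddSubgroup.zmultiples a
    · obtain ⟨S, hS⟩ := one a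
      refine ⟨S, fun n₀ h hh => ⟨(hS _ _ hh).1, (hS _ _ hh).2, ?_⟩⟩
      obtain ⟨K, hK⟩ := fixK h
      exact (hK _).mp (AddSubgroup.zmultiples_le.mpr ((hK _).mpr (hS _ _ hh).2) hb)
    by_cases ha : a = 0
    · obtain ⟨S, hS⟩ := one b
      exact ⟨S, fun n₀ h hh => ⟨(hS _ _ hh).1, by simp [ha], (hS _ _ hh).2⟩⟩
    have e1 : a ≠ b := fun e => hb (e ▸ AddSubgroup.mem_zmultiples a)
    have e2 : a ≠ -b := fun e => hb (by simp [e])
    have e3 : a ≠ -a := fun e => ha (two e)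
    have e4 : b ≠ -b := fun e => hb (by rw [two e]; exact zero_mem _)
    have e5 : -a ≠ b := fun e => e2 (by rw [← e, neg_neg])
    refine ⟨{a, -a, b, -b}, fun n₀ h hh => ?_⟩
    have h0 := bary hN {a, -a, b, -b} (by simp [e1, e2, e3, e4, e5]) (k := 2) (by
      rw [Finset.card_insert_of_notMem (by simp [e1, e2, e3]), Finset.card_insert_of_notMem (by simp [e1, e5]),
        Finset.card_pair e4]; rfl) hh
    subst h0
    exact ⟨rfl, fix_pm2 hH e1 e2 (by simpa using (hh a).mpr (by simp)) (by simpa using (hh b).mpr (by simp))⟩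
  have red : ∀ a b c : N, c ∈ AddSubgroup.zmultiples a ⊔ AddSubgroup.zmultiples b →
      ∃ S : Finset N, ∀ (n₀ : N) (h : H), (∀ n, n₀ + h • n ∈ S ↔ n ∈ S) →
        n₀ = 0 ∧ h • a = a ∧ h • b = b ∧ h • c = c := fun a b c hc => by
    obtain ⟨S, hS⟩ := two' a b
    refine ⟨S, fun n₀ h hh => ⟨(hS _ _ hh).1, (hS _ _ hh).2.1, (hS _ _ hh).2.2, ?_⟩⟩
    obtain ⟨K, hK⟩ := fixK h
    exact (hK _).mp (sup_le (AddSubgroup.zmultiples_le.mpr ((hK _).mpr (hS _ _ hh).2.1))
      (AddSubgroup.zmultiples_le.mpr ((hK _).mpr (hS _ _ hh).2.2)) hc)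
  set K := AddSubgroup.zmultiples a ⊔ AddSubgroup.zmultiples b
  by_cases hc : c ∈ K
  · exact red a b c hc
  by_cases hb : b ∈ AddSubgroup.zmultiples a
  · obtain ⟨S, hS⟩ := red a c b (AddSubgroup.mem_sup_left hb)
    exact ⟨S, fun n₀ h hh => by have := hS _ _ hh; tauto⟩
  by_cases ha : a = 0
  · obtain ⟨S, hS⟩ := red b c a (ha ▸ zero_mem _)
    exact ⟨S, fun n₀ h hh => by have := hS _ _ hh; tauto⟩
  have aK : a ∈ K := AddSubgroup.mem_sup_left (AddSubgroup.mem_zmultiples a)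
  have bK : b ∈ K := AddSubgroup.mem_sup_right (AddSubgroup.mem_zmultiples b)
  have aL := AddSubgroup.mem_zmultiples a
  set L := AddSubgroup.zmultiples a
  have cK : ∀ {x}, x ∈ K → x ≠ c := fun hx e => hc (e ▸ hx)
  have cK' : ∀ {x}, x ∈ K → x ≠ a + b - c := fun hx e => hc (by
    simpa [e] using sub_mem (add_mem aK bK) hx)
  have bL : ∀ {x}, x ∈ L → x ≠ b := fun hx e => hb (e ▸ hx)
  have bL' : ∀ {x}, x ∈ L → x ≠ -b := fun hx e => hb (by simpa [e] using hx)
  have bL2 : ∀ {x}, x ∈ L → x ≠ -(a + b) := fun hx e => hb (by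
    simpa [e] using sub_mem (neg_mem hx) aL)
  have bL3 : ∀ {x}, x ∈ L → x ≠ a + b := fun hx e => hb (by simpa [e] using sub_mem hx aL)
  have e1 : a ≠ -a := fun e => ha (two e)
  have e2 : b ≠ -b := fun e => hb (by rw [two e]; exact zero_mem _)
  have e3 : b ≠ -(a + b) := fun e => hb (add_mem_of_two hN (by
    rw [show b + b = -a by rw [eq_neg_iff_add_eq_zero] at e ⊢; rw [← e]; abel]; exact neg_mem aL))
  have e4 : -b ≠ -(a + b) := fun e => ha (by simpa using e)
  have e5 : c ≠ a + b - c := fun e => hc (add_mem_of_two hN (by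
    rw [eq_sub_iff_add_eq.mp e]; exact add_mem aK bK))
  have e6 : a + b ≠ -(a + b) := fun e => bL3 (zero_mem _) (two e).symm
  have e7 : a + b ≠ -b := fun e => e3 (by rw [e, neg_neg])
  have nd : ([0, a, -a, b, -b, -(a + b), c, a + b - c] : List N).Nodup := by
    simp only [List.nodup_cons, List.mem_cons, List.not_mem_nil, or_false, not_or, not_false_eq_true,
      List.nodup_nil, and_true]
    refine ⟨⟨Ne.symm ha, fun e => ha (by simpa using e), bL (zero_mem _), bL' (zero_mem _), bL2 (zero_mem _),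
      cK (zero_mem _), cK' (zero_mem _)⟩, ⟨e1, bL aL, bL' aL, bL2 aL, cK aK, cK' aK⟩,
      ⟨bL (neg_mem aL), bL' (neg_mem aL), bL2 (neg_mem aL), cK (neg_mem aK), cK' (neg_mem aK)⟩,
      ⟨e2, e3, cK bK, cK' bK⟩, ⟨e4, cK (neg_mem bK), cK' (neg_mem bK)⟩,
      ⟨cK (neg_mem (add_mem aK bK)), cK' (neg_mem (add_mem aK bK))⟩, e5⟩
  refine ⟨([0, a, -a, b, -b, -(a + b), c, a + b - c] : List N).toFinset, fun n₀ h hh => ?_⟩
  have h0 := bary hN _ (by rw [List.sum_toFinset _ nd]; simp) (k := 3) (by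
    rw [List.toFinset_card_of_nodup nd]; rfl) hh
  subst h0
  simp only [zero_add, List.mem_toFinset, List.mem_cons, List.not_mem_nil, or_false] at hh
  have pm : ∀ x, x ≠ 0 → (x = a ∨ x = -a ∨ x = b ∨ x = -b) →
      h • x = a ∨ h • x = -a ∨ h • x = b ∨ h • x = -b := fun x hx0 hx => by
    have h1 := (hh x).mpr (by tauto)
    have h2 := (hh (-x)).mpr (by rcases hx with rfl | rfl | rfl | rfl <;> simp)
    have h3 : h • x ≠ 0 := by rwa [ne_eq, smul_eq_zero_iff_eq]
    rw [smul_neg] at h2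
    generalize h • x = y at h1 h2 h3
    rcases h1 with h1 | h1 | h1 | h1 | h1 | rfl | rfl | rfl
    · exact absurd h1 h3
    · tauto
    · tauto
    · tauto
    · tauto
    · rw [neg_neg] at h2
      rcases h2 with h2 | h2 | h2 | h2 | h2 | h2 | h2 | h2
      exacts [absurd h2.symm (bL3 (zero_mem _)), absurd h2.symm (bL3 aL), absurd h2.symm (bL3 (neg_mem aL)),
        absurd (add_eq_right.mp h2) ha, absurd h2 e7, absurd h2 e6, absurd h2 (cK (add_mem aK bK)),
        absurd h2 (cK' (add_mem aK bK))]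
    · have k : ∀ {x}, x ∈ K → -y ≠ x := fun hx e => hc (by simpa [← e] using hx)
      rcases h2 with h2 | h2 | h2 | h2 | h2 | h2 | h2 | h2
      exacts [absurd h2 (k (zero_mem _)), absurd h2 (k aK), absurd h2 (k (neg_mem aK)), absurd h2 (k bK),
        absurd h2 (k (neg_mem bK)), absurd h2 (k (neg_mem (add_mem aK bK))), absurd (two h2.symm) h3,
        absurd (sub_left_injective ((zero_sub _).trans h2)) (bL3 (zero_mem _))]
    · have k : ∀ {x}, x ∈ K → -(a + b - c) ≠ x := fun hx e => hc (by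
        simpa [← e] using add_mem hx (add_mem aK bK))
      rcases h2 with h2 | h2 | h2 | h2 | h2 | h2 | h2 | h2
      exacts [absurd h2 (k (zero_mem _)), absurd h2 (k aK), absurd h2 (k (neg_mem aK)), absurd h2 (k bK),
        absurd h2 (k (neg_mem bK)), absurd h2 (k (neg_mem (add_mem aK bK))),
        absurd (sub_eq_self.mp ((neg_sub _ _).symm.trans h2)).symm (bL3 (zero_mem _)),
        absurd (two h2.symm) h3]
  obtain ⟨f1, f2⟩ := fix_pm2 hH (bL aL) (bL' aL) (pm a ha (by simp)) (pm b (bL (zero_mem _)).symm (by simp))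
  refine ⟨rfl, f1, f2, ?_⟩
  obtain ⟨F, hF⟩ := fixK h
  have hKF : K ≤ F := sup_le (AddSubgroup.zmultiples_le.mpr ((hF _).mpr f1))
    (AddSubgroup.zmultiples_le.mpr ((hF _).mpr f2))
  have k : ∀ {x}, x ∈ K → h • c ≠ x := fun hx e =>
    cK hx (MulAction.injective h (((hF _).mp (hKF hx)).trans e.symm))
  rcases (hh c).mpr (by simp) with h2 | h2 | h2 | h2 | h2 | h2 | h2 | h2
  exacts [absurd h2 (k (zero_mem _)), absurd h2 (k aK), absurd h2 (k (neg_mem aK)), absurd h2 (k bK),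
    absurd h2 (k (neg_mem bK)), absurd h2 (k (neg_mem (add_mem aK bK))), h2,
    smul_eq_of_sq hH (by rw [h2, smul_sub, smul_add, f1, f2, h2, sub_sub_cancel])]
end

/-- Gluck's theorem -/
theorem exists_reg_two (G : Type u) [Group G] [Finite G] [Group.IsSolvable G] (hG : Odd (Nat.card G))
    (H : Subgroup G) : ∃ c : G → Fin 2, Reg H c := by
  refine exists_reg 2 (fun G _ _ _ hG c => ?_) (fun H N _ _ _ _ _ _ hH hN hirr => ?_) G
    (Nat.coprime_two_right.mpr hG) H
  · letI := (arrowAction : MulAction G (G → Fin 2))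
    have k : ∀ g : G, ¬ ∀ x, Equiv.swap 0 1 (c (g * x)) = c x := fun g hg => by
      have h1 : g⁻¹ • g⁻¹ • c = c := funext fun x => by
        change c (g⁻¹⁻¹ * (g⁻¹⁻¹ * x)) = c x
        rw [inv_inv, ← hg x, ← hg (g * x), Equiv.swap_apply_self]
      have h2 : c (g⁻¹⁻¹ * 1) = c 1 := congrFun (smul_eq_of_sq (Nat.coprime_two_right.mp hG) h1) 1
      have h3 := hg 1
      rw [inv_inv] at h2
      rw [h2] at h3
      revert h3
      generalize c 1 = i
      fin_cases i <;> decide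
    refine ⟨![1, Equiv.swap 0 1], fun i j g h => ?_⟩
    fin_cases i <;> fin_cases j
    · rfl
    · exact absurd (fun x => by simpa using congrArg (Equiv.swap 0 1) (h x)) (k g)
    · exact absurd h (k g)
    · rfl
  · classical
    obtain ⟨t, ht⟩ := exists_base3_irr H N hirr
    obtain ⟨S, hS⟩ := exists_set_of_base (Nat.coprime_two_right.mp hH) (Nat.coprime_two_right.mp hN)
      (t 0) (t 1) (t 2)
    refine ⟨fun n => if n ∈ S then 0 else 1, fun n₀ h hh => ?_⟩
    obtain ⟨h0, h1, h2, h3⟩ := hS n₀ h fun n => by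
      have := hh n
      by_cases e1 : n ∈ S <;> by_cases e2 : n₀ + h • n ∈ S <;> simp_all
    exact ⟨h0, ht h fun k => by fin_cases k; exacts [h1, h2, h3]⟩

end Cfsg.Agent.Lib.Base
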