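import Cfsg.Agent.Lib.Base.Color
import Cfsg.Agent.Lib.Core.Generation

/-! Bases of finite modules for solvable groups: independence, the imprimitive reduction. -/

set_option autoImplicit false

namespace Cfsg.Agent.Lib.Base

open Subgroup Cfsg.Agent.Lib.Core
open scoped commutatorElement

universe u v

section defs
variable (G : Type*) {V : Type*} [Group G] [AddCommGroup V] [DistribMulAction G V]

/-- `t` is a base modulo the kernel of the action -/
def IsBase {κ : Type*} (t : κ → V) : Prop := ∀ g : G, (∀ k, g • t k = t k) → ∀ v : V, g • v = v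

variable (V) in
/-- irreducibility -/
def Irr : Prop := ∀ U : AddSubgroup V, (∀ g : G, ∀ u ∈ U, g • u ∈ U) → U = ⊥ ∨ U = ⊤

variable {G}

variable (V) in
/-- fixed points of a subgroup -/
def fixA (D : Subgroup G) : AddSubgroup V where
  carrier := {v | ∀ d ∈ D, d • v = v}
  zero_mem' := fun d _ => smul_zero d
  add_mem' := fun h1 h2 d hd => by rw [smul_add, h1 d hd, h2 d hd]
  neg_mem' := fun h d hd => by rw [smul_neg, h d hd]

theorem mem_fixA {D : Subgroup G} {v : V} : v ∈ fixA V D ↔ ∀ d ∈ D, d • v = v := Iff.rfl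

theorem smul_mem_fixA {D : Subgroup G} {g : G} (hg : g ∈ normalizer (D : Set G)) {v : V}
    (hv : v ∈ fixA V D) : g • v ∈ fixA V D := fun d hd => by
  rw [← mul_smul, show d * g = g * (g⁻¹ * d * g) by group, mul_smul,
    hv _ (conj_mem_of_mem_normalizer' hg hd)]

/-- restriction of an action to an invariant subgroup -/
@[reducible] def resAction (M : Subgroup G) (W : AddSubgroup V) (h : ∀ g ∈ M, ∀ w ∈ W, g • w ∈ W) :
    DistribMulAction M W where
  smul g w := ⟨g.1 • w.1, h _ g.2 _ w.2⟩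
  one_smul w := Subtype.ext (one_smul G w.1)
  mul_smul a b w := Subtype.ext (mul_smul a.1 b.1 w.1)
  smul_zero a := Subtype.ext (smul_zero a.1)
  smul_add a x y := Subtype.ext (smul_add a.1 x.1 y.1)
end defs

variable {G V : Type*} [Group G] [AddCommGroup V] [DistribMulAction G V]

theorem indep_aux {ι : Type*} (W : ι → AddSubgroup V)
    (h : ∀ i j, i ≠ j → ∃ b : G, (∀ v ∈ W j, b • v = v) ∧ (∀ v ∈ W i, b • v = v → v = 0) ∧
      ∀ k, ∀ v ∈ W k, b • v ∈ W k) (s : Finset ι) (f : ι → V) (hf : ∀ i, f i ∈ W i)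
    (hs : ∑ i ∈ s, f i = 0) : ∀ i ∈ s, f i = 0 := by
  classical
  induction s using Finset.induction_on generalizing f with
  | empty => simp
  | insert j s hj IH =>
    have h1 : ∀ i ∈ s, f i = 0 := fun i hi => by
      obtain ⟨b, b1, b2, b3⟩ := h i j (by rintro rfl; exact hj hi)
      refine b2 _ (hf i) (sub_eq_zero.mp (IH (fun k => b • f k - f k)
        (fun k => sub_mem (b3 k _ (hf k)) (hf k)) ?_ i hi))
      have := congrArg (fun v => b • v - v) hs
      simp only [Finset.sum_insert hj, smul_add, b1 _ (hf j), smul_zero, sub_zero] at this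
      rw [Finset.sum_sub_distrib, ← Finset.smul_sum, ← this]; abel
    rw [Finset.sum_insert hj, Finset.sum_eq_zero h1, add_zero] at hs
    simpa [hs] using h1

theorem indep [Finite G] {ι : Type*} [Fintype ι] {B D : Subgroup G} [IsMulCommutative B] (hDB : D ≤ B)
    (hmax : ∀ v ∈ fixA V D, v ≠ 0 → ∀ b ∈ B, b • v = v → b ∈ D) (x : ι → G)
    (hx : ∀ i, x i ∈ normalizer (B : Set G))
    (hne : ∀ i j, i ≠ j → (x i)⁻¹ * x j ∉ normalizer (D : Set G)) (f : ι → V)
    (hf : ∀ i, (x i)⁻¹ • f i ∈ fixA V D) (hs : ∑ i, f i = 0) (i : ι) : f i = 0 := by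
  refine indep_aux (G := G) (fun i => (fixA V D).comap (DistribSMul.toAddMonoidHom V (x i)⁻¹))
    (fun i j hij => ?_) Finset.univ f hf hs i (Finset.mem_univ _)
  obtain ⟨d, hd, hd'⟩ : ∃ d ∈ D, (x i)⁻¹ * x j * d * ((x i)⁻¹ * x j)⁻¹ ∉ D := by
    by_contra! h; exact hne i j hij (mem_normalizer_of_conj_mem h)
  have hb : x j * d * (x j)⁻¹ ∈ B := conj_mem_of_mem_normalizer (hx j) (hDB hd)
  refine ⟨x j * d * (x j)⁻¹, fun v hv => ?_, fun v hv h => ?_, fun k v hv => ?_⟩
  · rw [mul_smul, mul_smul, show d • (x j)⁻¹ • v = (x j)⁻¹ • v from hv d hd, smul_inv_smul]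
  · by_contra h0
    refine hd' (hmax _ hv (fun h1 => h0 ((smul_eq_zero_iff_eq _).mp h1)) _ ?_ ?_)
    · convert conj_mem_of_mem_normalizer' (hx i) hb using 1; group
    · change _ • (x i)⁻¹ • v = (x i)⁻¹ • v
      conv_rhs => rw [← h]
      simp only [← mul_smul]; congr 1; group
  · change (x k)⁻¹ • (x j * d * (x j)⁻¹) • v ∈ fixA V D
    rw [← mul_smul, show (x k)⁻¹ * (x j * d * (x j)⁻¹) = ((x k)⁻¹ * (x j * d * (x j)⁻¹) * x k) * (x k)⁻¹ by
      group, mul_smul]
    exact smul_mem_fixA (le_normalizer_of_le_centralizer (B.le_centralizer.trans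
      (centralizer_le_centralizer hDB)) (conj_mem_of_mem_normalizer' (hx k) hb)) hv

theorem exists_max_stab [Finite G] (E : Subgroup G) {w : V} (hw : w ≠ 0) :
    ∃ v : V, v ≠ 0 ∧ E ⊓ MulAction.stabilizer G w ≤ E ⊓ MulAction.stabilizer G v ∧
      ∀ u ∈ fixA V (E ⊓ MulAction.stabilizer G v), u ≠ 0 → ∀ b ∈ E, b • u = u →
        b ∈ E ⊓ MulAction.stabilizer G v := by
  obtain ⟨_, h1, ⟨v, hv, rfl⟩, h2⟩ := exists_maximal_subgroup
    (P := fun D => ∃ v : V, v ≠ 0 ∧ D = E ⊓ MulAction.stabilizer G v) ⟨w, hw, rfl⟩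
  refine ⟨v, hv, h1, fun u hu hu0 b hb hbu => ?_⟩
  rw [← h2 _ ⟨u, hu0, rfl⟩ fun d hd => ⟨hd.1, hu d hd⟩]
  exact ⟨hb, hbu⟩

/-- The imprimitive step. -/
theorem exists_base_imprim {V : Type v} [AddCommGroup V] [DistribMulAction G V] [Finite G] [Finite V]
    {ι κ : Type*} (hirr : Irr G V) {B : Subgroup G} [B.Normal] [IsMulCommutative B] {b : G} (hb : b ∈ B)
    {w : V} (hw : w ≠ 0) (hbw : b • w = w) (hb1 : ∃ v : V, b • v ≠ v)
    (hcol : ∀ M : Subgroup G, ∃ c : G → ι, Reg M c)
    (IH : ∀ (M : Subgroup G) (W : Type v) [AddCommGroup W] [Finite W] [DistribMulAction M W],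
      Nat.card W < Nat.card V → Nat.card W ∣ Nat.card V → Nontrivial W → Irr M W →
      ∃ t : ι → κ → W, (∀ i, IsBase M (t i)) ∧ ∀ i j (g : M), (∀ k, g • t i k = t j k) → i = j) :
    ∃ t : κ → V, IsBase G t := by
  classical
  obtain ⟨v₁, hv₁, hle, hmax⟩ := exists_max_stab B hw
  set D := B ⊓ MulAction.stabilizer G v₁
  set M := normalizer (D : Set G)
  haveI := Fintype.ofFinite (G ⧸ M)
  have hind := indep (ι := G ⧸ M) inf_le_left hmax Quotient.out (fun _ => le_normalizer_of_normal (mem_top _))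
    (fun i j hij h => hij (by rw [← i.out_eq', ← j.out_eq', QuotientGroup.eq]; exact h))
  have hv₁W : v₁ ∈ fixA V D := fun d hd => hd.2
  have hm : ∀ (g : G) (q : G ⧸ M), ((g • q).out)⁻¹ * g * q.out ∈ M := fun g q => by
    rw [mul_assoc, ← QuotientGroup.eq, QuotientGroup.out_eq']
    conv_lhs => rw [← q.out_eq']
    rfl
  letI := resAction M (fixA V D) fun g hg w hw => smul_mem_fixA hg hw
  have hsm : ∀ (g : M) (w : fixA V D), ((g • w : fixA V D) : V) = g.1 • w.1 := fun _ _ => rfl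
  obtain ⟨c, c1, c2⟩ := hcol M
  obtain ⟨t, t1, t2⟩ := IH M (fixA V D) (by
      obtain ⟨v, hv⟩ := hb1
      exact Finite.card_subtype_lt (x := v) fun h => hv (h b (hle ⟨hb, hbw⟩)))
    (AddSubgroup.card_addSubgroup_dvd_card _) ⟨⟨⟨v₁, hv₁W⟩, 0, fun h => hv₁ (congrArg Subtype.val h)⟩⟩
    (fun U hU => by
      by_cases hU0 : U = ⊥
      · exact Or.inl hU0
      let S : AddSubgroup V :=
        { carrier := {v | ∃ f : G ⧸ M → U, v = ∑ q, q.out • ((f q).1 : V)}
          zero_mem' := ⟨0, by simp⟩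
          add_mem' := by rintro _ _ ⟨f, rfl⟩ ⟨g, rfl⟩; exact ⟨f + g, by simp [Finset.sum_add_distrib]⟩
          neg_mem' := by rintro _ ⟨f, rfl⟩; exact ⟨-f, by simp⟩ }
      have q0 : (((1 : G) : G ⧸ M).out) ∈ M := by
        simpa using QuotientGroup.eq.mp (((1 : G) : G ⧸ M).out_eq').symm
      have hS := (hirr S (by
        rintro g _ ⟨f, rfl⟩
        refine ⟨fun q => ⟨_, hU ⟨_, hm g (g⁻¹ • q)⟩ _ (f (g⁻¹ • q)).2⟩, ?_⟩
        rw [Finset.smul_sum, ← Equiv.sum_comp (MulAction.toPerm g⁻¹)]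
        refine Finset.sum_congr rfl fun q _ => ?_
        simp [hsm, mul_smul])).resolve_left fun h => hU0 (eq_bot_iff.mpr fun u hu => by
          have : (((1 : G) : G ⧸ M).out) • (u : V) ∈ S := ⟨Pi.single ((1 : G) : G ⧸ M) ⟨u, hu⟩, by
            rw [Finset.sum_eq_single ((1 : G) : G ⧸ M) (fun q _ hq => by simp [hq]) (by simp)]; simp⟩
          exact Subtype.ext ((smul_eq_zero_iff_eq _).mp (h.le this)))
      refine Or.inr (eq_top_iff.mpr fun w _ => ?_)
      obtain ⟨f, hf⟩ := hS.ge (AddSubgroup.mem_top w.1)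
      have := hind (fun q => q.out • ((f q).1 : V) - (Pi.single ((1 : G) : G ⧸ M) w.1 : _ → V) q) (fun q => by
        rw [smul_sub, inv_smul_smul]
        refine sub_mem (f q).1.2 ?_
        by_cases hq : q = ((1 : G) : G ⧸ M)
        · subst hq; simpa using smul_mem_fixA (inv_mem q0) w.2
        · simp [hq]) (by simp [hf]) ((1 : G) : G ⧸ M)
      rw [Pi.single_eq_same, sub_eq_zero] at this
      have h2 := hU ⟨_, q0⟩ _ (f ((1 : G) : G ⧸ M)).2
      convert h2 using 1
      exact Subtype.ext this.symm)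
  refine ⟨fun k => ∑ q : G ⧸ M, q.out • (t (c q.out) k : V), fun g hg => ?_⟩
  have key : ∀ (q : G ⧸ M) k, (⟨_, hm g q⟩ : M) • t (c q.out) k = t (c (g • q).out) k := fun q k => by
    have := hind (fun q => g • (g⁻¹ • q).out • (t (c (g⁻¹ • q).out) k : V) - q.out • (t (c q.out) k : V))
      (fun q => by
        rw [smul_sub, inv_smul_smul]
        refine sub_mem ?_ (t _ k).2
        simpa [mul_smul] using smul_mem_fixA (hm g (g⁻¹ • q)) (t (c (g⁻¹ • q).out) k).2) (by
        rw [Finset.sum_sub_distrib, sub_eq_zero]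
        refine Eq.trans ?_ (hg k)
        rw [Finset.smul_sum]
        exact Equiv.sum_comp (MulAction.toPerm g⁻¹) fun q : G ⧸ M => g • q.out • (t (c q.out) k : V)) (g • q)
    rw [inv_smul_smul, sub_eq_zero] at this
    ext
    rw [hsm, mul_smul, mul_smul, this, inv_smul_smul]
  have k0 : ∀ x : G, c (x : G ⧸ M).out = c x := fun x => by
    rw [← c1 _ _ (QuotientGroup.eq.mp (x : G ⧸ M).out_eq'), mul_inv_cancel_left]
  have k1 := c2 g fun x => by rw [← k0 x, t2 _ _ _ (key x), ← k0 (g * x)]; rfl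
  have k2 : ∀ q : G ⧸ M, g • q = q := fun q => by
    rw [← q.out_eq', eq_comm]
    exact QuotientGroup.eq.mpr (by simpa [mul_assoc] using k1 q.out)
  let S : AddSubgroup V :=
    { carrier := {v | ∀ x : G, g • x • v = x • v}
      zero_mem' := by simp
      add_mem' := fun h1 h2 x => by simp [h1 x, h2 x]
      neg_mem' := fun h x => by simp [h x] }
  have hS := (hirr S fun y v hv x => by rw [← mul_smul x]; exact hv _).resolve_left fun h => hv₁ (by
    refine h.le fun x => ?_
    have h1 := QuotientGroup.eq.mp (x : G ⧸ M).out_eq'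
    have := congrArg Subtype.val (t1 _ _ (fun k => (key x k).trans (by rw [k2]))
      ⟨_, smul_mem_fixA h1 hv₁W⟩)
    simpa [hsm, k2, mul_smul] using this)
  exact fun v => by simpa using hS.ge (AddSubgroup.mem_top v) 1

theorem exists_gen [Finite G] [Finite V] {A : Subgroup G} {W : AddSubgroup V} (hW : W ≠ ⊥)
    (hA : ∀ g ∈ A, ∀ w ∈ W, g • w ∈ W) (hc : ∀ a ∈ A, ∀ b ∈ A, ∀ w ∈ W, a • b • w = b • a • w) :
    ∃ w ∈ W, w ≠ 0 ∧ ∃ a ∈ A, ∀ g ∈ A, ∃ n : ℤ, g • w = a ^ n • w := by
  obtain ⟨U, ⟨h1, h2, h3⟩, hmin⟩ := (wellFounded_lt (α := AddSubgroup V)).has_min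
    {U | U ≤ W ∧ U ≠ ⊥ ∧ ∀ g ∈ A, ∀ w ∈ U, g • w ∈ U} ⟨W, le_rfl, hW, hA⟩
  letI := resAction A U h3
  haveI := (AddSubgroup.nontrivial_iff_ne_bot U).mpr h2
  let ρ : A →* Monoid.End (Multiplicative U) :=
    { toFun := fun a => AddMonoidHom.toMultiplicative (DistribSMul.toAddMonoidHom U a)
      map_one' := by ext u; exact congrArg Subtype.val (one_smul A u.toAdd)
      map_mul' := fun a b => by ext u; exact congrArg Subtype.val (mul_smul a b u.toAdd) }
  obtain ⟨a, ha⟩ := exists_generator_of_irreducible ρ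
    (fun a b => by ext u; exact hc _ a.2 _ b.2 _ (h1 u.toAdd.2)) (fun X hX => by
      by_cases hX0 : X = ⊥
      · exact Or.inl hX0
      have := hmin (X.toAddSubgroup'.map U.subtype) ⟨(AddSubgroup.map_subtype_le _).trans h1, by
        rw [ne_eq, AddSubgroup.map_eq_bot_iff_of_injective _ U.subtype_injective]
        exact fun h => hX0 (eq_bot_iff.mpr fun x hx => h.le (x := x.toAdd) hx), by
        rintro g hg _ ⟨x, hx, rfl⟩; exact ⟨_, hX ⟨g, hg⟩ (Multiplicative.ofAdd x) hx, rfl⟩⟩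
      refine Or.inr (eq_top_iff.mpr fun x _ => ?_)
      obtain ⟨y, hy, e⟩ := (eq_of_le_of_not_lt (AddSubgroup.map_subtype_le _) this).ge x.toAdd.2
      have : y = x.toAdd := Subtype.ext e
      subst this
      exact hy)
  obtain ⟨w, hw⟩ := exists_ne (0 : U)
  refine ⟨w, h1 w.2, fun h => hw (Subtype.ext h), a, a.2, fun g hg => ?_⟩
  obtain ⟨n, hn⟩ := ha ⟨g, hg⟩
  exact ⟨n, congrArg (fun f : Monoid.End (Multiplicative U) => ((f (Multiplicative.ofAdd w)).toAdd : V)) hn⟩

/-- A self-centralizing normal subgroup of class at most two. -/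
theorem exists_class_two (G : Type*) [Group G] [Finite G] [Group.IsSolvable G] :
    ∃ E : Subgroup G, E.Normal ∧ centralizer (E : Set G) ≤ E ∧ ⁅E, E⁆ ≤ centralizer (E : Set G) ∧
      ∀ B : Subgroup G, B.Normal → IsMulCommutative B → centralizer (E : Set G) ≤ B →
        B = centralizer (E : Set G) := by
  obtain ⟨U, -, ⟨hU1, hU2⟩, hU⟩ := exists_maximal_subgroup
    (P := fun U : Subgroup G => U.Normal ∧ IsMulCommutative U) (H := ⊥) ⟨inferInstance, inferInstance⟩
  obtain ⟨E, hUE, ⟨hE1, hE2, hE3⟩, hE⟩ := exists_maximal_subgroup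
    (P := fun E : Subgroup G => E.Normal ∧ E ≤ centralizer (U : Set G) ∧ ⁅E, E⁆ ≤ U) (H := U)
    ⟨hU1, U.le_centralizer, commutator_le_left _ _⟩
  have hUC : U ≤ centralizer (E : Set G) := le_centralizer_iff.mp hE2
  have hC : centralizer (E : Set G) = U := by
    refine le_antisymm ?_ hUC
    obtain ⟨n, hn⟩ := (inferInstance : Group.IsSolvable (centralizer (E : Set G))).solvable
    have : ∀ k, (derivedSeries (centralizer (E : Set G)) k).map (Subgroup.subtype _) ≤ U →
        centralizer (E : Set G) ≤ U := fun k => by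
      induction k with
      | zero => intro h; rwa [derivedSeries_zero, ← MonoidHom.range_eq_map, range_subtype] at h
      | succ k ih =>
        intro h
        rw [derivedSeries_succ, Subgroup.map_commutator] at h
        refine ih ?_
        haveI := normal_map_subtype_of_characteristic (derivedSeries (centralizer (E : Set G)) k)
        set M := (derivedSeries (centralizer (E : Set G)) k).map (Subgroup.subtype _)
        have hM : M ≤ centralizer (E : Set G) := map_subtype_le _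
        have e1 : ⁅M, E⁆ = ⊥ := commutator_eq_bot_iff_le_centralizer.mpr hM
        have h1 := hE (E ⊔ M) ⟨inferInstance, sup_le hE2 (hM.trans (centralizer_le_centralizer hUE)), by
          refine commutator_sup_left_le ?_ ?_ le_normalizer_of_normal <;> rw [Subgroup.commutator_comm] <;>
            refine commutator_sup_left_le ?_ ?_ le_normalizer_of_normal
          exacts [hE3, e1.le.trans bot_le, ((Subgroup.commutator_comm _ _).trans e1).le.trans bot_le, h]⟩
          le_sup_left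
        rw [← hU (E ⊓ centralizer (E : Set G)) ⟨inferInstance, le_centralizer_iff_isMulCommutative.mp
          (inf_le_right.trans (centralizer_le_centralizer inf_le_left))⟩ (le_inf hUE hUC)]
        exact le_inf (le_sup_right.trans h1.le) hM
    exact this n (by rw [hn, Subgroup.map_bot]; exact bot_le)
  exact ⟨E, hE1, hC ▸ hUE, hC ▸ hE3, fun B h1 h2 h3 => hC ▸ hU B ⟨h1, h2⟩ (hC ▸ h3)⟩

end Cfsg.Agent.Lib.Base
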