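import Cfsg.Agent.Lib.Base.Gluck
import Cfsg.Agent.Lib.PGroup.Power

/-! Completely reducible solvable linear groups of odd order have a base of size two. -/

set_option autoImplicit false

namespace Cfsg.Agent.Lib.Base

open Subgroup Cfsg.Agent.Lib.Core
open scoped commutatorElement

universe u v

namespace PD
variable {G : Type u} {V : Type*} [Group G] [AddCommGroup V] [DistribMulAction G V] (P : PD G V)

/-- the commutative group structure on the index set -/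
@[reducible] def commΩ : CommGroup P.Ω := { (inferInstance : Group P.Ω) with mul_comm := P.Ω_comm }

theorem φ_mul {g h : G} (hg : g • P.v₁ = P.v₁) (hh : h • P.v₁ = P.v₁) (hgh : (g * h) • P.v₁ = P.v₁)
    (q : P.Ω) : P.φ hgh q = P.φ hg (P.φ hh q) := by
  obtain ⟨x, rfl⟩ := QuotientGroup.mk_surjective q
  simp only [φ_mk, map_mul, MulAut.mul_apply]

/-- commutation with a fixed element, as a homomorphism into the centre -/
def cm {a : G} (ha : a ∈ P.E) : P.E →* G := MonoidHom.mk' (fun y => a * y * a⁻¹ * (y : G)⁻¹) fun x y => by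
  have := P.ucomm (P.comm_mem ha y.2) x.2
  calc _ = a * x * a⁻¹ * (a * y * a⁻¹ * (y : G)⁻¹) * (x : G)⁻¹ := by simp only [coe_mul]; group
    _ = a * x * a⁻¹ * (x : G)⁻¹ * (x * (a * y * a⁻¹ * (y : G)⁻¹)) * (x : G)⁻¹ := by group
    _ = _ := by rw [this]; group

theorem cm_apply {a : G} (ha : a ∈ P.E) (y : P.E) : P.cm ha y = a * y * a⁻¹ * (y : G)⁻¹ := rfl

theorem cm_mem {a : G} (ha : a ∈ P.E) (y : P.E) : P.cm ha y ∈ P.U := P.comm_mem ha y.2

theorem cm_eq_one {a : G} (ha : a ∈ P.E) {y : P.E} : P.cm ha y = 1 ↔ Commute a y := by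
  rw [cm_apply, mul_inv_eq_one, mul_inv_eq_iff_eq_mul]; rfl

theorem mem_DU {x : G} : x ∈ P.D ⊔ P.U ↔ ∃ d ∈ P.D, ∃ u ∈ P.U, d * u = x := mem_sup_of_normal_right

theorem DU_le : P.D ⊔ P.U ≤ P.E ⊓ centralizer (P.D : Set G) :=
  sup_le (le_inf inf_le_left P.D_le_cent) (le_inf P.hUE P.U_le_cent)

theorem eq_one_of_det {g : G} (hg : g • P.v₁ = P.v₁) (h1 : P.E ⊓ centralizer (P.D : Set G) ≤ P.T hg)
    (hφ : ∀ q, P.φ hg q = q) {Γ : Set P.Ω} (hΓ : @Det.{u} _ P.commΩ Γ)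
    (h2 : ∀ x : P.E, (x : P.Ω) ∉ Γ → ∃ y : P.E, (y : P.Ω) = x ∧ g • (y : G) • P.v₁ = (y : G) • P.v₁) :
    g = 1 := by
  letI := P.commΩ
  let δ : P.E → G := fun x => (x : G)⁻¹ * (g * x * g⁻¹)
  have δE : ∀ x, δ x ∈ P.E := fun x => mul_mem (inv_mem x.2) (P.normal.conj_mem _ x.2 g)
  have δN : ∀ x, δ x ∈ centralizer (P.D : Set G) := fun x => by
    have := (hφ x).symm
    rwa [φ_mk, QuotientGroup.eq, mem_subgroupOf] at this
  have δmul : ∀ x y, δ (x * y) = δ x * P.cm (inv_mem (δE x)) y⁻¹ * δ y := fun x y => by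
    simp only [δ, cm_apply, coe_mul, coe_inv]; group
  have h3 : ∀ x : P.E, (x : P.Ω) ∉ Γ → δ x ∈ P.D := fun x hx => by
    obtain ⟨y, e, hy⟩ := h2 x hx
    have h3 := mem_subgroupOf.mp (QuotientGroup.eq.mp e)
    rw [← P.fix_iff hg x.2]
    simpa using P.fix_mul hg y.2 (Subtype.prop _) h3 hy (h1 ⟨Subtype.prop _, h3⟩).2
  have h4 : ∀ x : P.E, (x : G) ∈ centralizer (P.D : Set G) → δ x ∈ P.D := fun x hx =>
    (P.fix_iff hg x.2).mp (h1 ⟨x.2, hx⟩).2
  let S : Subgroup P.E :=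
    { carrier := {x | δ x ∈ P.D ⊔ P.U}
      one_mem' := by simpa [δ] using one_mem _
      mul_mem' := fun {x y} hx hy => by
        rw [Set.mem_setOf_eq, δmul]
        exact mul_mem (mul_mem hx (mem_sup_right (P.cm_mem _ _))) hy
      inv_mem' := fun {x} hx => by
        have := δmul x x⁻¹
        rw [mul_inv_cancel, show δ 1 = 1 by simp [δ], eq_comm, mul_eq_one_iff_inv_eq] at this
        rw [Set.mem_setOf_eq, ← this]
        exact inv_mem (mul_mem hx (mem_sup_right (P.cm_mem _ _))) }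
  have hNS : P.N ≤ S := fun x hx => mem_sup_left (h4 x hx)
  have hS : ∀ x, δ x ∈ P.D ⊔ P.U := fun x => by
    have : S.map (QuotientGroup.mk' P.N) = ⊤ := eq_top_iff.mpr (hΓ.closure.ge.trans ((closure_le _).mpr
      fun q hq => by
        obtain ⟨y, rfl⟩ := QuotientGroup.mk_surjective q
        exact ⟨y, mem_sup_left (h3 y hq), rfl⟩))
    have h5 := congrArg (comap (QuotientGroup.mk' P.N)) this
    rw [comap_map_eq_self (by rwa [QuotientGroup.ker_mk']), comap_top] at h5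
    exact h5.ge (mem_top x)
  letI : CommGroup (P.D ⊔ P.U : Subgroup G) := IsMulCommutative.instCommGroup
  let π := QuotientGroup.mk' (P.D.subgroupOf (P.D ⊔ P.U))
  have πD : ∀ x : (P.D ⊔ P.U : Subgroup G), π x = 1 ↔ (x : G) ∈ P.D := fun x => QuotientGroup.eq_one_iff x
  let β : P.E → P.E →* _ := fun x => π.comp (((P.cm (inv_mem (δE x))).codRestrict _
    fun y => mem_sup_right (P.cm_mem _ y)))
  let c : P.E → _ := fun x => π ⟨δ x, hS x⟩
  have cmul : ∀ x y, c (x * y) = c x * β x y⁻¹ * c y := fun x y => by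
    simp only [c, β, MonoidHom.comp_apply, ← map_mul]
    congr 1
    exact Subtype.ext (δmul x y)
  have cout : ∀ x : P.E, c (x : P.Ω).out = c x := fun x => by
    have h5 := mem_subgroupOf.mp (QuotientGroup.eq.mp (x : P.Ω).out_eq')
    have h6 := cmul (x : P.Ω).out ((x : P.Ω).out⁻¹ * x)
    rw [mul_inv_cancel_left, show c ((x : P.Ω).out⁻¹ * x) = 1 from (πD _).mpr (h4 _ h5), mul_one] at h6
    rw [h6, show β _ _ = 1 from ?_, mul_one]
    refine (πD _).mpr ?_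
    change P.cm (inv_mem (δE _)) _ ∈ P.D
    rw [(P.cm_eq_one _).mpr, ]
    · exact one_mem _
    obtain ⟨d, hd, u, hu, e⟩ := P.mem_DU.mp (hS (x : P.Ω).out)
    rw [← e]
    exact (Commute.mul_left (h5 d hd) (P.ucomm hu (Subtype.prop _)).symm).inv_left.inv_right
  have h5 := hΓ _ (fun q => c q.out) ⟨by
      exact (cout 1).trans ((πD _).mpr (by simpa [δ] using one_mem _)), fun x y z => by
      obtain ⟨x, rfl⟩ := QuotientGroup.mk_surjective x
      obtain ⟨y, rfl⟩ := QuotientGroup.mk_surjective y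
      obtain ⟨z, rfl⟩ := QuotientGroup.mk_surjective z
      simp only [← QuotientGroup.mk_mul, cout]
      rw [mul_assoc x, cmul x (y * z), cmul x y, cmul x z, mul_inv_rev, map_mul]
      ac_rfl⟩ fun q hq => (πD _).mpr (h3 _ (by rwa [QuotientGroup.out_eq']))
  refine P.eq_one_of_fix hg fun x hx => (P.fix_iff hg hx).mpr ((πD ⟨_, hS ⟨x, hx⟩⟩).mp ?_)
  exact (cout ⟨x, hx⟩).symm.trans (h5 _)

variable [Finite G] [Finite V]

/-- two elements of prime order modulo `D` -/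
theorem mem_of_pow_mem {p : ℕ} (hp : p.Prime) {c u : G} (hc : c ∈ P.E ⊓ centralizer (P.D : Set G))
    (hu : u ∈ P.U) (hu1 : u ≠ 1) (hup : u ^ p = 1) (hcp : c ^ p ∈ P.D) : c ∈ P.D ⊔ P.U := by
  have h6 : c ∈ centralizer ((P.D ⊔ P.U : Subgroup G) : Set G) := fun x hx => by
    obtain ⟨d, hd, w, hw, rfl⟩ := P.mem_DU.mp hx
    exact (Commute.mul_left (hc.2 d hd) (P.ucomm hw hc.1).symm).eq
  haveI : IsMulCommutative (P.D ⊔ P.U ⊔ zpowers c : Subgroup G) := le_centralizer_iff_isMulCommutative.mp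
    (le_centralizer_sup (sup_le (P.D ⊔ P.U).le_centralizer (zpowers_le.mpr h6)) (sup_le
      (le_centralizer_iff.mp (zpowers_le.mpr h6)) (zpowers c).le_centralizer))
  obtain ⟨z, hz, h⟩ := P.exists_gen_mod (A := P.D ⊔ P.U ⊔ zpowers c) (sup_le P.DU_le (zpowers_le.mpr hc))
  letI : CommGroup (P.D ⊔ P.U ⊔ zpowers c : Subgroup G) := IsMulCommutative.instCommGroup
  let π := QuotientGroup.mk' (P.D.subgroupOf (P.D ⊔ P.U ⊔ zpowers c))
  have πD : ∀ x : (P.D ⊔ P.U ⊔ zpowers c : Subgroup G), π x = 1 ↔ (x : G) ∈ P.D :=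
    fun x => QuotientGroup.eq_one_iff x
  haveI : IsCyclic (_ ⧸ P.D.subgroupOf (P.D ⊔ P.U ⊔ zpowers c)) := ⟨π ⟨z, hz⟩, fun q => by
    obtain ⟨x, rfl⟩ := QuotientGroup.mk_surjective q
    obtain ⟨n, hn⟩ := h x x.2
    exact ⟨n, by
      rw [← inv_mul_eq_one]; beta_reduce; rw [← map_zpow, ← map_inv]
      exact (πD ((⟨z, hz⟩ ^ n)⁻¹ * x)).mpr hn⟩⟩
  have hu' : u ∈ P.D ⊔ P.U ⊔ zpowers c := mem_sup_left (mem_sup_right hu)
  have hc' : c ∈ P.D ⊔ P.U ⊔ zpowers c := mem_sup_right (mem_zpowers c)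
  haveI := Fact.mk hp
  have o1 : orderOf (π ⟨u, hu'⟩) = p := orderOf_eq_prime (by
    rw [← map_pow, πD]; simpa [hup] using one_mem _) fun e => hu1 (P.eq_one ((πD _).mp e) hu)
  have o2 : π ⟨c, hc'⟩ ∈ zpowers (π ⟨u, hu'⟩) := by
    rw [eq_of_le_of_card_ge (H := zpowers (π ⟨u, hu'⟩)) (K := (powMonoidHom p).ker)
      (zpowers_le.mpr (o1 ▸ pow_orderOf_eq_one _)) (by
        rw [IsCyclic.card_powMonoidHom_ker, Nat.card_zpowers, o1]; exact Nat.gcd_le_right _ hp.pos)]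
    change π _ ^ p = 1
    rw [← map_pow, πD]
    exact hcp
  obtain ⟨k, hk⟩ := o2
  beta_reduce at hk
  rw [← inv_mul_eq_one, ← map_zpow, ← map_inv, ← map_mul, πD] at hk
  rw [← mul_mem_cancel_left (inv_mem (zpow_mem (mem_sup_right hu : u ∈ P.D ⊔ P.U) k))]
  exact mem_sup_left hk

theorem exists_selfcent : ∃ a ∈ P.E ⊓ centralizer (P.D : Set G), ∀ z ∈ P.E ⊓ centralizer (P.D : Set G),
    Commute a z → ∃ k : ℤ, (a ^ k)⁻¹ * z ∈ P.D := by
  obtain ⟨M, h1, ⟨h2, h3⟩, hM⟩ := exists_maximal_subgroup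
    (P := fun M : Subgroup G => M ≤ P.E ∧ IsMulCommutative M) (H := P.D ⊔ P.U)
    ⟨sup_le inf_le_left P.hUE, inferInstance⟩
  have h4 : M ≤ P.E ⊓ centralizer (P.D : Set G) :=
    le_inf h2 (M.le_centralizer.trans (centralizer_le_centralizer (le_sup_left.trans h1)))
  obtain ⟨a, ha, hgen⟩ := P.exists_gen_mod h4
  refine ⟨a, h4 ha, fun z hz c1 => hgen z ?_⟩
  have h6 : z ∈ centralizer (M : Set G) := fun m hm => by
    obtain ⟨k, hk⟩ := hgen m hm
    have c2 : Commute ((a ^ k)⁻¹ * m) z := hz.2 _ hk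
    simpa using ((c1.zpow_left k).mul_left c2).eq
  rw [← hM (M ⊔ zpowers z) ⟨sup_le h2 (zpowers_le.mpr hz.1), le_centralizer_iff_isMulCommutative.mp
    (le_centralizer_sup (sup_le M.le_centralizer (zpowers_le.mpr h6)) (sup_le
      (le_centralizer_iff.mp (zpowers_le.mpr h6)) (zpowers z).le_centralizer))⟩ le_sup_left]
  exact mem_sup_right (mem_zpowers _)

/-- the commutators of the centralizer of `D` have no odd prime order -/
theorem commute_of_odd {a b : G} (ha : a ∈ P.E ⊓ centralizer (P.D : Set G))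
    (hs : ∀ z ∈ P.E ⊓ centralizer (P.D : Set G), Commute a z → ∃ k : ℤ, (a ^ k)⁻¹ * z ∈ P.D)
    (hb : b ∈ P.E ⊓ centralizer (P.D : Set G)) {p : ℕ} (hp : p.Prime) (hp2 : Odd p)
    (h : P.cm ha.1 ⟨b, hb.1⟩ ^ p = 1) : Commute a b := by
  by_contra hn
  obtain ⟨k, hk⟩ := hs (b ^ p) (pow_mem hb p) ((P.cm_eq_one ha.1 (y := ⟨b, hb.1⟩ ^ p)).mp (by rw [map_pow, h]))
  have e1 : P.cm hb.1 ⟨a, ha.1⟩ = (P.cm ha.1 ⟨b, hb.1⟩)⁻¹ := by simp only [cm_apply]; group
  have h1 : P.cm ha.1 ⟨b, hb.1⟩ ≠ 1 := fun e => hn ((P.cm_eq_one _).mp e)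
  haveI := Fact.mk hp
  obtain ⟨j, rfl⟩ : (p : ℤ) ∣ k := by
    rw [← orderOf_eq_prime h h1, orderOf_dvd_iff_zpow_eq_one, ← inv_eq_one, ← inv_zpow, ← e1, ← map_zpow,
      cm_eq_one]
    have c2 : Commute ((a ^ k)⁻¹ * b ^ p) b := hb.2 _ hk
    simpa using (((Commute.refl b).pow_right p).mul_right c2.symm.inv_right)
  have hc : (a ^ j)⁻¹ * b ∈ P.E ⊓ centralizer (P.D : Set G) := mul_mem (inv_mem (zpow_mem ha j)) hb
  obtain ⟨d, hd, w, hw, e⟩ := P.mem_DU.mp (P.mem_of_pow_mem hp hc (P.cm_mem _ _) h1 h (by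
    have hw := P.cm_mem hb.1 (⟨a, ha.1⟩ ^ j)⁻¹
    have hx : (a ^ j)⁻¹ ∈ P.E := inv_mem (zpow_mem (show a ∈ P.E from ha.1) j)
    obtain ⟨m, hm⟩ := PGroup.odd_dvd_choose_two hp2
    rw [PGroup.mul_pow_of_class_two (x := (a ^ j)⁻¹) (y := b) (c := P.cm hb.1 ((⟨a, ha.1⟩ : P.E) ^ j)⁻¹) (by
        rw [P.ucomm hw (mul_mem hx hb.1)]; simp [cm_apply, mul_assoc])
      (P.ucomm hw hx).symm (P.ucomm hw hb.1).symm, map_inv, map_zpow, e1, hm, pow_mul, inv_zpow, inv_inv,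
      ← zpow_natCast (_ ^ j), ← zpow_mul, mul_comm j, zpow_mul, zpow_natCast, h, one_zpow, one_pow, mul_one]
    convert hk using 2
    rw [inv_pow, ← zpow_natCast, ← zpow_mul, mul_comm]))
  refine hn ?_
  simpa [e] using ((Commute.refl a).zpow_right j).mul_right
    (Commute.mul_right (ha.2 d hd).symm (P.ucomm hw ha.1))

theorem exists_one_gen (hodd : Odd (Nat.card G)) : ∃ a ∈ P.E ⊓ centralizer (P.D : Set G),
    ∀ T : Subgroup G, P.D ≤ T → a ∈ T → P.E ⊓ centralizer (P.D : Set G) ≤ T := by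
  obtain ⟨a, ha, hs⟩ := P.exists_selfcent
  refine ⟨a, ha, fun T hD haT z hz => ?_⟩
  obtain ⟨k, hk⟩ := hs z hz (by
    by_contra hn
    have h1 : orderOf (P.cm ha.1 ⟨z, hz.1⟩) ≠ 1 := fun e => hn ((P.cm_eq_one _).mp (orderOf_eq_one_iff.mp e))
    obtain ⟨p, hp, m, hm⟩ := Nat.exists_prime_and_dvd h1
    have h2 := P.commute_of_odd ha hs (pow_mem hz m) hp (hodd.of_dvd_nat
      ((Dvd.intro _ hm.symm).trans (orderOf_dvd_natCard _))) (by
        change P.cm ha.1 (⟨z, hz.1⟩ ^ m) ^ p = 1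
        rw [map_pow, ← pow_mul, mul_comm, ← hm, pow_orderOf_eq_one])
    have h3 := (P.cm_eq_one ha.1 (y := ⟨z, hz.1⟩ ^ m)).mpr h2
    rw [map_pow, ← orderOf_dvd_iff_pow_eq_one, hm] at h3
    have h4 : 0 < m := Nat.pos_of_mul_pos_left (hm ▸ orderOf_pos _)
    have := Nat.le_of_dvd h4 h3
    have := hp.two_le
    nlinarith)
  simpa using mul_mem (zpow_mem haT k) (hD hk)

include P in
theorem exists_base2_odd (hodd : Odd (Nat.card G)) : ∃ t : Fin 2 → V, ∀ g : G, (∀ k, g • t k = t k) → g = 1 := by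
  classical
  haveI := Fintype.ofFinite P.Ω
  letI := P.commΩ
  obtain ⟨a, ha, hab⟩ := P.exists_one_gen hodd
  obtain ⟨Γ, hΓ, hc⟩ := exists_rigid_odd'.{u} (Ω := P.Ω)
    (hodd.of_dvd_nat ((card_quotient_dvd_card _).trans P.E.card_subgroup_dvd_card))
  let w : P.Ω → V := fun q => ((q.out : P.E) : G) • P.v₁
  have hw : ∀ q, w q ∈ P.W q := fun q => P.out_smul_mem_W q P.v₁_mem
  have hw0 : ∀ q, w q ≠ 0 := fun q h => P.hv₁ ((smul_eq_zero_iff_eq _).mp h)
  let p : P.Ω → V := fun q => if q = 1 then a • P.v₁ else if q ∈ Γ then 0 else w q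
  have hp : ∀ q, p q ∈ P.W q := fun q => by
    simp only [p]
    split_ifs with h
    exacts [h ▸ P.mem_W_one (P.smul_mem ha.2 P.v₁_mem), zero_mem _, hw q]
  refine ⟨![P.v₁, ∑ q, p q], fun g h => mem_of_sq_mem hodd (H := ⊥) ?_⟩
  have hg : g • P.v₁ = P.v₁ := h 0
  have h1 := P.comp hg hp hp (h 1)
  have h3 := hc _ (P.φ_injective hg) fun q hq => by
    have hq' : P.φ hg q ≠ 1 := fun h => hq (P.φ_injective hg (h.trans (map_one _).symm))
    have e1 : p (P.φ hg q) = 0 ↔ p q = 0 := by rw [← h1, smul_eq_zero_iff_eq]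
    simpa only [p, hq, hq', if_false, ite_eq_left_iff, hw0, imp_false, not_not] using e1
  have hg2 : (g * g) • P.v₁ = P.v₁ := by rw [mul_smul, hg, hg]
  have h2 : ∀ q, (g * g) • p q = p q := fun q => by rw [mul_smul, h1, h1, h3]
  refine P.eq_one_of_det hg2 (hab _ (P.D_le_T hg2) ⟨ha, by simpa [p] using h2 1⟩)
    (fun q => (P.φ_mul hg hg hg2 q).trans (h3 q)) hΓ fun x hx => ?_
  by_cases hx1 : (x : P.Ω) = 1
  · exact ⟨1, hx1.symm, by simpa using hg2⟩
  · exact ⟨_, QuotientGroup.out_eq' _, by simpa only [p, hx, hx1, if_false] using h2 x⟩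
end PD

section
variable {G V : Type*} [Group G] [AddCommGroup V] [DistribMulAction G V]

theorem two_bases [Finite G] (hodd : Odd (Nat.card G)) [Nontrivial V] {t : Fin 2 → V} (h : IsBase G t) :
    ∃ t : Fin 2 → Fin 2 → V, (∀ i, IsBase G (t i)) ∧ ∀ i j (g : G), (∀ k, g • t i k = t j k) → i = j := by
  obtain ⟨t, h, j, hj⟩ := h.exists_ne_zero
  have hc : ∀ g : G, Commute (Equiv.arrowCongr (Equiv.swap (0 : Fin 2) 1) (Equiv.refl V))
      (MulAction.toPermHom G (Fin 2 → V) g) := fun g => by ext; rfl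
  obtain ⟨t, h, ht⟩ : ∃ t : Fin 2 → V, IsBase G t ∧ t 0 ≠ t 1 := by
    by_cases e : t 0 = t 1
    · have e' : ∀ k, t k = t j := fun k => by fin_cases k <;> fin_cases j <;> simp [e]
      exact ⟨![t j, 0], fun g hg => h g fun k => by rw [e' k]; exact hg 0, hj⟩
    · exact ⟨t, h, e⟩
  refine ⟨fun i => (Equiv.arrowCongr (Equiv.swap (0 : Fin 2) 1) (Equiv.refl V) ^ (i : ℕ)) t,
    fun i => h.perm fun g => (hc g).pow_left _, fun i j g hg => eq_of_prime_order Nat.prime_two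
      (Nat.coprime_two_right.mpr hodd) (MulAction.toPermHom G (Fin 2 → V)) _ ?_ hc t ?_ i j g (funext hg)⟩
  · ext t k; simp [sq]
  · exact fun e => ht (by simpa using (congrFun e 0).symm)
end

theorem exists_base2_irr_odd (G : Type u) (V : Type v) [Group G] [Finite G] [Group.IsSolvable G]
    (hodd : Odd (Nat.card G)) [AddCommGroup V] [Finite V]
    [DistribMulAction G V] (hirr : Irr G V) : ∃ t : Fin 2 → V, IsBase G t := by
  suffices h : ∀ n (V : Type v) [AddCommGroup V] [Finite V], Nat.card V = n → ∀ (G : Type v) [Group G] [Finite G]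
      [Group.IsSolvable G] [DistribMulAction G V], Odd (Nat.card G) → Irr G V → ∃ t : Fin 2 → V, IsBase G t by
    have hs := (DistribMulAction.toModuleAut ℤ V (S := G)).rangeRestrict_surjective
    haveI := Group.isSolvable_of_surjective hs
    haveI := Finite.of_surjective _ hs
    obtain ⟨t, ht⟩ := h _ V rfl (DistribMulAction.toModuleAut ℤ V (S := G)).range
      (hodd.of_dvd_nat (card_dvd_of_surjective _ hs)) fun U hU => hirr U fun g => hU ⟨_, g, rfl⟩
    exact ⟨t, fun g => ht ⟨_, g, rfl⟩⟩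
  intro n
  induction n using Nat.strong_induction_on with
  | _ n IH =>
  intro V _ _ hn
  subst hn
  suffices h : ∀ (G : Type v) [Group G] [Finite G] [Group.IsSolvable G] [DistribMulAction G V] [FaithfulSMul G V],
      Odd (Nat.card G) → Irr G V → ∃ t : Fin 2 → V, IsBase G t by
    intro G _ _ _ _ hodd hirr
    have hs := (DistribMulAction.toModuleAut ℤ V (S := G)).rangeRestrict_surjective
    haveI := Group.isSolvable_of_surjective hs
    haveI := Finite.of_surjective _ hs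
    obtain ⟨t, ht⟩ := h (DistribMulAction.toModuleAut ℤ V (S := G)).range
      (hodd.of_dvd_nat (card_dvd_of_surjective _ hs)) fun U hU => hirr U fun g => hU ⟨_, g, rfl⟩
    exact ⟨t, fun g => ht ⟨_, g, rfl⟩⟩
  intro G _ _ _ _ _ hodd hirr
  rcases subsingleton_or_nontrivial V with h | h
  · exact ⟨0, fun _ _ _ => Subsingleton.elim _ _⟩
  by_cases hp : ∀ B : Subgroup G, B.Normal → IsMulCommutative B → ∀ b ∈ B, ∀ v : V, v ≠ 0 → b • v = v → b = 1
  · obtain ⟨P, -⟩ := exists_PD hp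
    obtain ⟨t, ht⟩ := P.exists_base2_odd hodd
    exact ⟨t, fun g hg v => by rw [ht g hg, one_smul]⟩
  push Not at hp
  obtain ⟨B, h1, h2, b, hb, v, hv, hbv, hb1⟩ := hp
  refine exists_base_imprim hirr hb hv hbv ?_ (exists_reg_two G hodd) fun M W _ _ _ hW _ _ hirr => ?_
  · by_contra! h; exact hb1 (FaithfulSMul.eq_of_smul_eq_smul (α := V) (by simpa using h))
  · have hM := hodd.of_dvd_nat M.card_subgroup_dvd_card
    obtain ⟨t, ht⟩ := IH _ hW W rfl M hM hirr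
    exact two_bases hM ht

end Cfsg.Agent.Lib.Base
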