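import Cfsg.Agent.Lib.Base.Module

/-! The primitive step: a normal subgroup of class two whose centre acts semiregularly. -/

set_option autoImplicit false

namespace Cfsg.Agent.Lib.Base

open Subgroup Cfsg.Agent.Lib.Core
open scoped commutatorElement

universe u v

/-- data of the primitive case -/
structure PD (G V : Type*) [Group G] [AddCommGroup V] [DistribMulAction G V] where
  E : Subgroup G
  v₁ : V
  normal : E.Normal
  hUE : centralizer (E : Set G) ≤ E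
  hEE : ⁅E, E⁆ ≤ centralizer (E : Set G)
  hsr : ∀ u ∈ centralizer (E : Set G), ∀ v : V, v ≠ 0 → u • v = v → u = 1
  hv₁ : v₁ ≠ 0
  hmax : ∀ u ∈ fixA V (E ⊓ MulAction.stabilizer G v₁), u ≠ 0 → ∀ b ∈ E, b • u = u →
    b ∈ E ⊓ MulAction.stabilizer G v₁

namespace PD
variable {G V : Type*} [Group G] [AddCommGroup V] [DistribMulAction G V] (P : PD G V)

instance instNormalE : P.E.Normal := P.normal

/-- the centre of `E` -/
abbrev U : Subgroup G := centralizer (P.E : Set G)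
/-- the stabilizer of `v₁` in `E` -/
abbrev D : Subgroup G := P.E ⊓ MulAction.stabilizer G P.v₁
/-- the centralizer of `D` in `E` -/
abbrev N : Subgroup P.E := (centralizer (P.D : Set G)).subgroupOf P.E

theorem eq_one {d : G} (hd : d ∈ P.D) (hu : d ∈ P.U) : d = 1 := P.hsr d hu _ P.hv₁ hd.2

theorem comm_mem {x y : G} (hx : x ∈ P.E) (hy : y ∈ P.E) : x * y * x⁻¹ * y⁻¹ ∈ P.U :=
  P.hEE (commutator_mem_commutator hx hy)

theorem ucomm {u x : G} (hu : u ∈ P.U) (hx : x ∈ P.E) : x * u = u * x := hu x hx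

theorem comm_of_conj_mem {d x : G} (hd : d ∈ P.D) (hx : x ∈ P.E) (h : x * d * x⁻¹ ∈ P.D) :
    x * d = d * x := by
  have := P.eq_one (mul_mem h (inv_mem hd)) (P.comm_mem hx hd.1)
  rwa [mul_inv_eq_one, mul_inv_eq_iff_eq_mul] at this

theorem D_le_cent : P.D ≤ centralizer (P.D : Set G) := fun d hd d' hd' =>
  P.comm_of_conj_mem hd hd'.1 (mul_mem (mul_mem hd' hd) (inv_mem hd'))

theorem U_le_cent : P.U ≤ centralizer (P.D : Set G) := centralizer_le_centralizer inf_le_left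

theorem v₁_mem : P.v₁ ∈ fixA V P.D := fun _ hd => hd.2

theorem smul_mem {y : G} (hy : y ∈ centralizer (P.D : Set G)) {v : V} (hv : v ∈ fixA V P.D) :
    y • v ∈ fixA V P.D := smul_mem_fixA (centralizer_le_normalizer _ hy) hv

instance instNormalN : P.N.Normal := ⟨fun n hn g => by
  rw [mem_subgroupOf] at hn ⊢
  have := mul_mem (P.U_le_cent (P.comm_mem g.2 n.2)) hn
  simpa using this⟩

/-- the index set of the weight spaces -/
abbrev Ω := P.E ⧸ P.N

theorem Ω_comm (a b : P.Ω) : a * b = b * a := by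
  obtain ⟨a, rfl⟩ := QuotientGroup.mk_surjective a
  obtain ⟨b, rfl⟩ := QuotientGroup.mk_surjective b
  rw [← QuotientGroup.mk_mul, ← QuotientGroup.mk_mul, QuotientGroup.eq, mem_subgroupOf]
  simpa [mul_assoc] using P.U_le_cent (P.comm_mem (inv_mem b.2) (inv_mem a.2))

theorem conj_mem_D {g : G} (hg : g • P.v₁ = P.v₁) {d : G} (hd : d ∈ P.D) : g * d * g⁻¹ ∈ P.D :=
  ⟨P.normal.conj_mem d hd.1 g, (MulAction.stabilizer G P.v₁).mul_mem
    ((MulAction.stabilizer G P.v₁).mul_mem hg hd.2) ((MulAction.stabilizer G P.v₁).inv_mem hg)⟩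

theorem smul_mem' {g : G} (hg : g • P.v₁ = P.v₁) {v : V} (hv : v ∈ fixA V P.D) : g • v ∈ fixA V P.D :=
  fun d hd => by
    have := P.conj_mem_D (g := g⁻¹) ((MulAction.stabilizer G P.v₁).inv_mem hg) hd
    rw [← mul_smul, show d * g = g * (g⁻¹ * d * g⁻¹⁻¹) by group, mul_smul, hv _ this]

theorem conj_mem_cent {g : G} (hg : g • P.v₁ = P.v₁) {y : G} (hy : y ∈ centralizer (P.D : Set G)) :
    g * y * g⁻¹ ∈ centralizer (P.D : Set G) := fun d hd => by
  have := hy _ (P.conj_mem_D (g := g⁻¹) ((MulAction.stabilizer G P.v₁).inv_mem hg) hd)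
  calc d * (g * y * g⁻¹) = g * (g⁻¹ * d * g⁻¹⁻¹ * y) * g⁻¹ := by group
    _ = _ := by rw [this]; group

/-- the automorphism of `Ω` induced by an element fixing `v₁` -/
def φ {g : G} (hg : g • P.v₁ = P.v₁) : P.Ω →* P.Ω :=
  QuotientGroup.map P.N P.N (MulAut.conjNormal g : MulAut P.E).toMonoidHom
    fun x hy => P.conj_mem_cent (y := x) hg hy

theorem φ_mk {g : G} (hg : g • P.v₁ = P.v₁) (x : P.E) :
    P.φ hg (x : P.Ω) = (MulAut.conjNormal g x : P.E) := rfl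

theorem φ_injective {g : G} (hg : g • P.v₁ = P.v₁) : Function.Injective (P.φ hg) := by
  rw [injective_iff_map_eq_one]
  intro q hq
  obtain ⟨x, rfl⟩ := QuotientGroup.mk_surjective q
  rw [φ_mk, QuotientGroup.eq_one_iff, mem_subgroupOf] at hq
  have := P.conj_mem_cent (g := g⁻¹) ((MulAction.stabilizer G P.v₁).inv_mem hg) hq
  rw [QuotientGroup.eq_one_iff, mem_subgroupOf]
  simpa [mul_assoc] using this

/-- the weight space with index `q` -/
noncomputable def W (q : P.Ω) : AddSubgroup V := (fixA V P.D).comap (DistribSMul.toAddMonoidHom V ((q.out : P.E) : G)⁻¹)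

theorem mem_W {x : P.E} {v : V} : v ∈ P.W x ↔ (x : G)⁻¹ • v ∈ fixA V P.D := by
  have h := QuotientGroup.eq.mp (x : P.Ω).out_eq'
  change (((x : P.Ω).out : P.E) : G)⁻¹ • v ∈ fixA V P.D ↔ _
  refine ⟨fun h1 => ?_, fun h1 => ?_⟩
  · simpa [mul_smul] using P.smul_mem (inv_mem h) h1
  · simpa [mul_smul] using P.smul_mem h h1

theorem smul_mem_W (x : P.E) {v : V} (hv : v ∈ fixA V P.D) : (x : G) • v ∈ P.W x := by
  rw [mem_W, inv_smul_smul]; exact hv

theorem out_smul_mem_W (q : P.Ω) {v : V} (hv : v ∈ fixA V P.D) : ((q.out : P.E) : G) • v ∈ P.W q := by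
  have := P.smul_mem_W q.out hv
  rwa [QuotientGroup.out_eq'] at this

theorem mem_W_one {v : V} (hv : v ∈ fixA V P.D) : v ∈ P.W 1 := by
  simpa using P.smul_mem_W 1 hv

theorem smul_mem_W_φ {g : G} (hg : g • P.v₁ = P.v₁) {q : P.Ω} {v : V} (hv : v ∈ P.W q) :
    g • v ∈ P.W (P.φ hg q) := by
  obtain ⟨x, rfl⟩ := QuotientGroup.mk_surjective q
  rw [φ_mk, mem_W]
  simpa [mul_smul] using P.smul_mem' hg (P.mem_W.mp hv)

theorem U_smul_mem_W {u : G} (hu : u ∈ P.U) {q : P.Ω} {v : V} (hv : v ∈ P.W q) : u • v ∈ P.W q := by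
  obtain ⟨x, rfl⟩ := QuotientGroup.mk_surjective q
  rw [mem_W] at hv ⊢
  rw [← mul_smul, P.ucomm hu (inv_mem x.2), mul_smul]
  exact P.smul_mem (P.U_le_cent hu) hv

instance instCommDU : IsMulCommutative (P.D ⊔ P.U : Subgroup G) :=
  le_centralizer_iff_isMulCommutative.mp (le_centralizer_sup (sup_le P.D_le_cent P.U_le_cent)
    (sup_le (le_centralizer_iff.mp P.U_le_cent) (centralizer_le_centralizer P.hUE)))

variable [Finite G]

theorem indep [Fintype P.Ω] (f : P.Ω → V) (hf : ∀ q, f q ∈ P.W q) (hs : ∑ q, f q = 0) (q : P.Ω) :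
    f q = 0 := by
  refine Base.indep (B := P.D ⊔ P.U) le_sup_left
    (fun v hv h0 b hb h => P.hmax v hv h0 b (sup_le inf_le_left P.hUE hb) h)
    (fun q : P.Ω => ((q.out : P.E) : G)) (fun q => ?_) (fun i j hij h => hij ?_) f hf hs q
  · refine (le_normalizer_iff_commutator_le_right (H := P.E)).mpr ?_ q.out.2
    exact ((commutator_mono le_rfl (sup_le inf_le_left P.hUE)).trans P.hEE).trans le_sup_right
  · rw [← i.out_eq', ← j.out_eq', QuotientGroup.eq, mem_subgroupOf]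
    exact fun d hd => (P.comm_of_conj_mem hd (i.out⁻¹ * j.out).2 (conj_mem_of_mem_normalizer h hd)).symm

theorem comp [Fintype P.Ω] {g : G} (hg : g • P.v₁ = P.v₁) {f f' : P.Ω → V} (hf : ∀ q, f q ∈ P.W q)
    (hf' : ∀ q, f' q ∈ P.W q) (hs : g • ∑ q, f q = ∑ q, f' q) (q : P.Ω) : g • f q = f' (P.φ hg q) := by
  let e := Equiv.ofBijective _ (Finite.injective_iff_bijective.mp (P.φ_injective hg))
  have := P.indep (fun q => g • f (e.symm q) - f' q) (fun q => sub_mem (by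
    have := P.smul_mem_W_φ hg (hf (e.symm q))
    rwa [show P.φ hg (e.symm q) = q from e.apply_symm_apply q] at this) (hf' q)) (by
    rw [Finset.sum_sub_distrib, ← hs, Finset.smul_sum, sub_eq_zero]
    exact Equiv.sum_comp e.symm fun q => g • f q) (e q)
  rwa [e.symm_apply_apply, sub_eq_zero] at this

omit [Finite G] in
theorem fix_iff {g : G} (hg : g • P.v₁ = P.v₁) {x : G} (hx : x ∈ P.E) :
    g • x • P.v₁ = x • P.v₁ ↔ x⁻¹ * (g * x * g⁻¹) ∈ P.D := by
  have h1 : g⁻¹ • P.v₁ = P.v₁ := inv_smul_eq_iff.mpr hg.symm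
  rw [mem_inf, and_iff_right (mul_mem (inv_mem hx) (P.normal.conj_mem x hx g)), MulAction.mem_stabilizer_iff,
    mul_smul, mul_smul, mul_smul, h1, inv_smul_eq_iff]

omit [Finite G] in
theorem fix_mul {g : G} (hg : g • P.v₁ = P.v₁) {x y : G} (hx : x ∈ P.E) (hy : y ∈ P.E)
    (hy' : y ∈ centralizer (P.D : Set G)) (h1 : g • x • P.v₁ = x • P.v₁) (h2 : g • y • P.v₁ = y • P.v₁) :
    g • (x * y) • P.v₁ = (x * y) • P.v₁ := by
  rw [P.fix_iff hg (mul_mem hx hy)]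
  rw [P.fix_iff hg hx] at h1
  have := mul_mem h1 ((P.fix_iff hg hy).mp h2)
  rw [← mul_assoc, inv_mem hy' _ h1] at this
  convert this using 1; group

omit [Finite G] in
theorem eq_one_of_fix {g : G} (hg : g • P.v₁ = P.v₁) (h : ∀ x ∈ P.E, g • x • P.v₁ = x • P.v₁) : g = 1 := by
  refine P.hsr g (fun x hx => ?_) _ P.hv₁ hg
  have h1 := (P.fix_iff hg hx).mp (h x hx)
  have := P.eq_one h1 fun y hy => by
    have h2 := (P.fix_iff hg (mul_mem hx (inv_mem hy))).mp (h _ (mul_mem hx (inv_mem hy)))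
    have h3 := (P.fix_iff hg (inv_mem hy)).mp (h _ (inv_mem hy))
    refine P.comm_of_conj_mem h1 hy ?_
    convert mul_mem h2 (inv_mem h3) using 1; group
  rw [inv_mul_eq_one, eq_mul_inv_iff_mul_eq] at this
  exact this

/-- the elements of the centralizer of `D` on whose translates of `v₁` the element `g` is trivial -/
def T {g : G} (hg : g • P.v₁ = P.v₁) : Subgroup G where
  carrier := {y | (y ∈ P.E ∧ y ∈ centralizer (P.D : Set G)) ∧ g • y • P.v₁ = y • P.v₁}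
  one_mem' := ⟨⟨one_mem _, one_mem _⟩, by simpa using hg⟩
  mul_mem' := fun h1 h2 => ⟨⟨mul_mem h1.1.1 h2.1.1, mul_mem h1.1.2 h2.1.2⟩,
    P.fix_mul hg h1.1.1 h2.1.1 h2.1.2 h1.2 h2.2⟩
  inv_mem' := fun {y} h => ⟨⟨inv_mem h.1.1, inv_mem h.1.2⟩, by
    have h1 := (P.fix_iff hg h.1.1).mp h.2
    rw [P.fix_iff hg (inv_mem h.1.1)]
    have h2 := inv_mem h1
    have h3 := h.1.2 _ h2
    rw [← mul_inv_eq_iff_eq_mul.mpr h3.symm] at h2
    convert h2 using 1; group⟩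

theorem D_le_T {g : G} (hg : g • P.v₁ = P.v₁) : P.D ≤ P.T hg := fun d hd =>
  ⟨⟨hd.1, P.D_le_cent hd⟩, by rw [show d • P.v₁ = P.v₁ from hd.2, hg]⟩

variable [Finite V]

theorem exists_gen_mod {A : Subgroup G} (hA : A ≤ P.E ⊓ centralizer (P.D : Set G)) [IsMulCommutative A] :
    ∃ a ∈ A, ∀ g ∈ A, ∃ n : ℤ, (a ^ n)⁻¹ * g ∈ P.D := by
  obtain ⟨w, hw, hw0, a, ha, h⟩ := exists_gen (A := A) (W := fixA V P.D)
    (fun h => P.hv₁ (h.le P.v₁_mem)) (fun g hg w hw => P.smul_mem (hA hg).2 hw)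
    fun a ha b hb w _ => by rw [← mul_smul, ← mul_smul, setLike_mul_comm ha hb]
  refine ⟨a, ha, fun g hg => (h g hg).imp fun n hn => P.hmax w hw hw0 _
    (hA (mul_mem (inv_mem (zpow_mem ha n)) hg)).1 ?_⟩
  rw [mul_smul, hn, inv_smul_smul]

theorem exists_gen_U {A : Subgroup G} (hA : A ≤ P.U) : ∃ a ∈ A, A = zpowers a := by
  haveI : IsMulCommutative A := le_centralizer_iff_isMulCommutative.mp
    (hA.trans (centralizer_le_centralizer (hA.trans P.hUE)))
  obtain ⟨a, ha, h⟩ := P.exists_gen_mod (A := A) (hA.trans (le_inf P.hUE P.U_le_cent))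
  refine ⟨a, ha, le_antisymm (fun g hg => ?_) (zpowers_le.mpr ha)⟩
  obtain ⟨n, hn⟩ := h g hg
  exact ⟨n, inv_mul_eq_one.mp (P.eq_one hn (hA (mul_mem (inv_mem (zpow_mem ha n)) hg)))⟩

theorem exists_two_gen : ∃ a b, a ∈ P.E ⊓ centralizer (P.D : Set G) ∧ b ∈ P.E ⊓ centralizer (P.D : Set G) ∧
    ∀ T : Subgroup G, P.D ≤ T → a ∈ T → b ∈ T → P.E ⊓ centralizer (P.D : Set G) ≤ T := by
  obtain ⟨M, h1, ⟨h2, h3⟩, hM⟩ := exists_maximal_subgroup
    (P := fun M : Subgroup G => M ≤ P.E ∧ IsMulCommutative M) (H := P.D ⊔ P.U)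
    ⟨sup_le inf_le_left P.hUE, inferInstance⟩
  have h4 : M ≤ P.E ⊓ centralizer (P.D : Set G) :=
    le_inf h2 (M.le_centralizer.trans (centralizer_le_centralizer (le_sup_left.trans h1)))
  obtain ⟨a, ha, hgen⟩ := P.exists_gen_mod h4
  let f : ↥(P.E ⊓ centralizer (P.D : Set G)) →* G := MonoidHom.mk' (fun y => a * y * a⁻¹ * (y : G)⁻¹) fun x y => by
    have := P.ucomm (P.comm_mem (h2 ha) y.2.1) x.2.1
    calc _ = a * x * a⁻¹ * (a * y * a⁻¹ * (y : G)⁻¹) * (x : G)⁻¹ := by simp only [coe_mul]; group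
      _ = a * x * a⁻¹ * (x : G)⁻¹ * (x * (a * y * a⁻¹ * (y : G)⁻¹)) * (x : G)⁻¹ := by group
      _ = _ := by rw [this]; group
  obtain ⟨_, ⟨b, rfl⟩, hb⟩ := P.exists_gen_U (A := f.range) (by
    rintro _ ⟨y, rfl⟩; exact P.comm_mem (h2 ha) y.2.1)
  refine ⟨a, b, h4 ha, b.2, fun T hD haT hbT y hy => ?_⟩
  obtain ⟨n, hn⟩ := hb.le ⟨⟨y, hy⟩, rfl⟩
  have h5 : f ((b ^ n)⁻¹ * ⟨y, hy⟩) = 1 := by rw [map_mul, map_inv, map_zpow, inv_mul_eq_one]; exact hn
  generalize hz : (b ^ n)⁻¹ * ⟨y, hy⟩ = z at h5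
  have h6 : (z : G) ∈ centralizer (M : Set G) := fun m hm => by
    obtain ⟨k, hk⟩ := hgen m hm
    have c1 : Commute a z := by
      have : a * z * a⁻¹ * (z : G)⁻¹ = 1 := h5
      rwa [mul_inv_eq_one, mul_inv_eq_iff_eq_mul] at this
    have c2 : Commute ((a ^ k)⁻¹ * m) z := z.2.2 _ hk
    simpa using ((c1.zpow_left k).mul_left c2).eq
  have h7 : (z : G) ∈ M := by
    rw [← hM (M ⊔ zpowers (z : G)) ⟨sup_le h2 (zpowers_le.mpr z.2.1), le_centralizer_iff_isMulCommutative.mp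
      (le_centralizer_sup (sup_le M.le_centralizer (zpowers_le.mpr h6)) (sup_le
        (le_centralizer_iff.mp (zpowers_le.mpr h6)) (zpowers (z : G)).le_centralizer))⟩ le_sup_left]
    exact mem_sup_right (mem_zpowers _)
  obtain ⟨k, hk⟩ := hgen z h7
  have h8 : y = b ^ n * (a ^ k * ((a ^ k)⁻¹ * z)) := by rw [← hz]; simp
  rw [h8]
  exact mul_mem (zpow_mem hbT n) (mul_mem (zpow_mem haT k) (hD hk))

omit [Finite V] in
theorem eq_one_of_fix_out {g : G} (hg : g • P.v₁ = P.v₁) (h1 : P.E ⊓ centralizer (P.D : Set G) ≤ P.T hg)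
    (h2 : ∀ q : P.Ω, q ≠ 1 → g • ((q.out : P.E) : G) • P.v₁ = ((q.out : P.E) : G) • P.v₁) : g = 1 := by
  refine P.eq_one_of_fix hg fun x hx => ?_
  by_cases h : ((⟨x, hx⟩ : P.E) : P.Ω) = 1
  · exact (h1 ⟨hx, mem_subgroupOf.mp ((QuotientGroup.eq_one_iff _).mp h)⟩).2
  have h3 := mem_subgroupOf.mp (QuotientGroup.eq.mp ((⟨x, hx⟩ : P.E) : P.Ω).out_eq')
  simpa using P.fix_mul hg (Subtype.prop _) (Subtype.prop _) h3 (h2 _ h) (h1 ⟨Subtype.prop _, h3⟩).2

include P in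
theorem exists_base3 : ∃ t : Fin 3 → V, ∀ g : G, (∀ k, g • t k = t k) → g = 1 := by
  classical
  haveI := Fintype.ofFinite P.Ω
  by_cases hU : P.U = ⊥
  · refine ⟨0, fun g _ => hU.le fun x hx => ?_⟩
    have : x = 1 := hU.le (commutator_eq_bot_iff_le_centralizer.mp (eq_bot_iff.mpr (P.hEE.trans hU.le)) hx)
    simp [this]
  obtain ⟨⟨u, hu⟩, hu1⟩ := ne_bot_iff_exists_ne_one.mp hU
  replace hu1 : u ≠ 1 := fun h => hu1 (Subtype.ext h)
  obtain ⟨a, b, ha, hb, hab⟩ := P.exists_two_gen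
  obtain ⟨c, hc⟩ := exists_col4 P.Ω
  let w : P.Ω → V := fun q => ((q.out : P.E) : G) • P.v₁
  have hw : ∀ q, w q ∈ P.W q := fun q => P.out_smul_mem_W q P.v₁_mem
  have hw0 : ∀ q, w q ≠ 0 := fun q h => P.hv₁ ((smul_eq_zero_iff_eq _).mp h)
  have hw1 : ∀ q, u • w q ≠ 0 := fun q h => hw0 q ((smul_eq_zero_iff_eq _).mp h)
  have hw2 : ∀ q, w q ≠ u • w q := fun q h => hu1 (P.hsr u hu _ (hw0 q) h.symm)
  let p : P.Ω → V := fun q => if q = 1 then a • P.v₁ else ![w q, 0, w q, w q] (c q)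
  let p' : P.Ω → V := fun q => if q = 1 then b • P.v₁ else ![0, w q, w q, u • w q] (c q)
  have hp : ∀ q, p q ∈ P.W q := fun q => by
    simp only [p]
    split_ifs with h
    · exact h ▸ P.mem_W_one (P.smul_mem ha.2 P.v₁_mem)
    · generalize c q = i; fin_cases i <;> simp [hw]
  have hp' : ∀ q, p' q ∈ P.W q := fun q => by
    simp only [p']
    split_ifs with h
    · exact h ▸ P.mem_W_one (P.smul_mem hb.2 P.v₁_mem)
    · generalize c q = i; fin_cases i <;> simp [hw, P.U_smul_mem_W hu]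
  refine ⟨![P.v₁, ∑ q, p q, ∑ q, p' q], fun g h => ?_⟩
  have hg : g • P.v₁ = P.v₁ := h 0
  have h1 := P.comp hg hp hp (h 1)
  have h2 := P.comp hg hp' hp' (h 2)
  have h3 := hc _ (P.φ_injective hg) fun q hq => by
    have hq' : P.φ hg q ≠ 1 := fun h => hq (P.φ_injective hg (h.trans (map_one _).symm))
    have e1 : p (P.φ hg q) = 0 ↔ p q = 0 := by rw [← h1, smul_eq_zero_iff_eq]
    have e2 : p' (P.φ hg q) = 0 ↔ p' q = 0 := by rw [← h2, smul_eq_zero_iff_eq]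
    have e3 : p (P.φ hg q) = p' (P.φ hg q) ↔ p q = p' q := by rw [← h1, ← h2, smul_left_cancel_iff]
    simp only [p, p', hq, hq', if_false] at e1 e2 e3
    generalize c q = i at e1 e2 e3
    generalize c (P.φ hg q) = j at e1 e2 e3
    fin_cases i <;> fin_cases j <;> simp [hw0, hw1, hw2, (hw0 _).symm] at e1 e2 e3 ⊢
  simp only [h3] at h1 h2
  refine P.eq_one_of_fix_out hg (hab _ (P.D_le_T hg) ⟨ha, by simpa [p] using h1 1⟩
    ⟨hb, by simpa [p'] using h2 1⟩) fun q hq => ?_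
  have e1 := h1 q
  have e2 := h2 q
  simp only [p, p', hq, if_false] at e1 e2
  generalize c q = i at e1 e2
  fin_cases i
  exacts [e1, e2, e1, e1]

end PD

end Cfsg.Agent.Lib.Base
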