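import Cfsg.Agent.Lib.Base.Color

/-! Rigid colourings of finite abelian groups whose zero set does not support a quadratic map. -/

set_option autoImplicit false

namespace Cfsg.Agent.Lib.Base

open Subgroup Cfsg.Agent.Lib.Core

universe u

theorem exists_tri_mem {Ω : Type*} [Group Ω] [Finite Ω] {S : Set Ω} (hS : closure S = ⊤) :
    ∃ n, ∃ e : ℕ → Ω, Tri n e ∧ ∀ i < n, e i ∈ S := by
  suffices h : ∀ H : Subgroup Ω, (∃ n, ∃ e : ℕ → Ω, (∀ i < n, e i ∉ closure (e '' Set.Iio i)) ∧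
      closure (e '' Set.Iio n) = H ∧ ∀ i < n, e i ∈ S) → ∃ n, ∃ e : ℕ → Ω, Tri n e ∧ ∀ i < n, e i ∈ S from
    h ⊥ ⟨0, fun _ => 1, by simp, by simp, by simp⟩
  refine subgroup_induction_gt fun H IH ⟨n, e, h1, h2, h3⟩ => ?_
  by_cases hH : H = ⊤
  · exact ⟨n, e, ⟨h1, h2.trans hH⟩, h3⟩
  obtain ⟨x, hxS, hx⟩ : ∃ x ∈ S, x ∉ H := by
    by_contra! h; exact hH (eq_top_iff.mpr (hS.ge.trans ((closure_le _).mpr h)))
  have e1 : ∀ i ≤ n, Function.update e n x '' Set.Iio i = e '' Set.Iio i := fun i hi =>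
    Set.image_congr fun j hj => Function.update_of_ne (by have : j < i := hj; omega) _ _
  refine IH _ (lt_of_le_of_ne ?_ fun h => hx ?_) ⟨n + 1, Function.update e n x, fun i hi => ?_, rfl,
    fun i hi => ?_⟩
  · rw [← h2, ← e1 n le_rfl]; exact closure_mono (Set.image_mono (Set.Iio_subset_Iio n.le_succ))
  · rw [h]; exact subset_closure ⟨n, n.lt_succ_self, by simp⟩
  · rw [e1 i (by omega)]
    rcases Nat.lt_succ_iff_lt_or_eq.mp hi with hi | rfl
    · rw [Function.update_of_ne hi.ne]; exact h1 i hi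
    · simpa [h2] using hx
  · rcases Nat.lt_succ_iff_lt_or_eq.mp hi with hi | rfl
    · rw [Function.update_of_ne hi.ne]; exact h3 i hi
    · simpa using hxS

theorem mem_of_sq_mem {Ω : Type*} [Group Ω] (hodd : Odd (Nat.card Ω)) {H : Subgroup Ω} {x : Ω}
    (h : x * x ∈ H) : x ∈ H := by
  obtain ⟨k, hk⟩ := hodd
  have h1 := pow_mem h (k + 1)
  rwa [← sq, ← pow_mul, show 2 * (k + 1) = Nat.card Ω + 1 by omega, pow_succ, pow_card_eq_one', one_mul] at h1

theorem mul_card_le_of_lt {Ω : Type*} [Group Ω] [Finite Ω] {r : ℕ}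
    (hr : ∀ d, d ∣ Nat.card Ω → 1 < d → r ≤ d) {H K : Subgroup Ω} (h : H < K) :
    r * Nat.card H ≤ Nat.card K := by
  rw [← card_mul_relIndex h.le, mul_comm]
  refine Nat.mul_le_mul_left _ (hr _ ((relIndex_dvd_card _ _).trans K.card_subgroup_dvd_card) ?_)
  exact one_lt_index_of_ne_top (by rw [ne_eq, subgroupOf_eq_top]; exact h.not_ge)

theorem three_le_of_odd {n : ℕ} (hodd : Odd n) (d : ℕ) (hd : d ∣ n) (h1 : 1 < d) : 3 ≤ d := by
  have := (hodd.of_dvd_nat hd); obtain ⟨k, rfl⟩ := this; omega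

namespace Tri
variable {Ω : Type*} [Group Ω] {n : ℕ} {e : ℕ → Ω}

theorem pow_le_card [Finite Ω] (h : Tri n e) {r : ℕ} (hr : ∀ d, d ∣ Nat.card Ω → 1 < d → r ≤ d) :
    r ^ n ≤ Nat.card Ω := by
  have : ∀ i ≤ n, r ^ i ≤ Nat.card (closure (e '' Set.Iio i)) := fun i hi => by
    induction i with
    | zero => simp
    | succ i ih =>
      refine le_trans ?_ (mul_card_le_of_lt hr (H := closure (e '' Set.Iio i)) (lt_of_le_of_ne
        (closure_mono (Set.image_mono (Set.Iio_subset_Iio i.le_succ))) fun he => h.1 i hi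
          (he ▸ mem i.lt_succ_self)))
      rw [pow_succ']; exact Nat.mul_le_mul_left _ (ih (by omega))
  simpa [h.2] using this n le_rfl

theorem pos [Nontrivial Ω] (h : Tri n e) : 0 < n := by
  by_contra h0
  have := h.2
  rw [show n = 0 by omega] at this
  simp at this

theorem sq_ne_mul (h : Tri n e) (hodd : Odd (Nat.card Ω)) {i j k : ℕ} (hik : i < k) (hk : k < n)
    (hj : j < n) : e j * e j ≠ e i * e k := fun he => by
  rcases lt_trichotomy j k with h1 | rfl | h1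
  · refine h.1 k hk ?_
    rw [← mul_mem_cancel_left (mem hik), ← he]; exact mul_mem (mem h1) (mem h1)
  · exact hik.ne (h.inj (hik.trans hj) hj (mul_right_cancel he).symm)
  · exact h.1 j hj (mem_of_sq_mem hodd (he ▸ mul_mem (mem (hik.trans h1)) (mem h1)))

theorem sq_inj (h : Tri n e) (hodd : Odd (Nat.card Ω)) {j : ℕ} (hj : j < n)
    (he : e j * e j = e 0 * e 0) : j = 0 := by
  by_contra h0
  have := Nat.pos_of_ne_zero h0
  exact h.1 j hj (mem_of_sq_mem hodd (he ▸ mul_mem (mem this) (mem this)))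

theorem sq_ne (h : Tri n e) {j : ℕ} (hj : j < n) : e 0 * e 0 ≠ e j := fun he => by
  rcases Nat.eq_zero_or_pos j with rfl | h0
  · exact h.ne_one hj (mul_eq_left.mp he)
  · exact h.1 j hj (he ▸ mul_mem (mem h0) (mem h0))

theorem sq_ne_one (h : Tri n e) (hodd : Odd (Nat.card Ω)) {j : ℕ} (hj : j < n) : e j * e j ≠ 1 := fun he =>
  h.1 j hj (mem_of_sq_mem hodd (he ▸ one_mem _))

theorem rigid3 (h : Tri n e) (hodd : Odd (Nat.card Ω)) {φ : Ω →* Ω} (hφ : Function.Injective φ)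
    (h1 : ∀ i < n, ∃ j < n, φ (e i) = e j)
    (h0 : 1 < n → φ (e 0 * e 0) = e 0 * e 0 ∨ ∃ j, j + 1 < n ∧ φ (e 0 * e 0) = e j * e (j + 1))
    (h2 : ∀ i, i + 1 < n → φ (e i * e (i + 1)) = e 0 * e 0 ∨
      ∃ j, j + 1 < n ∧ φ (e i * e (i + 1)) = e j * e (j + 1)) (x : Ω) : φ x = x := by
  have h3 : 0 < n → φ (e 0) = e 0 := fun hn => by
    obtain ⟨j, hj, e1⟩ := h1 0 hn
    by_cases hn1 : 1 < n
    · rcases h0 hn1 with h3 | ⟨k, hk, h3⟩ <;> rw [map_mul, e1] at h3
      · rw [e1, h.sq_inj hodd hj h3]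
      · exact absurd h3 (h.sq_ne_mul hodd k.lt_succ_self hk hj)
    · rw [e1, show j = 0 by omega]
  refine h.rigid hφ h3 h1 (fun i hi => (h2 i hi).resolve_left fun h4 => ?_) x
  rw [← h3 (by omega), ← map_mul] at h4
  exact h.sq_ne_mul hodd i.lt_succ_self hi (by omega) (hφ h4).symm

/-- generators -/
def B (n : ℕ) (e : ℕ → Ω) : Set Ω := {x | ∃ i < n, x = e i}
/-- products of consecutive generators -/
def C (n : ℕ) (e : ℕ → Ω) : Set Ω := {x | ∃ i, i + 1 < n ∧ x = e i * e (i + 1)}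

theorem ncard_B (n : ℕ) (e : ℕ → Ω) : (B n e).ncard ≤ n := by
  have : B n e = e '' (Finset.range n : Set ℕ) := by ext x; simp [B, eq_comm]
  rw [this]
  simpa using Set.ncard_image_le (f := e) (Finset.range n).finite_toSet

theorem ncard_C (n : ℕ) (e : ℕ → Ω) : (C n e).ncard ≤ n - 1 := by
  have : C n e = B (n - 1) fun i => e i * e (i + 1) := by
    ext x; simp only [B, C, Set.mem_setOf_eq]
    exact exists_congr fun i => and_congr_left' (by omega)
  rw [this]; exact ncard_B _ _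

theorem not_mem_C (h : Tri n e) {i : ℕ} (hi : i < n) : e i ∉ C n e := fun ⟨j, hj, he⟩ =>
  h.mul_ne j.lt_succ_self hj hi he.symm

theorem closure_B (h : Tri n e) : closure (B n e) = ⊤ := by
  rw [← h.2]; congr 1; ext x; simp [B, eq_comm]
end Tri

section Det
variable {Ω : Type*} [CommGroup Ω]

/-- quadratic maps -/
def Quad {C : Type*} [CommGroup C] (c : Ω → C) : Prop :=
  c 1 = 1 ∧ ∀ x y z, c (x * y * z) * c x * c y * c z = c (x * y) * c (x * z) * c (y * z)

/-- the polar form of a quadratic map -/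
def Quad.β {C : Type*} [CommGroup C] {c : Ω → C} (h : Quad c) (x : Ω) : Ω →* C :=
  MonoidHom.mk' (fun y => c (x * y) / (c x * c y)) fun y z => by
    rw [div_mul_div_comm, div_eq_div_iff_mul_eq_mul, ← mul_assoc x]
    calc _ = c (x * y * z) * c x * c y * c z * c x := by ac_rfl
      _ = _ := by rw [h.2]; ac_rfl

theorem Quad.β_eq_one {C : Type*} [CommGroup C] {c : Ω → C} (h : Quad c) {x y : Ω} :
    h.β x y = 1 ↔ c (x * y) = c x * c y := div_eq_one

theorem Quad.mul {C : Type*} [CommGroup C] {c : Ω → C} (h : Quad c) (x y : Ω) :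
    c (x * y) = c x * c y * h.β x y := by simp [Quad.β]

theorem Quad.β_comm {C : Type*} [CommGroup C] {c : Ω → C} (h : Quad c) (x y : Ω) :
    h.β x y = h.β y x := by simp [Quad.β, mul_comm]

/-- no nontrivial quadratic map is supported on `Γ` -/
def Det (Γ : Set Ω) : Prop :=
  ∀ (C : Type u) [CommGroup C] (c : Ω → C), Quad c → (∀ x ∉ Γ, c x = 1) → ∀ x, c x = 1

theorem Det.closure {Ω : Type u} [CommGroup Ω] {Γ : Set Ω} (h : Det.{u} Γ) : closure Γᶜ = ⊤ :=
  eq_top_iff.mpr fun x _ => (QuotientGroup.eq_one_iff x).mp (h (Ω ⧸ Subgroup.closure Γᶜ) QuotientGroup.mk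
    ⟨rfl, fun x y z => by simp only [← QuotientGroup.mk_mul]; congr 1; ac_rfl⟩
    (fun x hx => (QuotientGroup.eq_one_iff x).mpr (subset_closure hx)) x)

theorem det_empty : Det.{u} (∅ : Set Ω) := fun _ _ _ _ h x => h x (by simp)

theorem det_of_card [Finite Ω] {r : ℕ} (hr : ∀ d, d ∣ Nat.card Ω → 1 < d → r ≤ d) {Γ : Set Ω}
    (h : r * (2 * Γ.ncard) + Nat.card Ω < r * Nat.card Ω) : Det.{u} Γ := by
  have key : ∀ (H : Subgroup Ω) (S : Set Ω), S.ncard ≤ 2 * Γ.ncard → (∀ y ∉ S, y ∈ H) → ∀ y, y ∈ H := by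
    intro H S h1 h2
    by_contra! hn
    obtain ⟨y, hy⟩ := hn
    have h3 := mul_card_le_of_lt hr (lt_top_iff_ne_top.mpr fun h : H = ⊤ => hy (h ▸ mem_top y))
    have h4 : Sᶜ.ncard ≤ Nat.card H := Set.ncard_le_ncard h2 (Set.toFinite _)
    have h5 := Set.ncard_add_ncard_compl S
    rw [card_top] at h3
    nlinarith
  intro C _ c hq hc
  have h1 : ∀ x ∉ Γ, ∀ y, hq.β x y = 1 := fun x hx => key (hq.β x).ker (Γ ∪ (x * ·) ⁻¹' Γ) (by
    refine (Set.ncard_union_le _ _).trans ?_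
    rw [Set.ncard_preimage_of_injective_subset_range (mul_right_injective x)
      (by rw [(Group.mulLeft_bijective x).2.range_eq]; simp)]
    omega) fun y hy => by
      simp only [Set.mem_union, Set.mem_preimage, not_or] at hy
      rw [MonoidHom.mem_ker, hq.β_eq_one, hc _ hx, hc _ hy.1, hc _ hy.2, one_mul]
  have h2 : ∀ y x, hq.β y x = 1 := fun y => key (hq.β y).ker Γ (by omega) fun x hx => by
    rw [MonoidHom.mem_ker, hq.β_comm, h1 x hx]
  exact key (MonoidHom.mk' c fun x y => hq.β_eq_one.mp (h2 x y)).ker Γ (by omega) hc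

theorem det_of_hom {C : Type*} [CommGroup C] (l : Ω →* C) {t : C} (hl : ∀ x, l x ∈ zpowers t) {s : Ω}
    (hs : l s = t) (h2 : t ^ 2 ≠ 1) (h3 : t ^ 3 ≠ 1) (h4 : t ^ 4 ≠ 1) {Γ : Set Ω}
    (hΓ : ∀ x ∈ Γ, l x = t ∨ l x = t ^ 2) : Det.{u} Γ := by
  intro C _ c hq hc
  have h1 : t ≠ 1 := fun h => h2 (by simp [h])
  have k : ∀ x (i : ℕ), 3 ≤ i → i ≤ 5 → l x = t ^ i → c x = 1 := fun x i i1 i2 hx => hc x fun h => by
    have := hΓ x h
    rw [hx, ← div_eq_one, ← div_eq_one (b := t ^ 2)] at this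
    interval_cases i <;> simp only [pow_succ, pow_zero, one_mul, mul_div_cancel_right, mul_div_mul_right_eq_div]
      at this h2 h3 h4 <;> tauto
  have c3 := k (s ^ 3) 3 (by omega) (by omega) (by simp [hs])
  have c4 := k (s * s ^ 3) 4 (by omega) (by omega) (by simp [hs, ← pow_succ'])
  have c5 := k (s * s ^ 4) 5 (by omega) (by omega) (by simp [hs, ← pow_succ'])
  have c4' : c (s ^ 4) = 1 := by rwa [← pow_succ'] at c4
  rw [hq.mul, c3, mul_one] at c4
  rw [hq.mul, c4', mul_one, pow_succ, map_mul, ← mul_assoc, c4, one_mul] at c5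
  rw [map_pow, c5, one_pow, mul_one] at c4
  have k2 : ∀ x (n : ℤ), hq.β s x = 1 → c (s ^ n * x) = c x := fun x n hx => by
    have : ∀ n : ℤ, c (s * (s ^ n * x)) = c (s ^ n * x) := fun n => by
      rw [hq.mul, c4, one_mul, map_mul, map_zpow, c5, hx]; simp
    induction n using Int.induction_on with
    | zero => simp
    | succ n ih => rw [add_comm, zpow_add, zpow_one, mul_assoc, this, ih]
    | pred n ih => rw [← this, ← mul_assoc, ← zpow_one_add, ← ih]; congr 3; ring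
  intro x
  obtain ⟨n, hn⟩ := hl x
  have a3 := k (s ^ (3 - n) * x) 3 (by omega) (by omega) (by
    rw [map_mul, map_zpow, hs, ← hn, ← zpow_add, sub_add_cancel]; exact zpow_ofNat t 3)
  have a4 := k (s * (s ^ (3 - n) * x)) 4 (by omega) (by omega) (by
    rw [map_mul, map_mul, map_zpow, hs, ← hn, ← zpow_add, sub_add_cancel, pow_succ', zpow_ofNat])
  rw [hq.mul, c4, a3, map_mul, map_zpow, c5] at a4
  rw [← k2 x (3 - n) (by simpa using a4), a3]

theorem Quad.pow_eq_one [Finite Ω] {C : Type*} [CommGroup C] {c : Ω → C} (h : Quad c) (x : Ω) :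
    c x ^ (Nat.card Ω ^ 2) = 1 := by
  have k : ∀ n, c (x ^ n) = c x ^ n * h.β x x ^ n.choose 2 := fun n => by
    induction n with
    | zero => simp [h.1]
    | succ n ih =>
      rw [pow_succ', h.mul, ih, map_pow, Nat.choose_succ_succ, Nat.choose_one_right, pow_add (h.β x x), pow_succ']
      ac_rfl
  have := k (Nat.card Ω ^ 2)
  obtain ⟨m, hm⟩ : Nat.card Ω ∣ (Nat.card Ω ^ 2).choose 2 := by
    rw [Nat.choose_two_right]
    rcases Nat.even_or_odd' (Nat.card Ω) with ⟨k, hk | hk⟩ <;> rw [hk]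
    · exact ⟨k * ((2 * k) ^ 2 - 1), Nat.div_eq_of_eq_mul_right two_pos (by ring)⟩
    · refine ⟨(2 * k + 1) * (2 * k ^ 2 + 2 * k), Nat.div_eq_of_eq_mul_right two_pos ?_⟩
      rw [show (2 * k + 1) ^ 2 - 1 = 4 * k ^ 2 + 4 * k from Nat.sub_eq_of_eq_add (by ring)]; ring
  rw [hm, pow_mul, ← map_pow, pow_card_eq_one', map_one, one_pow, mul_one, sq, pow_mul x,
    pow_card_eq_one' (x := x), one_pow, h.1, ← sq] at this
  exact this.symm

theorem det_prod {A B : Type*} [CommGroup A] [CommGroup B] [Finite A] [Finite B]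
    (hc : (Nat.card A).Coprime (Nat.card B)) {Γ : Set (A × B)} (h1 : ∀ a, ∃ b, (a, b) ∉ Γ)
    (h2 : ∀ b, ∃ a, (a, b) ∉ Γ) : Det.{u} Γ := by
  intro C _ c hq h
  have qa : Quad fun a => c (a, 1) := ⟨hq.1, fun x y z => by simpa using hq.2 (x, 1) (y, 1) (z, 1)⟩
  have qb : Quad fun b => c (1, b) := ⟨hq.1, fun x y z => by simpa using hq.2 (1, x) (1, y) (1, z)⟩
  have e1 : ∀ a b, c (a, b) = c (a, 1) * c (1, b) := fun a b => by
    have : hq.β (a, 1) (1, b) = 1 := by
      refine (pow_eq_one_iff_of_coprime hc).mp ⟨?_, ?_⟩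
      · rw [hq.β_comm, ← map_pow, Prod.pow_mk, pow_card_eq_one', one_pow]; exact map_one _
      · rw [← map_pow, Prod.pow_mk, pow_card_eq_one', one_pow]; exact map_one _
    simpa using hq.β_eq_one.mp this
  have e2 : ∀ a b, (a, b) ∉ Γ → c (a, 1) = 1 ∧ c (1, b) = 1 := fun a b hab => by
    have h3 := h _ hab
    rw [e1, mul_eq_one_iff_eq_inv] at h3
    have : c (a, 1) = 1 := (pow_eq_one_iff_of_coprime (hc.pow 2 2)).mp ⟨qa.pow_eq_one a, by
      rw [h3, inv_pow, qb.pow_eq_one b, inv_one]⟩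
    exact ⟨this, by simpa [this] using h3.symm⟩
  rintro ⟨a, b⟩
  obtain ⟨b', hb⟩ := h1 a
  obtain ⟨a', ha⟩ := h2 b
  rw [e1, (e2 _ _ hb).1, (e2 _ _ ha).2, one_mul]

theorem Det.equiv {Ω' : Type*} [CommGroup Ω'] (f : Ω ≃* Ω') {Γ : Set Ω'} (h : Det.{u} Γ) :
    Det.{u} (f ⁻¹' Γ) := fun C _ c hq hc x => by
  simpa using h C (fun y => c (f.symm y)) ⟨by simpa using hq.1, fun x y z => by simpa using hq.2 _ _ _⟩
    (fun y hy => hc _ (by simpa using hy)) (f x)
end Det

end Cfsg.Agent.Lib.Base
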