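import Cfsg.Agent.Lib.Base.Prim

/-! Seress' theorem: completely reducible solvable linear groups have a base of size three. -/

set_option autoImplicit false

namespace Cfsg.Agent.Lib.Base

open Subgroup Cfsg.Agent.Lib.Core
open scoped commutatorElement

universe u v

section
variable {G V : Type*} [Group G] [AddCommGroup V] [DistribMulAction G V]

theorem exists_PD [Finite G] [Group.IsSolvable G] [Nontrivial V]
    (h : ∀ B : Subgroup G, B.Normal → IsMulCommutative B → ∀ b ∈ B, ∀ v : V, v ≠ 0 → b • v = v → b = 1) :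
    ∃ P : PD G V, ∀ B : Subgroup G, B.Normal → IsMulCommutative B → P.U ≤ B → B = P.U := by
  obtain ⟨E, h1, h2, h3, h4⟩ := exists_class_two G
  obtain ⟨w, hw⟩ := exists_ne (0 : V)
  obtain ⟨v, hv, -, hmax⟩ := exists_max_stab E hw
  exact ⟨⟨E, v, h1, h2, h3, h _ inferInstance (le_centralizer_iff_isMulCommutative.mp
    (centralizer_le_centralizer h2)), hv, hmax⟩, h4⟩

/-- elementary transformations of tuples -/
def tv {κ : Type*} [DecidableEq κ] (V : Type*) [AddCommGroup V] {i j : κ} (h : i ≠ j) : Equiv.Perm (κ → V) where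
  toFun t := Function.update t i (t i + t j)
  invFun t := Function.update t i (t i - t j)
  left_inv t := by simp [Function.update_of_ne h.symm]
  right_inv t := by simp [Function.update_of_ne h.symm]

theorem tv_comm {κ : Type*} [DecidableEq κ] {i j : κ} (h : i ≠ j) (g : G) :
    Commute (tv V h) (MulAction.toPermHom G (κ → V) g) := by
  ext t k
  by_cases hk : k = i
  · subst hk; simp [tv]
  · simp [tv, Function.update_of_ne hk]

theorem IsBase.perm {κ : Type*} {t : κ → V} (h : IsBase G t) {γ : Equiv.Perm (κ → V)}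
    (hγ : ∀ g, Commute γ (MulAction.toPermHom G (κ → V) g)) : IsBase G (γ t) := fun g hg =>
  h g fun k => congrFun (γ.injective ((DFunLike.congr_fun (hγ g).eq t).trans (funext hg))) k

theorem IsBase.exists_ne_zero {κ : Type*} [Nonempty κ] [Nontrivial V] {t : κ → V} (h : IsBase G t) :
    ∃ t : κ → V, IsBase G t ∧ ∃ k, t k ≠ 0 := by
  by_cases h0 : ∃ k, t k ≠ 0
  · exact ⟨t, h, h0⟩
  push Not at h0
  obtain ⟨w, hw⟩ := exists_ne (0 : V)
  exact ⟨fun _ => w, fun g _ => h g fun k => by simp [h0], Classical.arbitrary κ, hw⟩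

theorem five_bases [Group.IsSolvable G] [Finite V] [Nontrivial V] {t : Fin 3 → V} (h : IsBase G t) :
    ∃ t : Fin 5 → Fin 3 → V, (∀ i, IsBase G (t i)) ∧ ∀ i j (g : G), (∀ k, g • t i k = t j k) → i = j := by
  obtain ⟨t, h, j, hj⟩ := h.exists_ne_zero
  let Γ : Subgroup (Equiv.Perm (Fin 3 → V)) := closure {γ | ∃ (i j : Fin 3) (h : i ≠ j), γ = tv V h}
  have hΓ : ∀ {i j : Fin 3} (h : i ≠ j), tv V h ∈ Γ := fun h => subset_closure ⟨_, _, h, rfl⟩
  haveI : Group.IsPerfect Γ := by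
    refine isPerfect_iff.mpr (le_antisymm (commutator_le_of_le_normalizer_left le_normalizer) ((closure_le _).mpr ?_))
    rintro _ ⟨i, j, hij, rfl⟩
    obtain ⟨k, hik, hkj⟩ := (by decide : ∀ i j : Fin 3, i ≠ j → ∃ k, i ≠ k ∧ k ≠ j) i j hij
    have : tv V hij = ⁅tv V hik, tv V hkj⁆ := by
      rw [commutatorElement_def, eq_mul_inv_iff_mul_eq, eq_mul_inv_iff_mul_eq]
      ext t l
      by_cases h1 : l = i
      · subst h1; simp [tv, Function.update_of_ne, hij, hik, hkj, hij.symm, hik.symm, hkj.symm]; abel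
      by_cases h2 : l = k
      · subst h2; simp [tv, Function.update_of_ne, hij, hik, hkj, hij.symm, hik.symm, hkj.symm]
      · simp [tv, Function.update_of_ne, h1, h2]
    rw [this]
    exact commutator_mem_commutator (hΓ _) (hΓ _)
  have hc : ∀ (g : G) (γ : Γ), Commute (Γ.subtype γ) (MulAction.toPermHom G (Fin 3 → V) g) := fun g γ =>
    (show Γ ≤ centralizer {MulAction.toPermHom G (Fin 3 → V) g} from (closure_le _).mpr (by
      rintro _ ⟨i, j, hij, rfl⟩; exact mem_centralizer_singleton_iff.mpr (tv_comm hij g).eq)) γ.2 _ rfl |>.symm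
  obtain ⟨γ, hγ⟩ := exists_five (MulAction.toPermHom G (Fin 3 → V)) Γ.subtype hc t (by
    obtain ⟨i, hi⟩ := exists_ne j
    exact ⟨⟨_, hΓ hi⟩, fun h => hj (by simpa [tv] using congrFun h i)⟩)
  exact ⟨fun i => (γ i).1 t, fun i => h.perm fun g => hc g (γ i), fun i j g hg => hγ i j g (funext hg)⟩

theorem base_of_cr [Finite V] {κ : Type*}
    (hcr : ∀ U : AddSubgroup V, (∀ a : G, ∀ v ∈ U, a • v ∈ U) →
      ∃ W : AddSubgroup V, (∀ a : G, ∀ w ∈ W, a • w ∈ W) ∧ U ⊓ W = ⊥ ∧ U ⊔ W = ⊤)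
    (h : ∀ (U : AddSubgroup V) [DistribMulAction (⊤ : Subgroup G) U], Irr (⊤ : Subgroup G) U →
      ∃ t : κ → U, IsBase (⊤ : Subgroup G) t) : ∃ t : κ → V, IsBase G t := by
  suffices h : ∀ U : AddSubgroup V, (∀ a : G, ∀ v ∈ U, a • v ∈ U) → ∃ t : κ → V, (∀ k, t k ∈ U) ∧
      ∀ g : G, (∀ k, g • t k = t k) → ∀ v ∈ U, g • v = v by
    obtain ⟨t, -, ht⟩ := h ⊤ (by simp)
    exact ⟨t, fun g hg v => ht g hg v trivial⟩
  intro U
  induction U using (wellFounded_lt (α := AddSubgroup V)).induction with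
  | _ U IH =>
  intro hU
  by_cases hex : ∃ U₁, U₁ < U ∧ U₁ ≠ ⊥ ∧ ∀ a : G, ∀ v ∈ U₁, a • v ∈ U₁
  · obtain ⟨U₁, h1, h2, h3⟩ := hex
    obtain ⟨W, w1, w2, w3⟩ := hcr U₁ h3
    obtain ⟨t₁, a1, a2⟩ := IH U₁ h1 h3
    obtain ⟨t₂, b1, b2⟩ := IH (U ⊓ W) (lt_of_le_of_ne inf_le_left fun h => h2 (by
      rw [eq_bot_iff, ← w2]; exact le_inf le_rfl (h1.le.trans (h.ge.trans inf_le_right))))
      fun a v hv => ⟨hU a v hv.1, w1 a v hv.2⟩
    refine ⟨t₁ + t₂, fun k => add_mem (h1.le (a1 k)) (b1 k).1, fun g hg v hv => ?_⟩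
    have e : ∀ k, g • t₁ k = t₁ k := fun k => sub_eq_zero.mp (w2.le ⟨U₁.sub_mem (h3 _ _ (a1 k)) (a1 k), by
      have := hg k
      rw [Pi.add_apply, smul_add] at this
      rw [show g • t₁ k - t₁ k = t₂ k - g • t₂ k by rw [← sub_eq_zero, ← sub_eq_zero.mpr this]; abel]
      exact W.sub_mem (b1 k).2 (w1 _ _ (b1 k).2)⟩)
    obtain ⟨x, hx, y, hy, rfl⟩ := AddSubgroup.mem_sup.mp (w3.ge (AddSubgroup.mem_top v))
    rw [smul_add, a2 g e x hx, b2 g (fun k => by simpa [e] using hg k) y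
      ⟨by simpa using sub_mem hv (h1.le hx), hy⟩]
  letI := resAction ⊤ U fun g _ => hU g
  obtain ⟨t, ht⟩ := h U fun X hX => by
    by_cases hX0 : X = ⊥
    · exact Or.inl hX0
    refine Or.inr (AddSubgroup.map_injective U.subtype_injective ?_)
    rw [← AddMonoidHom.range_eq_map, AddSubgroup.range_subtype]
    by_contra hne
    refine hex ⟨_, lt_of_le_of_ne (AddSubgroup.map_subtype_le X) hne, by
      rwa [ne_eq, AddSubgroup.map_eq_bot_iff_of_injective _ U.subtype_injective], ?_⟩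
    rintro a _ ⟨x, hx, rfl⟩
    exact ⟨_, hX ⟨a, trivial⟩ x hx, rfl⟩
  exact ⟨fun k => t k, fun k => (t k).2, fun g hg v hv =>
    congrArg Subtype.val (ht ⟨g, trivial⟩ (fun k => Subtype.ext (hg k)) ⟨v, hv⟩)⟩
end

theorem exists_base3_irr (G : Type u) (V : Type v) [Group G] [Group.IsSolvable G] [AddCommGroup V] [Finite V]
    [DistribMulAction G V] (hirr : Irr G V) : ∃ t : Fin 3 → V, IsBase G t := by
  suffices h : ∀ n (V : Type v) [AddCommGroup V] [Finite V], Nat.card V = n → ∀ (G : Type v) [Group G]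
      [Group.IsSolvable G] [DistribMulAction G V], Irr G V → ∃ t : Fin 3 → V, IsBase G t by
    haveI := Group.isSolvable_of_surjective (DistribMulAction.toModuleAut ℤ V (S := G)).rangeRestrict_surjective
    obtain ⟨t, ht⟩ := h _ V rfl (DistribMulAction.toModuleAut ℤ V (S := G)).range
      fun U hU => hirr U fun g => hU ⟨_, g, rfl⟩
    exact ⟨t, fun g => ht ⟨_, g, rfl⟩⟩
  intro n
  induction n using Nat.strong_induction_on with
  | _ n IH =>
  intro V _ _ hn
  subst hn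
  suffices h : ∀ (G : Type v) [Group G] [Finite G] [Group.IsSolvable G] [DistribMulAction G V] [FaithfulSMul G V],
      Irr G V → ∃ t : Fin 3 → V, IsBase G t by
    intro G _ _ _ hirr
    haveI : Finite (V ≃ₗ[ℤ] V) := DFunLike.finite _
    haveI := Group.isSolvable_of_surjective (DistribMulAction.toModuleAut ℤ V (S := G)).rangeRestrict_surjective
    obtain ⟨t, ht⟩ := h (DistribMulAction.toModuleAut ℤ V (S := G)).range
      fun U hU => hirr U fun g => hU ⟨_, g, rfl⟩
    exact ⟨t, fun g => ht ⟨_, g, rfl⟩⟩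
  intro G _ _ _ _ _ hirr
  rcases subsingleton_or_nontrivial V with h | h
  · exact ⟨0, fun _ _ _ => Subsingleton.elim _ _⟩
  by_cases hp : ∀ B : Subgroup G, B.Normal → IsMulCommutative B → ∀ b ∈ B, ∀ v : V, v ≠ 0 → b • v = v → b = 1
  · obtain ⟨P, -⟩ := exists_PD hp
    obtain ⟨t, ht⟩ := P.exists_base3
    exact ⟨t, fun g hg v => by rw [ht g hg, one_smul]⟩
  push Not at hp
  obtain ⟨B, h1, h2, b, hb, v, hv, hbv, hb1⟩ := hp
  refine exists_base_imprim hirr hb hv hbv ?_ (exists_reg_five G) fun M W _ _ _ hW _ _ hirr => ?_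
  · by_contra! h; exact hb1 (FaithfulSMul.eq_of_smul_eq_smul (α := V) (by simpa using h))
  · obtain ⟨t, ht⟩ := IH _ hW W rfl M hirr
    exact five_bases ht

end Cfsg.Agent.Lib.Base
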