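import Cfsg.Agent.Lib.Base.Three
import Cfsg.Agent.Lib.Hall.PSL2

/-! Rigid subsets of elementary abelian `2`-groups for solvable `3'`-groups. -/

set_option autoImplicit false
set_option linter.style.haveILetI false

namespace Cfsg.Agent.Lib.Base

open Subgroup Cfsg.Agent.Lib.Core

universe u v

section
variable {H A : Type*} [Group H] [AddCommGroup A] [DistribMulAction H A]

/-- restriction of an action to an invariant subgroup -/
@[reducible] def subAction (W : AddSubgroup A) (h : ∀ g : H, ∀ w ∈ W, g • w ∈ W) : DistribMulAction H W where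
  smul g w := ⟨g • w.1, h _ _ w.2⟩
  one_smul w := Subtype.ext (one_smul H w.1)
  mul_smul a b w := Subtype.ext (mul_smul a b w.1)
  smul_zero a := Subtype.ext (smul_zero a)
  smul_add a x y := Subtype.ext (smul_add a x.1 y.1)

/-- the action on the quotient by an invariant subgroup -/
@[reducible] def quotAction (W : AddSubgroup A) (h : ∀ g : H, ∀ w ∈ W, g • w ∈ W) :
    DistribMulAction H (A ⧸ W) where
  smul g := QuotientAddGroup.map W W (DistribSMul.toAddMonoidHom A g) (h g)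
  one_smul w := by
    obtain ⟨w, rfl⟩ := QuotientAddGroup.mk_surjective w
    exact congrArg QuotientAddGroup.mk (one_smul H w)
  mul_smul a b w := by
    obtain ⟨w, rfl⟩ := QuotientAddGroup.mk_surjective w
    exact congrArg QuotientAddGroup.mk (mul_smul a b w)
  smul_zero a := map_zero (QuotientAddGroup.map W W (DistribSMul.toAddMonoidHom A a) (h a))
  smul_add a := map_add (QuotientAddGroup.map W W (DistribSMul.toAddMonoidHom A a) (h a))

/-- fixed points of an element -/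
def fixE (A : Type*) [AddCommGroup A] [DistribMulAction H A] (h : H) : AddSubgroup A :=
  (DistribSMul.toAddMonoidHom A h).eqLocus (AddMonoidHom.id A)

theorem mem_fixE {h : H} {v : A} : v ∈ fixE A h ↔ h • v = v := Iff.rfl

theorem card_modEq_fixed [Finite A] {Z : Subgroup H} {T : Set A} {r : ℕ} (hr : r.Prime)
    (hT : ∀ z ∈ Z, ∀ v ∈ T, z • v ∈ T) (hz : ∀ z ∈ Z, ∀ v ∈ T, z ^ r • v = v) :
    T.ncard ≡ {v ∈ T | ∀ z ∈ Z, z • v = v}.ncard [MOD r] := by
  haveI := Fact.mk hr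
  letI : MulAction Z T :=
    { smul := fun z v => ⟨z.1 • v.1, hT _ z.2 _ v.2⟩
      one_smul := fun v => Subtype.ext (one_smul H v.1)
      mul_smul := fun a b v => Subtype.ext (mul_smul a.1 b.1 v.1) }
  have hP : IsPGroup r (MulAction.toPermHom Z T).range := by
    rintro ⟨_, z, rfl⟩
    refine ⟨1, Subtype.ext ?_⟩
    rw [pow_one, SubmonoidClass.coe_pow, ← map_pow]
    ext v
    exact hz z z.2 v v.2
  have := hP.card_modEq_card_fixedPoints T
  rw [Nat.card_coe_set_eq, Nat.card_coe_set_eq,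
    ← Set.ncard_image_of_injective (MulAction.fixedPoints _ T) Subtype.val_injective] at this
  convert this using 2
  ext v
  refine ⟨fun h => ⟨⟨v, h.1⟩, ?_, rfl⟩, ?_⟩
  · rintro ⟨_, z, rfl⟩; exact Subtype.ext (h.2 z z.2)
  · rintro ⟨v, hv, rfl⟩
    exact ⟨v.2, fun z hz => congrArg Subtype.val (hv ⟨_, ⟨z, hz⟩, rfl⟩)⟩

theorem card_modEq_one [Finite A] {Z : Subgroup H} {S : AddSubgroup A} {r : ℕ} (hr : r.Prime)
    (hT : ∀ z ∈ Z, ∀ v ∈ S, z • v ∈ S) (hz : ∀ z ∈ Z, ∀ v ∈ S, z ^ r • v = v)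
    (hf : ∀ v ∈ S, (∀ z ∈ Z, z • v = v) → v = 0) : Nat.card S ≡ 1 [MOD r] := by
  have := card_modEq_fixed (T := (S : Set A)) hr hT hz
  rwa [show {v ∈ (S : Set A) | ∀ z ∈ Z, z • v = v} = {0} from Set.eq_singleton_iff_unique_mem.mpr
    ⟨⟨S.zero_mem, fun z _ => smul_zero z⟩, fun v hv => hf v hv.1 hv.2⟩, Set.ncard_singleton] at this

theorem card_modEq_one' [Finite A] {z : H} {S : AddSubgroup A} {r : ℕ} (hr : r.Prime)
    (hT : ∀ v ∈ S, z • v ∈ S) (hz : ∀ v ∈ S, z ^ r • v = v)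
    (hf : ∀ v ∈ S, z • v = v → v = 0) : Nat.card S ≡ 1 [MOD r] := by
  have h1 : ∀ n : ℕ, ∀ v ∈ S, z ^ n • v ∈ S := fun n => by
    induction n with
    | zero => simp
    | succ n ih => exact fun v hv => by rw [pow_succ, mul_smul]; exact ih _ (hT v hv)
  have h2 : ∀ y ∈ zpowers z, ∀ v ∈ S, y • v ∈ S := by
    rintro _ ⟨n, rfl⟩ v hv
    have : z ^ r ∈ MulAction.stabilizer H v := hz v hv
    have h3 : (r : ℤ) ≠ 0 := by exact_mod_cast hr.ne_zero
    beta_reduce
    rw [← Int.emod_add_mul_ediv n r, zpow_add, zpow_mul, mul_smul, zpow_natCast,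
      show (z ^ r) ^ (n / r) • v = v from zpow_mem this _, ← Int.toNat_of_nonneg (Int.emod_nonneg n h3),
      zpow_natCast]
    exact h1 _ v hv
  refine card_modEq_one (Z := zpowers z) hr h2 ?_ fun v hv h => hf v hv (h z (mem_zpowers z))
  rintro _ ⟨n, rfl⟩ v hv
  have : z ^ r ∈ MulAction.stabilizer H v := hz v hv
  beta_reduce
  rw [← zpow_natCast, ← zpow_mul, mul_comm, zpow_mul, zpow_natCast]
  exact zpow_mem this n

theorem exists_minZ [Finite H] [Group.IsSolvable H] {S : AddSubgroup A} (hS : ∀ h : H, ∀ v ∈ S, h • v ∈ S)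
    (hn : ∃ h : H, ∃ v ∈ S, h • v ≠ v) : ∃ r : ℕ, r.Prime ∧ r ∣ Nat.card H ∧ ∃ Z : Subgroup H, Z.Normal ∧
      (∀ z ∈ Z, ∀ v ∈ S, z ^ r • v = v) ∧ (∀ z ∈ Z, ∀ z' ∈ Z, ∀ v ∈ S, z • z' • v = z' • z • v) ∧
      ∃ z ∈ Z, ∃ v ∈ S, z • v ≠ v := by
  letI := subAction S hS
  let π := (MulAction.toPermHom H S).rangeRestrict
  have hs : Function.Surjective π := MonoidHom.rangeRestrict_surjective _
  have k : ∀ a b : H, π a = π b ↔ ∀ v ∈ S, a • v = b • v := fun a b =>
    ⟨fun h v hv => congrArg (fun x : (MulAction.toPermHom H S).range => (x.1 ⟨v, hv⟩ : A)) h,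
      fun h => Subtype.ext (Equiv.ext fun v => Subtype.ext (h v v.2))⟩
  haveI := Group.isSolvable_of_surjective hs
  haveI := Finite.of_surjective _ hs
  obtain ⟨h, v, hv, hn⟩ := hn
  haveI : Nontrivial (MulAction.toPermHom H S).range :=
    ⟨π h, π 1, fun e => hn (by simpa using (k _ _).mp e v hv)⟩
  obtain ⟨r, hr, hd, E, h1, h2, h3, h4⟩ :=
    HallPSL.exists_normal_abelian (G := (MulAction.toPermHom H S).range)
  refine ⟨r, hr, hd.trans (card_dvd_of_surjective _ hs), E.comap π, inferInstance, fun z hz v hv => ?_,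
    fun z hz z' hz' v hv => ?_, ?_⟩
  · simpa using (k (z ^ r) 1).mp (by rw [map_pow, map_one]; exact h4 _ hz) v hv
  · simpa [mul_smul] using (k (z * z') (z' * z)).mp (by rw [map_mul, map_mul]; exact h3 _ hz _ hz') v hv
  · obtain ⟨⟨x, hx⟩, hx1⟩ := ne_bot_iff_exists_ne_one.mp h2
    obtain ⟨z, rfl⟩ := hs x
    by_contra! hz
    exact hx1 (Subtype.ext (((k z 1).mpr (by simpa using hz z hx)).trans (map_one π)))

theorem inv_fixA {Z : Subgroup H} [Z.Normal] (h : H) (v : A) (hv : v ∈ fixA A Z) : h • v ∈ fixA A Z :=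
  smul_mem_fixA (le_normalizer_of_normal (mem_top h)) hv

theorem card_sup_zmul [Finite A] (h2 : ∀ x : A, x + x = 0) {U : AddSubgroup A} {x : A} (hx : x ∉ U) :
    Nat.card (U ⊔ AddSubgroup.zmultiples x : AddSubgroup A) = 2 * Nat.card U := by
  have : ((U ⊔ AddSubgroup.zmultiples x : AddSubgroup A) : Set A) = (U : Set A) ∪ (· + x) '' U := by
    ext v
    simp only [SetLike.mem_coe, AddSubgroup.mem_sup, Set.mem_union, Set.mem_image]
    refine ⟨?_, ?_⟩
    · rintro ⟨y, hy, _, ⟨n, rfl⟩, rfl⟩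
      obtain ⟨k, rfl | rfl⟩ := Int.even_or_odd' n
      · left; simpa [mul_zsmul, two_zsmul, h2] using hy
      · right; exact ⟨y, hy, by simp [mul_zsmul, two_zsmul, h2, add_zsmul]⟩
    · rintro (h | ⟨y, hy, rfl⟩)
      exacts [⟨v, h, 0, zero_mem _, add_zero _⟩, ⟨y, hy, x, AddSubgroup.mem_zmultiples x, rfl⟩]
  rw [← SetLike.coe_sort_coe, Nat.card_coe_set_eq, this, Set.ncard_union_eq, Set.ncard_image_of_injective _
    (add_left_injective x), ← SetLike.coe_sort_coe, Nat.card_coe_set_eq, two_mul]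
  rw [Set.disjoint_right]
  rintro _ ⟨y, hy, rfl⟩ h
  exact hx ((U.add_mem_cancel_left hy).mp h)

theorem eq_top_of_card_eight [Finite A] (hA : Nat.card A = 8) {F : AddSubgroup A} (h : 4 < Nat.card F) :
    F = ⊤ := by
  have h1 := hA ▸ F.card_addSubgroup_dvd_card
  have h2 := Nat.le_of_dvd (by norm_num) h1
  refine AddSubgroup.eq_top_of_card_eq _ (hA ▸ ?_)
  interval_cases Nat.card F <;> simp_all

theorem rig8 [Finite A] (hA : Nat.card A = 8) (h2 : ∀ x : A, x + x = 0) {Z : Subgroup H} [hZ : Z.Normal]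
    (hz : ∀ z ∈ Z, ∀ v : A, z ^ 7 • v = v) (hc : ∀ z ∈ Z, ∀ z' ∈ Z, ∀ v : A, z • z' • v = z' • z • v)
    (hf : ∀ v : A, (∀ z ∈ Z, z • v = v) → v = 0) {b d : A} (hb : b ≠ 0) (hd : d ≠ 0) (hbd : b ≠ d) (h : H)
    (h1 : h • b = b ∨ h • b = d) (h1' : h • d = b ∨ h • d = d) (v : A) : h • v = v := by
  have p7 : Nat.Prime 7 := by norm_num
  have top : ∀ F : AddSubgroup A, Nat.card F ≡ 1 [MOD 7] → ∀ w ∈ F, w ≠ 0 → ∀ v, v ∈ F := fun F h w hw h0 v => by
    have := (AddSubgroup.one_lt_card_iff_ne_bot F).mpr fun e => h0 (e.le hw)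
    rw [eq_top_of_card_eight hA (F := F) (by unfold Nat.ModEq at h; omega)]
    trivial
  have ka : ∀ z ∈ Z, ∀ w : A, w ≠ 0 → z • w = w → ∀ v : A, z • v = v := fun z hz' w h0 hw =>
    top (fixE A z) (card_modEq_one p7 (fun y hy v hv => by rw [mem_fixE, hc _ hz' _ hy, mem_fixE.mp hv])
      (fun y hy v _ => hz y hy v) fun v _ => hf v) w hw h0
  have kb : ∀ w w' : A, w ≠ 0 → w' ≠ 0 → ∃ z ∈ Z, z • w = w' := fun w w' h0 h0' => by
    have e1 := card_modEq_fixed (Z := Z) (T := {v | ∃ z ∈ Z, z • w = v}) p7 (by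
      rintro z hz _ ⟨y, hy, rfl⟩; exact ⟨_, mul_mem hz hy, mul_smul _ _ _⟩) fun z hz' v _ => hz z hz' v
    have e2 : {v | ∃ z ∈ Z, z • w = v} ⊆ {0}ᶜ := by
      rintro _ ⟨y, -, rfl⟩; exact fun h => h0 ((smul_eq_zero_iff_eq _).mp h)
    rw [show {v ∈ {v | ∃ z ∈ Z, z • w = v} | ∀ z ∈ Z, z • v = v} = ∅ from
      Set.eq_empty_of_forall_notMem fun v hv => e2 hv.1 (hf v hv.2), Set.ncard_empty] at e1
    have e3 := Set.ncard_add_ncard_compl ({0} : Set A)
    rw [Set.ncard_singleton, hA] at e3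
    have e4 := (Set.ncard_pos (s := {v | ∃ z ∈ Z, z • w = v})).mpr ⟨w, 1, one_mem _, one_smul _ _⟩
    exact (Set.eq_of_subset_of_ncard_le e2 (by unfold Nat.ModEq at e1; omega)).ge h0'
  have L7 : ∀ τ : H, (∀ v : A, τ • τ • v = v) → ∀ v : A, τ • v = v := fun τ hτ => by
    let δ : A →+ A := DistribSMul.toAddMonoidHom A τ + AddMonoidHom.id A
    have e1 : δ.range ≤ fixE A τ := by
      rintro _ ⟨x, rfl⟩; simp [mem_fixE, δ, hτ, add_comm]
    have e2 : δ.ker ≤ fixE A τ := fun x hx => by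
      have : τ • x + x = 0 := hx
      rw [mem_fixE, ← add_left_inj x, this, h2]
    have e3 := AddSubgroup.card_eq_card_quotient_mul_card_addSubgroup δ.ker
    rw [Nat.card_congr (QuotientAddGroup.quotientKerEquivRange δ).toEquiv, hA] at e3
    have e4 := AddSubgroup.card_le_of_le e1
    have e5 := AddSubgroup.card_le_of_le e2
    have e6 : 2 < (fixE A τ : Set A).ncard := by
      rw [← Nat.card_coe_set_eq, SetLike.coe_sort_coe]; nlinarith
    obtain ⟨w, w', hw, hw', h0, h0', hne⟩ : ∃ w w' : A, τ • w = w ∧ τ • w' = w' ∧ w ≠ 0 ∧ w' ≠ 0 ∧ w ≠ w' := by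
      obtain ⟨a, ha, b, hb, c, hc, hab, hac, hbc⟩ := (Set.two_lt_ncard (Set.toFinite _)).mp e6
      by_cases a0 : a = 0
      · exact ⟨b, c, hb, hc, a0 ▸ hab.symm, a0 ▸ hac.symm, hbc⟩
      by_cases b0 : b = 0
      · exact ⟨a, c, ha, hc, a0, b0 ▸ hbc.symm, hac⟩
      · exact ⟨a, b, ha, hb, a0, b0, hab⟩
    obtain ⟨z, hzZ, rfl⟩ := kb w w' h0 h0'
    have e7 := ka (z⁻¹ * (τ * z * τ⁻¹)) (mul_mem (inv_mem hzZ) (hZ.conj_mem z hzZ τ)) w h0 (by
      rw [mul_smul, mul_smul, mul_smul, inv_smul_eq_iff.mpr hw.symm, hw', inv_smul_smul])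
    refine top (fixE A τ) (card_modEq_one' (z := z) p7 (fun v hv => ?_) (fun v _ => hz z hzZ v)
      fun v _ hv => ?_) w hw h0
    · have := e7 (τ • v)
      rw [mul_smul, mul_smul, mul_smul, inv_smul_smul, inv_smul_eq_iff, mem_fixE.mp hv] at this
      exact this
    · by_contra h0; exact hne (ka z hzZ v h0 hv w).symm
  have inj := MulAction.injective (β := A) h
  have f1 : (h * h) • b = b ∧ (h * h) • d = d := by
    rw [mul_smul, mul_smul]
    rcases h1 with h1 | h1 <;> rcases h1' with h1' | h1'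
    · exact absurd (inj (h1.trans h1'.symm)) hbd
    · simp [h1, h1']
    · simp [h1, h1']
    · exact absurd (inj (h1.trans h1'.symm)) hbd
  have c1 := card_sup_zmul h2 (U := ⊥) (x := b) hb
  have n2 : d ∉ ⊥ ⊔ AddSubgroup.zmultiples b := by
    rw [bot_sup_eq]
    rintro ⟨n, rfl⟩
    obtain ⟨k, rfl | rfl⟩ := Int.even_or_odd' n
    · exact hd (by simp [mul_zsmul, two_zsmul, h2])
    · exact hbd (by simp [mul_zsmul, two_zsmul, h2, add_zsmul])
  have c2 := card_sup_zmul h2 n2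
  set K := ⊥ ⊔ AddSubgroup.zmultiples b ⊔ AddSubgroup.zmultiples d
  have hK : K ≤ fixE A (h * h) :=
    sup_le (sup_le bot_le (AddSubgroup.zmultiples_le.mpr f1.1)) (AddSubgroup.zmultiples_le.mpr f1.2)
  have hi : K.index = 2 := by
    have := K.index_mul_card
    rw [c2, c1, AddSubgroup.card_bot, hA] at this
    omega
  refine L7 h (fun v => ?_) v
  rw [← mul_smul]
  refine L7 _ (fun v => ?_) v
  have : (h * h) • v + v ∈ K := (AddSubgroup.add_mem_iff_of_index_two hi).mpr ⟨fun h1 => by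
    rwa [← MulAction.injective (h * h) (hK h1)], fun h1 => by rwa [mem_fixE.mp (hK h1)]⟩
  have := mem_fixE.mp (hK this)
  rwa [smul_add, add_comm, add_right_inj] at this
end

end Cfsg.Agent.Lib.Base
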