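import Cfsg.Agent.Lib.Base.Two1

/-! Rigid subsets of elementary abelian `2`-groups for solvable `3'`-groups. -/

set_option autoImplicit false
set_option linter.style.haveILetI false

namespace Cfsg.Agent.Lib.Base

open Subgroup Cfsg.Agent.Lib.Core

universe u v

section
variable (H : Type*) {A : Type*} [Group H] [AddCommGroup A] [DistribMulAction H A]

/-- rigidity of a finite set -/
def Rig (Γ : Finset A) : Prop := ∀ h : H, (∀ x ∈ Γ, h • x ∈ Γ) → ∀ v : A, h • v = v

variable (A) in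
/-- the action has order prime to three -/
def T3 : Prop := ∀ h : H, ∃ k : ℕ, k.Coprime 3 ∧ ∀ v : A, h ^ k • v = v

variable {H}

theorem mem_of_pow_coprime {K : Subgroup H} {x : H} {m n : ℕ} (h : m.Coprime n) (hm : x ^ m ∈ K)
    (hn : x ^ n ∈ K) : x ∈ K := by
  have := mul_mem (zpow_mem hm (Nat.gcdA m n)) (zpow_mem hn (Nat.gcdB m n))
  rwa [← zpow_natCast, ← zpow_natCast, ← zpow_mul, ← zpow_mul, ← zpow_add, ← Nat.gcd_eq_gcd_ab, h,
    Nat.cast_one, zpow_one] at this

theorem rig_comb (W : AddSubgroup A) (hW : ∀ g : H, ∀ w ∈ W, g • w ∈ W) {Γ₁ : Finset W}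
    (h1 : @Rig H W _ _ (subAction W hW) Γ₁) {Γ₂ : Finset (A ⧸ W)} (h2 : @Rig H _ _ _ (quotAction W hW) Γ₂)
    (h0 : 0 ∉ Γ₂) (hs : AddSubgroup.closure (Γ₂ : Set (A ⧸ W)) = ⊤) :
    ∃ Γ : Finset A, Rig H Γ ∧ Γ.card = Γ₁.card + Γ₂.card ∧ (0 ∉ Γ₁ → 0 ∉ Γ) ∧
      (AddSubgroup.closure (Γ₁ : Set W) = ⊤ → AddSubgroup.closure (Γ : Set A) = ⊤) := by
  classical
  letI := subAction W hW
  letI := quotAction W hW
  have hn : ∀ q ∈ Γ₂, q.out ∉ W := fun q hq h => h0 (by
    rwa [← (QuotientAddGroup.eq_zero_iff _).mpr h, QuotientAddGroup.out_eq'])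
  have top : ∀ F : AddSubgroup A, W ≤ F → (∀ q ∈ Γ₂, q.out ∈ F) → F = ⊤ := fun F k1 k2 => by
    have : F.map (QuotientAddGroup.mk' W) = ⊤ := eq_top_iff.mpr (hs.ge.trans ((AddSubgroup.closure_le _).mpr
      fun q hq => ⟨_, k2 q hq, QuotientAddGroup.out_eq' q⟩))
    rw [← AddSubgroup.comap_map_eq_self (f := QuotientAddGroup.mk' W) (H := F)
      (by rwa [QuotientAddGroup.ker_mk']), this, AddSubgroup.comap_top]
  refine ⟨Γ₁.image Subtype.val ∪ Γ₂.image Quotient.out, fun h hh v => ?_, ?_, fun k => ?_, fun k => ?_⟩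
  · simp only [Finset.mem_union, Finset.mem_image] at hh
    have e1 := h1 h fun x hx => by
      rcases hh x (Or.inl ⟨x, hx, rfl⟩) with ⟨y, hy, e⟩ | ⟨q, hq, e⟩
      · rwa [show h • x = y from Subtype.ext e.symm]
      · exact absurd (e ▸ hW h _ x.2) (hn q hq)
    have e2 : ∀ q ∈ Γ₂, ∃ q' ∈ Γ₂, q'.out = h • q.out := fun q hq => by
      refine (hh _ (Or.inr ⟨q, hq, rfl⟩)).resolve_left fun ⟨y, _, e⟩ => hn q hq ?_
      have := hW h⁻¹ _ (e ▸ y.2)
      rwa [inv_smul_smul] at this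
    have e3 : ∀ q : A ⧸ W, h • q = (h • q.out : A) := fun q => by
      conv_lhs => rw [← QuotientAddGroup.out_eq' q]
      rfl
    have e4 := h2 h fun q hq => by
      obtain ⟨q', hq', e⟩ := e2 q hq
      rwa [e3, ← e, QuotientAddGroup.out_eq']
    refine (top (fixE A h) (fun w hw => congrArg Subtype.val (e1 ⟨w, hw⟩)) fun q hq => ?_).ge
      (AddSubgroup.mem_top v)
    obtain ⟨q', hq', e⟩ := e2 q hq
    have := e4 q
    rw [e3, ← e, QuotientAddGroup.out_eq'] at this
    rw [mem_fixE, ← e, this]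
  · rw [Finset.card_union_of_disjoint, Finset.card_image_of_injective _ Subtype.val_injective,
      Finset.card_image_of_injective _ Quotient.out_injective]
    rw [Finset.disjoint_left]
    simp only [Finset.mem_image]
    rintro _ ⟨x, -, rfl⟩ ⟨q, hq, e⟩
    exact hn q hq (e ▸ x.2)
  · simp only [Finset.mem_union, Finset.mem_image]
    rintro (⟨x, hx, e⟩ | ⟨q, hq, e⟩)
    exacts [k ((show x = 0 from Subtype.ext e) ▸ hx), hn q hq (e ▸ W.zero_mem)]
  · refine top _ (fun w hw => ?_) fun q hq => AddSubgroup.subset_closure (by simp [hq])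
    refine AddSubgroup.mem_comap.mp ((show AddSubgroup.closure (Γ₁ : Set W) ≤ AddSubgroup.comap W.subtype _ from
      (AddSubgroup.closure_le _).mpr fun x hx => ?_) (k.ge (AddSubgroup.mem_top (⟨w, hw⟩ : W))))
    exact AddSubgroup.subset_closure (Finset.mem_union_left _ (Finset.mem_image_of_mem _ hx))

variable [Finite A] (h2 : ∀ x : A, x + x = 0)
include h2

theorem card_closure_le (Γ : Finset A) : Nat.card (AddSubgroup.closure (Γ : Set A)) ≤ 2 ^ Γ.card := by
  classical
  induction Γ using Finset.induction_on with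
  | empty => simp
  | insert x s hx ih =>
    rw [Finset.coe_insert, Set.insert_eq, AddSubgroup.closure_union, sup_comm, ← AddSubgroup.zmultiples_eq_closure,
      Finset.card_insert_of_notMem hx, pow_succ]
    by_cases h : x ∈ AddSubgroup.closure (s : Set A)
    · rw [sup_eq_left.mpr (AddSubgroup.zmultiples_le.mpr h)]; omega
    · rw [card_sup_zmul h2 h]; omega

theorem exists_gen_set (U : AddSubgroup A) : ∃ E : Finset A, U ⊔ AddSubgroup.closure (E : Set A) = ⊤ ∧
    Nat.card U * 2 ^ E.card ≤ Nat.card A := by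
  classical
  induction U using (wellFounded_gt (α := AddSubgroup A)).induction with
  | _ U IH =>
  by_cases hU : U = ⊤
  · exact ⟨∅, by simp [hU], by simp [hU]⟩
  obtain ⟨x, hx⟩ : ∃ x, x ∉ U := by by_contra! h; exact hU (eq_top_iff.mpr fun x _ => h x)
  obtain ⟨E, h1, h3⟩ := IH (U ⊔ AddSubgroup.zmultiples x) (lt_of_le_of_ne le_sup_left fun e =>
    hx (e.ge (AddSubgroup.mem_sup_right (AddSubgroup.mem_zmultiples x))))
  refine ⟨insert x E, by rwa [Finset.coe_insert, Set.insert_eq, AddSubgroup.closure_union,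
    ← AddSubgroup.zmultiples_eq_closure, ← sup_assoc], le_trans ?_ h3⟩
  rw [card_sup_zmul h2 hx, mul_comm 2, mul_assoc, ← pow_succ']
  exact Nat.mul_le_mul_left _ (Nat.pow_le_pow_right two_pos (Finset.card_insert_le _ _))

theorem exists_double {U : AddSubgroup A} (hU : Nat.card U < Nat.card A) (x : A) :
    ∃ U' : AddSubgroup A, U ≤ U' ∧ x ∈ U' ∧ Nat.card U' = 2 * Nat.card U := by
  by_cases hx : x ∈ U
  · obtain ⟨y, hy⟩ : ∃ y, y ∉ U := by
      by_contra! h; rw [show U = ⊤ from eq_top_iff.mpr fun y _ => h y, AddSubgroup.card_top] at hU; omega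
    exact ⟨_, le_sup_left, AddSubgroup.mem_sup_left hx, card_sup_zmul h2 hy⟩
  · exact ⟨_, le_sup_left, AddSubgroup.mem_sup_right (AddSubgroup.mem_zmultiples x), card_sup_zmul h2 hx⟩

theorem rig_ext {n : ℕ} (hA : Nat.card A = 2 ^ n) {U : AddSubgroup A} (hU : Nat.card U = 8) {Γ : Finset A}
    (hΓ : ∀ x ∈ Γ, x ∈ U) (hc : Γ.card = 2) (h0 : 0 ∉ Γ)
    (hr : ∀ h : H, (∀ x ∈ U, h • x ∈ U) → (∀ x ∈ Γ, h • x ∈ Γ) → ∀ v : A, h • v = v) :
    (∃ T : Finset A, Rig H T ∧ 0 ∉ T ∧ T.card = 5) ∧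
      ∃ T : Finset A, Rig H T ∧ 0 ∉ T ∧ AddSubgroup.closure (T : Set A) = ⊤ ∧ T.card ≤ n + 2 := by
  classical
  let T := (U : Set A).toFinite.toFinset \ insert 0 Γ
  have mT : ∀ x, x ∈ T ↔ x ∈ U ∧ x ≠ 0 ∧ x ∉ Γ := fun x => by simp [T]
  have cT : T.card = 5 := by
    rw [Finset.card_sdiff_of_subset (by
      intro x hx; rcases Finset.mem_insert.mp hx with rfl | hx <;> simp [hΓ, *]),
      Finset.card_insert_of_notMem h0, hc, ← Set.ncard_eq_toFinset_card, ← Nat.card_coe_set_eq,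
      SetLike.coe_sort_coe, hU]
  have gen : ∀ x, U ≤ AddSubgroup.closure (T.erase x : Set A) := fun x => by
    have e1 : (AddSubgroup.closure (T.erase x : Set A)).addSubgroupOf U = ⊤ := by
      refine eq_top_of_card_eight hU ?_
      rw [Nat.card_congr (AddSubgroup.addSubgroupOfEquivOfLe ((AddSubgroup.closure_le _).mpr fun y hy =>
        ((mT y).mp (Finset.mem_of_mem_erase hy)).1)).toEquiv, ← SetLike.coe_sort_coe, Nat.card_coe_set_eq]
      have := Set.ncard_le_ncard (s := ((insert 0 (T.erase x) : Finset A) : Set A))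
        (t := AddSubgroup.closure (T.erase x : Set A)) (by
          rw [Finset.coe_insert]; exact Set.insert_subset (zero_mem _) AddSubgroup.subset_closure)
      rw [Set.ncard_coe_finset, Finset.card_insert_of_notMem (by simp [mT])] at this
      have := Finset.pred_card_le_card_erase (s := T) (a := x)
      omega
    rwa [AddSubgroup.addSubgroupOf_eq_top] at e1
  have rT : Rig H T := fun h hh => by
    have e1 : ∀ x ∈ U, h • x ∈ U := fun x hx => (show AddSubgroup.closure (T.erase 0 : Set A) ≤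
      U.comap (DistribSMul.toAddMonoidHom A h) from (AddSubgroup.closure_le _).mpr fun y hy =>
        ((mT _).mp (hh y (Finset.mem_of_mem_erase hy))).1) (gen 0 hx)
    refine hr h e1 fun x hx => ?_
    by_contra hn
    obtain ⟨y, hy, e⟩ := ((Set.Finite.injOn_iff_bijOn_of_mapsTo (s := (T : Set A)) T.finite_toSet hh).mp
      (MulAction.injective h).injOn).surjOn ((mT _).mpr ⟨e1 x (hΓ x hx), fun e =>
        h0 ((smul_eq_zero_iff_eq h).mp e ▸ hx), hn⟩)
    exact ((mT _).mp hy).2.2 (MulAction.injective h e ▸ hx)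
  refine ⟨⟨T, rT, by simp [mT], cT⟩, ?_⟩
  obtain ⟨E₀, g1, g2⟩ := exists_gen_set h2 U
  obtain ⟨E, g3, g4⟩ := exists_minimalFor_of_wellFoundedLT
    (fun E : Finset A => U ⊔ AddSubgroup.closure (E : Set A) = ⊤) Finset.card ⟨E₀, g1⟩
  have g5 : ∀ e ∈ E, e ∉ U ⊔ AddSubgroup.closure (E.erase e : Set A) := fun e he hm => by
    have := g4 (j := E.erase e) (by
      beta_reduce
      rw [eq_top_iff, ← g3]
      refine sup_le le_sup_left ((AddSubgroup.closure_le _).mpr fun y hy => ?_)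
      by_cases hye : y = e
      · exact hye ▸ hm
      · exact AddSubgroup.mem_sup_right (AddSubgroup.subset_closure (by simpa [hye] using hy)))
      Finset.card_erase_le
    have := Finset.card_erase_lt_of_mem he
    omega
  refine ⟨T ∪ E, fun h hh => rT h fun x hx => (Finset.mem_union.mp (hh x (Finset.mem_union_left _ hx))).resolve_right
    fun he => g5 _ he ?_, ?_, ?_, ?_⟩
  · refine (show AddSubgroup.closure (T.erase x : Set A) ≤ AddSubgroup.comap (DistribSMul.toAddMonoidHom A h)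
      (U ⊔ AddSubgroup.closure (E.erase (h • x) : Set A))
      from (AddSubgroup.closure_le _).mpr fun y hy => ?_) (gen x ((mT x).mp hx).1)
    obtain ⟨y1, y2⟩ := Finset.mem_erase.mp hy
    rcases Finset.mem_union.mp (hh y (Finset.mem_union_left _ y2)) with h3 | h3
    · exact AddSubgroup.mem_sup_left ((mT _).mp h3).1
    · exact AddSubgroup.mem_sup_right (AddSubgroup.subset_closure (Finset.mem_erase.mpr
        ⟨fun e => y1 (MulAction.injective h e), h3⟩))
  · exact fun h => (Finset.mem_union.mp h).elim (by simp [mT]) fun h => g5 0 h (zero_mem _)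
  · rw [eq_top_iff, ← g3]
    exact sup_le ((gen 0).trans (AddSubgroup.closure_mono (by intro y; simp +contextual)))
      (AddSubgroup.closure_mono (by simp))
  · have e1 := Finset.card_union_le T E
    have e2 : E.card ≤ E₀.card := by
      by_contra hn; exact hn (g4 g1 (by omega))
    rw [hU, hA, show 8 = 2 ^ 3 from rfl, ← pow_add, Nat.pow_le_pow_iff_right (by norm_num)] at g2
    omega
end

theorem exists_rig_aux (n : ℕ) : ∀ (A : Type v) [AddCommGroup A] [Finite A], Nat.card A = 2 ^ n →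
    (∀ x : A, x + x = 0) → ∀ (H : Type u) [Group H] [Finite H] [Group.IsSolvable H] [DistribMulAction H A],
    T3 H A → (∃ Γ : Finset A, Rig H Γ ∧ 0 ∉ Γ ∧ AddSubgroup.closure (Γ : Set A) = ⊤ ∧ Γ.card ≤ n + 2 * (n / 3)) ∧
      ∃ Γ : Finset A, Rig H Γ ∧ 0 ∉ Γ ∧ 8 * Γ.card < 3 * 2 ^ n ∧ (n ≤ 3 → Γ.card = n - 1) := by
  classical
  induction n using Nat.strong_induction_on with
  | _ n IH =>
  intro A _ _ hA h2 H _ _ _ _ h3
  have pw : ∀ W : AddSubgroup A, ∃ k ≤ n, Nat.card W = 2 ^ k := fun W =>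
    (Nat.dvd_prime_pow Nat.prime_two).mp (hA ▸ W.card_addSubgroup_dvd_card)
  rcases Nat.eq_zero_or_pos n with rfl | hn
  · haveI := (Nat.card_eq_one_iff_unique.mp hA).1
    exact ⟨⟨∅, fun _ _ _ => Subsingleton.elim _ _, by simp, Subsingleton.elim _ _, by simp⟩,
      ∅, fun _ _ _ => Subsingleton.elim _ _, by simp, by simp, by simp⟩
  by_cases hirr : Irr H A
  swap
  · obtain ⟨W, hW, w1⟩ : ∃ W : AddSubgroup A, (∀ g : H, ∀ w ∈ W, g • w ∈ W) ∧ ¬ (W = ⊥ ∨ W = ⊤) := by
      by_contra! h; exact hirr fun W hW => by have := h W hW; tauto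
    obtain ⟨k, -, hk⟩ := pw W
    have e1 := AddSubgroup.card_eq_card_quotient_mul_card_addSubgroup W
    obtain ⟨m, -, hm⟩ := (Nat.dvd_prime_pow Nat.prime_two).mp (hA ▸ Dvd.intro _ e1.symm)
    have k0 : k ≠ 0 := fun e => w1 (Or.inl (AddSubgroup.card_eq_one.mp (by rw [hk, e, pow_zero])))
    have m0 : m ≠ 0 := fun e => w1 (Or.inr (AddSubgroup.eq_top_of_card_eq _ (by rw [e1, hm, e]; simp)))
    rw [hA, hm, hk, ← pow_add, Nat.pow_right_inj (by norm_num)] at e1
    letI := subAction W hW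
    letI := quotAction W hW
    obtain ⟨⟨Γ₁, a1, a2, a3, a4⟩, Γ₁', b1, b2, b3, b4⟩ := IH k (by omega) W hk (fun x => Subtype.ext (h2 x)) H
      fun h => (h3 h).imp fun k hk => ⟨hk.1, fun v => Subtype.ext (hk.2 v)⟩
    have q2 : ∀ x : A ⧸ W, x + x = 0 := fun x => by
      obtain ⟨x, rfl⟩ := QuotientAddGroup.mk_surjective x
      rw [← QuotientAddGroup.mk_add, h2, QuotientAddGroup.mk_zero]
    obtain ⟨⟨Γ₂, c1, c2, c3, c4⟩, -⟩ := IH m (by omega) (A ⧸ W) hm q2 H fun h => (h3 h).imp fun k hk =>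
      ⟨hk.1, fun v => by
        obtain ⟨x, rfl⟩ := QuotientAddGroup.mk_surjective v
        exact congrArg QuotientAddGroup.mk (hk.2 x)⟩
    have c5 := card_closure_le q2 Γ₂
    rw [c3, AddSubgroup.card_top, hm, Nat.pow_le_pow_iff_right (by norm_num)] at c5
    obtain ⟨Γ, d1, d2, d3, d4⟩ := rig_comb W hW a1 c1 c2 c3
    obtain ⟨Γ', f1, f2, f3, -⟩ := rig_comb W hW b1 c1 c2 c3
    refine ⟨⟨Γ, d1, d3 a2, d4 a3, by omega⟩, Γ', f1, f3 b2, ?_, by omega⟩
    have f4 : ∀ m, 1 ≤ m → 4 * (m + 2 * (m / 3)) < 3 * 2 ^ m := fun m hm => by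
      induction m using Nat.strong_induction_on with
      | _ m ih =>
        by_cases h : m ≤ 3
        · interval_cases m <;> simp
        · obtain ⟨j, rfl⟩ : ∃ j, m = j + 3 := ⟨m - 3, by omega⟩
          have := ih j (by omega) (by omega)
          have := Nat.pow_le_pow_right two_pos (show 1 ≤ j by omega)
          rw [pow_add]; omega
    have f5 := f4 m (by omega)
    rw [e1, pow_add, f2]
    by_cases hk1 : k = 1
    · subst hk1; omega
    · have f6 := Nat.pow_le_pow_right two_pos (show 2 ≤ k by omega)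
      have f7 := Nat.pow_le_pow_right two_pos (show 1 ≤ m by omega)
      nlinarith
  haveI : Nontrivial A := Finite.one_lt_card_iff_nontrivial.mp (hA ▸ Nat.one_lt_two_pow hn.ne')
  obtain ⟨b, hb⟩ := exists_ne (0 : A)
  by_cases htr : ∀ (h : H) (v : A), h • v = v
  · have e1 := (hirr (⊥ ⊔ AddSubgroup.zmultiples b) fun g u hu => by rwa [htr]).resolve_left fun e =>
      hb (e.le (AddSubgroup.mem_sup_right (AddSubgroup.mem_zmultiples b)))
    have e2 := card_sup_zmul h2 (U := ⊥) (x := b) hb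
    rw [e1, AddSubgroup.card_top, AddSubgroup.card_bot, hA, mul_one] at e2
    obtain rfl : n = 1 := Nat.pow_right_injective le_rfl e2
    exact ⟨⟨{b}, fun h _ => htr h, by simpa using hb.symm, by
      rw [← e1, bot_sup_eq, AddSubgroup.zmultiples_eq_closure]; simp, by simp⟩,
      ∅, fun h _ => htr h, by simp, by simp, by simp⟩
  obtain ⟨r, hr, -, Z, hZ, z1, z2, z, hz, v, -, hv⟩ := exists_minZ (H := H) (S := (⊤ : AddSubgroup A))
    (by simp) (by simpa using htr)
  have z3 : ∀ v : A, (∀ z ∈ Z, z • v = v) → v = 0 := fun w hw =>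
    ((hirr (fixA A Z) inv_fixA).resolve_right fun e => hv (e.ge (AddSubgroup.mem_top v) z hz)).le hw
  have z4 := card_modEq_one hr (S := ⊤) (by simp) z1 fun v _ => z3 v
  rw [AddSubgroup.card_top, hA] at z4
  have z5 := (Nat.modEq_iff_dvd' Nat.one_le_two_pow).mp z4.symm
  have r3 : r ≠ 3 := by
    rintro rfl
    obtain ⟨k, k1, k2⟩ := h3 z
    exact hv (mem_of_pow_coprime (K := MulAction.stabilizer H v) k1 (k2 v) (z1 z hz v trivial))
  have n3 : 3 ≤ n := by
    by_contra h
    have : n = 1 ∨ n = 2 := by omega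
    rcases this with rfl | rfl
    exacts [hr.one_lt.ne' (Nat.dvd_one.mp z5), r3 ((Nat.prime_dvd_prime_iff_eq hr Nat.prime_three).mp z5)]
  rcases n3.eq_or_lt with rfl | n3
  · obtain rfl : r = 7 := (Nat.prime_dvd_prime_iff_eq hr (by norm_num)).mp z5
    obtain ⟨d, hd, hbd⟩ : ∃ d, d ≠ 0 ∧ b ≠ d := by
      by_contra! h
      have := Set.ncard_le_ncard (s := Set.univ) (t := {0, b}) fun x _ => by
        by_cases e : x = 0
        exacts [Or.inl e, Or.inr (h x e).symm]
      rw [Set.ncard_pair hb.symm, Set.ncard_univ, hA] at this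
      omega
    have e1 : Rig H {b, d} := fun h hh => rig8 hA h2 (fun z hz v => z1 z hz v trivial)
      (fun z hz y hy v => z2 z hz y hy v trivial) z3 hb hd hbd h (by simpa using hh b (by simp))
      (by simpa using hh d (by simp))
    have e2 : 0 ∉ ({b, d} : Finset A) := by simp [hb.symm, hd.symm]
    exact ⟨(rig_ext h2 hA (U := ⊤) (by simpa using hA) (by simp) (Finset.card_pair hbd) e2 fun h _ => e1 h).2,
      {b, d}, e1, e2, by simp [Finset.card_pair hbd], fun _ => Finset.card_pair hbd⟩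
  obtain ⟨t, ht⟩ := exists_base3_irr H A hirr
  have p4 := Nat.pow_le_pow_right two_pos (show 4 ≤ n from n3)
  obtain ⟨U₁, -, u1, c1⟩ := exists_double h2 (U := ⊥) (by rw [AddSubgroup.card_bot]; omega) (t 0)
  rw [AddSubgroup.card_bot] at c1
  obtain ⟨U₂, l2, u2, c2⟩ := exists_double h2 (U := U₁) (by omega) (t 1)
  obtain ⟨U, l3, u3, c3⟩ := exists_double h2 (U := U₂) (by omega) (t 2)
  let M : Subgroup H := subgroupOfIdempotent {h | ∀ x ∈ U, h • x ∈ U} ⟨1, by simp⟩ (by
    refine Set.Subset.antisymm ?_ fun h hh => ⟨h, hh, 1, by simp, mul_one h⟩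
    rintro _ ⟨a, ha, b, hb, rfl⟩ x hx
    rw [mul_smul]; exact ha _ (hb x hx))
  letI := resAction M U fun g hg => hg
  obtain ⟨-, Γ, g1, g2, -, g3⟩ := IH 3 n3 U (by omega) (fun x => Subtype.ext (h2 x)) M
    fun h => (h3 h).imp fun k hk => ⟨hk.1, fun v => Subtype.ext (hk.2 v)⟩
  obtain ⟨⟨T, t1, t2, t3⟩, T', t4, t5, t6, t7⟩ := rig_ext (H := H) h2 hA (U := U) (by omega)
    (Γ := Γ.image Subtype.val) (by simp +contextual)
    (by rw [Finset.card_image_of_injective _ Subtype.val_injective, g3 le_rfl])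
    (by simpa using g2) fun h h1 hh => by
      have := g1 ⟨h, h1⟩ fun x hx => by
        obtain ⟨y, hy, e⟩ := Finset.mem_image.mp (hh x (Finset.mem_image_of_mem _ hx))
        rwa [show (⟨h, h1⟩ : M) • x = y from Subtype.ext e.symm]
      refine ht h fun k => ?_
      fin_cases k
      exacts [congrArg Subtype.val (this ⟨_, l3 (l2 u1)⟩), congrArg Subtype.val (this ⟨_, l3 u2⟩),
        congrArg Subtype.val (this ⟨_, u3⟩)]
  exact ⟨⟨T', t4, t5, t6, by omega⟩, T, t1, t2, by omega, by omega⟩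

theorem exists_rig {H A : Type*} [Group H] [Finite H] [Group.IsSolvable H] [AddCommGroup A] [Finite A]
    [DistribMulAction H A] (h2 : ∀ x : A, x + x = 0) (h3 : T3 H A) :
    ∃ Γ : Finset A, Rig H Γ ∧ 0 ∉ Γ ∧ 8 * Γ.card < 3 * Nat.card A := by
  obtain ⟨n, hn⟩ : ∃ n, Nat.card A = 2 ^ n := (IsPGroup.iff_card (p := 2) (G := Multiplicative A)).mp
    fun x => ⟨1, by rw [pow_one, sq]; exact h2 x⟩
  obtain ⟨-, Γ, h1, h4, h5, -⟩ := exists_rig_aux n A hn h2 H h3
  exact ⟨Γ, h1, h4, hn ▸ h5⟩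

end Cfsg.Agent.Lib.Base
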