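import Cfsg.Agent.Lib.Base.Two2

/-! Alternating forms over the field with two elements. -/

set_option autoImplicit false
set_option linter.style.haveILetI false

namespace Cfsg.Agent.Lib.Base

open Subgroup Cfsg.Agent.Lib.Core

universe u v

theorem card_hom_le {A : Type*} [AddCommGroup A] [Finite A] (h2 : ∀ x : A, x + x = 0) :
    Nat.card (A →+ ZMod 2) ≤ Nat.card A := by
  letI : Module (ZMod 2) A := AddCommGroup.zmodModule (n := 2) fun x => by rw [two_nsmul, h2]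
  rw [Nat.card_congr (AddMonoidHom.toZModLinearMapEquiv 2 (M := A) (M₁ := ZMod 2)).toEquiv,
    Module.natCard_eq_pow_finrank (K := ZMod 2) (V := A), ← Subspace.dual_finrank_eq,
    ← Module.natCard_eq_pow_finrank]

theorem zmod2_cases (c : ZMod 2) : c = 0 ∨ c = 1 := by revert c; decide

theorem zmod2_add_self (c : ZMod 2) : c + c = 0 := by revert c; decide

section
variable {A : Type*} [AddCommGroup A] (f : A →+ A →+ ZMod 2)

/-- orthogonal complement -/
def perp (L : AddSubgroup A) : AddSubgroup A where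
  carrier := {x | ∀ y ∈ L, f x y = 0}
  zero_mem' := by simp
  add_mem' := fun h1 h2 y hy => by simp [h1 y hy, h2 y hy]
  neg_mem' := fun h1 y hy => by simp [h1 y hy]

/-- non-degeneracy -/
def Nd (B : AddSubgroup A) : Prop := ∀ x ∈ B, (∀ y ∈ B, f x y = 0) → x = 0

variable {f}

theorem alt_symm (alt : ∀ x, f x x = 0) (x y : A) : f x y = f y x := by
  have := alt (x + y)
  simp only [map_add, AddMonoidHom.add_apply, alt, zero_add, add_zero] at this
  revert this
  generalize f x y = a; generalize f y x = b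
  revert a b; decide

variable [Finite A]

theorem exists_dual (h2 : ∀ x : A, x + x = 0) {S : AddSubgroup A} (hS : Nd f S) (χ : A →+ ZMod 2) :
    ∃ s ∈ S, ∀ y ∈ S, f s y = χ y := by
  haveI : Finite (S →+ ZMod 2) := DFunLike.finite _
  obtain ⟨s, hs⟩ := (Function.Injective.bijective_of_nat_card_le (f := fun s : S => (f s).comp S.subtype)
    (fun a b h => Subtype.ext (sub_eq_zero.mp (hS _ (sub_mem a.2 b.2) fun y hy => by
      rw [map_sub, AddMonoidHom.sub_apply, sub_eq_zero]; exact DFunLike.congr_fun h ⟨y, hy⟩)))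
    (card_hom_le fun x => Subtype.ext (h2 x))).2 (χ.comp S.subtype)
  exact ⟨s, s.2, fun y hy => DFunLike.congr_fun hs ⟨y, hy⟩⟩

theorem card_perp (h2 : ∀ x : A, x + x = 0) (alt : ∀ x, f x x = 0) {B L : AddSubgroup A} (hB : Nd f B)
    (hL : L ≤ B) : Nat.card B = Nat.card L * Nat.card (B ⊓ perp f L : AddSubgroup A) := by
  let φ : B →+ L →+ ZMod 2 := AddMonoidHom.mk' (fun x => (f x).comp L.subtype) fun x y => by ext; simp
  have e1 : φ.ker = (B ⊓ perp f L).addSubgroupOf B := by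
    ext x
    exact ⟨fun h => ⟨x.2, fun y hy => DFunLike.congr_fun h ⟨y, hy⟩⟩, fun h => by ext y; exact h.2 y y.2⟩
  haveI : Finite (L →+ ZMod 2) := DFunLike.finite _
  haveI : Finite (B ⧸ φ.ker →+ ZMod 2) := DFunLike.finite _
  rw [AddSubgroup.card_eq_card_quotient_mul_card_addSubgroup φ.ker,
    ← Nat.card_congr (AddSubgroup.addSubgroupOfEquivOfLe (inf_le_left (b := perp f L))).toEquiv, ← e1]
  congr 1
  refine le_antisymm ((Nat.card_le_card_of_injective _ (QuotientAddGroup.kerLift_injective φ)).trans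
    (card_hom_le fun x => Subtype.ext (h2 x))) (le_trans (Nat.card_le_card_of_injective
      (fun l : L => QuotientAddGroup.lift φ.ker ((f l).comp B.subtype) fun x hx => by
        rw [AddMonoidHom.mem_ker, AddMonoidHom.comp_apply, alt_symm alt]; exact DFunLike.congr_fun hx l)
      fun a b h => Subtype.ext (sub_eq_zero.mp (hB _ (sub_mem (hL a.2) (hL b.2)) fun y hy => ?_)))
    (card_hom_le fun x => ?_))
  · rw [map_sub, AddMonoidHom.sub_apply, sub_eq_zero]
    exact DFunLike.congr_fun h ((⟨y, hy⟩ : B) : B ⧸ φ.ker)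
  · obtain ⟨x, rfl⟩ := QuotientAddGroup.mk_surjective x
    rw [← QuotientAddGroup.mk_add, show x + x = 0 from Subtype.ext (h2 x), QuotientAddGroup.mk_zero]

theorem exists_lagr (h2 : ∀ x : A, x + x = 0) (alt : ∀ x, f x x = 0) {B : AddSubgroup A} (hB : Nd f B) :
    ∃ L ≤ B, B ⊓ perp f L = L ∧ Nat.card B = Nat.card L * Nat.card L := by
  obtain ⟨L, ⟨h1, h3⟩, hmax⟩ := (wellFounded_gt (α := AddSubgroup A)).has_min
    {L | L ≤ B ∧ L ≤ perp f L} ⟨⊥, bot_le, bot_le⟩
  have : B ⊓ perp f L = L := le_antisymm (fun x hx => by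
    by_contra hn
    refine hmax (L ⊔ AddSubgroup.zmultiples x) ⟨sup_le h1 (AddSubgroup.zmultiples_le.mpr hx.1), ?_⟩
      (lt_of_le_of_ne le_sup_left fun e => hn (e.ge (AddSubgroup.mem_sup_right (AddSubgroup.mem_zmultiples x))))
    intro y hy z hz
    obtain ⟨a, ha, _, ⟨n, rfl⟩, rfl⟩ := AddSubgroup.mem_sup.mp hy
    obtain ⟨b, hb, _, ⟨m, rfl⟩, rfl⟩ := AddSubgroup.mem_sup.mp hz
    simp [h3 ha b hb, alt, hx.2 b hb, alt_symm alt a x, hx.2 a ha]) (le_inf h1 h3)
  exact ⟨L, h1, this, by rw [card_perp h2 alt hB h1, this]⟩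

theorem eq_zero_of_supp {s : A →+ ZMod 2} (hc : 2 * {x | s x ≠ 0}.ncard < Nat.card A) (x : A) : s x = 0 := by
  by_contra hx
  have e1 := Set.ncard_add_ncard_compl {x | s x ≠ 0}
  have e2 := Set.ncard_le_ncard_of_injOn (s := {x | s x ≠ 0}ᶜ) (t := {x | s x ≠ 0}) (· + x)
    (fun y hy => by simpa [show s y = 0 by simpa using hy] using hx) (add_left_injective x).injOn
  omega

/-- the sign character -/
def sg (c : ZMod 2) : ℤ := if c = 0 then 1 else -1

theorem sg_add (a b : ZMod 2) : sg (a + b) = sg a * sg b := by revert a b; decide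

omit [Finite A] in
theorem sum_char [Fintype A] (s : A →+ ZMod 2) {y : A} (hy : s y ≠ 0) : ∑ x, sg (s x) = 0 := by
  have := Equiv.sum_comp (Equiv.addRight y) fun x => sg (s x)
  simp only [Equiv.coe_addRight, map_add, sg_add, ← Finset.sum_mul, show sg (s y) = -1 from if_neg hy] at this
  omega

variable [Module (ZMod 2) A]

omit [Finite A] in
theorem two_eq (x : A) : x + x = 0 := by
  rw [← two_smul (ZMod 2) x, show (2 : ZMod 2) = 0 from rfl, zero_smul]

theorem gauss (alt : ∀ x, f x x = 0) (nd : Nd f ⊤) (δ : A →+ A) (s : A → ZMod 2)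
    (hs : ∀ x y, s (x + y) = s x + s y + f (δ x) y) (hc : 8 * {x | s x ≠ 0}.ncard < 3 * Nat.card A) :
    ∃ a b : A, a ∈ δ.range ∧ b ∈ δ.range ∧ ∀ x, δ x = f x a • b + f x b • a := by
  classical
  haveI := Fintype.ofFinite A
  have nd' : ∀ {x}, x ≠ 0 → ∃ y, f x y = 1 := fun {x} hx => by
    by_contra! h; exact hx (nd x trivial fun y _ => (zmod2_cases _).resolve_right (h y))
  have hr : Nat.card δ.range < 16 := by
    have e1 : ∑ x, sg (s x) = Nat.card A - 2 * ({x | s x ≠ 0}.ncard : ℤ) := by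
      rw [Set.ncard_eq_toFinset_card', Set.toFinset_setOf, Finset.card_filter, Nat.card_eq_fintype_card,
        ← Finset.card_univ, Finset.card_eq_sum_ones]
      push_cast
      rw [Finset.mul_sum, ← Finset.sum_sub_distrib]
      exact Finset.sum_congr rfl fun x _ => by by_cases h : s x = 0 <;> simp [sg, h]
    have e2 : (∑ x, sg (s x)) * (∑ x, sg (s x)) ≤ Nat.card δ.ker * Nat.card A := by
      calc _ = ∑ x, ∑ y, sg (s y) * sg (f (δ y) x) := by
            rw [Finset.sum_mul]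
            refine Finset.sum_congr rfl fun x _ => ?_
            rw [← Equiv.sum_comp (Equiv.addRight x), Finset.mul_sum]
            refine Finset.sum_congr rfl fun y _ => ?_
            rw [Equiv.coe_addRight, hs, ← sg_add, ← sg_add]
            congr 1
            linear_combination zmod2_add_self (s x)
        _ ≤ ∑ y, if y ∈ δ.ker then (Nat.card A : ℤ) else 0 := by
            rw [Finset.sum_comm]
            refine Finset.sum_le_sum fun y _ => ?_
            rw [← Finset.mul_sum]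
            split_ifs with h
            · have : δ y = 0 := h
              simp only [this, map_zero, AddMonoidHom.zero_apply, sg, if_true, Finset.sum_const, Finset.card_univ,
                Nat.card_eq_fintype_card]
              split_ifs <;> simp
            · obtain ⟨z, hz⟩ := nd' h
              rw [sum_char (y := z) _ (by simp [hz]), mul_zero]
        _ = _ := by
            rw [← Finset.sum_filter, Finset.sum_const, nsmul_eq_mul, Nat.card_eq_fintype_card (α := δ.ker),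
              Fintype.card_subtype]
    have e3 := AddSubgroup.card_eq_card_quotient_mul_card_addSubgroup δ.ker
    rw [Nat.card_congr (QuotientAddGroup.quotientKerEquivRange δ).toEquiv] at e3
    by_contra! hn
    have e4 : 16 * Nat.card δ.ker ≤ Nat.card A := e3 ▸ Nat.mul_le_mul_right _ hn
    rw [e1] at e2
    zify at e4 hc
    have := Nat.card_pos (α := A)
    nlinarith
  have s0 : s 0 = 0 := by simpa using hs 0 0
  have sym : ∀ x y, f (δ x) y = f (δ y) x := fun x y => by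
    have := hs x y
    rw [add_comm x, hs] at this
    linear_combination -this
  have al : ∀ x, f (δ x) x = 0 := fun x => by simpa [two_eq, s0, zmod2_add_self] using (hs x x).symm
  by_cases h0 : ∀ x, δ x = 0
  · exact ⟨0, 0, zero_mem _, zero_mem _, by simp [h0]⟩
  push Not at h0
  obtain ⟨x, hx⟩ := h0
  obtain ⟨y, hy⟩ := nd' hx
  refine ⟨δ x, δ y, ⟨x, rfl⟩, ⟨y, rfl⟩, fun x' => ?_⟩
  let d : A → A := fun u => δ u - (f u (δ x) • δ y + f u (δ y) • δ x)
  have d1 : ∀ u v, f (d u) v = f (δ u) v - (f (δ x) u * f (δ y) v + f (δ y) u * f (δ x) v) := fun u v => by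
    simp [d, ZMod.map_smul, alt_symm alt u]
  have d0 : ∀ u, δ u ∈ δ.range := fun u => ⟨u, rfl⟩
  have d2 : ∀ u, d u ∈ δ.range := fun u => sub_mem (d0 u)
    (add_mem (ZMod.smul_mem (d0 y) _) (ZMod.smul_mem (d0 x) _))
  have d3 : ∀ u, f (d u) x = 0 := fun u => by simp [d1, al, sym u x, sym y x, hy]
  have d4 : ∀ u, f (d u) y = 0 := fun u => by simp [d1, al, sym u y, hy]
  by_contra hn
  obtain ⟨y', hy'⟩ := nd' (x := d x') (sub_ne_zero.mpr hn)
  have d5 : ∀ u, f (d u) u = 0 := fun u => by rw [d1, al, mul_comm, zmod2_add_self, sub_zero]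
  have d6 : f (d y') x' = 1 := by rw [← hy', d1, d1, sym y' x']; ring
  have := Nat.card_le_card_of_injective (fun c : ZMod 2 × ZMod 2 × ZMod 2 × ZMod 2 =>
    (⟨c.1 • δ x + c.2.1 • δ y + c.2.2.1 • d x' + c.2.2.2 • d y', add_mem (add_mem (add_mem
      (ZMod.smul_mem (d0 x) _) (ZMod.smul_mem (d0 y) _)) (ZMod.smul_mem (d2 _) _))
      (ZMod.smul_mem (d2 _) _)⟩ : δ.range)) fun c c' h => by
    have k := fun v => congrArg (fun w : δ.range => f w v) h
    have k1 := k y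
    have k2 := k x
    have k3 := k y'
    have k4 := k x'
    simp [ZMod.map_smul, d3, d4, d5, d6, hy, hy', al, sym y x] at k1 k2 k3 k4
    rw [k1, k2, add_right_inj] at k3 k4
    exact Prod.ext k1 (Prod.ext k2 (Prod.ext k3 k4))
  simp only [Nat.card_prod, Nat.card_zmod] at this
  omega

omit [Finite A] in
theorem a2_pow {H : Type*} [Group H] [DistribMulAction H A] (alt : ∀ x, f x x = 0) {S : AddSubgroup A}
    {h h' : H} {a b a' b' : A} (ha : a ∈ S) (hb : b ∈ S) (ha' : a' ∈ S) (hb' : b' ∈ S) (h0 : f a b = 0)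
    (h0' : f a' b' = 0) (h1 : ∀ x ∈ S, h • x = x + (f x a • b + f x b • a))
    (h1' : ∀ x ∈ S, h' • x = x + (f x a' • b' + f x b' • a')) {x : A} (hx : x ∈ S) : (h * h') ^ 12 • x = x := by
  let T := fun (α β α' β' p q r s : ZMod 2) (c : ZMod 2 × ZMod 2 × ZMod 2 × ZMod 2) =>
    let u := c.2.2.1 + (β' + c.1 * q + c.2.1 * s)
    let v := c.2.2.2 + (α' + c.1 * p + c.2.1 * r)
    (c.1 + (β + u * r + v * s), c.2.1 + (α + u * p + v * q), u, v)
  let w := fun c : ZMod 2 × ZMod 2 × ZMod 2 × ZMod 2 => x + c.1 • a + c.2.1 • b + c.2.2.1 • a' + c.2.2.2 • b'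
  have hw : ∀ c, w c ∈ S := fun c => add_mem (add_mem (add_mem (add_mem hx (ZMod.smul_mem ha _))
    (ZMod.smul_mem hb _)) (ZMod.smul_mem ha' _)) (ZMod.smul_mem hb' _)
  let T' := T (f x a) (f x b) (f x a') (f x b') (f a a') (f a b') (f b a') (f b b')
  have e1 : ∀ c, (h * h') • w c = w (T' c) := fun c => by
    have : h' • w c = w (c.1, c.2.1, (T' c).2.2) := by
      rw [h1' _ (hw c)]
      simp only [w, T', T, map_add, AddMonoidHom.add_apply, ZMod.map_smul, AddMonoidHom.smul_apply, smul_eq_mul,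
        alt, h0', alt_symm alt b' a']
      module
    rw [mul_smul, this, h1 _ (hw _)]
    simp only [w, T', T, map_add, AddMonoidHom.add_apply, ZMod.map_smul, AddMonoidHom.smul_apply, smul_eq_mul,
      alt, h0, alt_symm alt b a, alt_symm alt a' a, alt_symm alt a' b, alt_symm alt b' a, alt_symm alt b' b]
    module
  have e2 : ∀ n c, (h * h') ^ n • w c = w (T'^[n] c) := fun n => by
    induction n with
    | zero => simp
    | succ n ih => exact fun c => by rw [pow_succ, mul_smul, e1, ih]; rfl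
  have e3 : ∀ α β α' β' p q r s : ZMod 2, (T α β α' β' p q r s)^[12] 0 = 0 := by decide +kernel
  simpa [w, T', e3] using e2 12 0
end

/-- an invariant alternating form without invariant isotropic subgroups -/
structure Symp (H A : Type*) [Group H] [AddCommGroup A] [DistribMulAction H A] where
  f : A →+ A →+ ZMod 2
  alt : ∀ x, f x x = 0
  inv : ∀ (h : H) x y, f (h • x) (h • y) = f x y
  ni : ∀ B : AddSubgroup A, (∀ h : H, ∀ v ∈ B, h • v ∈ B) → B ≤ perp f B → B = ⊥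

namespace Symp
variable {H A : Type*} [Group H] [AddCommGroup A] [DistribMulAction H A] (P : Symp H A)

theorem symm (x y : A) : P.f x y = P.f y x := alt_symm P.alt x y

theorem inv' (h : H) (x y : A) : P.f (h • x) y = P.f x (h⁻¹ • y) := by
  rw [← P.inv h x, smul_inv_smul]

theorem perp_inv {Z : Subgroup H} {B : AddSubgroup A} (hB : ∀ h ∈ Z, ∀ v ∈ B, h • v ∈ B) :
    ∀ h ∈ Z, ∀ v ∈ perp P.f B, h • v ∈ perp P.f B := fun h hh v hv y hy => by
  rw [P.inv']; exact hv _ (hB _ (inv_mem hh) y hy)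

theorem nd {B : AddSubgroup A} (hB : ∀ h : H, ∀ v ∈ B, h • v ∈ B) : Nd P.f B := fun _ hx h =>
  (P.ni (B ⊓ perp P.f B) (fun h v hv => ⟨hB h v hv.1, P.perp_inv (Z := ⊤) (fun h _ => hB h) h trivial v hv.2⟩)
    fun _ hx y hy => hx.2 y hy.1).le ⟨hx, h⟩

variable [Finite A] [Module (ZMod 2) A] [Finite H] [Group.IsSolvable H]

theorem exists_piece {B : AddSubgroup A} (hB : ∀ h : H, ∀ v ∈ B, h • v ∈ B) (h0 : B ≠ ⊥) :
    ∃ S ≤ B, S ≠ ⊥ ∧ (∀ h : H, ∀ v ∈ S, h • v ∈ S) ∧
      (∀ W ≤ S, (∀ h : H, ∀ v ∈ W, h • v ∈ W) → W = ⊥ ∨ W = S) ∧ B ⊓ perp P.f S < B ∧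
      ∀ x ∈ B, ∃ s ∈ S, ∃ y ∈ B ⊓ perp P.f S, x = s + y := by
  obtain ⟨S, ⟨h1, h2, h3⟩, hmin⟩ := (wellFounded_lt (α := AddSubgroup A)).has_min
    {S | S ≤ B ∧ S ≠ ⊥ ∧ ∀ h : H, ∀ v ∈ S, h • v ∈ S} ⟨B, le_rfl, h0, hB⟩
  refine ⟨S, h1, h2, h3, fun W hW hi => or_iff_not_imp_left.mpr fun w0 =>
    eq_of_le_of_not_lt hW (hmin W ⟨hW.trans h1, w0, hi⟩), lt_of_le_of_ne inf_le_left fun e =>
      h2 (P.ni S h3 (h1.trans (e.ge.trans inf_le_right))), fun x hx => ?_⟩
  obtain ⟨s, hs, e⟩ := exists_dual two_eq (P.nd h3) (P.f x)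
  exact ⟨s, hs, x - s, ⟨B.sub_mem hx (h1 hs), fun y hy => by simp [e y hy]⟩, by simp⟩

/-- data of a minimal normal subgroup acting on `S` -/
def MinZ (r : ℕ) (Z : Subgroup H) (S : AddSubgroup A) : Prop := (∀ z ∈ Z, ∀ v ∈ S, z ^ r • v = v) ∧
  (∀ z ∈ Z, ∀ z' ∈ Z, ∀ v ∈ S, z • z' • v = z' • z • v) ∧ ∀ v ∈ S, (∀ z ∈ Z, z • v = v) → v = 0

omit [Finite A] [Module (ZMod 2) A] [Finite H] [Group.IsSolvable H] in
theorem fpf {S : AddSubgroup A} (hS : ∀ h : H, ∀ v ∈ S, h • v ∈ S)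
    (hi : ∀ W ≤ S, (∀ h : H, ∀ v ∈ W, h • v ∈ W) → W = ⊥ ∨ W = S) {Z : Subgroup H} [Z.Normal]
    (h : ∃ z ∈ Z, ∃ v ∈ S, z • v ≠ v) : ∀ v ∈ S, (∀ z ∈ Z, z • v = v) → v = 0 := fun v hv hz => by
  obtain ⟨z, hz', w, hw, hn⟩ := h
  exact ((hi (S ⊓ fixA A Z) inf_le_left fun h v hv => ⟨hS h v hv.1, inv_fixA h v hv.2⟩).resolve_right
    fun e => hn ((e.ge hw).2 z hz')).le ⟨hv, hz⟩

include P in
theorem exists_MinZ {S : AddSubgroup A} (h0 : S ≠ ⊥) (hS : ∀ h : H, ∀ v ∈ S, h • v ∈ S)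
    (hi : ∀ W ≤ S, (∀ h : H, ∀ v ∈ W, h • v ∈ W) → W = ⊥ ∨ W = S) :
    ∃ r : ℕ, r.Prime ∧ r ∣ Nat.card H ∧ r ≠ 2 ∧ ∃ Z : Subgroup H, Z.Normal ∧ MinZ r Z S := by
  obtain ⟨r, hr, hd, Z, hZ, z1, z2, z3⟩ := exists_minZ hS (by
    by_contra! h
    obtain ⟨⟨x, hx⟩, hx0⟩ := AddSubgroup.ne_bot_iff_exists_ne_zero.mp h0
    refine hx0 (Subtype.ext ((P.ni (AddSubgroup.zmultiples x) (fun g v hv => by
      rwa [h g v (AddSubgroup.zmultiples_le.mpr hx hv)]) ?_).le (AddSubgroup.mem_zmultiples x)))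
    rintro _ ⟨n, rfl⟩ _ ⟨m, rfl⟩
    simp [P.alt])
  refine ⟨r, hr, hd, ?_, Z, hZ, z1, z2, fpf hS hi z3⟩
  rintro rfl
  obtain ⟨L, -, -, e⟩ := exists_lagr two_eq P.alt (P.nd hS)
  have e1 := card_modEq_one hr (fun z _ => hS z) z1 (fpf hS hi z3)
  obtain ⟨⟨x, hx⟩, hx0⟩ := AddSubgroup.ne_bot_iff_exists_ne_zero.mp h0
  have e2 := addOrderOf_dvd_natCard (⟨x, hx⟩ : S)
  rw [addOrderOf_eq_prime (p := 2) (by rw [two_nsmul, two_eq]) hx0] at e2
  unfold Nat.ModEq at e1
  omega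

omit [Finite H] [Group.IsSolvable H] in
theorem a2_triv {S : AddSubgroup A} (hS : ∀ h : H, ∀ v ∈ S, h • v ∈ S) {r : ℕ} (hr : r.Prime) (r2 : r ≠ 2)
    (r3 : r ≠ 3) {Z : Subgroup H} [hZ : Z.Normal] (hz : MinZ r Z S) {h : H} {a b : A} (ha : a ∈ S) (hb : b ∈ S)
    (h1 : ∀ x ∈ S, h • x = x + (P.f x a • b + P.f x b • a)) : ∀ x ∈ S, h • x = x := by
  classical
  have h0 : P.f a b = 0 := (zmod2_cases _).resolve_right fun e => by
    have := h1 a ha
    rw [P.alt, e, zero_smul, zero_add, one_smul, two_eq, smul_eq_zero_iff_eq] at this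
    simp [this] at e
  have h2 : ∀ x ∈ S, h⁻¹ • x = h • x := fun x hx => by
    rw [inv_smul_eq_iff, h1 _ (hS h x hx), h1 x hx]
    simp [ZMod.map_smul, P.alt, h0, P.symm b a, add_assoc, two_eq]
  have h3 : ∀ z ∈ Z, ∀ x ∈ S, h • z • x = z • h • x := fun z hz' x hx => by
    have e1 := a2_pow P.alt ha hb (hS z a ha) (hS z b hb) h0 ((P.inv z a b).trans h0) h1 (h' := z * h⁻¹ * z⁻¹)
      (fun y hy => by
        rw [mul_smul, mul_smul, h2 _ (hS _ y hy), h1 _ (hS _ y hy), P.inv', P.inv', inv_inv, smul_add, smul_add,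
          smul_inv_smul]
        exact congrArg₂ (fun u v => y + (u + v)) (ZMod.map_smul (n := 2) (DistribSMul.toAddMonoidHom A z) _ _)
          (ZMod.map_smul (n := 2) (DistribSMul.toAddMonoidHom A z) _ _))
      (hS z _ (hS h x hx))
    have e2 := mem_of_pow_coprime (K := MulAction.stabilizer H (z • h • x)) (m := 12) (n := r)
      ((Nat.Coprime.mul_left (m := 4) (n := 3) (Nat.Coprime.pow_left 2 ((Nat.coprime_primes Nat.prime_two hr).mpr
        r2.symm)) ((Nat.coprime_primes Nat.prime_three hr).mpr r3.symm))) e1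
      (hz.1 _ (by simpa [mul_assoc] using mul_mem (hZ.conj_mem z hz' h) (inv_mem hz')) _ (hS z _ (hS h x hx)))
    simpa [mul_smul] using e2
  let δ : A →+ A := DistribSMul.toAddMonoidHom A h - AddMonoidHom.id A
  have hδ : ∀ x, δ x = h • x - x := fun _ => rfl
  have e1 : S.map δ ≤ S := by rintro _ ⟨x, hx, rfl⟩; exact sub_mem (hS h x hx) hx
  have e2 := card_modEq_one (Z := Z) (S := S.map δ) hr (by
    rintro z hz' _ ⟨x, hx, rfl⟩
    exact ⟨z • x, hS z x hx, by rw [hδ, hδ, smul_sub, h3 z hz' x hx]⟩) (fun z hz' v hv => hz.1 z hz' v (e1 hv))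
    fun v hv => hz.2.2 v (e1 hv)
  have e3 := (AddSubgroup.card_le_of_le (H := S.map δ) (by
    rintro _ ⟨x, hx, rfl⟩
    rw [hδ, h1 x hx, add_sub_cancel_left]
    exact add_mem (ZMod.smul_mem (AddSubgroup.subset_closure (by simp)) _)
      (ZMod.smul_mem (AddSubgroup.subset_closure (by simp)) _))).trans (card_closure_le two_eq {a, b})
  have e4 := Nat.pow_le_pow_right two_pos (Finset.card_le_two (a := a) (b := b))
  have e5 := hr.five_le_of_ne_two_of_ne_three r2 r3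
  rw [Nat.ModEq, Nat.mod_eq_of_lt (by omega), Nat.mod_eq_of_lt hr.one_lt, AddSubgroup.card_eq_one] at e2
  exact fun x hx => sub_eq_zero.mp (e2.le ⟨x, hx, rfl⟩)

omit [Finite A] [Finite H] [Group.IsSolvable H] in
theorem a2_split {S B : AddSubgroup A} (hS : ∀ h : H, ∀ v ∈ S, h • v ∈ S) (hB : B ≤ perp P.f S) {h : H}
    {a b a' b' : A} (ha : a ∈ S) (hb : b ∈ S) (ha' : a' ∈ B) (hb' : b' ∈ B) {x : A} (hx : x ∈ S)
    (h1 : h • x = x + (P.f x (a + a') • (b + b') + P.f x (b + b') • (a + a'))) :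
    h • x = x + (P.f x a • b + P.f x b • a) := by
  rw [map_add, map_add, P.symm x a', P.symm x b', hB ha' x hx, hB hb' x hx, add_zero, add_zero] at h1
  have e : h • x - (x + (P.f x a • b + P.f x b • a)) = P.f x a • b' + P.f x b • a' := by rw [h1]; module
  refine sub_eq_zero.mp (P.nd hS _ (sub_mem (hS h x hx) (add_mem hx (add_mem (ZMod.smul_mem hb _)
    (ZMod.smul_mem ha _)))) ?_)
  rw [e]
  exact hB (add_mem (ZMod.smul_mem hb' _) (ZMod.smul_mem ha' _))

theorem no_a2 (h3 : ¬ 3 ∣ Nat.card H) {h : H} (B : AddSubgroup A) (hB : ∀ h : H, ∀ v ∈ B, h • v ∈ B) :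
    ∀ a ∈ B, ∀ b ∈ B, (∀ x ∈ B, h • x = x + (P.f x a • b + P.f x b • a)) → ∀ x ∈ B, h • x = x := by
  induction B using (wellFounded_lt (α := AddSubgroup A)).induction with
  | _ B IH =>
  intro a ha b hb h1 x hx
  by_cases h0 : B = ⊥
  · rw [h0.le hx, smul_zero]
  obtain ⟨S, s1, s2, s3, s4, s5, s6⟩ := P.exists_piece hB h0
  obtain ⟨r, hr, hd, r2, Z, hZ, hz⟩ := P.exists_MinZ s2 s3 s4
  obtain ⟨a, ha1, a', ha', rfl⟩ := s6 a ha
  obtain ⟨b, hb1, b', hb', rfl⟩ := s6 b hb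
  obtain ⟨x, hx1, x', hx', rfl⟩ := s6 x hx
  have hB' : ∀ h : H, ∀ v ∈ B ⊓ perp P.f S, h • v ∈ B ⊓ perp P.f S := fun h v hv =>
    ⟨hB h v hv.1, P.perp_inv (Z := ⊤) (fun h _ => s3 h) h trivial v hv.2⟩
  rw [smul_add, P.a2_triv s3 hr r2 (fun e => h3 (e ▸ hd)) hz ha1 hb1 (fun y hy => P.a2_split s3 inf_le_right ha1 hb1
    ha' hb' hy (h1 y (s1 hy))) x hx1, IH _ s5 hB' a' ha' b' hb' (fun y hy => P.a2_split hB' (B := S)
      (fun s hs y hy => by rw [P.symm]; exact hy.2 s hs) ha' hb' ha1 hb1 hy (by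
        rw [add_comm a', add_comm b']; exact h1 y hy.1)) x' hx']
end Symp

end Cfsg.Agent.Lib.Base
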