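import Cfsg.Agent.Lib.Base.Two3

/-! Good Lagrangians for small symplectic modules of solvable `5'`-groups: the `3`-case. -/

set_option autoImplicit false
set_option linter.style.haveILetI false

namespace Cfsg.Agent.Lib.Base

open Subgroup Cfsg.Agent.Lib.Core

namespace Symp
variable {H A : Type*} [Group H] [AddCommGroup A] [DistribMulAction H A] [Module (ZMod 2) A] (P : Symp H A)

/-- a Lagrangian with a small rigid set of cosets -/
structure Good (B L : AddSubgroup A) (Γ : Finset A) : Prop where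
  lag : B ⊓ perp P.f L = L
  sub : ∀ x ∈ Γ, x ∈ B ∧ x ∉ L
  card : 8 * Γ.card < 3 * Nat.card L
  rig : ∀ h : H, (∀ x ∈ L, h • x ∈ L) → (∀ x ∈ Γ, ∃ y ∈ Γ, h • x - y ∈ L) → ∀ x ∈ B, h • x - x ∈ L
  a2 : ∀ h : H, ∀ a ∈ L, ∀ b ∈ L, (∀ x ∈ B, h • x = x + (P.f x a • b + P.f x b • a)) → ∀ x ∈ B, h • x = x

theorem smul_zs (h : H) (c : ZMod 2) (x : A) : h • c • x = c • h • x :=
  ZMod.map_smul (n := 2) (DistribSMul.toAddMonoidHom A h) c x

/-- the action of an element on a plane -/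
def Pl (z : H) (x y : A) : Prop := (z • x = x ∧ z • y = y) ∨ (z • x = y ∧ z • y = x + y) ∨ (z • x = x + y ∧ z • y = x)

variable [Finite A] [Finite H]

theorem exists_plane {Z : Subgroup H} {S B : AddSubgroup A} (hz : MinZ 3 Z S) (hBS : B ≤ S) (h0 : B ≠ ⊥)
    (hB : ∀ z ∈ Z, ∀ v ∈ B, z • v ∈ B) (nd : Nd P.f B) :
    ∃ x ∈ B, ∃ a ∈ Z, P.f x (a • x) = 1 ∧ ∀ z ∈ Z, Pl z x (a • x) := by
  obtain ⟨w, hw, w0, a, ha, hg⟩ := exists_gen (A := Z) h0 hB fun a ha b hb w hw => hz.2.1 a ha b hb w (hBS hw)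
  let C := B ⊓ fixA A (Z ⊓ MulAction.stabilizer H w)
  have c3 : ∀ z ∈ Z, ∀ v ∈ B, z • z • z • v = v := fun z hz' v hv => by
    simpa [pow_succ, mul_smul] using hz.1 z hz' v (hBS hv)
  have c1 : ∀ z ∈ Z, ∃ n : ℤ, ∀ v ∈ C, z • v = a ^ n • v := fun z hz' => (hg z hz').imp fun n hn v hv => by
    have := hv.2 ((a ^ n)⁻¹ * z) (mem_inf.mpr ⟨mul_mem (inv_mem (zpow_mem ha n)) hz', by
      rw [MulAction.mem_stabilizer_iff, mul_smul, hn, inv_smul_smul]⟩)
    rwa [mul_smul, inv_smul_eq_iff] at this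
  have c2 : ∀ v ∈ C, a • v ∈ C := fun v hv => ⟨hB a ha v hv.1, fun d hd => by
    rw [hz.2.1 d hd.1 a ha v (hBS hv.1), hv.2 d hd]⟩
  have c4 : ∀ v ∈ C, a • a • v = v + a • v := fun v hv => by
    have hu : v + a • v + a • a • v ∈ C := add_mem (add_mem hv (c2 v hv)) (c2 _ (c2 v hv))
    have := hz.2.2 _ (hBS hu.1) fun z hz' => by
      obtain ⟨n, hn⟩ := c1 z hz'
      rw [hn _ hu]
      refine zpow_mem (show a ∈ MulAction.stabilizer H _ from ?_) n
      rw [MulAction.mem_stabilizer_iff, smul_add, smul_add, c3 a ha v hv.1]; abel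
    rw [← add_right_inj (v + a • v), this, two_eq]
  obtain ⟨x, hx, hq⟩ : ∃ x ∈ C, P.f x (a • x) = 1 := by
    by_contra! hn
    replace hn := fun x hx => (zmod2_cases _).resolve_right (hn x hx)
    have hwC : w ∈ C := ⟨hw, fun d hd => hd.2⟩
    have e1 : ∀ y ∈ C, P.f w y = 0 := fun y hy => by
      have := hn _ (add_mem hwC hy)
      rw [smul_add, map_add, map_add, AddMonoidHom.add_apply, AddMonoidHom.add_apply, hn w hwC, hn y hy,
        P.symm y, ← P.inv a (a • w), ← P.inv a (a • a • w), c3 a ha w hw, c4 y hy, map_add] at this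
      linear_combination this - zmod2_add_self (P.f w (a • y))
    obtain ⟨v, ⟨hv, hv1⟩, hmax⟩ := exists_maximalFor_of_wellFoundedGT (fun v => v ∈ B ∧ P.f w v ≠ 0)
      (fun v => Z ⊓ MulAction.stabilizer H v) (by by_contra! h; exact w0 (nd w hw h))
    refine hv1 (e1 v ⟨hv, fun d hd => ?_⟩)
    have d1 : d⁻¹ • w = w := inv_smul_eq_iff.mpr hd.2.symm
    have d2 : ∀ u, P.f w (d • u) = P.f w u := fun u => by rw [P.symm, P.inv', d1, P.symm]
    refine (hmax (j := v + d • v + d • d • v) ⟨add_mem (add_mem hv (hB d hd.1 v hv))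
      (hB d hd.1 _ (hB d hd.1 v hv)), by rwa [map_add, map_add, d2, d2, d2, zmod2_add_self, zero_add]⟩
      (fun g hg => mem_inf.mpr ⟨hg.1, ?_⟩) (mem_inf.mpr ⟨hd.1, ?_⟩)).2
    · rw [MulAction.mem_stabilizer_iff, smul_add, smul_add,
        hz.2.1 g hg.1 d hd.1 _ (hBS (hB d hd.1 v hv)), hz.2.1 g hg.1 d hd.1 _ (hBS hv), show g • v = v from hg.2]
    · rw [MulAction.mem_stabilizer_iff, smul_add, smul_add, c3 d hd.1 v hv]; abel
  refine ⟨x, hx.1, a, ha, hq, fun z hz' => ?_⟩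
  obtain ⟨n, hn⟩ := c1 z hz'
  have k : ∀ v ∈ C, a ^ n • v = a ^ (n % 3) • v := fun v hv => by
    conv_lhs => rw [← Int.emod_add_mul_ediv n 3, zpow_add, zpow_mul, mul_smul]
    congr 1
    exact zpow_mem (show a ^ (3 : ℤ) ∈ MulAction.stabilizer H v by exact_mod_cast hz.1 a ha v (hBS hv.1)) _
  rw [Pl, hn x hx, hn _ (c2 x hx), k x hx, k _ (c2 x hx)]
  have : n % 3 = 0 ∨ n % 3 = 1 ∨ n % 3 = 2 := by omega
  rcases this with h | h | h <;> rw [h]
  · simp
  · simp [c4 x hx]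
  · rw [zpow_two, mul_smul, mul_smul, c3 a ha x hx.1, c4 x hx]; simp

theorem exists_frame {Z : Subgroup H} {S : AddSubgroup A} (hz : MinZ 3 Z S) (B : AddSubgroup A) (hBS : B ≤ S)
    (hB : ∀ z ∈ Z, ∀ v ∈ B, z • v ∈ B) (nd : Nd P.f B) : ∃ (m : ℕ) (x y : Fin m → A),
      (∀ i, x i ∈ B ∧ y i ∈ B) ∧ (∀ i, ∃ z ∈ Z, z • x i = y i) ∧ (∀ i, ∀ z ∈ Z, Pl z (x i) (y i)) ∧
      (∀ i j, P.f (x i) (y j) = (if i = j then 1 else 0) ∧ P.f (x i) (x j) = 0 ∧ P.f (y i) (y j) = 0) ∧
      ∀ v ∈ B, (∀ i, P.f v (x i) = 0) → (∀ i, P.f v (y i) = 0) → v = 0 := by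
  induction B using (wellFounded_lt (α := AddSubgroup A)).induction with
  | _ B IH =>
  by_cases h0 : B = ⊥
  · exact ⟨0, Fin.elim0, Fin.elim0, by simp, by simp, by simp, by simp, fun v hv _ _ => h0.le hv⟩
  obtain ⟨x₀, hx, a, ha, hq, hp⟩ := P.exists_plane hz hBS h0 hB nd
  have hy := hB a ha x₀ hx
  generalize e : a • x₀ = y₀ at hq hp hy
  let B' := B ⊓ (P.f x₀).ker ⊓ (P.f y₀).ker
  have mB : ∀ v, v ∈ B' ↔ v ∈ B ∧ P.f x₀ v = 0 ∧ P.f y₀ v = 0 := fun v => and_assoc
  obtain ⟨m, x, y, h1, h2, h3, h4, h5⟩ := IH B' (lt_of_le_of_ne (inf_le_left.trans inf_le_left) fun e => by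
      simpa [hq] using ((mB _).mp (e.ge hy)).2.1) ((inf_le_left.trans inf_le_left).trans hBS)
    (fun z hz' v hv => by
      obtain ⟨v1, v2, v3⟩ := (mB v).mp hv
      rw [mB, P.symm x₀, P.symm y₀, P.inv', P.inv', P.symm v, P.symm v]
      rcases hp _ (inv_mem hz') with h | h | h <;> simp [h.1, h.2, v2, v3, hB z hz' v v1])
    fun v hv h => nd v hv.1.1 fun u hu => by
      obtain ⟨-, v2, v3⟩ := (mB v).mp hv
      have := h (u + P.f y₀ u • x₀ + P.f x₀ u • y₀) ((mB _).mpr ⟨add_mem (add_mem hu (ZMod.smul_mem hx _))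
        (ZMod.smul_mem hy _), by simp [ZMod.map_smul, P.alt, hq, zmod2_add_self],
        by simp [ZMod.map_smul, P.alt, hq, P.symm y₀ x₀, zmod2_add_self]⟩)
      simpa [ZMod.map_smul, P.symm v x₀, P.symm v y₀, v2, v3] using this
  have k := fun i => (mB _).mp (h1 i).1
  have k' := fun i => (mB _).mp (h1 i).2
  refine ⟨m + 1, Fin.cons x₀ x, Fin.cons y₀ y, ?_, ?_, ?_, ?_, fun v hv g1 g2 => h5 v ((mB v).mpr
    ⟨hv, (P.symm _ _).trans (g1 0), (P.symm _ _).trans (g2 0)⟩) (fun i => g1 i.succ) fun i => g2 i.succ⟩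
  · simp [Fin.forall_fin_succ, hx, hy, k, k']
  · exact Fin.forall_fin_succ.mpr ⟨⟨a, ha, e⟩, h2⟩
  · exact Fin.forall_fin_succ.mpr ⟨hp, h3⟩
  · simp [Fin.forall_fin_succ, hq, P.alt, k, k', h4, P.symm _ x₀, P.symm _ y₀, (Fin.succ_ne_zero _).symm]

theorem good_three {Z : Subgroup H} [hZ : Z.Normal] {S : AddSubgroup A} (hS : ∀ h : H, ∀ v ∈ S, h • v ∈ S)
    (hz : MinZ 3 Z S) (hc : Nat.card S ≤ 256) : ∃ L Γ, P.Good S L Γ := by
  classical
  obtain ⟨m, x, y, h1, h2, h3, h4, h5⟩ := P.exists_frame hz S le_rfl (fun z _ => hS z) (P.nd hS)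
  let L : AddSubgroup A :=
    { carrier := {v | v ∈ S ∧ ∀ i, P.f v (x i) = 0}
      zero_mem' := ⟨zero_mem _, by simp⟩
      add_mem' := fun h h' => ⟨add_mem h.1 h'.1, fun i => by simp [h.2 i, h'.2 i]⟩
      neg_mem' := fun h => ⟨neg_mem h.1, fun i => by simp [h.2 i]⟩ }
  have yx : ∀ i j, P.f (y i) (x j) = if i = j then 1 else 0 := fun i j => by rw [P.symm, (h4 _ _).1]; simp [eq_comm]
  have xL : ∀ i, x i ∈ L := fun i => ⟨(h1 i).1, fun j => (h4 i j).2.1⟩
  have ex : ∀ v ∈ S, v = ∑ i, P.f v (y i) • x i + ∑ i, P.f v (x i) • y i := fun v hv =>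
    sub_eq_zero.mp (h5 _ (sub_mem hv (add_mem (sum_mem fun i _ => ZMod.smul_mem (h1 i).1 _)
      (sum_mem fun i _ => ZMod.smul_mem (h1 i).2 _))) (fun j => by simp [ZMod.map_smul, h4, yx])
      fun j => by simp [ZMod.map_smul, h4])
  have exL : ∀ v ∈ L, v = ∑ i, P.f v (y i) • x i := fun v hv => by simpa [hv.2] using ex v hv.1
  have lag : S ⊓ perp P.f L = L := le_antisymm (fun v hv => ⟨hv.1, fun i => hv.2 _ (xL i)⟩) fun v hv =>
    ⟨hv.1, fun w hw => by rw [exL w hw]; simp [ZMod.map_smul, hv.2]⟩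
  have cL : 2 ^ m ≤ Nat.card L := by
    simpa using Nat.card_le_card_of_injective (fun c : Fin m → ZMod 2 =>
      (⟨∑ i, c i • x i, sum_mem fun i _ => ZMod.smul_mem (xL i) _⟩ : L)) fun c c' h => funext fun j => by
        simpa [ZMod.map_smul, h4] using congrArg (fun v : L => P.f v (y j)) h
  have m4 : m ≤ 4 := by
    have := card_perp two_eq P.alt (P.nd hS) (lag.ge.trans inf_le_left)
    rw [lag] at this
    by_contra hn
    have := Nat.pow_le_pow_right two_pos (show 5 ≤ m by omega)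
    nlinarith
  let s : ℕ → A := fun k => ∑ i : Fin m, if (i : ℕ) < k then y i else 0
  have sS : ∀ k, s k ∈ S := fun k => sum_mem fun i _ => by split_ifs; exacts [(h1 i).2, zero_mem _]
  have cs : ∀ k i, P.f (s k) (x i) = if (i : ℕ) < k then 1 else 0 := fun k i => by
    simp only [s, map_sum, AddMonoidHom.finset_sum_apply, apply_ite (fun v => P.f v (x i)), yx]
    rw [Finset.sum_eq_single i (fun j _ hj => by simp [hj]) (by simp)]; simp
  refine ⟨L, (Finset.Ioo 0 m).image s, lag, fun v hv => ?_, ?_, fun h hL hΓ v hv => ?_, fun h a ha b hb hh => ?_⟩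
  · obtain ⟨k, hk, rfl⟩ := Finset.mem_image.mp hv
    rw [Finset.mem_Ioo] at hk
    exact ⟨sS k, fun h => by simpa [cs, hk.1] using h.2 ⟨0, by omega⟩⟩
  · have := Finset.card_image_le (s := Finset.Ioo 0 m) (f := s)
    rw [Nat.card_Ioo] at this
    have k : ∀ m ≤ 4, 8 * (m - 0 - 1) < 3 * 2 ^ m := by decide
    have := k m m4
    omega
  · let M : Matrix (Fin m) (Fin m) (ZMod 2) := fun i j => P.f (h • x i) (y j)
    have e1 : M * M.transpose = 1 := by
      ext i j
      obtain ⟨z, hz', e⟩ := h2 i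
      have hw := hZ.conj_mem z hz' h
      have a1 : P.f (h • x i) ((h * z * h⁻¹) • h • x j) = if i = j then 1 else 0 := by
        rw [mul_smul, mul_smul, inv_smul_smul, P.inv]
        split_ifs with hij
        · rw [← hij, e, (h4 i i).1, if_pos rfl]
        · rcases h3 j z hz' with g | g | g <;> simp [g.1, h4, hij]
      rw [exL _ (hL _ (xL j)), Finset.smul_sum, map_sum] at a1
      rw [Matrix.mul_apply, Matrix.one_apply, ← a1]
      refine Finset.sum_congr rfl fun k _ => ?_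
      rw [smul_zs, ZMod.map_smul, smul_eq_mul, mul_comm]
      congr 1
      rcases h3 k _ hw with g | g | g
      · rw [g.1, (hL _ (xL i)).2]
        have a2 : z • y i = x i + y i := by
          rcases h3 i z hz' with g | g | g
          · have := (h4 i i).1; rw [← e, g.1, P.alt] at this; simp at this
          · exact g.2
          · have := (h4 i i).1; rw [add_eq_right.mp (g.1.symm.trans e)] at this; simp at this
        have a3 : ∀ u, P.f (h • z • u) (y k) = P.f (h • u) (y k) := fun u => by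
          rw [← P.inv (h * z * h⁻¹) (h • u), g.2, mul_smul, mul_smul, inv_smul_smul]
        have a4 := a3 (y i)
        rw [a2, smul_add, map_add, AddMonoidHom.add_apply, add_eq_right] at a4
        exact a4
      · rw [g.1]
      · rw [g.1, map_add, (hL _ (xL i)).2, zero_add]
    let c : A → Fin m → ZMod 2 := fun v i => P.f v (x i)
    have e2 : ∀ v, c v = M.mulVec (c (h • v)) := fun v => funext fun i => by
      rw [Matrix.mulVec, dotProduct, show c v i = _ from (P.inv h _ _).symm, exL _ (hL _ (xL i)), map_sum]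
      simp [ZMod.map_smul, M, c]
    have e3 : ∀ v w, c (h • v) ⬝ᵥ c (h • w) = c v ⬝ᵥ c w := fun v w => by
      rw [e2 v, e2 w, Matrix.dotProduct_mulVec, Matrix.vecMul_mulVec, mul_eq_one_comm.mp e1, Matrix.vecMul_one]
    have e4 : ∀ v, c v ⬝ᵥ c v = c v ⬝ᵥ c (s m) := fun v => Finset.sum_congr rfl fun i _ => by
      simp only [c, cs, i.2, if_true]; rcases zmod2_cases (P.f v (x i)) with h | h <;> simp [h]
    have e5 : ∀ k ≤ m, ∀ l ≤ m, c (s k) ⬝ᵥ c (s l) = (min k l : ℕ) := fun k hk l hl => by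
      simp only [c, cs, dotProduct]
      exact (by decide : ∀ m ≤ 4, ∀ k ≤ m, ∀ l ≤ m, ∑ i : Fin m, ((if (i : ℕ) < k then 1 else 0) *
        if (i : ℕ) < l then 1 else 0 : ZMod 2) = (min k l : ℕ)) m m4 k hk l hl
    have e6 : ∀ k, k ∈ Finset.Ioo 0 m → ∃ l, l ∈ Finset.Ioo 0 m ∧ c (h • s k) = c (s l) := fun k hk => by
      obtain ⟨_, hy, e⟩ := hΓ _ (Finset.mem_image_of_mem s hk)
      obtain ⟨l, hl, rfl⟩ := Finset.mem_image.mp hy
      exact ⟨l, hl, funext fun i => sub_eq_zero.mp (by simpa using e.2 i)⟩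
    choose! π p1 p2 using e6
    simp only [Finset.mem_Ioo] at p1 p2
    have e7 : ∀ k l, 0 < k ∧ k < m → 0 < l ∧ l < m → min (π k) (π l) % 2 = min k l % 2 := fun k l hk hl => by
      rw [← ZMod.natCast_eq_natCast_iff', ← e5 _ (p1 k hk).2.le _ (p1 l hl).2.le, ← p2 k hk, ← p2 l hl, e3,
        e5 _ hk.2.le _ hl.2.le]
    have e8 : ∀ k ≤ m, c (h • s k) = c (s k) := fun k hk => by
      rcases hk.eq_or_lt with rfl | hk
      · funext i
        have := e3 (h⁻¹ • y i) (s k)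
        rw [← e4, ← e3 (h⁻¹ • y i), e4, smul_inv_smul] at this
        simpa [c, yx, dotProduct] using this
      rcases Nat.eq_zero_or_pos k with rfl | k0
      · simp [s]
      rw [p2 k ⟨k0, hk⟩]
      congr 2
      have := p1 k ⟨k0, hk⟩
      have := e7 k k ⟨k0, hk⟩ ⟨k0, hk⟩
      by_cases m3 : m < 4
      · omega
      have := p1 2 (by omega)
      have := e7 2 2 (by omega) (by omega)
      have := e7 k 2 ⟨k0, hk⟩ (by omega)
      omega
    have e9 : ∀ i j, P.f (h • y i) (x j) = P.f (y i) (x j) := fun i j => by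
      have : y i = s (i + 1) - s i := by
        simp only [s, ← Finset.sum_sub_distrib]
        rw [Finset.sum_eq_single i (fun j _ hj => by
          have := Fin.val_ne_of_ne hj; split_ifs <;> first | omega | simp) (by simp)]
        simp
      rw [this, smul_sub, map_sub, map_sub, AddMonoidHom.sub_apply, AddMonoidHom.sub_apply]
      exact congrArg₂ _ (congrFun (e8 _ i.2) j) (congrFun (e8 _ i.2.le) j)
    refine ⟨sub_mem (hS h v hv) hv, fun j => ?_⟩
    rw [map_sub, AddMonoidHom.sub_apply, sub_eq_zero]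
    conv_lhs => rw [ex v hv]
    simp [Finset.smul_sum, smul_zs, ZMod.map_smul, e9, yx, (hL _ (xL _)).2]
  · have g1 : ∀ i, h • x i = x i := fun i => by
      rw [hh _ (h1 i).1, P.symm, ha.2, P.symm, hb.2]; simp
    have g2 : ∀ i, h • y i = y i := fun i => by
      obtain ⟨z, hz', e⟩ := h2 i
      have a1 : (h * z * h⁻¹) • x i = h • y i := by
        rw [mul_smul, mul_smul, inv_smul_eq_iff.mpr (g1 i).symm, e]
      have a2 : P.f (h • y i) (y i) = 0 := by
        rw [hh _ (h1 i).2]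
        simp [ZMod.map_smul, P.alt, P.symm (y i), mul_comm, zmod2_add_self]
      rcases h3 i _ (hZ.conj_mem z hz' h) with g | g | g <;> rw [a1] at g
      · simp [g.1, h4] at a2
      · exact g.1
      · simp [g.1, h4] at a2
    intro v hv
    rw [ex v hv]
    simp [Finset.smul_sum, smul_zs, g1, g2]
end Symp

end Cfsg.Agent.Lib.Base
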